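import Mathlib
import Cfsg.Agent.Lib.Nine.Basic

/-!
# Sums over conjugation closures and over products with a subgroup normalized by an `S₃`
-/

set_option autoImplicit false
set_option linter.unusedSectionVars false
set_option linter.unusedVariables false
set_option linter.style.haveILetI false

namespace Cfsg.Agent.Lib.Nine.ConjSum

open Cfsg
open Cfsg.Agent.Lib.Nine.Basic
open DihedralGroup

universe u v

section Closure

variable {G : Type u} [Group G] [Fintype G]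

open scoped Classical in
/-- Summing a class function over the conjugation closure of a set with a normalizer. -/
theorem sum_conj_closure (A B : Finset G) (M : Subgroup G)
    (hM : ∀ a ∈ A, ∀ c ∈ M, c * a * c⁻¹ ∈ A)
    (hA : ∀ a ∈ A, ∀ a' ∈ A, ∀ g : G, g * a * g⁻¹ = a' → g ∈ M)
    (hB : ∀ x, x ∈ B ↔ ∃ g, ∃ a ∈ A, x = g * a * g⁻¹)
    (f : G → ℂ) (hf : ∀ a g, f (g * a * g⁻¹) = f a) :
    (Nat.card M : ℂ) * ∑ x ∈ B, f x = (Nat.card G : ℂ) * ∑ a ∈ A, f a := by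
  set s : Finset (G × G) := (Finset.univ : Finset G) ×ˢ A with hs
  let m : G × G → G := fun p => p.1 * p.2 * p.1⁻¹
  have hm : ∀ p ∈ s, m p ∈ B := by
    intro p hp
    rw [hs, Finset.mem_product] at hp
    exact (hB _).mpr ⟨p.1, p.2, hp.2, rfl⟩
  have e1 : ∑ p ∈ s, f (m p) = (Nat.card G : ℂ) * ∑ a ∈ A, f a := by
    rw [hs, Finset.sum_product]
    have : ∀ g ∈ (Finset.univ : Finset G), ∑ a ∈ A, f (m (g, a)) = ∑ a ∈ A, f a := by
      intro g _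
      exact Finset.sum_congr rfl fun a _ => hf a g
    rw [Finset.sum_congr rfl this, Finset.sum_const, Finset.card_univ, nsmul_eq_mul,
      Nat.card_eq_fintype_card]
  have e2 : ∑ p ∈ s, f (m p) = ∑ x ∈ B, ((s.filter (fun p => m p = x)).card : ℂ) * f x := by
    rw [← Finset.sum_fiberwise_of_maps_to hm]
    refine Finset.sum_congr rfl fun x _ => ?_
    rw [Finset.sum_congr rfl (g := fun _ => f x) (fun p hp => by rw [(Finset.mem_filter.mp hp).2])]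
    rw [Finset.sum_const, nsmul_eq_mul]
  have e3 : ∀ x ∈ B, (s.filter (fun p => m p = x)).card = Nat.card M := by
    intro x hx
    obtain ⟨g₀, a₀, ha₀, rfl⟩ := (hB x).mp hx
    have key : Nat.card M = Nat.card {p // p ∈ s.filter (fun p => m p = g₀ * a₀ * g₀⁻¹)} := by
      refine Nat.card_congr (Equiv.ofBijective
        (fun c => ⟨(g₀ * (c : G)⁻¹, (c : G) * a₀ * (c : G)⁻¹), ?_⟩) ⟨?_, ?_⟩)
      · rw [Finset.mem_filter, hs, Finset.mem_product]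
        refine ⟨⟨Finset.mem_univ _, hM a₀ ha₀ c c.2⟩, ?_⟩
        change g₀ * (c : G)⁻¹ * ((c : G) * a₀ * (c : G)⁻¹) * (g₀ * (c : G)⁻¹)⁻¹ = _
        group
      · intro c d hcd
        have h1 := congrArg (fun p : {p // p ∈ s.filter (fun p => m p = g₀ * a₀ * g₀⁻¹)} => p.1.1) hcd
        simp only at h1
        apply Subtype.ext
        have h2 := mul_left_cancel h1
        exact inv_injective h2
      · rintro ⟨⟨g, a⟩, hp⟩
        rw [Finset.mem_filter, hs, Finset.mem_product] at hp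
        obtain ⟨⟨-, ha⟩, he⟩ := hp
        change g * a * g⁻¹ = g₀ * a₀ * g₀⁻¹ at he
        have hc : g⁻¹ * g₀ ∈ M := by
          refine hA a₀ ha₀ a ha _ ?_
          have : g⁻¹ * g₀ * a₀ * (g⁻¹ * g₀)⁻¹ = g⁻¹ * (g₀ * a₀ * g₀⁻¹) * g := by group
          rw [this, ← he]
          group
        refine ⟨⟨g⁻¹ * g₀, hc⟩, ?_⟩
        apply Subtype.ext
        apply Prod.ext
        · change g₀ * (g⁻¹ * g₀)⁻¹ = g
          group
        · change g⁻¹ * g₀ * a₀ * (g⁻¹ * g₀)⁻¹ = a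
          have : g⁻¹ * g₀ * a₀ * (g⁻¹ * g₀)⁻¹ = g⁻¹ * (g₀ * a₀ * g₀⁻¹) * g := by group
          rw [this, ← he]
          group
    rw [key, Nat.card_eq_fintype_card, Fintype.card_coe]
  rw [← e1, e2, Finset.mul_sum]
  refine Finset.sum_congr rfl fun x hx => ?_
  rw [e3 x hx]

end Closure

section Prod

variable {G : Type u} [Group G] [Fintype G] {Δ : Type v} [Group Δ]

/-- The product of a subgroup with the image of a homomorphism normalizing it. -/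
def prodSub (Λ : Subgroup G) (ρ : Δ →* G) (h : ∀ d, ∀ u ∈ Λ, ρ d * u * (ρ d)⁻¹ ∈ Λ) : Subgroup G where
  carrier := {x | ∃ u ∈ Λ, ∃ d, x = u * ρ d}
  mul_mem' := by
    rintro _ _ ⟨u, hu, d, rfl⟩ ⟨u', hu', d', rfl⟩
    refine ⟨u * (ρ d * u' * (ρ d)⁻¹), Λ.mul_mem hu (h d u' hu'), d * d', ?_⟩
    rw [map_mul]
    group
  one_mem' := ⟨1, Λ.one_mem, 1, by simp⟩
  inv_mem' := by
    rintro _ ⟨u, hu, d, rfl⟩
    refine ⟨ρ d⁻¹ * u⁻¹ * (ρ d⁻¹)⁻¹, h _ _ (Λ.inv_mem hu), d⁻¹, ?_⟩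
    simp

theorem mem_prodSub {Λ : Subgroup G} {ρ : Δ →* G} {h : ∀ d, ∀ u ∈ Λ, ρ d * u * (ρ d)⁻¹ ∈ Λ} {x : G} :
    x ∈ prodSub Λ ρ h ↔ ∃ u ∈ Λ, ∃ d, x = u * ρ d := Iff.rfl

variable {Λ : Subgroup G} {ρ : Δ →* G} {h : ∀ d, ∀ u ∈ Λ, ρ d * u * (ρ d)⁻¹ ∈ Λ}

/-- The parametrization of the product. -/
noncomputable def prodEquiv (hρ : Function.Injective ρ) (hΛ : ∀ d, ρ d ∈ Λ → d = 1) : Λ × Δ ≃ prodSub Λ ρ h :=
  Equiv.ofBijective (fun p => ⟨(p.1 : G) * ρ p.2, p.1, p.1.2, p.2, rfl⟩) (by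
    constructor
    · rintro ⟨u, d⟩ ⟨u', d'⟩ e
      have e' : (u : G) * ρ d = (u' : G) * ρ d' := congrArg Subtype.val e
      have h1 : ρ (d' * d⁻¹) ∈ Λ := by
        have h2 : ρ (d' * d⁻¹) = (u' : G)⁻¹ * u := by
          rw [map_mul, map_inv, eq_inv_mul_iff_mul_eq, ← mul_assoc, mul_inv_eq_iff_eq_mul, e']
        rw [h2]
        exact Λ.mul_mem (Λ.inv_mem u'.2) u.2
      have h3 := hΛ _ h1
      have h4 : d' = d := by
        rwa [mul_inv_eq_one] at h3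
      subst h4
      have h5 := mul_right_cancel e'
      have h6 : u = u' := Subtype.ext h5
      rw [h6]
    · rintro ⟨x, u, hu, d, rfl⟩
      exact ⟨(⟨u, hu⟩, d), rfl⟩)

theorem sum_prodSub [Fintype Δ] [Fintype Λ] [Fintype (prodSub Λ ρ h)] (hρ : Function.Injective ρ)
    (hΛ : ∀ d, ρ d ∈ Λ → d = 1) (f : G → ℂ) :
    ∑ x : prodSub Λ ρ h, f x = ∑ d : Δ, ∑ u : Λ, f ((u : G) * ρ d) := by
  rw [← Fintype.sum_equiv (prodEquiv (h := h) hρ hΛ) (fun p => f ((p.1 : G) * ρ p.2)) (fun x => f x)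
    (fun p => rfl), Fintype.sum_prod_type]
  rw [Finset.sum_comm]

theorem card_prodSub [Finite Δ] [Finite Λ] (hρ : Function.Injective ρ) (hΛ : ∀ d, ρ d ∈ Λ → d = 1) :
    Nat.card (prodSub Λ ρ h) = Nat.card Λ * Nat.card Δ := by
  rw [← Nat.card_prod]
  exact (Nat.card_congr (prodEquiv (h := h) hρ hΛ)).symm

/-- The sum of a character over the product is a multiple of the order. -/
theorem exists_nat_prodSub [Fintype Δ] [Fintype Λ] (h' : ∀ d, ∀ u ∈ Λ, ρ d * u * (ρ d)⁻¹ ∈ Λ)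
    (hρ : Function.Injective ρ) (hΛ : ∀ d, ρ d ∈ Λ → d = 1)
    {χ : G → ℂ} (hχ : IsCharacter G χ) :
    ∃ n : ℕ, ∑ d : Δ, ∑ u : Λ, χ ((u : G) * ρ d) = ((Nat.card Λ * Nat.card Δ : ℕ) : ℂ) * n := by
  classical
  letI : Fintype (prodSub Λ ρ h') := Fintype.ofFinite _
  obtain ⟨n, hn⟩ := exists_nat_sum_subgroup (prodSub Λ ρ h') hχ
  refine ⟨n, ?_⟩
  rw [← sum_prodSub (h := h') hρ hΛ, hn, card_prodSub hρ hΛ]

end Prod

section LemmaA

variable {G : Type u} [Group G] [Fintype G]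

/-- The twisted sum. -/
noncomputable def tw (Λ : Subgroup G) [Fintype Λ] (χ : G → ℂ) (x : G) : ℂ := ∑ u : Λ, χ ((u : G) * x)

theorem tw_conj (Λ : Subgroup G) [Fintype Λ] {χ : G → ℂ} (hcl : ∀ a g, χ (g * a * g⁻¹) = χ a) (c x : G)
    (hc : ∀ u ∈ Λ, c * u * c⁻¹ ∈ Λ) : tw Λ χ (c * x * c⁻¹) = tw Λ χ x := by
  classical
  have hinj : Function.Injective (fun u : Λ => (⟨c * u * c⁻¹, hc u u.2⟩ : Λ)) := by
    intro a b e
    have e' : c * (a : G) * c⁻¹ = c * (b : G) * c⁻¹ := congrArg Subtype.val e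
    apply Subtype.ext
    simpa using e'
  have hbij : Function.Bijective (fun u : Λ => (⟨c * u * c⁻¹, hc u u.2⟩ : Λ)) :=
    (Finite.injective_iff_bijective).mp hinj
  rw [tw, tw]
  rw [← Equiv.sum_comp (Equiv.ofBijective _ hbij) (fun u : Λ => χ ((u : G) * (c * x * c⁻¹)))]
  refine Finset.sum_congr rfl fun u _ => ?_
  change χ (c * (u : G) * c⁻¹ * (c * x * c⁻¹)) = χ ((u : G) * x)
  have : c * (u : G) * c⁻¹ * (c * x * c⁻¹) = c * ((u : G) * x) * c⁻¹ := by group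
  rw [this, hcl]

/-- The subgroup of order two of `S₃`. -/
def E₂ : Subgroup (DihedralGroup 3) where
  carrier := {d | d = 1 ∨ d = sr 0}
  mul_mem' := by
    have h : ∀ a b : DihedralGroup 3, (a = 1 ∨ a = sr 0) → (b = 1 ∨ b = sr 0) → (a * b = 1 ∨ a * b = sr 0) := by
      decide
    exact fun {a b} ha hb => h a b ha hb
  one_mem' := Or.inl rfl
  inv_mem' := by
    have h : ∀ a : DihedralGroup 3, (a = 1 ∨ a = sr 0) → (a⁻¹ = 1 ∨ a⁻¹ = sr 0) := by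
      decide
    exact fun {a} ha => h a ha

/-- **The integrality lemma.**  -/
theorem lemmaA (Λ : Subgroup G) [Fintype Λ] (ρ : DihedralGroup 3 →* G) (hρ : Function.Injective ρ)
    (hN : ∀ d, ∀ u ∈ Λ, ρ d * u * (ρ d)⁻¹ ∈ Λ) (hΛ : ∀ d, ρ d ∈ Λ → d = 1) {χ : G → ℂ} (hχ : IsCharacter G χ) :
    ∃ A : ℤ, tw Λ χ (ρ (r 1)) = (Nat.card Λ : ℂ) * A ∧ tw Λ χ (ρ (r 2)) = (Nat.card Λ : ℂ) * A := by
  classical
  have hcl : ∀ a g, χ (g * a * g⁻¹) = χ a := fun a g =>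
    Cfsg.Agent.Lib.Char.Basic.isClassFunction_of_isCharacter hχ a g
  have hΛ0 : (Nat.card Λ : ℂ) ≠ 0 := Nat.cast_ne_zero.mpr Nat.card_pos.ne'
  -- the trivial subgroup
  obtain ⟨n₁, h₁⟩ := exists_nat_sum_subgroup Λ hχ
  -- the full group
  obtain ⟨n₆, h₆⟩ := exists_nat_prodSub (Λ := Λ) (ρ := ρ) hN hρ hΛ hχ
  -- the subgroup of order two
  have hmem : ∀ d : DihedralGroup 3, d ∈ E₂ ↔ d ∈ ({1, sr 0} : Finset (DihedralGroup 3)) := by
    intro d
    simp only [Finset.mem_insert, Finset.mem_singleton]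
    rfl
  letI iE : Fintype E₂ := Fintype.subtype ({1, sr 0} : Finset (DihedralGroup 3)) (fun d => (hmem d).symm)
  have hN₂ : ∀ d : E₂, ∀ u ∈ Λ, (ρ.comp E₂.subtype) d * u * ((ρ.comp E₂.subtype) d)⁻¹ ∈ Λ := fun d u hu =>
    hN d u hu
  have hρ₂ : Function.Injective (ρ.comp E₂.subtype) := hρ.comp E₂.subtype_injective
  have hΛ₂ : ∀ d : E₂, (ρ.comp E₂.subtype) d ∈ Λ → d = 1 := fun d hd =>
    Subtype.ext (hΛ _ hd)
  obtain ⟨n₂, h₂⟩ := exists_nat_prodSub (Λ := Λ) (ρ := ρ.comp E₂.subtype) hN₂ hρ₂ hΛ₂ hχ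
  -- expansions
  have hcard₆ : Nat.card (DihedralGroup 3) = 6 := by
    rw [Nat.card_eq_fintype_card]
    decide
  have hcard₂ : Nat.card E₂ = 2 := by
    rw [Nat.subtype_card ({1, sr 0} : Finset (DihedralGroup 3)) (fun d => (hmem d).symm)]
    decide
  have hu : (Finset.univ : Finset (DihedralGroup 3)) = {r 0, r 1, r 2, sr 0, sr 1, sr 2} := by decide
  have e₆ : ∑ d : DihedralGroup 3, ∑ u : Λ, χ ((u : G) * ρ d) =
      tw Λ χ (ρ (r 0)) + tw Λ χ (ρ (r 1)) + tw Λ χ (ρ (r 2)) + tw Λ χ (ρ (sr 0)) + tw Λ χ (ρ (sr 1)) +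
        tw Λ χ (ρ (sr 2)) := by
    rw [hu]
    rw [Finset.sum_insert (by decide), Finset.sum_insert (by decide), Finset.sum_insert (by decide),
      Finset.sum_insert (by decide), Finset.sum_insert (by decide), Finset.sum_singleton]
    simp only [tw]
    ring
  have e₂ : ∑ d : E₂, ∑ u : Λ, χ ((u : G) * (ρ.comp E₂.subtype) d) = tw Λ χ (ρ (r 0)) + tw Λ χ (ρ (sr 0)) := by
    have h1 := Finset.sum_subtype (F := iE) ({1, sr 0} : Finset (DihedralGroup 3)) (p := (· ∈ E₂))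
      (fun d => hmem d |>.symm) (fun d => ∑ u : Λ, χ ((u : G) * ρ d))
    have h2 : ∑ d : E₂, ∑ u : Λ, χ ((u : G) * (ρ.comp E₂.subtype) d) =
        ∑ d ∈ ({1, sr 0} : Finset (DihedralGroup 3)), ∑ u : Λ, χ ((u : G) * ρ d) := by
      rw [h1]
      rfl
    rw [h2, Finset.sum_pair (by decide)]
    rfl
  have e₁ : tw Λ χ (ρ (r 0)) = (Nat.card Λ : ℂ) * n₁ := by
    rw [← h₁, tw]
    refine Finset.sum_congr rfl fun u _ => ?_
    have : ρ (r 0) = 1 := map_one ρ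
    rw [this, mul_one]
  have inv : ∀ c x : DihedralGroup 3, tw Λ χ (ρ (c * x * c⁻¹)) = tw Λ χ (ρ x) := by
    intro c x
    rw [map_mul, map_mul, map_inv]
    exact tw_conj Λ hcl _ _ (hN c)
  have s1 : tw Λ χ (ρ (r 2)) = tw Λ χ (ρ (r 1)) := by
    have : (r 2 : DihedralGroup 3) = sr 0 * r 1 * (sr 0)⁻¹ := by decide
    rw [this, inv]
  have s2 : tw Λ χ (ρ (sr 1)) = tw Λ χ (ρ (sr 0)) := by
    have : (sr 1 : DihedralGroup 3) = r 1 * sr 0 * (r 1)⁻¹ := by decide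
    rw [this, inv]
  have s3 : tw Λ χ (ρ (sr 2)) = tw Λ χ (ρ (sr 0)) := by
    have : (sr 2 : DihedralGroup 3) = r 2 * sr 0 * (r 2)⁻¹ := by decide
    rw [this, inv]
  rw [e₆, hcard₆, s1, s2, s3, e₁] at h₆
  rw [e₂, hcard₂, e₁] at h₂
  push_cast at h₆ h₂
  refine ⟨3 * n₆ - 3 * n₂ + n₁, ?_, ?_⟩
  · push_cast
    linear_combination (1 / 2 : ℂ) * h₆ - (3 / 2 : ℂ) * h₂
  · rw [s1]
    push_cast
    linear_combination (1 / 2 : ℂ) * h₆ - (3 / 2 : ℂ) * h₂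

end LemmaA

end Cfsg.Agent.Lib.Nine.ConjSum
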