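import Mathlib

/-!
# A concrete model of `3³ : 2²`
-/

set_option autoImplicit false
set_option linter.style.haveILetI false
set_option maxRecDepth 100000

namespace Cfsg.Agent.Lib.Nine.ModelT27

open DihedralGroup

abbrev V3 := ZMod 3 × ZMod 3 × ZMod 3
abbrev V4 := DihedralGroup 2

def act : V4 → V3 → V3
  | r 0, x => x
  | r 1, x => (x.1, -x.2.1, -x.2.2)
  | sr 0, x => (-x.1, x.2.1, -x.2.2)
  | sr 1, x => (-x.1, -x.2.1, x.2.2)

theorem act_one : ∀ x : V3, act 1 x = x := by decide +kernel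
theorem act_mul : ∀ (a b : V4) (x : V3), act (a * b) x = act a (act b x) := by decide +kernel
theorem act_add : ∀ (a : V4) (x y : V3), act a (x + y) = act a x + act a y := by decide +kernel
theorem act_zero : ∀ a : V4, act a 0 = 0 := by decide +kernel

structure Gam where
  v : V3
  π : V4
  deriving DecidableEq

namespace Gam

@[ext] theorem ext' {x y : Gam} (h1 : x.v = y.v) (h2 : x.π = y.π) : x = y := by
  cases x; cases y; simp_all

def equiv : Gam ≃ V3 × V4 := ⟨fun g => (g.v, g.π), fun p => ⟨p.1, p.2⟩, fun _ => rfl, fun _ => rfl⟩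

instance : Fintype Gam := Fintype.ofEquiv _ equiv.symm

instance : Mul Gam := ⟨fun g h => ⟨g.v + act g.π h.v, g.π * h.π⟩⟩
instance : One Gam := ⟨⟨0, 1⟩⟩
instance : Inv Gam := ⟨fun g => ⟨act g.π⁻¹ (-g.v), g.π⁻¹⟩⟩

@[simp] theorem mul_v (g h : Gam) : (g * h).v = g.v + act g.π h.v := rfl
@[simp] theorem mul_π (g h : Gam) : (g * h).π = g.π * h.π := rfl
@[simp] theorem one_v : (1 : Gam).v = 0 := rfl
@[simp] theorem one_π : (1 : Gam).π = 1 := rfl
@[simp] theorem inv_v (g : Gam) : (g⁻¹).v = act g.π⁻¹ (-g.v) := rfl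
@[simp] theorem inv_π (g : Gam) : (g⁻¹).π = g.π⁻¹ := rfl

instance : Group Gam :=
  Group.ofLeftAxioms
    (fun a b c => by
      apply ext'
      · simp only [mul_v, mul_π, act_add, act_mul, add_assoc]
      · simp only [mul_π, mul_assoc])
    (fun a => by
      apply ext'
      · simp [act_one]
      · simp)
    (fun a => by
      apply ext'
      · have h : act a.π⁻¹ (-a.v) + act a.π⁻¹ a.v = 0 := by
          rw [← act_add]
          simp [act_zero]
        simpa using h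
      · simp)

end Gam

/-- The coordinates. -/
def co : Fin 3 → V3 → ZMod 3
  | 0, v => v.1
  | 1, v => v.2.1
  | 2, v => v.2.2

def t : Fin 3 → Gam := ![⟨(1, 0, 0), 1⟩, ⟨(0, 1, 0), 1⟩, ⟨(0, 0, 1), 1⟩]
def vπ : Fin 3 → V4 := ![r 1, sr 0, sr 1]
def v (i : Fin 3) : Gam := ⟨0, vπ i⟩

/-- The set `σ i`. -/
def inσ (i : Fin 3) (x : Gam) : Prop := (x.π = 1 ∨ x.π = vπ i) ∧ co i x.v ≠ 0

instance (i : Fin 3) (x : Gam) : Decidable (inσ i x) := by
  unfold inσ
  infer_instance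

def σ (i : Fin 3) : Finset Gam := Finset.univ.filter (inσ i)

theorem mem_σ {i : Fin 3} {x : Gam} : x ∈ σ i ↔ inσ i x := by
  simp [σ]

theorem card_gam : Fintype.card Gam = 108 := by decide +kernel
theorem card_σ : ∀ i : Fin 3, (σ i).card = 36 := by decide +kernel

theorem σ_conj : ∀ (i : Fin 3) (x c : Gam), inσ i x → inσ i (c * x * c⁻¹) := by decide +kernel
theorem σ_ne : ∀ (i : Fin 3) (x : Gam), inσ i x → x ≠ 1 := by decide +kernel
theorem σ_sing : ∀ (i : Fin 3) (x : Gam), inσ i x → (x ^ 4).π = 1 ∧ x ^ 4 ≠ 1 := by decide +kernel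
theorem σ_sq : ∀ (i : Fin 3) (x : Gam), inσ i x → x ^ 2 ≠ 1 := by decide +kernel

/-- The index two subgroup. -/
def A (i : Fin 3) : Subgroup Gam where
  carrier := {x | x.π = 1 ∨ x.π = vπ i}
  mul_mem' := by
    have h : ∀ (i : Fin 3) (a b : Gam), (a.π = 1 ∨ a.π = vπ i) → (b.π = 1 ∨ b.π = vπ i) →
      ((a * b).π = 1 ∨ (a * b).π = vπ i) := by decide +kernel
    exact fun {a b} ha hb => h i a b ha hb
  one_mem' := Or.inl rfl
  inv_mem' := by
    have h : ∀ (i : Fin 3) (a : Gam), (a.π = 1 ∨ a.π = vπ i) → ((a⁻¹).π = 1 ∨ (a⁻¹).π = vπ i) := by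
      decide +kernel
    exact fun {a} ha => h i a ha

/-- The index three subgroup. -/
def E (i : Fin 3) : Subgroup Gam where
  carrier := {x | co i x.v = 0}
  mul_mem' := by
    have h : ∀ (i : Fin 3) (a b : Gam), co i a.v = 0 → co i b.v = 0 → co i (a * b).v = 0 := by decide +kernel
    exact fun {a b} ha hb => h i a b ha hb
  one_mem' := by
    have h : ∀ i : Fin 3, co i (1 : Gam).v = 0 := by decide +kernel
    exact h i
  inv_mem' := by
    have h : ∀ (i : Fin 3) (a : Gam), co i a.v = 0 → co i (a⁻¹).v = 0 := by decide +kernel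
    exact fun {a} ha => h i a ha

theorem mem_A {i : Fin 3} {x : Gam} : x ∈ A i ↔ (x.π = 1 ∨ x.π = vπ i) := Iff.rfl
theorem mem_E {i : Fin 3} {x : Gam} : x ∈ E i ↔ co i x.v = 0 := Iff.rfl

theorem card_A : ∀ i : Fin 3, (Finset.univ.filter (fun x : Gam => x.π = 1 ∨ x.π = vπ i)).card = 54 := by
  decide +kernel
theorem card_E : ∀ i : Fin 3, (Finset.univ.filter (fun x : Gam => co i x.v = 0)).card = 36 := by
  decide +kernel

/-- The class sum identity. -/
theorem class_sum : ∀ (i : Fin 3) (y : Gam),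
    3 * (Finset.univ.filter (fun c : Gam => inσ i (c * y * c⁻¹))).card +
      3 * (Finset.univ.filter (fun c : Gam => co i (c * y * c⁻¹).v = 0)).card =
    108 + 2 * (Finset.univ.filter (fun c : Gam => (c * y * c⁻¹).π = 1 ∨ (c * y * c⁻¹).π = vπ i)).card := by
  decide +kernel

/-- The normal subgroup of order `27` of the model. -/
def TG : Subgroup Gam where
  carrier := {x | x.π = 1}
  mul_mem' := by
    intro a b ha hb
    change (a * b).π = 1
    rw [Gam.mul_π, show a.π = 1 from ha, show b.π = 1 from hb, one_mul]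
  one_mem' := rfl
  inv_mem' := by
    intro a ha
    change (a⁻¹).π = 1
    rw [Gam.inv_π, show a.π = 1 from ha, inv_one]

theorem mem_TG {x : Gam} : x ∈ TG ↔ x.π = 1 := Iff.rfl

theorem card_TG : (Finset.univ.filter (fun x : Gam => x.π = 1)).card = 27 := by decide +kernel
theorem TG_pow3 : ∀ x : Gam, x.π = 1 → x ^ 3 = 1 := by decide +kernel
theorem TG_conj : ∀ x c : Gam, x.π = 1 → (c * x * c⁻¹).π = 1 := by decide +kernel
theorem TG_comm : ∀ a b : Gam, a.π = 1 → b.π = 1 → a * b = b * a := by decide +kernel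
theorem TG_of_pow3 : ∀ x : Gam, x ^ 3 = 1 → x.π = 1 := by decide +kernel
theorem TG_of_pow27 : ∀ x : Gam, x ^ 27 = 1 → x.π = 1 := by decide +kernel
theorem TG_cent : ∀ c : Gam, (∀ i, c * t i = t i * c) → c.π = 1 := by decide +kernel
theorem t_mem : ∀ i, (t i).π = 1 := by decide +kernel
theorem t_ne : ∀ i, t i ≠ 1 := by decide +kernel
theorem t_word : ∀ i j : Fin 3, j ≠ i → t j = v i * (t j * v i * (t j)⁻¹) := by decide +kernel
theorem T_cover : ∀ x : Gam, x.π = 1 → x ≠ 1 → ∃ i, inσ i x := by decide +kernel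
theorem v_sq : ∀ i, v i ^ 2 = 1 := by decide +kernel
theorem v_ne : ∀ i, v i ≠ 1 := by decide +kernel
theorem inv_cls : ∀ x : Gam, x * x = 1 → x ≠ 1 → ∃ (j : Fin 3) (c : Gam), c * x * c⁻¹ = v j := by decide +kernel
theorem cls_of : ∀ (i : Fin 3) (x c : Gam), c * x * c⁻¹ = v i → x.π = vπ i ∧ co i x.v = 0 := by decide +kernel
theorem pair_not : ∀ (i : Fin 3) (x x' : Gam), x.π = vπ i → co i x.v = 0 → x'.π = vπ i → co i x'.v = 0 →
    ¬ inσ i (x * x') := by decide +kernel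

/-- The fixed points of the involutions. -/
theorem cent_v : ∀ (j : Fin 3) (x : Gam), x.π = 1 → x * v j = v j * x → x ≠ 1 → x = t j ∨ x = (t j)⁻¹ := by
  decide +kernel
theorem t_nconj : ∀ (i j : Fin 3) (c : Gam), i ≠ j → c * t i * c⁻¹ ≠ t j ∧ c * t i * c⁻¹ ≠ (t j)⁻¹ := by
  decide +kernel
theorem t_comm_v : ∀ i, t i * v i = v i * t i := by decide +kernel
theorem t_pow3 : ∀ i, t i ^ 3 = 1 := by decide +kernel
theorem pow4_mem : ∀ w : Gam, w.π = 1 → (w ^ 4).π = 1 := by decide +kernel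
theorem t_pow4 : ∀ i, t i ^ 4 ≠ 1 := by decide +kernel

/-! ### The map to the symmetric group -/

/-- The three cycles and the involutions. -/
def c1 : Equiv.Perm (Fin 9) := Equiv.swap (0 : Fin 9) 1 * Equiv.swap 1 2
def c2 : Equiv.Perm (Fin 9) := Equiv.swap (3 : Fin 9) 4 * Equiv.swap 4 5
def c3 : Equiv.Perm (Fin 9) := Equiv.swap (6 : Fin 9) 7 * Equiv.swap 7 8
def s1 : Equiv.Perm (Fin 9) := Equiv.swap (0 : Fin 9) 1 * Equiv.swap 3 4
def s2 : Equiv.Perm (Fin 9) := Equiv.swap (0 : Fin 9) 1 * Equiv.swap 6 7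

def ρ : V4 → Equiv.Perm (Fin 9)
  | r 0 => 1
  | r 1 => s1 * s2
  | sr 0 => s2
  | sr 1 => s1

/-- The map to the symmetric group. -/
def φf (x : Gam) : Equiv.Perm (Fin 9) :=
  c1 ^ x.v.1.val * c2 ^ x.v.2.1.val * c3 ^ x.v.2.2.val * ρ x.π

def gen : Fin 5 → Gam := ![⟨(1, 0, 0), 1⟩, ⟨(0, 1, 0), 1⟩, ⟨(0, 0, 1), 1⟩, ⟨0, sr 1⟩, ⟨0, sr 0⟩]

theorem φf_gen : ∀ (k : Fin 5) (x : Gam), φf (x * gen k) = φf x * φf (gen k) := by decide +kernel
theorem gen_word : ∀ y : Gam, ∃ a b c : Fin 3, ∃ d e : Fin 2,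
    y = gen 0 ^ (a : ℕ) * gen 1 ^ (b : ℕ) * gen 2 ^ (c : ℕ) * gen 3 ^ (d : ℕ) * gen 4 ^ (e : ℕ) := by decide +kernel
theorem φf_one : φf 1 = 1 := by decide +kernel
theorem φf_ker : ∀ x : Gam, φf x = 1 → x = 1 := by decide +kernel

theorem φf_mul (x y : Gam) : φf (x * y) = φf x * φf y := by
  have hmul : ∀ a b : Gam, (∀ x, φf (x * a) = φf x * φf a) → (∀ x, φf (x * b) = φf x * φf b) →
      ∀ x, φf (x * (a * b)) = φf x * φf (a * b) := by
    intro a b ha hb x
    rw [← mul_assoc, hb, ha, hb a, mul_assoc]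
  have hpow : ∀ (a : Gam), (∀ x, φf (x * a) = φf x * φf a) → ∀ (n : ℕ) (x : Gam),
      φf (x * a ^ n) = φf x * φf (a ^ n) := by
    intro a ha n
    induction n with
    | zero =>
      intro x
      simp [φf_one]
    | succ n ih =>
      rw [pow_succ]
      exact hmul _ _ ih ha
  obtain ⟨a, b, c, d, e, rfl⟩ := gen_word y
  exact hmul _ _ (hmul _ _ (hmul _ _ (hmul _ _ (hpow _ (φf_gen 0) _) (hpow _ (φf_gen 1) _))
    (hpow _ (φf_gen 2) _)) (hpow _ (φf_gen 3) _)) (hpow _ (φf_gen 4) _) x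

/-- The map to the symmetric group as a homomorphism. -/
def φ : Gam →* Equiv.Perm (Fin 9) := MonoidHom.mk' φf φf_mul

theorem φ_apply (x : Gam) : φ x = φf x := rfl

theorem φ_inj : Function.Injective φ := by
  rw [injective_iff_map_eq_one]
  exact φf_ker

/-- The subgroup of the statement. -/
abbrev H₀ : Subgroup (Equiv.Perm (Fin 9)) :=
  Subgroup.closure ({Equiv.swap (0 : Fin 9) 1 * Equiv.swap 1 2, Equiv.swap (3 : Fin 9) 4 * Equiv.swap 4 5,
    Equiv.swap (6 : Fin 9) 7 * Equiv.swap 7 8, Equiv.swap (0 : Fin 9) 1 * Equiv.swap 3 4,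
    Equiv.swap (0 : Fin 9) 1 * Equiv.swap 6 7} : Set (Equiv.Perm (Fin 9)))

theorem c1_mem : c1 ∈ H₀ := Subgroup.subset_closure (by simp [c1])
theorem c2_mem : c2 ∈ H₀ := Subgroup.subset_closure (by simp [c2])
theorem c3_mem : c3 ∈ H₀ := Subgroup.subset_closure (by simp [c3])
theorem s1_mem : s1 ∈ H₀ := Subgroup.subset_closure (by simp [s1])
theorem s2_mem : s2 ∈ H₀ := Subgroup.subset_closure (by simp [s2])

theorem ρ_mem : ∀ π : V4, ρ π ∈ H₀ := by
  intro π
  have h : ∀ π : V4, π = r 0 ∨ π = r 1 ∨ π = sr 0 ∨ π = sr 1 := by decide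
  rcases h π with rfl | rfl | rfl | rfl
  · exact H₀.one_mem
  · exact H₀.mul_mem s1_mem s2_mem
  · exact s2_mem
  · exact s1_mem

theorem range_φ : φ.range = H₀ := by
  apply le_antisymm
  · rintro _ ⟨x, rfl⟩
    exact H₀.mul_mem (H₀.mul_mem (H₀.mul_mem (H₀.pow_mem c1_mem _) (H₀.pow_mem c2_mem _))
      (H₀.pow_mem c3_mem _)) (ρ_mem _)
  · rw [Subgroup.closure_le]
    intro g hg
    simp only [Set.mem_insert_iff, Set.mem_singleton_iff] at hg
    rcases hg with rfl | rfl | rfl | rfl | rfl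
    · exact ⟨⟨(1, 0, 0), 1⟩, by decide +kernel⟩
    · exact ⟨⟨(0, 1, 0), 1⟩, by decide +kernel⟩
    · exact ⟨⟨(0, 0, 1), 1⟩, by decide +kernel⟩
    · exact ⟨⟨0, sr 1⟩, by decide +kernel⟩
    · exact ⟨⟨0, sr 0⟩, by decide +kernel⟩

end Cfsg.Agent.Lib.Nine.ModelT27
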