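import Mathlib
import Cfsg.Agent.Lib.Nine.ModelT27

/-!
# A concrete model of `3³ : S₄`, the normalizer in `Alt(9)` of three disjoint `3`-cycles
-/

set_option autoImplicit false
set_option linter.style.haveILetI false
set_option maxRecDepth 100000

namespace Cfsg.Agent.Lib.Nine.ModelA9

open DihedralGroup
open Cfsg.Agent.Lib.Nine.ModelT27 (V3 V4 act act_one act_mul act_add act_zero)

abbrev S3 := DihedralGroup 3

/-- The action of the complement `S₃` on the vector space: even permutations, minus odd permutations. -/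
def pAct : S3 → V3 → V3
  | r 0, x => x
  | r 1, x => (x.2.2, x.1, x.2.1)
  | r 2, x => (x.2.1, x.2.2, x.1)
  | sr 0, x => (-x.2.1, -x.1, -x.2.2)
  | sr 1, x => (-x.1, -x.2.2, -x.2.1)
  | sr 2, x => (-x.2.2, -x.2.1, -x.1)

theorem pAct_one : ∀ x : V3, pAct 1 x = x := by decide +kernel
theorem pAct_mul : ∀ (a b : S3) (x : V3), pAct (a * b) x = pAct a (pAct b x) := by decide +kernel
theorem pAct_add : ∀ (a : S3) (x y : V3), pAct a (x + y) = pAct a x + pAct a y := by decide +kernel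

/-- The action of `S₃` on the diagonal four-group. -/
def cycV : V4 → V4
  | r 0 => r 0
  | r 1 => sr 0
  | sr 0 => sr 1
  | sr 1 => r 1

def swpV : V4 → V4
  | r 0 => r 0
  | r 1 => sr 0
  | sr 0 => r 1
  | sr 1 => sr 1

def vAct : S3 → V4 → V4
  | r 0, s => s
  | r 1, s => cycV s
  | r 2, s => cycV (cycV s)
  | sr 0, s => swpV s
  | sr 1, s => swpV (cycV s)
  | sr 2, s => swpV (cycV (cycV s))

theorem vAct_one : ∀ s : V4, vAct 1 s = s := by decide +kernel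
theorem vAct_mul : ∀ (a b : S3) (s : V4), vAct (a * b) s = vAct a (vAct b s) := by decide +kernel
theorem vAct_mul' : ∀ (a : S3) (s t : V4), vAct a (s * t) = vAct a s * vAct a t := by decide +kernel
theorem vAct_act : ∀ (a : S3) (s : V4) (x : V3), pAct a (act s x) = act (vAct a s) (pAct a x) := by decide +kernel

/-- The rotation group of the cube. -/
structure Rot where
  s : V4
  p : S3
  deriving DecidableEq

namespace Rot

@[ext] theorem ext' {x y : Rot} (h1 : x.s = y.s) (h2 : x.p = y.p) : x = y := by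
  cases x; cases y; simp_all

def equiv : Rot ≃ V4 × S3 := ⟨fun g => (g.s, g.p), fun p => ⟨p.1, p.2⟩, fun _ => rfl, fun _ => rfl⟩

instance : Fintype Rot := Fintype.ofEquiv _ equiv.symm

instance : Mul Rot := ⟨fun g h => ⟨g.s * vAct g.p h.s, g.p * h.p⟩⟩
instance : One Rot := ⟨⟨1, 1⟩⟩
instance : Inv Rot := ⟨fun g => ⟨vAct g.p⁻¹ g.s⁻¹, g.p⁻¹⟩⟩

@[simp] theorem mul_s (g h : Rot) : (g * h).s = g.s * vAct g.p h.s := rfl
@[simp] theorem mul_p (g h : Rot) : (g * h).p = g.p * h.p := rfl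
@[simp] theorem one_s : (1 : Rot).s = 1 := rfl
@[simp] theorem one_p : (1 : Rot).p = 1 := rfl
@[simp] theorem inv_s (g : Rot) : (g⁻¹).s = vAct g.p⁻¹ g.s⁻¹ := rfl
@[simp] theorem inv_p (g : Rot) : (g⁻¹).p = g.p⁻¹ := rfl

instance : Group Rot :=
  Group.ofLeftAxioms
    (by decide +kernel)
    (by decide +kernel)
    (by decide +kernel)

end Rot

/-- The action of the rotation group. -/
def rAct (π : Rot) (x : V3) : V3 := act π.s (pAct π.p x)

theorem rAct_one : ∀ x : V3, rAct 1 x = x := by decide +kernel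
theorem rAct_mul : ∀ (a b : Rot) (x : V3), rAct (a * b) x = rAct a (rAct b x) := by decide +kernel
theorem rAct_add : ∀ (a : Rot) (x y : V3), rAct a (x + y) = rAct a x + rAct a y := by decide +kernel
theorem rAct_zero : ∀ a : Rot, rAct a 0 = 0 := by decide +kernel

structure Gam where
  v : V3
  π : Rot
  deriving DecidableEq

namespace Gam

@[ext] theorem ext' {x y : Gam} (h1 : x.v = y.v) (h2 : x.π = y.π) : x = y := by
  cases x; cases y; simp_all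

def equiv : Gam ≃ V3 × Rot := ⟨fun g => (g.v, g.π), fun p => ⟨p.1, p.2⟩, fun _ => rfl, fun _ => rfl⟩

instance : Fintype Gam := Fintype.ofEquiv _ equiv.symm

instance : Mul Gam := ⟨fun g h => ⟨g.v + rAct g.π h.v, g.π * h.π⟩⟩
instance : One Gam := ⟨⟨0, 1⟩⟩
instance : Inv Gam := ⟨fun g => ⟨rAct g.π⁻¹ (-g.v), g.π⁻¹⟩⟩

@[simp] theorem mul_v (g h : Gam) : (g * h).v = g.v + rAct g.π h.v := rfl
@[simp] theorem mul_π (g h : Gam) : (g * h).π = g.π * h.π := rfl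
@[simp] theorem one_v : (1 : Gam).v = 0 := rfl
@[simp] theorem one_π : (1 : Gam).π = 1 := rfl
@[simp] theorem inv_v (g : Gam) : (g⁻¹).v = rAct g.π⁻¹ (-g.v) := rfl
@[simp] theorem inv_π (g : Gam) : (g⁻¹).π = g.π⁻¹ := rfl

instance : Group Gam :=
  Group.ofLeftAxioms
    (fun a b c => by
      apply ext'
      · simp only [mul_v, mul_π, rAct_add, rAct_mul, add_assoc]
      · simp only [mul_π, mul_assoc])
    (fun a => by
      apply ext'
      · simp [rAct_one]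
      · simp)
    (fun a => by
      apply ext'
      · have h : rAct a.π⁻¹ (-a.v) + rAct a.π⁻¹ a.v = 0 := by
          rw [← rAct_add]
          simp [rAct_zero]
        simpa using h
      · simp)

end Gam

theorem card_gam : Fintype.card Gam = 648 := by decide +kernel

/-- The map to `S₃`. -/
def ψ : Gam →* S3 := MonoidHom.mk' (fun x => x.π.p) (fun _ _ => rfl)

@[simp] theorem ψ_apply (x : Gam) : ψ x = x.π.p := rfl

/-! ### Elements -/

def t₀ : Gam := ⟨0, ⟨1, r 1⟩⟩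
def g₀ : Gam := ⟨(1, 1, 1), 1⟩
def y₀ : Gam := ⟨0, ⟨1, sr 0⟩⟩
def y₂ : Gam := ⟨0, ⟨sr 1, 1⟩⟩
def e₀ : Gam := ⟨(0, 0, 1), 1⟩
def f₀ : Gam := ⟨(1, -1, 0), 1⟩

/-- The number of nonzero coordinates. -/
def wt (x : V3) : ℕ := (if x.1 = 0 then 0 else 1) + (if x.2.1 = 0 then 0 else 1) + (if x.2.2 = 0 then 0 else 1)

def ccard (x : Gam) : ℕ := (Finset.univ.filter (fun c : Gam => c * x = x * c)).card

def repT (n : ℕ) : Gam := if n = 1 then e₀ else if n = 2 then f₀ else g₀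

def ccv (n : ℕ) : ℕ := if n = 1 then 108 else if n = 2 then 54 else 81

theorem T_pow3 : ∀ x : Gam, x.π = 1 → x ^ 3 = 1 := by decide +kernel
theorem T_comm : ∀ a : Gam, a.π = 1 → ∀ b : Gam, b.π = 1 → a * b = b * a := by decide +kernel
theorem T_wt : ∀ x : Gam, x.π = 1 → x ≠ 1 → wt x.v = 1 ∨ wt x.v = 2 ∨ wt x.v = 3 := by decide +kernel
theorem T_cent : ∀ x : Gam, x.π = 1 → x ≠ 1 → ccard x = ccv (wt x.v) := by decide +kernel
theorem T_rep : ∀ x : Gam, x.π = 1 → x ≠ 1 → ∃ c : Gam, c * x * c⁻¹ = repT (wt x.v) := by decide +kernel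

/-- The subgroup `Q = C(t₀)`. -/
def isQ (x : Gam) : Prop :=
  x.π.s = 1 ∧ (x.π.p = r 0 ∨ x.π.p = r 1 ∨ x.π.p = r 2) ∧ x.v.1 = x.v.2.1 ∧ x.v.1 = x.v.2.2

instance (x : Gam) : Decidable (isQ x) := by
  unfold isQ
  infer_instance

theorem Q_of_comm : ∀ c : Gam, c * t₀ = t₀ * c → isQ c := by decide +kernel
theorem isQ_comm : ∀ a : Gam, isQ a → ∀ b : Gam, isQ b → a * b = b * a := by decide +kernel
theorem isQ_pow3 : ∀ a : Gam, isQ a → a ^ 3 = 1 := by decide +kernel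
theorem isQ_mul : ∀ a : Gam, isQ a → ∀ b : Gam, isQ b → isQ (a * b) := by decide +kernel
theorem isQ_inv : ∀ a : Gam, isQ a → isQ a⁻¹ := by decide +kernel
theorem isQ_one : isQ 1 := by decide +kernel
theorem isQ_t₀ : isQ t₀ := by decide +kernel
theorem isQ_g₀ : isQ g₀ := by decide +kernel
theorem isQ_y : ∀ q : Gam, isQ q → y₀ * q * y₀⁻¹ = q⁻¹ := by decide +kernel
theorem isQ_T : ∀ q : Gam, isQ q → q.π = 1 → q = 1 ∨ q = g₀ ∨ q = g₀⁻¹ := by decide +kernel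
theorem isQ_split : ∀ q : Gam, isQ q → q.π.p = 1 ∨ ∃ c : Gam, c * q * c⁻¹ = t₀ := by decide +kernel
theorem g₀_pow3 : g₀ ^ 3 = 1 := by decide +kernel
theorem t₀_pow3 : t₀ ^ 3 = 1 := by decide +kernel
theorem y₀_sq : y₀ ^ 2 = 1 := by decide +kernel
theorem y₂_sq : y₂ ^ 2 = 1 := by decide +kernel
theorem g₀_ne : g₀ ≠ 1 := by decide +kernel
theorem t₀_ne : t₀ ≠ 1 := by decide +kernel
theorem y₀_ne : y₀ ≠ 1 := by decide +kernel
theorem y₂_ne : y₂ ≠ 1 := by decide +kernel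
theorem e₀_ne : e₀ ≠ 1 := by decide +kernel
theorem f₀_ne : f₀ ≠ 1 := by decide +kernel
theorem g₀_π : g₀.π = 1 := rfl
theorem e₀_π : e₀.π = 1 := rfl
theorem f₀_π : f₀.π = 1 := rfl
theorem t_g : t₀ * g₀ = g₀ * t₀ := by decide +kernel
theorem y_t : y₀ * t₀ * y₀⁻¹ = t₀⁻¹ := by decide +kernel
theorem y_g : y₀ * g₀ * y₀⁻¹ = g₀⁻¹ := by decide +kernel
theorem gt_class : ∃ c : Gam, c * (g₀ * t₀) * c⁻¹ = t₀ := by decide +kernel
theorem gt_class' : ∃ c : Gam, c * (g₀⁻¹ * t₀) * c⁻¹ = t₀ := by decide +kernel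

/-- The elements of order nine. -/
def inS2 (x : Gam) : Prop := (x.π.p = r 1 ∨ x.π.p = r 2) ∧ x ^ 3 ≠ 1

instance (x : Gam) : Decidable (inS2 x) := by
  unfold inS2
  infer_instance

def S2set : Finset Gam := Finset.univ.filter inS2

theorem mem_S2 {x : Gam} : x ∈ S2set ↔ inS2 x := by simp [S2set]

theorem inS2_pow : ∀ x : Gam, inS2 x → (x ^ 3).π = 1 ∧ x ^ 3 ≠ 1 := by decide +kernel
theorem p_pow3 : ∀ x : Gam, (x.π.p = r 1 ∨ x.π.p = r 2) → x ^ 3 = 1 → ∃ c : Gam, c * x * c⁻¹ = t₀ := by decide +kernel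
theorem card_S2 : S2set.card = 144 := by decide +kernel
theorem card_r1_pow : (Finset.univ.filter (fun x : Gam => x.π.p = r 1 ∧ x ^ 3 = 1)).card = 36 := by decide +kernel
theorem card_r2_pow : (Finset.univ.filter (fun x : Gam => x.π.p = r 2 ∧ x ^ 3 = 1)).card = 36 := by decide +kernel

theorem inv_class : ∀ a : Gam, a * a = 1 → a ≠ 1 → a.π.p = 1 ∨ ∃ c : Gam, c * a * c⁻¹ = y₀ := by decide +kernel

theorem y₀_f₀ : y₀ * f₀ = f₀ * y₀ := by decide +kernel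
theorem y₂_e₀ : y₂ * e₀ = e₀ * y₂ := by decide +kernel
theorem cent_e₀ : ∀ c : Gam, c * e₀ = e₀ * c → c ^ 3 = 1 → c.π = 1 := by decide +kernel
theorem cent_y₂ : ∀ x : Gam, x * y₂ = y₂ * x → x ^ 3 = 1 → x ≠ 1 → x = e₀ ∨ x = e₀⁻¹ := by decide +kernel
theorem f_e_nconj : ∀ c : Gam, c * f₀ * c⁻¹ ≠ e₀ ∧ c * f₀ * c⁻¹ ≠ e₀⁻¹ := by decide +kernel
theorem e₀_pow3 : e₀ ^ 3 = 1 := by decide +kernel
theorem f₀_pow3 : f₀ ^ 3 = 1 := by decide +kernel

/-- The complement `S₃`. -/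
def cS : S3 →* Gam := MonoidHom.mk' (fun d => ⟨0, ⟨1, d⟩⟩) (by decide +kernel)

theorem cS_inj : Function.Injective cS := by
  intro a b h
  have := congrArg (fun x : Gam => x.π.p) h
  exact this

theorem cS_r1 : cS (r 1) = t₀ := rfl
theorem cS_s0 : cS (sr 0) = y₀ := rfl
theorem cS_p (d : S3) : (cS d).π.p = d := rfl

theorem comm_S3 : ∀ p : S3, p ≠ 1 → ∃ p' : S3, p * p' * p⁻¹ * p'⁻¹ = r 1 ∨ p * p' * p⁻¹ * p'⁻¹ = r 2 := by
  decide +kernel

/-- The embedding of the model `3³ : 2²`. -/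
def emb : ModelT27.Gam →* Gam := MonoidHom.mk' (fun x => ⟨x.v, ⟨x.π, 1⟩⟩) (by
  intro a b
  apply Gam.ext'
  · have h : ∀ (s : V4) (x : V3), rAct ⟨s, 1⟩ x = act s x := by decide +kernel
    simp only [Gam.mul_v, ModelT27.Gam.mul_v, h]
  · have h : ∀ s t : V4, (⟨s * t, 1⟩ : Rot) = ⟨s, 1⟩ * ⟨t, 1⟩ := by decide +kernel
    simp only [Gam.mul_π, ModelT27.Gam.mul_π, h])

theorem emb_v (x : ModelT27.Gam) : (emb x).v = x.v := rfl
theorem emb_π (x : ModelT27.Gam) : (emb x).π = ⟨x.π, 1⟩ := rfl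

theorem emb_inj : Function.Injective emb := by
  intro a b h
  apply ModelT27.Gam.ext'
  · exact congrArg Gam.v h
  · exact congrArg (fun x : Gam => x.π.s) h

theorem mem_range_emb {x : Gam} (hx : x.π.p = 1) : ∃ y : ModelT27.Gam, emb y = x :=
  ⟨⟨x.v, x.π.s⟩, by
    apply Gam.ext'
    · rfl
    · apply Rot.ext'
      · rfl
      · exact hx.symm⟩

theorem emb_T (x : ModelT27.Gam) : (emb x).π = 1 ↔ x.π = 1 := by
  rw [emb_π]
  constructor
  · intro h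
    exact congrArg Rot.s h
  · intro h
    rw [h]
    rfl

/-! ### The map to the symmetric group -/

open Cfsg.Agent.Lib.Nine.ModelT27 (c1 c2 c3 s1 s2)

/-- The generators of the statement. -/
def b₉ : Equiv.Perm (Fin 9) :=
  Equiv.swap (0 : Fin 9) 3 * Equiv.swap 3 6 * (Equiv.swap (1 : Fin 9) 4 * Equiv.swap 4 7) * (Equiv.swap (2 : Fin 9) 5 * Equiv.swap 5 8)
def d₉ : Equiv.Perm (Fin 9) := Equiv.swap (0 : Fin 9) 3 * Equiv.swap 1 4 * Equiv.swap 2 5 * Equiv.swap 6 7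

def ρV : V4 → Equiv.Perm (Fin 9) := ModelT27.ρ

def ρS : S3 → Equiv.Perm (Fin 9)
  | r 0 => 1
  | r 1 => b₉
  | r 2 => b₉ * b₉
  | sr 0 => d₉ * s1
  | sr 1 => d₉ * s1 * b₉
  | sr 2 => d₉ * s1 * (b₉ * b₉)

def φf (x : Gam) : Equiv.Perm (Fin 9) :=
  c1 ^ x.v.1.val * c2 ^ x.v.2.1.val * c3 ^ x.v.2.2.val * (ρV x.π.s * ρS x.π.p)

def gen : Fin 7 → Gam :=
  ![⟨(1, 0, 0), 1⟩, ⟨(0, 1, 0), 1⟩, ⟨(0, 0, 1), 1⟩, ⟨0, ⟨sr 1, 1⟩⟩, ⟨0, ⟨sr 0, 1⟩⟩, ⟨0, ⟨1, r 1⟩⟩, ⟨0, ⟨1, sr 0⟩⟩]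

theorem φf_gen : ∀ (k : Fin 7) (x : Gam), φf (x * gen k) = φf x * φf (gen k) := by decide +kernel
theorem gen_word : ∀ y : Gam, ∃ (d e g : Fin 2) (f : Fin 3),
    y = gen 0 ^ y.v.1.val * gen 1 ^ y.v.2.1.val * gen 2 ^ y.v.2.2.val * gen 3 ^ (d : ℕ) * gen 4 ^ (e : ℕ) *
      gen 6 ^ (g : ℕ) * gen 5 ^ (f : ℕ) := by decide +kernel
theorem φf_one : φf 1 = 1 := by decide +kernel
theorem φf_ker : ∀ x : Gam, φf x = 1 → x = 1 := by decide +kernel

theorem φf_mul (x y : Gam) : φf (x * y) = φf x * φf y := by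
  have hmul : ∀ a b : Gam, (∀ x, φf (x * a) = φf x * φf a) → (∀ x, φf (x * b) = φf x * φf b) →
      ∀ x, φf (x * (a * b)) = φf x * φf (a * b) := by
    intro a b ha hb x
    rw [← mul_assoc, hb, ha, hb a, mul_assoc]
  have hpow : ∀ (a : Gam), (∀ x, φf (x * a) = φf x * φf a) → ∀ (n : ℕ) (x : Gam),
      φf (x * a ^ n) = φf x * φf (a ^ n) := by
    intro a ha n
    induction n with
    | zero =>
      intro x
      simp [φf_one]
    | succ n ih =>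
      rw [pow_succ]
      exact hmul _ _ ih ha
  obtain ⟨d, e, g, f, hy⟩ := gen_word y
  rw [hy]
  exact hmul _ _ (hmul _ _ (hmul _ _ (hmul _ _ (hmul _ _ (hmul _ _ (hpow _ (φf_gen 0) _) (hpow _ (φf_gen 1) _))
    (hpow _ (φf_gen 2) _)) (hpow _ (φf_gen 3) _)) (hpow _ (φf_gen 4) _)) (hpow _ (φf_gen 6) _))
    (hpow _ (φf_gen 5) _) x

/-- The map to the symmetric group as a homomorphism. -/
def φ : Gam →* Equiv.Perm (Fin 9) := MonoidHom.mk' φf φf_mul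

theorem φ_apply (x : Gam) : φ x = φf x := rfl

theorem φ_inj : Function.Injective φ := by
  rw [injective_iff_map_eq_one]
  exact φf_ker

/-- The subgroup of the statement. -/
abbrev K₀ : Subgroup (Equiv.Perm (Fin 9)) :=
  Subgroup.closure ({Equiv.swap (0 : Fin 9) 1 * Equiv.swap 1 2,
    Equiv.swap (0 : Fin 9) 3 * Equiv.swap 3 6 * (Equiv.swap (1 : Fin 9) 4 * Equiv.swap 4 7) * (Equiv.swap (2 : Fin 9) 5 * Equiv.swap 5 8),
    Equiv.swap (0 : Fin 9) 1 * Equiv.swap 3 4, Equiv.swap (0 : Fin 9) 3 * Equiv.swap 1 4 * Equiv.swap 2 5 * Equiv.swap 6 7} : Set (Equiv.Perm (Fin 9)))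

theorem c1_mem : c1 ∈ K₀ := Subgroup.subset_closure (by simp [c1])
theorem b₉_mem : b₉ ∈ K₀ := Subgroup.subset_closure (by simp [b₉])
theorem s1_mem : s1 ∈ K₀ := Subgroup.subset_closure (by simp [s1])
theorem d₉_mem : d₉ ∈ K₀ := Subgroup.subset_closure (by simp [d₉])
theorem c2_mem : c2 ∈ K₀ := by
  have h : c2 = b₉ * c1 * b₉⁻¹ := by decide +kernel
  rw [h]
  exact K₀.mul_mem (K₀.mul_mem b₉_mem c1_mem) (K₀.inv_mem b₉_mem)
theorem c3_mem : c3 ∈ K₀ := by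
  have h : c3 = b₉ * c2 * b₉⁻¹ := by decide +kernel
  rw [h]
  exact K₀.mul_mem (K₀.mul_mem b₉_mem c2_mem) (K₀.inv_mem b₉_mem)
theorem s2_mem : s2 ∈ K₀ := by
  have h : s2 = (b₉ * b₉) * s1 * (b₉ * b₉)⁻¹ := by decide +kernel
  rw [h]
  have hb := K₀.mul_mem b₉_mem b₉_mem
  exact K₀.mul_mem (K₀.mul_mem hb s1_mem) (K₀.inv_mem hb)

theorem ρV_mem : ∀ π : V4, ρV π ∈ K₀ := by
  intro π
  have h : ∀ π : V4, π = r 0 ∨ π = r 1 ∨ π = sr 0 ∨ π = sr 1 := by decide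
  rcases h π with rfl | rfl | rfl | rfl
  · exact K₀.one_mem
  · exact K₀.mul_mem s1_mem s2_mem
  · exact s2_mem
  · exact s1_mem

theorem ρS_mem : ∀ π : S3, ρS π ∈ K₀ := by
  intro π
  have hb := K₀.mul_mem b₉_mem b₉_mem
  have hd := K₀.mul_mem d₉_mem s1_mem
  have h : ∀ π : S3, π = r 0 ∨ π = r 1 ∨ π = r 2 ∨ π = sr 0 ∨ π = sr 1 ∨ π = sr 2 := by decide
  rcases h π with rfl | rfl | rfl | rfl | rfl | rfl
  · exact K₀.one_mem
  · exact b₉_mem
  · exact hb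
  · exact hd
  · exact K₀.mul_mem hd b₉_mem
  · exact K₀.mul_mem hd hb

theorem range_φ : φ.range = K₀ := by
  apply le_antisymm
  · rintro _ ⟨x, rfl⟩
    exact K₀.mul_mem (K₀.mul_mem (K₀.mul_mem (K₀.pow_mem c1_mem _) (K₀.pow_mem c2_mem _))
      (K₀.pow_mem c3_mem _)) (K₀.mul_mem (ρV_mem _) (ρS_mem _))
  · rw [Subgroup.closure_le]
    intro g hg
    simp only [Set.mem_insert_iff, Set.mem_singleton_iff] at hg
    rcases hg with rfl | rfl | rfl | rfl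
    · exact ⟨⟨(1, 0, 0), 1⟩, by decide +kernel⟩
    · exact ⟨⟨0, ⟨1, r 1⟩⟩, by decide +kernel⟩
    · exact ⟨⟨0, ⟨sr 1, 1⟩⟩, by decide +kernel⟩
    · exact ⟨⟨0, ⟨sr 1, sr 0⟩⟩, by decide +kernel⟩

/-! ### The normal `3`-subgroups -/

/-- The normal subgroup of order `27` of the model. -/
def TG : Subgroup Gam where
  carrier := {x | x.π = 1}
  mul_mem' := by
    intro a b ha hb
    change (a * b).π = 1
    rw [Gam.mul_π, show a.π = 1 from ha, show b.π = 1 from hb, one_mul]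
  one_mem' := rfl
  inv_mem' := by
    intro a ha
    change (a⁻¹).π = 1
    rw [Gam.inv_π, show a.π = 1 from ha, inv_one]

theorem mem_TG {x : Gam} : x ∈ TG ↔ x.π = 1 := Iff.rfl

theorem TG_conj (c x : Gam) (hx : x.π = 1) : (c * x * c⁻¹).π = 1 := by
  simp [hx]

theorem TG_isP : IsPGroup 3 TG := by
  intro x
  refine ⟨1, ?_⟩
  apply Subtype.ext
  simpa using T_pow3 x.1 x.2

/-- Only elements of `TG` can lie in a normal `3`-subgroup. -/
theorem rot_core : ∀ π : Rot, π ≠ 1 → π ^ 81 ≠ 1 ∨ ∃ π' : Rot, (π * π' * π⁻¹ * π'⁻¹) ^ 81 ≠ 1 := by decide +kernel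

theorem le_TG_of_normal (N : Subgroup Gam) (hN : N.Normal) (hP : IsPGroup 3 N) : N ≤ TG := by
  intro x hx
  have h81 : ∀ z ∈ N, z ^ 81 = 1 := by
    intro z hz
    obtain ⟨k, hk⟩ := (IsPGroup.iff_orderOf.mp hP) ⟨z, hz⟩
    have h1 : orderOf z = 3 ^ k := by
      rw [← hk]
      exact (Subgroup.orderOf_mk _ _).symm
    have h2 : orderOf z ∣ 648 := by
      rw [← card_gam, ← Nat.card_eq_fintype_card]
      exact orderOf_dvd_natCard z
    have h3 : orderOf z ∣ 81 := by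
      rw [h1] at h2 ⊢
      have h5 : Nat.Coprime (3 ^ k) 8 := Nat.Coprime.pow_left k (by norm_num)
      exact h5.dvd_of_dvd_mul_right (by simpa using h2)
    exact orderOf_dvd_iff_pow_eq_one.mp h3
  by_contra hne
  have hπ : x.π ≠ 1 := hne
  have hmap : ∀ z : Gam, (z ^ 81).π = z.π ^ 81 := by
    intro z
    have : ∀ n : ℕ, (z ^ n).π = z.π ^ n := by
      intro n
      induction n with
      | zero => rfl
      | succ n ih => rw [pow_succ, pow_succ, Gam.mul_π, ih]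
    exact this 81
  rcases rot_core x.π hπ with h | ⟨π', h⟩
  · apply h
    rw [← hmap, h81 x hx]
    rfl
  · apply h
    have hz : x * (⟨0, π'⟩ * x⁻¹ * (⟨0, π'⟩ : Gam)⁻¹) ∈ N := N.mul_mem hx (hN.conj_mem _ (N.inv_mem hx) _)
    have := hmap (x * (⟨0, π'⟩ * x⁻¹ * (⟨0, π'⟩ : Gam)⁻¹))
    rw [h81 _ hz] at this
    have e : (x * (⟨0, π'⟩ * x⁻¹ * (⟨0, π'⟩ : Gam)⁻¹)).π = x.π * π' * x.π⁻¹ * π'⁻¹ := by
      simp [mul_assoc]
    rw [e] at this
    exact this.symm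

end Cfsg.Agent.Lib.Nine.ModelA9
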