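import Mathlib
import Cfsg.Agent.Lib.Nine.ModelA9
import Cfsg.Agent.Lib.Nine.FrobT
import Cfsg.Agent.Lib.Nine.ConjSum
import Cfsg.Agent.Lib.Nine.Fuse

/-!
# The `3`-local analysis of a group containing `3³ : S₄` with a strongly closed `3³`
-/

set_option autoImplicit false
set_option linter.unusedSectionVars false
set_option linter.unusedVariables false
set_option linter.style.haveILetI false
set_option maxRecDepth 100000

namespace Cfsg.Agent.Lib.Nine.A9Local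

open Cfsg
open Cfsg.Agent.Lib.Nine.ModelA9
open Cfsg.Agent.Lib.Nine.FrobT
open DihedralGroup

universe u

variable {G : Type u} [Group G] [Finite G]

/-- The hypotheses on the embedding of the model. -/
structure Hyp (ι : Gam →* G) : Prop where
  inj : Function.Injective ι
  cent : ∀ x : Gam, x.π = 1 → x ≠ 1 → ∀ g : G, g * ι x = ι x * g → g ∈ ι.range
  sc : ∀ x : Gam, x.π = 1 → ∀ (g : G) (c : Gam), g * ι x * g⁻¹ = ι c → c.π = 1

variable {ι : Gam →* G}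

theorem card_cent (h : Hyp ι) {x : Gam} (hx : x.π = 1) (hx1 : x ≠ 1) :
    Nat.card (Subgroup.centralizer ({ι x} : Set G)) = ccard x := by
  classical
  have key : Nat.card {c : Gam // c * x = x * c} = Nat.card (Subgroup.centralizer ({ι x} : Set G)) := by
    refine Nat.card_congr (Equiv.ofBijective (fun c => ⟨ι c.1, ?_⟩) ⟨?_, ?_⟩)
    · rw [Subgroup.mem_centralizer_singleton_iff, ← map_mul, c.2, map_mul]
    · intro a b hab
      apply Subtype.ext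
      apply h.inj
      exact congrArg Subtype.val hab
    · rintro ⟨g, hg⟩
      rw [Subgroup.mem_centralizer_singleton_iff] at hg
      obtain ⟨c, rfl⟩ := h.cent x hx hx1 g hg
      refine ⟨⟨c, h.inj ?_⟩, rfl⟩
      rw [map_mul, map_mul, hg]
  rw [← key, ccard]
  exact Nat.subtype_card _ (fun c => by simp)

theorem card_cent_conj {a b g : G} (h : g * a * g⁻¹ = b) :
    Nat.card (Subgroup.centralizer ({a} : Set G)) = Nat.card (Subgroup.centralizer ({b} : Set G)) := by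
  subst h
  refine Nat.card_congr (Equiv.ofBijective (fun c => ⟨g * c.1 * g⁻¹, ?_⟩) ⟨?_, ?_⟩)
  · have := c.2
    rw [Subgroup.mem_centralizer_singleton_iff] at this ⊢
    calc g * c.1 * g⁻¹ * (g * a * g⁻¹) = g * (c.1 * a) * g⁻¹ := by group
      _ = g * (a * c.1) * g⁻¹ := by rw [this]
      _ = _ := by group
  · intro c d hcd
    apply Subtype.ext
    have : g * c.1 * g⁻¹ = g * d.1 * g⁻¹ := congrArg Subtype.val hcd
    simpa using this
  · rintro ⟨c, hc⟩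
    rw [Subgroup.mem_centralizer_singleton_iff] at hc
    refine ⟨⟨g⁻¹ * c * g, ?_⟩, ?_⟩
    · rw [Subgroup.mem_centralizer_singleton_iff]
      calc g⁻¹ * c * g * a = g⁻¹ * (c * (g * a * g⁻¹)) * g := by group
        _ = g⁻¹ * ((g * a * g⁻¹) * c) * g := by rw [hc]
        _ = _ := by group
    · apply Subtype.ext
      change g * (g⁻¹ * c * g) * g⁻¹ = c
      group

theorem ne_one_of_conj {a b g : G} (h : g * a * g⁻¹ = b) (ha : a ≠ 1) : b ≠ 1 := by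
  rintro rfl
  apply ha
  have : a = g⁻¹ * (g * a * g⁻¹) * g := by group
  rw [this, h]
  group

/-- **Trivial intersections.** -/
theorem ti (h : Hyp ι) {x x' : Gam} (hx : x.π = 1) (hx1 : x ≠ 1) (hx' : x'.π = 1) {g : G}
    (hg : g * ι x * g⁻¹ = ι x') : g ∈ ι.range := by
  have hι : ι x ≠ 1 := fun e => hx1 (h.inj (by rw [e, map_one]))
  have hx1' : x' ≠ 1 := by
    rintro rfl
    rw [map_one] at hg
    exact ne_one_of_conj hg hι rfl
  have h1 : ccard x = ccard x' := by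
    rw [← card_cent h hx hx1, ← card_cent h hx' hx1']
    exact card_cent_conj hg
  rw [T_cent x hx hx1, T_cent x' hx' hx1'] at h1
  have hw : wt x.v = wt x'.v := by
    rcases T_wt x hx hx1 with e | e | e <;> rcases T_wt x' hx' hx1' with e' | e' | e' <;>
      rw [e, e'] at h1 ⊢ <;> first | rfl | (exfalso; revert h1; decide)
  obtain ⟨c₁, hc₁⟩ := T_rep x hx hx1
  obtain ⟨c₂, hc₂⟩ := T_rep x' hx' hx1'
  rw [← hw] at hc₂
  have e : (ι c₂)⁻¹ * ι c₁ * ι x * (ι c₁)⁻¹ * ι c₂ = ι x' := by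
    have : c₂⁻¹ * c₁ * x * c₁⁻¹ * c₂ = x' := by
      have h2 : c₂⁻¹ * (c₁ * x * c₁⁻¹) * c₂ = x' := by
        rw [hc₁, ← hc₂]
        group
      rw [← h2]
      group
    rw [← this]
    simp [map_mul, map_inv]
  -- the element `(ι c)⁻¹ g` centralizes `ι x`
  have hm : ((ι c₂)⁻¹ * ι c₁)⁻¹ * g * ι x = ι x * (((ι c₂)⁻¹ * ι c₁)⁻¹ * g) := by
    have h3 : g * ι x * g⁻¹ = (ι c₂)⁻¹ * ι c₁ * ι x * ((ι c₂)⁻¹ * ι c₁)⁻¹ := by
      rw [hg, ← e]
      group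
    have h4 : g * ι x = (ι c₂)⁻¹ * ι c₁ * ι x * ((ι c₂)⁻¹ * ι c₁)⁻¹ * g := by
      rw [← h3]
      group
    calc ((ι c₂)⁻¹ * ι c₁)⁻¹ * g * ι x = ((ι c₂)⁻¹ * ι c₁)⁻¹ * (g * ι x) := by group
      _ = ((ι c₂)⁻¹ * ι c₁)⁻¹ * ((ι c₂)⁻¹ * ι c₁ * ι x * ((ι c₂)⁻¹ * ι c₁)⁻¹ * g) := by rw [h4]
      _ = _ := by group
  obtain ⟨d, hd⟩ := h.cent x hx hx1 _ hm
  refine ⟨c₂⁻¹ * c₁ * d, ?_⟩
  rw [map_mul, hd, map_mul, map_inv]
  group

/-- A power of a singular element lies in `T`. -/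
theorem ti_pow (h : Hyp ι) {w w' : Gam} (hw : inS2 w) (hw' : (w' ^ 3).π = 1) {g : G}
    (hg : g * ι w * g⁻¹ = ι w') : g ∈ ι.range := by
  obtain ⟨a, b⟩ := inS2_pow w hw
  refine ti h a b hw' (g := g) ?_
  rw [map_pow, map_pow, ← hg, conj_pow]

/-- The subgroup `Q`. -/
def Qs : Subgroup Gam where
  carrier := {x | isQ x}
  mul_mem' := fun {a b} ha hb => isQ_mul a ha b hb
  one_mem' := isQ_one
  inv_mem' := fun {a} ha => isQ_inv a ha

theorem mem_Qs {x : Gam} : x ∈ Qs ↔ isQ x := Iff.rfl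

/-- The image of `Q`. -/
def QQ (ι : Gam →* G) : Subgroup G := Qs.map ι

theorem mem_QQ {a : G} : a ∈ QQ ι ↔ ∃ x : Gam, isQ x ∧ ι x = a := Iff.rfl

def tt (ι : Gam →* G) : G := ι t₀
def gg (ι : Gam →* G) : G := ι g₀
def yy (ι : Gam →* G) : G := ι y₀

/-- The centralizer of `t`. -/
def CC (ι : Gam →* G) : Subgroup G := Subgroup.centralizer ({tt ι} : Set G)

theorem mem_CC {a : G} : a ∈ CC ι ↔ a * tt ι = tt ι * a := Subgroup.mem_centralizer_singleton_iff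

theorem QQ_le_CC : QQ ι ≤ CC ι := by
  rintro _ ⟨x, hx, rfl⟩
  rw [mem_CC, tt, ← map_mul, ← map_mul, isQ_comm x hx t₀ isQ_t₀]

theorem QQ_isP : IsPGroup 3 (QQ ι) := by
  rintro ⟨_, x, hx, rfl⟩
  refine ⟨1, ?_⟩
  apply Subtype.ext
  simp only [pow_one, SubmonoidClass.coe_pow, OneMemClass.coe_one]
  rw [← map_pow, isQ_pow3 x hx, map_one]

theorem QQ_comm : ∀ a ∈ QQ ι, ∀ b ∈ QQ ι, a * b = b * a := by
  rintro _ ⟨x, hx, rfl⟩ _ ⟨y, hy, rfl⟩
  rw [← map_mul, ← map_mul, isQ_comm x hx y hy]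

theorem QQ_selfnorm (h : Hyp ι) : ∀ n ∈ CC ι, (∀ q ∈ QQ ι, n * q * n⁻¹ ∈ QQ ι) → n ∈ QQ ι := by
  intro n hn hN
  obtain ⟨q, hq, he⟩ := hN (ι g₀) ⟨g₀, isQ_g₀, rfl⟩
  have hq1 : q.π = 1 := h.sc g₀ g₀_π n q he.symm
  obtain ⟨c, rfl⟩ := ti h g₀_π g₀_ne hq1 he.symm
  refine ⟨c, Q_of_comm c (h.inj ?_), rfl⟩
  rw [mem_CC] at hn
  rw [map_mul, map_mul]
  exact hn

/-- The normal complement in the centralizer of `t`. -/
structure TData (ι : Gam →* G) (T : Subgroup G) : Prop where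
  le : T ≤ CC ι
  dec : ∀ x ∈ CC ι, ∃ u ∈ T, ∃ q ∈ QQ ι, x = u * q
  disj : ∀ u ∈ T, u ∈ QQ ι → u = 1
  card : ¬ 3 ∣ Nat.card T
  ord : ∀ x ∈ CC ι, ¬ 3 ∣ orderOf x → x ∈ T
  norm : ∀ c ∈ CC ι, ∀ u ∈ T, c * u * c⁻¹ ∈ T

theorem exists_T (h : Hyp ι) : ∃ T : Subgroup G, TData ι T := by
  obtain ⟨T, h1, h2, h3, h4, h5, h6⟩ :=
    exists_complement (CC ι) (QQ ι) QQ_le_CC QQ_isP QQ_comm (QQ_selfnorm h)
  exact ⟨T, h1, h2, h3, h4, h5, h6⟩

variable {T : Subgroup G}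

theorem TData.comm (D : TData ι T) {u : G} (hu : u ∈ T) : u * tt ι = tt ι * u := mem_CC.mp (D.le hu)

theorem TData.not_dvd (D : TData ι T) {u : G} (hu : u ∈ T) : ¬ 3 ∣ orderOf u := by
  intro h3
  apply D.card
  refine dvd_trans h3 ?_
  have := Subgroup.orderOf_dvd_natCard T hu
  exact this

theorem gg_mem_CC : gg ι ∈ CC ι := QQ_le_CC ⟨g₀, isQ_g₀, rfl⟩
theorem tt_mem_CC : tt ι ∈ CC ι := QQ_le_CC ⟨t₀, isQ_t₀, rfl⟩

theorem TData.g_norm (D : TData ι T) : ∀ u ∈ T, gg ι * u * (gg ι)⁻¹ ∈ T := D.norm _ gg_mem_CC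

theorem TData.g_norm' (D : TData ι T) : ∀ u ∈ T, (gg ι)⁻¹ * u * ((gg ι)⁻¹)⁻¹ ∈ T :=
  D.norm _ ((CC ι).inv_mem gg_mem_CC)

theorem TData.fpf (h : Hyp ι) (D : TData ι T) : ∀ u ∈ T, u * gg ι = gg ι * u → u = 1 := by
  intro u hu hc
  obtain ⟨c, rfl⟩ := h.cent g₀ g₀_π g₀_ne u hc
  apply D.disj _ hu
  refine ⟨c, Q_of_comm c (h.inj ?_), rfl⟩
  rw [map_mul, map_mul]
  exact D.comm hu

theorem TData.fpf' (h : Hyp ι) (D : TData ι T) : ∀ u ∈ T, u * (gg ι)⁻¹ = (gg ι)⁻¹ * u → u = 1 := by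
  intro u hu hc
  apply D.fpf h u hu
  have : (gg ι) * (u * (gg ι)⁻¹) * gg ι = (gg ι) * ((gg ι)⁻¹ * u) * gg ι := by rw [hc]
  calc u * gg ι = gg ι * ((gg ι)⁻¹ * u) * gg ι := by group
    _ = gg ι * (u * (gg ι)⁻¹) * gg ι := by rw [hc]
    _ = gg ι * u := by group

/-- An element inverting `t` normalizes `T`. -/
theorem TData.inv_norm (D : TData ι T) {a : G} (ha : a * tt ι * a⁻¹ = (tt ι)⁻¹) : ∀ u ∈ T, a * u * a⁻¹ ∈ T := by
  intro u hu
  apply D.ord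
  · rw [mem_CC]
    have h0 : a * (tt ι)⁻¹ * a⁻¹ = tt ι := by
      have h5 : a * (tt ι)⁻¹ * a⁻¹ = (a * tt ι * a⁻¹)⁻¹ := by group
      rw [h5, ha, inv_inv]
    have h1 : a⁻¹ * tt ι * a = (tt ι)⁻¹ := by
      calc a⁻¹ * tt ι * a = a⁻¹ * (a * (tt ι)⁻¹ * a⁻¹) * a := by rw [h0]
        _ = _ := by group
    have e3 := D.comm hu
    have e4 : u * (tt ι)⁻¹ = (tt ι)⁻¹ * u := by
      rw [eq_inv_mul_iff_mul_eq, ← mul_assoc, ← e3]
      group
    calc a * u * a⁻¹ * tt ι = a * u * (a⁻¹ * tt ι * a) * a⁻¹ := by group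
      _ = a * (u * (tt ι)⁻¹) * a⁻¹ := by rw [h1]; group
      _ = a * ((tt ι)⁻¹ * u) * a⁻¹ := by rw [e4]
      _ = (a * (tt ι)⁻¹ * a⁻¹) * (a * u * a⁻¹) := by group
      _ = tt ι * (a * u * a⁻¹) := by rw [h0]
  · have e : orderOf (a * u * a⁻¹) = orderOf u :=
      orderOf_injective (MulAut.conj a).toMonoidHom (MulAut.conj a).injective u
    rw [e]
    exact D.not_dvd hu

theorem yy_t : yy ι * tt ι * (yy ι)⁻¹ = (tt ι)⁻¹ := by
  rw [yy, tt, ← map_inv, ← map_mul, ← map_mul, ← map_inv, y_t]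

theorem yy_g : yy ι * gg ι * (yy ι)⁻¹ = (gg ι)⁻¹ := by
  rw [yy, gg, ← map_inv, ← map_mul, ← map_mul, ← map_inv, y_g]

/-- Involutions inverting `t` are conjugate to `y`. -/
theorem TData.conj_y (h : Hyp ι) (D : TData ι T) {v : G} (hv2 : v * v = 1) (hvt : v * tt ι * v⁻¹ = (tt ι)⁻¹) :
    IsConj (yy ι) v := by
  refine conj_of_involution (g := gg ι) (Q := QQ ι) (T := T) (t := tt ι) (fun x hx => D.dec x (mem_CC.mpr hx)) D.g_norm (D.fpf h)
    ?_ ?_ yy_t ?_ ?_ QQ_comm ⟨g₀, isQ_g₀, rfl⟩ hv2 hvt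
  · rw [gg, ← map_pow, g₀_pow3, map_one]
  · rw [yy, ← map_mul, ← pow_two, y₀_sq, map_one]
  · rintro _ ⟨x, hx, rfl⟩
    rw [← map_pow, isQ_pow3 x hx, map_one]
  · rintro _ ⟨x, hx, rfl⟩
    rw [yy, ← map_inv, ← map_mul, ← map_mul, ← map_inv, isQ_y x hx]

/-- A `3`-subgroup containing `e` lies in the image of the model. -/
theorem sub_range (h : Hyp ι) {R : Subgroup G} (hR : IsPGroup 3 R) (he : ι e₀ ∈ R) : R ≤ ι.range := by
  haveI : Fact (Nat.Prime 3) := ⟨Nat.prime_three⟩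
  have he1 : ι e₀ ≠ 1 := fun e => e₀_ne (h.inj (by rw [e, map_one]))
  haveI : Nontrivial R := ⟨⟨⟨ι e₀, he⟩, 1, fun e => he1 (congrArg Subtype.val e)⟩⟩
  haveI hnt : Nontrivial (Subgroup.center R) := hR.center_nontrivial
  have hpc : IsPGroup 3 (Subgroup.center R) := hR.to_subgroup (Subgroup.center R)
  have h3 : 3 ∣ Nat.card (Subgroup.center R) := by
    rcases hpc.card_eq_or_dvd with h1 | h1
    · exact absurd h1 (Finite.one_lt_card).ne'
    · exact h1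
  obtain ⟨z, hz⟩ := exists_prime_orderOf_dvd_card' 3 h3
  have hz3 : orderOf (z : G) = 3 := by
    have e1 : orderOf ((z : R) : G) = orderOf (z : R) := Subgroup.orderOf_coe _
    have e2 : orderOf (z : R) = orderOf z := Subgroup.orderOf_coe _
    rw [e1, e2, hz]
  have hcomm : ∀ r : R, (z : R) * r = r * (z : R) := fun r => ((Subgroup.mem_center_iff.mp z.2) r).symm
  have hze : ((z : R) : G) * ι e₀ = ι e₀ * ((z : R) : G) :=
    congrArg Subtype.val (hcomm ⟨ι e₀, he⟩)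
  obtain ⟨c, hc⟩ := h.cent e₀ e₀_π e₀_ne _ hze
  have hc3 : c ^ 3 = 1 := by
    apply h.inj
    rw [map_pow, hc, map_one, ← hz3]
    exact pow_orderOf_eq_one _
  have hc1 : c ≠ 1 := by
    rintro rfl
    rw [map_one] at hc
    rw [← hc, orderOf_one] at hz3
    omega
  have hcπ : c.π = 1 := cent_e₀ c (h.inj (by rw [map_mul, map_mul, hc]; exact hze)) hc3
  intro r hr
  refine h.cent c hcπ hc1 r ?_
  rw [hc]
  exact (congrArg Subtype.val (hcomm ⟨r, hr⟩)).symm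

/-- Non-fusion of the classes of involutions. -/
theorem not_conj (h : Hyp ι) : ¬ IsConj (ι y₀) (ι y₂) := by
  intro hc
  obtain ⟨g, hg⟩ := isConj_iff.mp hc
  set D := Subgroup.centralizer ({ι y₂} : Set G) with hD
  have hu : g * ι f₀ * g⁻¹ ∈ D := by
    rw [hD, Subgroup.mem_centralizer_singleton_iff, ← hg]
    have : ι f₀ * ι y₀ = ι y₀ * ι f₀ := by
      rw [← map_mul, ← map_mul, y₀_f₀]
    calc g * ι f₀ * g⁻¹ * (g * ι y₀ * g⁻¹) = g * (ι f₀ * ι y₀) * g⁻¹ := by group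
      _ = g * (ι y₀ * ι f₀) * g⁻¹ := by rw [this]
      _ = _ := by group
  have hyH : ι e₀ ∈ D := by
    rw [hD, Subgroup.mem_centralizer_singleton_iff, ← map_mul, ← map_mul, y₂_e₀]
  let uH : D := ⟨_, hu⟩
  let yH : D := ⟨_, hyH⟩
  have hu3 : uH ^ 3 = 1 := by
    apply Subtype.ext
    change (g * ι f₀ * g⁻¹) ^ 3 = 1
    rw [conj_pow, ← map_pow, f₀_pow3]
    simp
  have hy3 : yH ^ 3 = 1 := by
    apply Subtype.ext
    change (ι e₀) ^ 3 = 1
    rw [← map_pow, e₀_pow3]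
    simp
  have hf1 : ι f₀ ≠ 1 := fun e => f₀_ne (h.inj (by rw [e, map_one]))
  have hu1 : uH ≠ 1 := by
    intro h1
    have h2 : g * ι f₀ * g⁻¹ = 1 := congrArg Subtype.val h1
    exact ne_one_of_conj h2 hf1 rfl
  have hyH1 : yH ≠ 1 := by
    intro h1
    have h2 : ι e₀ = 1 := congrArg Subtype.val h1
    exact e₀_ne (h.inj (by rw [h2, map_one]))
  haveI : Fact (Nat.Prime 3) := ⟨Nat.prime_three⟩
  have pG : ∀ a : D, a ^ 3 = 1 → a ≠ 1 → IsPGroup 3 (Subgroup.zpowers a) := by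
    intro a h3 h1
    refine IsPGroup.of_card (n := 1) ?_
    rw [Nat.card_zpowers, pow_one]
    exact orderOf_eq_prime h3 h1
  obtain ⟨Q₁, hQ₁⟩ := (pG yH hy3 hyH1).exists_le_sylow
  obtain ⟨Q₂, hQ₂⟩ := (pG uH hu3 hu1).exists_le_sylow
  obtain ⟨h₀, hh₀⟩ := MulAction.exists_smul_eq D Q₂ Q₁
  have hv : h₀ * uH * h₀⁻¹ ∈ (Q₁ : Subgroup D) := by
    rw [← hh₀, Sylow.smul_def, Sylow.pointwise_smul_def]
    exact ⟨uH, hQ₂ (Subgroup.mem_zpowers uH), rfl⟩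
  have hQp : IsPGroup 3 ((Q₁ : Subgroup D).map D.subtype) := Q₁.2.map D.subtype
  have hR := sub_range h hQp (R := (Q₁ : Subgroup D).map D.subtype)
    ⟨yH, hQ₁ (Subgroup.mem_zpowers yH), rfl⟩
  obtain ⟨x, hxe⟩ := hR (x := ((h₀ * uH * h₀⁻¹ : D) : G)) ⟨_, hv, rfl⟩
  have hx3 : x ^ 3 = 1 := by
    apply h.inj
    rw [map_pow, hxe, map_one]
    have : ((h₀ * uH * h₀⁻¹ : D)) ^ 3 = 1 := by
      rw [conj_pow, hu3]
      group
    exact congrArg Subtype.val this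
  have hxσ : x * y₂ = y₂ * x := by
    apply h.inj
    rw [map_mul, map_mul, hxe]
    have := (h₀ * uH * h₀⁻¹ : D).2
    exact Subgroup.mem_centralizer_singleton_iff.mp this
  have hx1 : x ≠ 1 := by
    rintro rfl
    rw [map_one] at hxe
    have h2 : h₀ * uH * h₀⁻¹ = 1 := Subtype.ext hxe.symm
    apply hu1
    have : uH = h₀⁻¹ * (h₀ * uH * h₀⁻¹) * h₀ := by group
    rw [this, h2]
    group
  have hconj : ((h₀ : G) * g) * ι f₀ * ((h₀ : G) * g)⁻¹ = ι x := by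
    rw [hxe]
    simp [uH]
    group
  have hxπ : x.π = 1 := h.sc f₀ f₀_π _ x hconj
  obtain ⟨c, hc'⟩ := ti h f₀_π f₀_ne hxπ hconj
  have hcc : c * f₀ * c⁻¹ = x := by
    apply h.inj
    rw [map_mul, map_mul, map_inv, hc', hconj]
  rcases cent_y₂ x hxσ hx3 hx1 with h5 | h5
  · exact (f_e_nconj c).1 (by rw [hcc, h5])
  · exact (f_e_nconj c).2 (by rw [hcc, h5])

theorem conj_sq {a p : G} (ha : a * a = 1) (hp : IsConj a p) : p * p = 1 := by
  obtain ⟨c, rfl⟩ := isConj_iff.mp hp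
  calc c * a * c⁻¹ * (c * a * c⁻¹) = c * (a * a) * c⁻¹ := by group
    _ = 1 := by rw [ha]; group

theorem y₂_mul : ι y₂ * ι y₂ = 1 := by
  rw [← map_mul, ← pow_two, y₂_sq, map_one]

theorem inv_of_pair {p q : G} (hp : p * p = 1) (hq : q * q = 1) : p * (p * q) * p⁻¹ = (p * q)⁻¹ := by
  have hpi : p⁻¹ = p := inv_eq_of_mul_eq_one_left hp
  have hqi : q⁻¹ = q := inv_eq_of_mul_eq_one_left hq
  rw [mul_inv_rev, hpi, hqi, ← mul_assoc, hp, one_mul]

/-- No pair of conjugates of `y₂` has product an element of order nine of the model. -/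
theorem no_pair_S2 (h : Hyp ι) {w : Gam} (hw : inS2 w) {p q : G} (hp : IsConj (ι y₂) p) (hq : IsConj (ι y₂) q)
    (he : p * q = ι w) : False := by
  have hp2 := conj_sq y₂_mul hp
  have hq2 := conj_sq y₂_mul hq
  have h1 := inv_of_pair hp2 hq2
  rw [he, ← map_inv] at h1
  have h2 : ((w⁻¹) ^ 3).π = 1 := by
    rw [inv_pow, Gam.inv_π, (inS2_pow w hw).1, inv_one]
  obtain ⟨a, rfl⟩ := ti_pow h hw h2 h1
  have hb : ι (a⁻¹ * w) = q := by
    rw [map_mul, map_inv, ← he]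
    group
  have hcl : ∀ x : Gam, IsConj (ι y₂) (ι x) → x.π.p = 1 := by
    intro x hx
    have hx2 : x * x = 1 := h.inj (by rw [map_mul, map_one]; exact conj_sq y₂_mul hx)
    have hx1 : x ≠ 1 := by
      rintro rfl
      rw [map_one] at hx
      obtain ⟨c, hc⟩ := isConj_iff.mp hx
      exact ne_one_of_conj hc (fun e => y₂_ne (h.inj (by rw [e, map_one]))) rfl
    rcases inv_class x hx2 hx1 with h3 | ⟨c, hc⟩
    · exact h3
    · exfalso
      apply not_conj h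
      have h4 : IsConj (ι x) (ι y₀) := isConj_iff.mpr ⟨ι c, by
        rw [← hc]
        simp [map_mul, map_inv]⟩
      exact h4.symm.trans hx.symm
  have ha := hcl a hp
  have hb' := hcl (a⁻¹ * w) (by rw [hb]; exact hq)
  have hw1 : (a * (a⁻¹ * w)).π.p = 1 := by
    rw [Gam.mul_π, Rot.mul_p, ha, hb', one_mul]
  rw [mul_inv_cancel_left] at hw1
  rcases hw.1 with h5 | h5
  · rw [h5] at hw1
    exact absurd hw1 (by decide)
  · rw [h5] at hw1
    exact absurd hw1 (by decide)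

/-- The power isolating `t`. -/
theorem TData.pow_eq (D : TData ι T) {u : G} (hu : u ∈ T) : (tt ι * u) ^ ((Nat.card T) ^ 2) = tt ι := by
  have hc : Commute (tt ι) u := (D.comm hu).symm
  rw [hc.mul_pow]
  have h1 : u ^ ((Nat.card T) ^ 2) = 1 := by
    rw [pow_two, pow_mul]
    have : u ^ Nat.card T = 1 := orderOf_dvd_iff_pow_eq_one.mp (Subgroup.orderOf_dvd_natCard T hu)
    rw [this, one_pow]
  rw [h1, mul_one]
  have h3 : tt ι ^ 3 = 1 := by
    rw [tt, ← map_pow, t₀_pow3, map_one]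
  have h4 : (Nat.card T) ^ 2 % 3 = 1 := by
    have h5 := D.card
    have h6 : Nat.card T % 3 = 1 ∨ Nat.card T % 3 = 2 := by omega
    rw [Nat.pow_mod]
    rcases h6 with e | e <;> rw [e]
  rw [pow_eq_pow_mod _ h3, h4, pow_one]

/-- No pair of conjugates of `y₂` has product in `t T`. -/
theorem no_pair_T (h : Hyp ι) (D : TData ι T) {u : G} (hu : u ∈ T) {p q : G} (hp : IsConj (ι y₂) p)
    (hq : IsConj (ι y₂) q) (he : p * q = tt ι * u) : False := by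
  have hp2 := conj_sq y₂_mul hp
  have hq2 := conj_sq y₂_mul hq
  have h1 := inv_of_pair hp2 hq2
  rw [he] at h1
  have hk := D.pow_eq hu
  have h2 : p * tt ι * p⁻¹ = (tt ι)⁻¹ := by
    conv_lhs => rw [← hk]
    rw [← conj_pow, h1, inv_pow, hk]
  have h3 := D.conj_y h hp2 h2
  exact not_conj h (h3.trans hp.symm)

/-- Elements conjugating one element of `t T` to another centralize `t`. -/
theorem TData.mem_CC_of_conj (D : TData ι T) {u u' : G} (hu : u ∈ T) (hu' : u' ∈ T) {g : G}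
    (hg : g * (tt ι * u) * g⁻¹ = tt ι * u') : g ∈ CC ι := by
  rw [mem_CC]
  have h1 : g * tt ι * g⁻¹ = tt ι := by
    conv_lhs => rw [← D.pow_eq hu]
    rw [← conj_pow, hg, D.pow_eq hu']
  rw [← mul_inv_eq_iff_eq_mul]
  exact h1

end Cfsg.Agent.Lib.Nine.A9Local
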