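import Mathlib
import Cfsg.Agent.Lib.Nine.A9Local

/-!
# The integrality of the sums over the two parts of the norm three character
-/

set_option autoImplicit false
set_option linter.unusedSectionVars false
set_option linter.unusedVariables false
set_option linter.style.haveILetI false
set_option maxRecDepth 100000

namespace Cfsg.Agent.Lib.Nine.A9Sum

open Cfsg
open Cfsg.Agent.Lib.Nine.ModelA9
open Cfsg.Agent.Lib.Nine.A9Local
open Cfsg.Agent.Lib.Nine.FrobT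
open Cfsg.Agent.Lib.Nine.ConjSum
open DihedralGroup

universe u

variable {G : Type u} [Group G] [Fintype G] {ι : Gam →* G} {T : Subgroup G}

/-- The complement `S₃` in `G`. -/
def ρι (ι : Gam →* G) : S3 →* G := ι.comp cS

theorem ρι_inj (h : Hyp ι) : Function.Injective (ρι ι) := h.inj.comp cS_inj

theorem ρι_r1 : ρι ι (r 1) = tt ι := rfl

theorem cS_t : ∀ d : S3, cS d * t₀ * (cS d)⁻¹ = t₀ ∨ cS d * t₀ * (cS d)⁻¹ = t₀⁻¹ := by decide +kernel

theorem ρι_norm (D : TData ι T) : ∀ d, ∀ u ∈ T, ρι ι d * u * (ρι ι d)⁻¹ ∈ T := by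
  intro d u hu
  rcases cS_t d with e | e
  · refine D.norm _ ?_ u hu
    rw [mem_CC]
    have : ι (cS d) * ι t₀ * (ι (cS d))⁻¹ = ι t₀ := by
      rw [← map_inv, ← map_mul, ← map_mul, e]
    exact mul_inv_eq_iff_eq_mul.mp this
  · refine D.inv_norm ?_ u hu
    change ι (cS d) * ι t₀ * (ι (cS d))⁻¹ = (ι t₀)⁻¹
    rw [← map_inv, ← map_mul, ← map_mul, e, map_inv]

/-- The subgroup generated by `g₀`. -/
def Dg : Subgroup Gam where
  carrier := {x | x = 1 ∨ x = g₀ ∨ x = g₀⁻¹}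
  mul_mem' := by
    have h : ∀ a : Gam, (a = 1 ∨ a = g₀ ∨ a = g₀⁻¹) → ∀ b : Gam, (b = 1 ∨ b = g₀ ∨ b = g₀⁻¹) →
      (a * b = 1 ∨ a * b = g₀ ∨ a * b = g₀⁻¹) := by decide +kernel
    exact fun {a b} ha hb => h a ha b hb
  one_mem' := Or.inl rfl
  inv_mem' := by
    have h : ∀ a : Gam, (a = 1 ∨ a = g₀ ∨ a = g₀⁻¹) → (a⁻¹ = 1 ∨ a⁻¹ = g₀ ∨ a⁻¹ = g₀⁻¹) := by decide +kernel
    exact fun {a} ha => h a ha

theorem mem_Dg {x : Gam} : x ∈ Dg ↔ x = 1 ∨ x = g₀ ∨ x = g₀⁻¹ := Iff.rfl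

theorem Dg_isQ : ∀ x : Gam, (x = 1 ∨ x = g₀ ∨ x = g₀⁻¹) → isQ x := by decide +kernel
theorem Dg_p : ∀ x : Gam, (x = 1 ∨ x = g₀ ∨ x = g₀⁻¹) → x.π.p = 1 := by decide +kernel
theorem Dg_conj : ∀ d : S3, ∀ x : Gam, (x = 1 ∨ x = g₀ ∨ x = g₀⁻¹) →
    (cS d * x * (cS d)⁻¹ = 1 ∨ cS d * x * (cS d)⁻¹ = g₀ ∨ cS d * x * (cS d)⁻¹ = g₀⁻¹) := by decide +kernel

def ρg (ι : Gam →* G) : Dg →* G := ι.comp Dg.subtype

theorem ρg_inj (h : Hyp ι) : Function.Injective (ρg ι) := h.inj.comp Dg.subtype_injective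

theorem ρg_mem (d : Dg) : ρg ι d ∈ QQ ι := ⟨d.1, Dg_isQ _ d.2, rfl⟩

theorem ρg_norm (D : TData ι T) : ∀ d, ∀ u ∈ T, ρg ι d * u * (ρg ι d)⁻¹ ∈ T :=
  fun d => D.norm _ (QQ_le_CC (ρg_mem d))

theorem ρg_T (h : Hyp ι) (D : TData ι T) : ∀ d : Dg, ρg ι d ∈ T → d = 1 := by
  intro d hd
  have h1 := D.disj _ hd (ρg_mem d)
  apply Subtype.ext
  apply h.inj
  change ι d.1 = ι 1
  rw [map_one]
  exact h1

/-- The subgroup `X = T ⟨g⟩`. -/
def XX (D : TData ι T) : Subgroup G := prodSub T (ρg ι) (ρg_norm D)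

theorem card_Dg : Nat.card Dg = 3 := by
  have := Nat.subtype_card (p := (· ∈ Dg)) ({1, g₀, g₀⁻¹} : Finset Gam) (fun x => by
    simp only [Finset.mem_insert, Finset.mem_singleton]
    rfl)
  refine this.trans ?_
  decide +kernel

theorem XX_norm (D : TData ι T) : ∀ d, ∀ x ∈ XX D, ρι ι d * x * (ρι ι d)⁻¹ ∈ XX D := by
  rintro d _ ⟨u, hu, h₁, rfl⟩
  refine ⟨ρι ι d * u * (ρι ι d)⁻¹, ρι_norm D d u hu,
    ⟨cS d * h₁.1 * (cS d)⁻¹, Dg_conj d _ h₁.2⟩, ?_⟩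
  change ρι ι d * (u * ι h₁.1) * (ρι ι d)⁻¹ = ρι ι d * u * (ρι ι d)⁻¹ * ι (cS d * h₁.1 * (cS d)⁻¹)
  rw [map_mul, map_mul, map_inv]
  change ι (cS d) * (u * ι h₁.1) * (ι (cS d))⁻¹ =
    ι (cS d) * u * (ι (cS d))⁻¹ * (ι (cS d) * ι h₁.1 * (ι (cS d))⁻¹)
  group

theorem XX_le (D : TData ι T) : XX D ≤ CC ι := by
  rintro _ ⟨u, hu, h₁, rfl⟩
  exact (CC ι).mul_mem (D.le hu) (QQ_le_CC (ρg_mem h₁))

theorem XX_rho (h : Hyp ι) (D : TData ι T) : ∀ d, ρι ι d ∈ XX D → d = 1 := by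
  rintro d hd
  have h1 : cS d * t₀ = t₀ * cS d := by
    apply h.inj
    rw [map_mul, map_mul]
    exact mem_CC.mp (XX_le D hd)
  have h2 := Q_of_comm _ h1
  obtain ⟨u, hu, h₁, he⟩ := hd
  have h3 : u = ι (cS d * (h₁.1)⁻¹) := by
    rw [map_mul, map_inv]
    have he' : ι (cS d) = u * ι h₁.1 := he
    rw [he']
    group
  have h4 := D.disj u hu ⟨_, isQ_mul _ h2 _ (isQ_inv _ (Dg_isQ _ h₁.2)), h3.symm⟩
  rw [h4] at he
  have h5 : cS d = h₁.1 := by
    apply h.inj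
    have he' : ι (cS d) = 1 * ι h₁.1 := he
    rw [he', one_mul]
  have h6 := Dg_p _ h₁.2
  rw [← h5, cS_p] at h6
  exact h6

/-- The sum over `t T`. -/
theorem T_part [Fintype T] (h : Hyp ι) (D : TData ι T) {χ : G → ℂ} (hχ : IsCharacter G χ) :
    ∃ B : ℤ, tw T χ (tt ι) = (Nat.card T : ℂ) * (3 * B - 2 * χ (tt ι)) := by
  classical
  letI : Fintype (XX D) := Fintype.ofFinite _
  have hcl : ∀ a g, χ (g * a * g⁻¹) = χ a := fun a g =>
    Cfsg.Agent.Lib.Char.Basic.isClassFunction_of_isCharacter hχ a g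
  obtain ⟨B, hB, -⟩ := lemmaA (XX D) (ρι ι) (ρι_inj h) (XX_norm D) (XX_rho h D) hχ
  refine ⟨B, ?_⟩
  have hcard : Nat.card (XX D) = Nat.card T * 3 := by
    have := card_prodSub (Λ := T) (ρ := ρg ι) (h := ρg_norm D) (ρg_inj h) (ρg_T h D)
    rw [card_Dg] at this
    exact this
  rw [hcard, ρι_r1] at hB
  letI iD : Fintype Dg := Fintype.ofFinite _
  have e1 : tw (XX D) χ (tt ι) = ∑ d : Dg, ∑ u : T, χ ((u : G) * ρg ι d * tt ι) := by
    letI i2 : Fintype (prodSub T (ρg ι) (ρg_norm D)) := ‹Fintype (XX D)›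
    exact sum_prodSub (Λ := T) (ρ := ρg ι) (h := ρg_norm D) (ρg_inj h) (ρg_T h D) (fun a => χ (a * tt ι))
  have e2 : ∑ d : Dg, ∑ u : T, χ ((u : G) * ρg ι d * tt ι) =
      ∑ d ∈ ({1, g₀, g₀⁻¹} : Finset Gam), ∑ u : T, χ ((u : G) * ι d * tt ι) := by
    have := Finset.sum_subtype (F := iD) (p := (· ∈ Dg)) ({1, g₀, g₀⁻¹} : Finset Gam) (fun x => by
      simp only [Finset.mem_insert, Finset.mem_singleton]
      rfl) (fun d => ∑ u : T, χ ((u : G) * ι d * tt ι))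
    rw [this]
    rfl
  have hclass : ∀ a b : G, IsConj a b → χ a = χ b := by
    intro a b hab
    obtain ⟨c, rfl⟩ := isConj_iff.mp hab
    exact (hcl a c).symm
  have hcg : χ (gg ι * tt ι) = χ (tt ι) := by
    obtain ⟨c, hc⟩ := gt_class
    apply hclass
    refine isConj_iff.mpr ⟨ι c, ?_⟩
    rw [gg, tt, ← map_mul, ← map_inv, ← map_mul, ← map_mul, hc]
  have hcg' : χ ((gg ι)⁻¹ * tt ι) = χ (tt ι) := by
    obtain ⟨c, hc⟩ := gt_class'
    apply hclass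
    refine isConj_iff.mpr ⟨ι c, ?_⟩
    rw [gg, tt, ← map_inv, ← map_mul, ← map_inv, ← map_mul, ← map_mul, hc]
  have t1 : ∑ u : T, χ ((u : G) * ι 1 * tt ι) = tw T χ (tt ι) := by
    rw [tw]
    refine Finset.sum_congr rfl fun u _ => ?_
    rw [map_one, mul_one]
  have t2 : ∑ u : T, χ ((u : G) * ι g₀ * tt ι) = (Nat.card T : ℂ) * χ (tt ι) := by
    have : ∀ u ∈ (Finset.univ : Finset T), χ ((u : G) * ι g₀ * tt ι) = χ (tt ι) := by
      intro u _
      obtain ⟨c, hc, he⟩ := exists_conj_eq D.g_norm (D.fpf h) u.2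
      have he' : (u : G) * ι g₀ = c * gg ι * c⁻¹ := he
      rw [he', ← hcg]
      have e3 : c * gg ι * c⁻¹ * tt ι = c * (gg ι * tt ι) * c⁻¹ := by
        have e4 : c⁻¹ * tt ι = tt ι * c⁻¹ := by
          have := D.comm ((T).inv_mem hc)
          exact this
        calc c * gg ι * c⁻¹ * tt ι = c * gg ι * (c⁻¹ * tt ι) := by group
          _ = c * gg ι * (tt ι * c⁻¹) := by rw [e4]
          _ = _ := by group
      rw [e3, hcl]
    rw [Finset.sum_congr rfl this, Finset.sum_const, Finset.card_univ, nsmul_eq_mul, Nat.card_eq_fintype_card]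
  have t3 : ∑ u : T, χ ((u : G) * ι g₀⁻¹ * tt ι) = (Nat.card T : ℂ) * χ (tt ι) := by
    have : ∀ u ∈ (Finset.univ : Finset T), χ ((u : G) * ι g₀⁻¹ * tt ι) = χ (tt ι) := by
      intro u _
      obtain ⟨c, hc, he⟩ := exists_conj_eq D.g_norm' (D.fpf' h) u.2
      have he' : (u : G) * ι g₀⁻¹ = c * (gg ι)⁻¹ * c⁻¹ := by
        rw [map_inv]
        exact he
      rw [he', ← hcg']
      have e3 : c * (gg ι)⁻¹ * c⁻¹ * tt ι = c * ((gg ι)⁻¹ * tt ι) * c⁻¹ := by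
        have e4 : c⁻¹ * tt ι = tt ι * c⁻¹ := by
          have := D.comm ((T).inv_mem hc)
          exact this
        calc c * (gg ι)⁻¹ * c⁻¹ * tt ι = c * (gg ι)⁻¹ * (c⁻¹ * tt ι) := by group
          _ = c * (gg ι)⁻¹ * (tt ι * c⁻¹) := by rw [e4]
          _ = _ := by group
      rw [e3, hcl]
    rw [Finset.sum_congr rfl this, Finset.sum_const, Finset.card_univ, nsmul_eq_mul, Nat.card_eq_fintype_card]
  have e5 : tw (XX D) χ (tt ι) = tw T χ (tt ι) + 2 * (Nat.card T : ℂ) * χ (tt ι) := by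
    rw [e1, e2, Finset.sum_insert (by decide +kernel), Finset.sum_insert (by decide +kernel), Finset.sum_singleton,
      t1, t2, t3]
    ring
  rw [e5] at hB
  push_cast at hB
  linear_combination hB

/-- The kernel of the map to `S₃`, in `G`. -/
def Lam (ι : Gam →* G) : Subgroup G := ψ.ker.map ι

theorem sum_map (hinj : Function.Injective ι) (S : Subgroup Gam) (P : Gam → Prop) [DecidablePred P]
    (hP : ∀ x, x ∈ S ↔ P x) [iS : Fintype (S.map ι)] (f : G → ℂ) :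
    ∑ u : S.map ι, f u = ∑ x ∈ Finset.univ.filter P, f (ι x) := by
  classical
  have h1 := Finset.sum_subtype (F := iS) (p := (· ∈ S.map ι)) ((Finset.univ.filter P).image ι) (fun a => by
    simp only [Finset.mem_image, Finset.mem_filter, Finset.mem_univ, true_and]
    constructor
    · rintro ⟨x, hx, rfl⟩
      exact ⟨x, (hP x).mpr hx, rfl⟩
    · rintro ⟨x, hx, rfl⟩
      exact ⟨x, (hP x).mp hx, rfl⟩) f
  rw [Finset.sum_image (fun a _ b _ e => hinj e)] at h1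
  exact h1.symm

theorem Lam_sum [iL : Fintype (Lam ι)] (h : Hyp ι) (χ : G → ℂ) (d : S3) :
    tw (Lam ι) χ (ρι ι d) = ∑ w ∈ Finset.univ.filter (fun w : Gam => w.π.p = d), χ (ι w) := by
  rw [tw]
  letI i2 : Fintype (ψ.ker.map ι) := iL
  have h1 := sum_map (ι := ι) h.inj ψ.ker (fun x => x.π.p = 1) (fun x => MonoidHom.mem_ker)
    (fun a => χ (a * ρι ι d))
  refine h1.trans ?_
  refine Finset.sum_nbij' (fun x => x * cS d) (fun w => w * (cS d)⁻¹) ?_ ?_ ?_ ?_ ?_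
  · intro x hx
    have hx' : x.π.p = 1 := (Finset.mem_filter.mp hx).2
    simp only [Finset.mem_filter, Finset.mem_univ, true_and]
    rw [Gam.mul_π, Rot.mul_p, hx', cS_p, one_mul]
  · intro w hw
    have hw' : w.π.p = d := (Finset.mem_filter.mp hw).2
    simp only [Finset.mem_filter, Finset.mem_univ, true_and]
    rw [Gam.mul_π, Rot.mul_p, hw', Gam.inv_π, Rot.inv_p, cS_p, mul_inv_cancel]
  · intro x _
    simp
  · intro w _
    simp
  · intro x _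
    rw [map_mul]
    rfl

theorem Lam_card (h : Hyp ι) : Nat.card (Lam ι) = 108 := by
  rw [Lam, Subgroup.card_map_of_injective h.inj]
  have := Nat.subtype_card (p := (· ∈ ψ.ker)) (Finset.univ.filter (fun x : Gam => x.π.p = 1)) (fun x => by
    simp only [Finset.mem_filter, Finset.mem_univ, true_and]
    exact Iff.rfl)
  refine this.trans ?_
  decide +kernel

theorem Lam_norm : ∀ d, ∀ x ∈ Lam ι, ρι ι d * x * (ρι ι d)⁻¹ ∈ Lam ι := by
  rintro d _ ⟨x, hx, rfl⟩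
  refine ⟨cS d * x * (cS d)⁻¹, ?_, ?_⟩
  · exact (MonoidHom.normal_ker ψ).conj_mem _ hx _
  · rw [map_mul, map_mul, map_inv]
    rfl

theorem Lam_rho (h : Hyp ι) : ∀ d, ρι ι d ∈ Lam ι → d = 1 := by
  rintro d ⟨x, hx, he⟩
  have h1 : x = cS d := h.inj he
  have h2 : x.π.p = 1 := hx
  rw [h1, cS_p] at h2
  exact h2

/-- The sum over the elements of order nine. -/
theorem Lam_part (h : Hyp ι) {χ : G → ℂ} (hχ : IsCharacter G χ) :
    ∃ A : ℤ, ∑ w ∈ S2set, χ (ι w) = 216 * (A : ℂ) - 72 * χ (tt ι) := by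
  classical
  letI : Fintype (Lam ι) := Fintype.ofFinite _
  have hcl : ∀ a g, χ (g * a * g⁻¹) = χ a := fun a g =>
    Cfsg.Agent.Lib.Char.Basic.isClassFunction_of_isCharacter hχ a g
  obtain ⟨A, h1, h2⟩ := lemmaA (Lam ι) (ρι ι) (ρι_inj h) Lam_norm (Lam_rho h) hχ
  rw [Lam_card h, Lam_sum h] at h1 h2
  refine ⟨A, ?_⟩
  have hsplit : ∀ k : S3, k = r 1 ∨ k = r 2 → ∑ w ∈ Finset.univ.filter (fun w : Gam => w.π.p = k), χ (ι w) =
      36 * χ (tt ι) + ∑ w ∈ Finset.univ.filter (fun w : Gam => w.π.p = k ∧ w ^ 3 ≠ 1), χ (ι w) := by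
    intro k hk
    rw [← Finset.sum_filter_add_sum_filter_not (Finset.univ.filter (fun w : Gam => w.π.p = k)) (fun w => w ^ 3 = 1),
      Finset.filter_filter, Finset.filter_filter]
    congr 1
    have hv : ∀ w ∈ Finset.univ.filter (fun w : Gam => w.π.p = k ∧ w ^ 3 = 1), χ (ι w) = χ (tt ι) := by
      intro w hw
      obtain ⟨-, h3, h4⟩ : w ∈ Finset.univ ∧ w.π.p = k ∧ w ^ 3 = 1 := by
        simpa using hw
      obtain ⟨c, hc⟩ := p_pow3 w (by rw [h3]; exact hk) h4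
      rw [tt, ← hc, map_mul, map_mul, map_inv, hcl]
    rw [Finset.sum_congr rfl hv, Finset.sum_const, nsmul_eq_mul]
    congr 1
    rcases hk with rfl | rfl
    · rw [card_r1_pow]
      norm_num
    · rw [card_r2_pow]
      norm_num
  have e1 := hsplit (r 1) (Or.inl rfl)
  have e2 := hsplit (r 2) (Or.inr rfl)
  have e3 : ∑ w ∈ S2set, χ (ι w) =
      ∑ w ∈ Finset.univ.filter (fun w : Gam => w.π.p = r 1 ∧ w ^ 3 ≠ 1), χ (ι w) +
      ∑ w ∈ Finset.univ.filter (fun w : Gam => w.π.p = r 2 ∧ w ^ 3 ≠ 1), χ (ι w) := by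
    rw [S2set, Finset.sum_filter, Finset.sum_filter, Finset.sum_filter, ← Finset.sum_add_distrib]
    refine Finset.sum_congr rfl fun w _ => ?_
    have hne : (r 1 : S3) ≠ r 2 := by decide
    by_cases h3 : w ^ 3 = 1
    · have n1 : ¬ inS2 w := fun hw => hw.2 h3
      rw [if_neg n1, if_neg (fun hh => hh.2 h3), if_neg (fun hh => hh.2 h3), add_zero]
    · by_cases h4 : w.π.p = r 1
      · have n1 : inS2 w := ⟨Or.inl h4, h3⟩
        have n2 : w.π.p ≠ r 2 := by rw [h4]; exact hne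
        rw [if_pos n1, if_pos ⟨h4, h3⟩, if_neg (fun hh => n2 hh.1), add_zero]
      · by_cases h5 : w.π.p = r 2
        · have n1 : inS2 w := ⟨Or.inr h5, h3⟩
          rw [if_pos n1, if_neg (fun hh => h4 hh.1), if_pos ⟨h5, h3⟩, zero_add]
        · have n1 : ¬ inS2 w := fun hw => hw.1.elim h4 h5
          rw [if_neg n1, if_neg (fun hh => h4 hh.1), if_neg (fun hh => h5 hh.1), add_zero]
  rw [e3]
  rw [e1] at h1
  rw [e2] at h2
  push_cast at h1 h2
  linear_combination h1 + h2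

end Cfsg.Agent.Lib.Nine.A9Sum
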