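import Mathlib
import Cfsg.Agent.Lib.Nine.Basic
import Cfsg.Agent.Lib.Nine.Fuse
import Cfsg.Agent.Lib.Coprime.Generation

/-!
# Induction from a TI subset: a generalized character of norm three

Let `ι : Γ → G` be an embedding and `σ` a `Γ`-class closed subset of `Γ`, with `|Γ| = 3 |σ|`, such that
`G`-conjugacy on `ι σ` is controlled by `Γ`.  If `|σ|⁻¹ ∑_{x ∈ σ} χ (ι x)` is an integer for all irreducible
characters `χ` of `G`, the induced class function is `1 + X + Y`, with `± X, ± Y` irreducible.  Frobenius'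
formula then puts any element `g` with no pair of conjugates with product in `ι σ` in a normal subgroup
missing `ι σ`.
-/

set_option autoImplicit false
set_option linter.unusedSectionVars false
set_option linter.unusedVariables false
set_option linter.style.haveILetI false

namespace Cfsg.Agent.Lib.Nine.Ind3

open Cfsg
open Cfsg.Agent.Lib.Blocks.Third
open scoped ComplexConjugate

universe u v

section Combinatorics

/-- A sum of three squares in which one term is one. -/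
theorem exists_three {A : Type*} [Fintype A] [DecidableEq A] (n : A → ℤ) (h : ∑ a, n a * n a = 3) {a₀ : A}
    (h0 : n a₀ = 1) :
    ∃ a₁ a₂ : A, a₁ ≠ a₀ ∧ a₂ ≠ a₀ ∧ a₁ ≠ a₂ ∧ (n a₁ = 1 ∨ n a₁ = -1) ∧ (n a₂ = 1 ∨ n a₂ = -1) ∧
      ∀ a, a ≠ a₀ → a ≠ a₁ → a ≠ a₂ → n a = 0 := by
  set S : Finset A := (Finset.univ.erase a₀).filter (fun a => n a ≠ 0) with hS
  have h1 : ∑ a ∈ S, n a * n a = 2 := by
    have h2 := Finset.add_sum_erase Finset.univ (fun a => n a * n a) (Finset.mem_univ a₀)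
    have h3 : ∑ a ∈ S, n a * n a = ∑ a ∈ Finset.univ.erase a₀, n a * n a := by
      rw [hS, Finset.sum_filter]
      refine Finset.sum_congr rfl fun a _ => ?_
      by_cases h4 : n a = 0
      · simp [h4]
      · simp [h4]
    rw [h3]
    rw [h, h0] at h2
    linarith
  have hge : ∀ a ∈ S, 1 ≤ n a * n a := by
    intro a ha
    have h2 : n a ≠ 0 := (Finset.mem_filter.mp ha).2
    have := mul_self_pos.mpr h2
    omega
  have hcard : S.card ≤ 2 := by
    have h2 : ∑ a ∈ S, (1 : ℤ) ≤ ∑ a ∈ S, n a * n a := Finset.sum_le_sum hge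
    rw [h1] at h2
    simp at h2
    exact_mod_cast h2
  have hS' : ∀ a, a ≠ a₀ → n a ≠ 0 → a ∈ S := by
    intro a h2 h3
    exact Finset.mem_filter.mpr ⟨Finset.mem_erase.mpr ⟨h2, Finset.mem_univ _⟩, h3⟩
  have hcases : S.card = 0 ∨ S.card = 1 ∨ S.card = 2 := by omega
  rcases hcases with hc | hc | hc
  · rw [Finset.card_eq_zero] at hc
    rw [hc] at h1
    simp at h1
  · obtain ⟨a, ha⟩ := Finset.card_eq_one.mp hc
    rw [ha] at h1
    simp only [Finset.sum_singleton] at h1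
    exfalso
    have h2 : n a * n a = 2 := h1
    have h3 : n a ≤ 1 := by nlinarith
    have h4 : -1 ≤ n a := by nlinarith
    have h5 : n a = -1 ∨ n a = 0 ∨ n a = 1 := by omega
    rcases h5 with h5 | h5 | h5 <;> rw [h5] at h2 <;> norm_num at h2
  · obtain ⟨a₁, a₂, h12, hs⟩ := Finset.card_eq_two.mp hc
    have m1 : a₁ ∈ S := by rw [hs]; simp
    have m2 : a₂ ∈ S := by rw [hs]; simp
    rw [hs, Finset.sum_pair h12] at h1
    have g1 := hge a₁ m1
    have g2 := hge a₂ m2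
    have key : ∀ b : ℤ, b * b = 1 → b = 1 ∨ b = -1 := fun b hb => by
      have h3 : b ≤ 1 := by nlinarith
      have h4 : -1 ≤ b := by nlinarith
      have h5 : b = -1 ∨ b = 0 ∨ b = 1 := by omega
      rcases h5 with h5 | h5 | h5
      · right; exact h5
      · rw [h5] at hb; norm_num at hb
      · left; exact h5
    refine ⟨a₁, a₂, ?_, ?_, h12, key _ (by omega), key _ (by omega), ?_⟩
    · exact (Finset.mem_erase.mp (Finset.mem_filter.mp m1).1).1
    · exact (Finset.mem_erase.mp (Finset.mem_filter.mp m2).1).1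
    · intro a h2 h3 h4
      by_contra h5
      have := hS' a h2 h5
      rw [hs] at this
      simp at this
      rcases this with h6 | h6
      · exact h3 h6
      · exact h4 h6

theorem alg_three {a b x y : ℂ} (ha : a ≠ 0) (hb : b ≠ 0) (h1 : 1 + a + b = 0) (h2 : 1 + x + y = 0)
    (h3 : 1 + x * x / a + y * y / b = 0) : x = a ∧ y = b := by
  have hb' : b = -1 - a := by linear_combination h1
  have hy' : y = -1 - x := by linear_combination h2
  subst hb' hy'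
  field_simp at h3
  have h4 : (x - a) ^ 2 = 0 := by linear_combination -h3
  have h5 : x = a := by
    have := pow_eq_zero_iff (two_ne_zero) |>.mp h4
    exact sub_eq_zero.mp this
  subst h5
  exact ⟨rfl, rfl⟩

end Combinatorics

variable {G : Type u} [Group G] [Fintype G] [Fintype (IrrCharacter G)]
variable {Γ : Type v} [Group Γ] [Fintype Γ] {ι : Γ →* G} {σ : Finset Γ} {m : ℕ}

/-- The data for the induction from a TI subset. -/
structure Data (ι : Γ →* G) (σ : Finset Γ) (m : ℕ) : Prop where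
  inj : Function.Injective ι
  ti : ∀ x ∈ σ, ∀ x' ∈ σ, ∀ g : G, g * ι x * g⁻¹ = ι x' → g ∈ ι.range
  cl : ∀ x ∈ σ, ∀ c : Γ, c * x * c⁻¹ ∈ σ
  card : σ.card = m
  hm : Nat.card Γ = 3 * m
  m0 : m ≠ 0

theorem Data.conj_iff (D : Data ι σ m) {x x' : Γ} (hx : x ∈ σ) (hx' : x' ∈ σ) :
    IsConj (ι x) (ι x') ↔ IsConj x x' := by
  constructor
  · intro h
    obtain ⟨g, hg⟩ := isConj_iff.mp h
    obtain ⟨c, rfl⟩ := D.ti x hx x' hx' g hg
    refine isConj_iff.mpr ⟨c, D.inj ?_⟩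
    rw [map_mul, map_mul, map_inv, hg]
  · exact Cfsg.Agent.Lib.Nine.Fuse.isConj_map ι

theorem Data.card_cent (D : Data ι σ m) {x : Γ} (hx : x ∈ σ) :
    Nat.card (Subgroup.centralizer ({ι x} : Set G)) = Nat.card (Subgroup.centralizer ({x} : Set Γ)) := by
  symm
  refine Nat.card_congr (Equiv.ofBijective
    (fun c => ⟨ι c, ?_⟩) ⟨?_, ?_⟩)
  · have := c.2
    rw [Subgroup.mem_centralizer_singleton_iff] at this ⊢
    rw [← map_mul, this, map_mul]
  · intro a b hab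
    apply Subtype.ext
    apply D.inj
    exact congrArg Subtype.val hab
  · rintro ⟨g, hg⟩
    rw [Subgroup.mem_centralizer_singleton_iff] at hg
    obtain ⟨c, rfl⟩ := D.ti x hx x hx g (by rw [hg]; group)
    refine ⟨⟨c, ?_⟩, rfl⟩
    rw [Subgroup.mem_centralizer_singleton_iff]
    apply D.inj
    rw [map_mul, map_mul, hg]

open scoped Classical in
/-- The count of a class in `σ` with the orders of the centralizers. -/
theorem Data.core (D : Data ι σ m) {x₀ : Γ} (hx₀ : x₀ ∈ σ) :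
    ∑ x ∈ σ, (if IsConj (ι x₀) (ι x) then (Nat.card (Subgroup.centralizer ({ι x} : Set G)) : ℂ) else 0) =
      (3 * m : ℂ) := by
  set c := Nat.card (Subgroup.centralizer ({x₀} : Set Γ)) with hc
  have e1 := Cfsg.Agent.Lib.Char.ClassSum.card_class_mul_card_centralizer x₀
  have hterm : ∀ x ∈ σ, (if IsConj (ι x₀) (ι x) then (Nat.card (Subgroup.centralizer ({ι x} : Set G)) : ℂ) else 0) =
      if IsConj x₀ x then (c : ℂ) else 0 := by
    intro x hx
    by_cases h : IsConj x₀ x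
    · rw [if_pos h, if_pos ((D.conj_iff hx₀ hx).mpr h), D.card_cent hx]
      have e2 := Cfsg.Agent.Lib.Char.ClassSum.card_class_mul_card_centralizer x
      have e3 : Nat.card {y : Γ // IsConj x y} = Nat.card {y : Γ // IsConj x₀ y} := by
        refine Nat.card_congr (Equiv.subtypeEquivRight fun y => ?_)
        exact ⟨fun hh => h.trans hh, fun hh => h.symm.trans hh⟩
      rw [e3] at e2
      have hK : 0 < Nat.card {y : Γ // IsConj x₀ y} := Nat.card_pos_iff.mpr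
        ⟨⟨⟨x₀, IsConj.refl _⟩⟩, inferInstance⟩
      have e4 : Nat.card (Subgroup.centralizer ({x} : Set Γ)) = c :=
        Nat.eq_of_mul_eq_mul_left hK (by rw [e2, e1])
      rw [e4]
    · rw [if_neg h, if_neg (fun h2 => h ((D.conj_iff hx₀ hx).mp h2))]
  rw [Finset.sum_congr rfl hterm]
  have hcard : ∑ x ∈ σ, (if IsConj x₀ x then (1 : ℕ) else 0) = Nat.card {y : Γ // IsConj x₀ y} := by
    rw [← Finset.card_filter]
    refine (Nat.subtype_card _ ?_).symm
    intro y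
    rw [Finset.mem_filter]
    constructor
    · rintro ⟨-, h⟩
      exact h
    · intro h
      refine ⟨?_, h⟩
      obtain ⟨a, rfl⟩ := isConj_iff.mp h
      exact D.cl _ hx₀ a
  have h1 : ∑ x ∈ σ, (if IsConj x₀ x then (c : ℂ) else 0) =
      ((∑ x ∈ σ, (if IsConj x₀ x then (1 : ℕ) else 0) : ℕ) : ℂ) * (c : ℂ) := by
    push_cast
    rw [Finset.sum_mul]
    refine Finset.sum_congr rfl fun x _ => ?_
    split_ifs <;> simp
  rw [h1, hcard, ← Nat.cast_mul, e1, D.hm]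
  push_cast
  rfl

/-- The sum of the values of a character on `ι σ`. -/
noncomputable def sm (ι : Γ →* G) (σ : Finset Γ) (χ : IrrCharacter G) : ℂ := ∑ x ∈ σ, (χ : G → ℂ) (ι x)

open scoped Classical in
theorem sum_sm (g : G) :
    ∑ χ : IrrCharacter G, (χ : G → ℂ) g * conj (sm ι σ χ) =
      ∑ x ∈ σ, (if IsConj g (ι x) then (Nat.card (Subgroup.centralizer ({ι x} : Set G)) : ℂ) else 0) := by
  simp only [sm, map_sum, Finset.mul_sum]
  rw [Finset.sum_comm]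
  refine Finset.sum_congr rfl fun x _ => ?_
  convert Cfsg.Agent.Lib.Char.Complete.sum_irr_mul_conj g (ι x)

theorem Data.sum_sm_mem (D : Data ι σ m) {x₀ : Γ} (hx₀ : x₀ ∈ σ) :
    ∑ χ : IrrCharacter G, (χ : G → ℂ) (ι x₀) * conj (sm ι σ χ) = (3 * m : ℂ) := by
  classical
  rw [sum_sm]
  exact D.core hx₀

theorem sum_sm_not {g : G} (hg : ∀ x ∈ σ, ¬ IsConj g (ι x)) :
    ∑ χ : IrrCharacter G, (χ : G → ℂ) g * conj (sm ι σ χ) = 0 := by
  classical
  rw [sum_sm]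
  refine Finset.sum_eq_zero fun x hx => ?_
  rw [if_neg (hg x hx)]

/-- The coefficients. -/
structure Coeff (ι : Γ →* G) (σ : Finset Γ) (m : ℕ) (n : IrrCharacter G → ℤ) : Prop where
  val : ∀ χ, sm ι σ χ = (m : ℂ) * (n χ : ℂ)

theorem Coeff.conj_val {n : IrrCharacter G → ℤ} (C : Coeff ι σ m n) (χ : IrrCharacter G) :
    conj (sm ι σ χ) = (m : ℂ) * (n χ : ℂ) := by
  rw [C.val]
  simp

theorem Coeff.sum_mem {n : IrrCharacter G → ℤ} (D : Data ι σ m) (C : Coeff ι σ m n) {x₀ : Γ} (hx₀ : x₀ ∈ σ) :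
    ∑ χ : IrrCharacter G, (n χ : ℂ) * (χ : G → ℂ) (ι x₀) = 3 := by
  have h := D.sum_sm_mem hx₀
  have hm : (m : ℂ) ≠ 0 := Nat.cast_ne_zero.mpr D.m0
  apply mul_left_cancel₀ hm
  rw [Finset.mul_sum]
  rw [mul_comm (m : ℂ) 3, ← h]
  refine Finset.sum_congr rfl fun χ _ => ?_
  rw [C.conj_val]
  ring

theorem Coeff.sum_not {n : IrrCharacter G → ℤ} (D : Data ι σ m) (C : Coeff ι σ m n) {g : G}
    (hg : ∀ x ∈ σ, ¬ IsConj g (ι x)) :
    ∑ χ : IrrCharacter G, (n χ : ℂ) * (χ : G → ℂ) g = 0 := by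
  have h := sum_sm_not (σ := σ) hg
  have hm : (m : ℂ) ≠ 0 := Nat.cast_ne_zero.mpr D.m0
  apply mul_left_cancel₀ hm
  rw [Finset.mul_sum, mul_zero, ← h]
  refine Finset.sum_congr rfl fun χ _ => ?_
  rw [C.conj_val]
  ring

theorem Coeff.sum_sq {n : IrrCharacter G → ℤ} (D : Data ι σ m) (C : Coeff ι σ m n) :
    ∑ χ, n χ * n χ = 3 := by
  have hm : (m : ℂ) ≠ 0 := Nat.cast_ne_zero.mpr D.m0
  have h1 : ∑ x ∈ σ, ∑ χ : IrrCharacter G, (n χ : ℂ) * (χ : G → ℂ) (ι x) = (m : ℂ) * 3 := by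
    rw [Finset.sum_congr rfl fun x hx => C.sum_mem D hx]
    simp [D.card]
  rw [Finset.sum_comm] at h1
  have h2 : ∑ χ : IrrCharacter G, ∑ x ∈ σ, (n χ : ℂ) * (χ : G → ℂ) (ι x) =
      (m : ℂ) * ∑ χ : IrrCharacter G, (n χ : ℂ) * (n χ : ℂ) := by
    rw [Finset.mul_sum]
    refine Finset.sum_congr rfl fun χ _ => ?_
    rw [← Finset.mul_sum]
    have := C.val χ
    rw [sm] at this
    rw [this]
    ring
  rw [h2] at h1
  have h3 := mul_left_cancel₀ hm h1
  exact_mod_cast h3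

theorem Coeff.one {n : IrrCharacter G → ℤ} (D : Data ι σ m) (C : Coeff ι σ m n) : n (oneI G) = 1 := by
  have hm : (m : ℂ) ≠ 0 := Nat.cast_ne_zero.mpr D.m0
  have h1 := C.val (oneI G)
  have h2 : sm ι σ (oneI G) = (m : ℂ) := by
    rw [sm]
    simp only [oneI_apply]
    simp [D.card]
  rw [h2] at h1
  have h3 : (m : ℂ) * 1 = (m : ℂ) * (n (oneI G) : ℂ) := by rw [mul_one]; exact h1
  have h4 := mul_left_cancel₀ hm h3
  exact_mod_cast h4.symm

/-- **The kernel theorem.** -/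
theorem exists_kernel (D : Data ι σ m) (hint : ∀ χ : IrrCharacter G, ∃ n : ℤ, sm ι σ χ = (m : ℂ) * (n : ℂ))
    (h1 : ∀ x ∈ σ, x ≠ 1) {g : G} (hg : ∀ x ∈ σ, ¬ IsConj g (ι x))
    (hN : ∀ x ∈ σ, Nat.card {p : G × G // IsConj g p.1 ∧ IsConj g p.2 ∧ p.1 * p.2 = ι x} = 0) :
    ∃ K : Subgroup G, K.Normal ∧ g ∈ K ∧ ∀ x ∈ σ, ι x ∉ K := by
  classical
  choose n hn using hint
  have C : Coeff ι σ m n := ⟨hn⟩
  have hm : (m : ℂ) ≠ 0 := Nat.cast_ne_zero.mpr D.m0
  obtain ⟨χ₂, χ₃, h20, h30, h23, s2, s3, hz⟩ := exists_three n (C.sum_sq D) (C.one D)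
  have hF : ∀ F : IrrCharacter G → ℂ, ∑ χ, (n χ : ℂ) * F χ =
      F (oneI G) + (n χ₂ : ℂ) * F χ₂ + (n χ₃ : ℂ) * F χ₃ := by
    intro F
    have hsub : ({oneI G, χ₂, χ₃} : Finset (IrrCharacter G)) ⊆ Finset.univ := Finset.subset_univ _
    rw [← Finset.sum_subset hsub]
    · rw [Finset.sum_insert, Finset.sum_insert, Finset.sum_singleton, C.one D]
      · simp
        ring
      · simpa using h23
      · simp only [Finset.mem_insert, Finset.mem_singleton, not_or]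
        exact ⟨h20.symm, h30.symm⟩
    · intro χ _ hχ
      simp only [Finset.mem_insert, Finset.mem_singleton, not_or] at hχ
      rw [hz χ hχ.1 hχ.2.1 hχ.2.2]
      simp
  have hs2 : (n χ₂ : ℂ) * (n χ₂ : ℂ) = 1 := by
    rcases s2 with h | h <;> rw [h] <;> simp
  have hs3 : (n χ₃ : ℂ) * (n χ₃ : ℂ) = 1 := by
    rcases s3 with h | h <;> rw [h] <;> simp
  have hs20 : (n χ₂ : ℂ) ≠ 0 := by
    intro h
    rw [h] at hs2
    simp at hs2
  have hs30 : (n χ₃ : ℂ) ≠ 0 := by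
    intro h
    rw [h] at hs3
    simp at hs3
  have hd2 := Cfsg.Agent.Lib.Char.Complete.irr_one_ne_zero χ₂.2
  have hd3 := Cfsg.Agent.Lib.Char.Complete.irr_one_ne_zero χ₃.2
  -- the three relations
  have hone : ∀ x ∈ σ, ¬ IsConj (1 : G) (ι x) := by
    intro x hx h
    apply h1 x hx
    apply D.inj
    rw [map_one]
    exact isConj_one_right.mp h
  have r1 : 1 + (n χ₂ : ℂ) * (χ₂ : G → ℂ) 1 + (n χ₃ : ℂ) * (χ₃ : G → ℂ) 1 = 0 := by
    have := C.sum_not D hone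
    rw [hF (fun χ => (χ : G → ℂ) 1)] at this
    simpa using this
  have r2 : 1 + (n χ₂ : ℂ) * (χ₂ : G → ℂ) g + (n χ₃ : ℂ) * (χ₃ : G → ℂ) g = 0 := by
    have := C.sum_not D hg
    rw [hF (fun χ => (χ : G → ℂ) g)] at this
    simpa using this
  have r3 : 1 + (n χ₂ : ℂ) * ((χ₂ : G → ℂ) g * (χ₂ : G → ℂ) g / (χ₂ : G → ℂ) 1) +
      (n χ₃ : ℂ) * ((χ₃ : G → ℂ) g * (χ₃ : G → ℂ) g / (χ₃ : G → ℂ) 1) = 0 := by
    have hK : (Nat.card {y : G // IsConj g y} : ℂ) ≠ 0 := by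
      refine Nat.cast_ne_zero.mpr (Nat.card_pos_iff.mpr ⟨⟨⟨g, IsConj.refl _⟩⟩, inferInstance⟩).ne'
    have hG : (Nat.card G : ℂ) ≠ 0 := Nat.cast_ne_zero.mpr Nat.card_pos.ne'
    have h0 : ∀ x ∈ σ, ∑ χ : IrrCharacter G, (χ : G → ℂ) g * (χ : G → ℂ) g * conj ((χ : G → ℂ) (ι x)) /
        (χ : G → ℂ) 1 = 0 := by
      intro x hx
      have e := Cfsg.Agent.Lib.Char.ClassProd.card_product_eq g g (ι x)
      rw [hN x hx] at e
      have e' := e.symm
      simp only [Nat.cast_zero] at e'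
      exact (mul_eq_zero.mp e').resolve_left (div_ne_zero (mul_ne_zero hK hK) hG)
    have h2 : ∑ χ : IrrCharacter G, (n χ : ℂ) * ((χ : G → ℂ) g * (χ : G → ℂ) g / (χ : G → ℂ) 1) = 0 := by
      apply mul_left_cancel₀ hm
      rw [mul_zero, ← Finset.sum_eq_zero h0, Finset.sum_comm, Finset.mul_sum]
      refine Finset.sum_congr rfl fun χ _ => ?_
      have h3 : ∑ x ∈ σ, (χ : G → ℂ) g * (χ : G → ℂ) g * conj ((χ : G → ℂ) (ι x)) / (χ : G → ℂ) 1 =
          ((χ : G → ℂ) g * (χ : G → ℂ) g / (χ : G → ℂ) 1) * conj (sm ι σ χ) := by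
        rw [sm, map_sum, Finset.mul_sum]
        refine Finset.sum_congr rfl fun x _ => ?_
        ring
      rw [h3, C.conj_val]
      ring
    rw [hF (fun χ => (χ : G → ℂ) g * (χ : G → ℂ) g / (χ : G → ℂ) 1)] at h2
    have e1 : (oneI G : G → ℂ) g * (oneI G : G → ℂ) g / (oneI G : G → ℂ) 1 = 1 := by
      simp [oneI_apply]
    simpa [e1] using h2
  have key := alg_three (a := (n χ₂ : ℂ) * (χ₂ : G → ℂ) 1) (b := (n χ₃ : ℂ) * (χ₃ : G → ℂ) 1)
    (x := (n χ₂ : ℂ) * (χ₂ : G → ℂ) g) (y := (n χ₃ : ℂ) * (χ₃ : G → ℂ) g)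
    (mul_ne_zero hs20 hd2) (mul_ne_zero hs30 hd3) r1 r2 (by
      rw [← r3]
      have e2 : (n χ₂ : ℂ) * (χ₂ : G → ℂ) g * ((n χ₂ : ℂ) * (χ₂ : G → ℂ) g) / ((n χ₂ : ℂ) * (χ₂ : G → ℂ) 1) =
          (n χ₂ : ℂ) * ((χ₂ : G → ℂ) g * (χ₂ : G → ℂ) g / (χ₂ : G → ℂ) 1) := by
        field_simp
      have e3 : (n χ₃ : ℂ) * (χ₃ : G → ℂ) g * ((n χ₃ : ℂ) * (χ₃ : G → ℂ) g) / ((n χ₃ : ℂ) * (χ₃ : G → ℂ) 1) =
          (n χ₃ : ℂ) * ((χ₃ : G → ℂ) g * (χ₃ : G → ℂ) g / (χ₃ : G → ℂ) 1) := by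
        field_simp
      rw [e2, e3])
  have k2 : (χ₂ : G → ℂ) g = (χ₂ : G → ℂ) 1 := mul_left_cancel₀ hs20 key.1
  have k3 : (χ₃ : G → ℂ) g = (χ₃ : G → ℂ) 1 := mul_left_cancel₀ hs30 key.2
  have hch2 := Cfsg.Agent.Lib.Char.Basic.isCharacter_of_isIrrCharacter χ₂.2
  have hch3 := Cfsg.Agent.Lib.Char.Basic.isCharacter_of_isIrrCharacter χ₃.2
  have hn2 := Cfsg.Agent.Lib.Char.Degree.charKer_normal hch2
  have hn3 := Cfsg.Agent.Lib.Char.Degree.charKer_normal hch3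
  refine ⟨Cfsg.Agent.Lib.Char.Degree.charKer hch2 ⊓ Cfsg.Agent.Lib.Char.Degree.charKer hch3,
    Subgroup.normal_inf_normal _ _, ⟨?_, ?_⟩, ?_⟩
  · exact (Cfsg.Agent.Lib.Char.Degree.mem_charKer hch2 _).mpr k2
  · exact (Cfsg.Agent.Lib.Char.Degree.mem_charKer hch3 _).mpr k3
  · rintro x hx ⟨m2, m3⟩
    have m2' := (Cfsg.Agent.Lib.Char.Degree.mem_charKer hch2 _).mp m2
    have m3' := (Cfsg.Agent.Lib.Char.Degree.mem_charKer hch3 _).mp m3
    have := C.sum_mem D hx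
    rw [hF (fun χ => (χ : G → ℂ) (ι x))] at this
    simp only [oneI_apply] at this
    rw [m2', m3'] at this
    have e : (3 : ℂ) = 0 := by rw [← this]; linear_combination r1
    norm_num at e

end Cfsg.Agent.Lib.Nine.Ind3
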