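import Mathlib
import Cfsg.Agent.Lib.Nine.Ind3
import Cfsg.Agent.Lib.Nine.ModelT27

/-!
# A TI Sylow subgroup `3³` with normalizer `3³ : 2²`
-/

set_option autoImplicit false
set_option linter.unusedSectionVars false
set_option linter.unusedVariables false
set_option linter.style.haveILetI false
set_option maxRecDepth 100000

namespace Cfsg.Agent.Lib.Nine.T27Main

open Cfsg
open Cfsg.Agent.Lib.Nine.ModelT27 Cfsg.Agent.Lib.Nine.Fuse Cfsg.Agent.Lib.Nine.Basic
open Cfsg.Agent.Lib.Nine.Ind3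
open Cfsg.Agent.Lib.Blocks.Third
open DihedralGroup

universe u

section Kernels

variable {G : Type u} [Group G] [Finite G]

/-- A group with a self-centralizing TI elementary Sylow `3`-subgroup and two normal subgroups
with trivial intersection inside `T`, meeting `T` nontrivially, normalizes `T`. -/
theorem normal_of_two_kernels {T N K₁ K₂ : Subgroup G} {n : ℕ} (hn : 2 ≤ n)
    (hN : N = Subgroup.normalizer (T : Set G))
    (hsyl : ∃ P : Sylow 3 G, (P : Subgroup G) = T)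
    (hab : ∀ a ∈ T, ∀ b ∈ T, a * b = b * a)
    (h3 : ∀ t ∈ T, t ^ 3 = 1)
    (hcard : Nat.card T = 3 ^ n)
    (hCT : Subgroup.centralizer (T : Set G) ≤ T)
    (hC : ∀ t ∈ T, t ≠ 1 → Subgroup.centralizer ({t} : Set G) ≤ N)
    (hN3 : ∀ x ∈ N, x ^ 3 = 1 → x ∈ T)
    (hK₁ : K₁.Normal) (hK₂ : K₂.Normal)
    (hD : ∀ t ∈ T, t ∈ K₁ → t ∈ K₂ → t = 1)
    {t₁ t₂ : G} (ht₁ : t₁ ∈ T) (ht₂ : t₂ ∈ T) (ht₁1 : t₁ ≠ 1) (ht₂1 : t₂ ≠ 1) (h₁ : t₁ ∈ K₂) (h₂ : t₂ ∈ K₁) :
    N = ⊤ := by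
  classical
  set D : Subgroup G := K₁ ⊓ K₂ with hDdef
  haveI hDn : D.Normal := Subgroup.normal_inf_normal K₁ K₂
  haveI : Fact (Nat.Prime 3) := ⟨Nat.prime_three⟩
  have hDT : ∀ t ∈ T, t ∈ D → t = 1 := fun t ht htD => hD t ht htD.1 htD.2
  -- `D` has order prime to `3`
  have h3D : ¬ 3 ∣ Nat.card D := by
    intro h
    obtain ⟨x, hx⟩ := exists_prime_orderOf_dvd_card' 3 h
    have hx' : orderOf (x : G) = 3 := by
      rw [← hx]
      exact Subgroup.orderOf_coe x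
    have hPG : IsPGroup 3 (Subgroup.zpowers (x : G)) := by
      refine IsPGroup.of_card (n := 1) ?_
      rw [Nat.card_zpowers, pow_one, hx']
    obtain ⟨R, hR⟩ := hPG.exists_le_sylow
    obtain ⟨P, hP⟩ := hsyl
    obtain ⟨c, hc⟩ := MulAction.exists_smul_eq G R P
    have hmem : c * (x : G) * c⁻¹ ∈ T := by
      rw [← hP, ← hc, Sylow.smul_def, Sylow.pointwise_smul_def]
      exact ⟨x, hR (Subgroup.mem_zpowers _), rfl⟩
    have h1 := hDT _ hmem (hDn.conj_mem _ x.2 c)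
    have h2 : (x : G) = 1 := by
      have : (x : G) = c⁻¹ * (c * (x : G) * c⁻¹) * c := by group
      rw [this, h1]
      group
    rw [h2, orderOf_one] at hx'
    omega
  have hcop : (Nat.card T).Coprime (Nat.card D) := by
    rw [hcard]
    have h12 := (Nat.Prime.coprime_iff_not_dvd Nat.prime_three).mpr h3D
    exact Nat.Coprime.pow_left n h12
  haveI hcomm : IsMulCommutative T := ⟨⟨fun a b => Subtype.ext (hab a a.2 b b.2)⟩⟩
  have hcy : ¬ IsCyclic T := by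
    intro hc
    obtain ⟨g, hg⟩ := IsCyclic.exists_generator (α := T)
    have h1 := orderOf_eq_card_of_forall_mem_zpowers hg
    rw [hcard] at h1
    have h2 : g ^ 3 = 1 := Subtype.ext (by simpa using h3 g g.2)
    have h4 := orderOf_dvd_of_pow_eq_one h2
    rw [h1] at h4
    have h5 : 3 ^ n ≤ 3 := Nat.le_of_dvd (by norm_num) h4
    have h6 : 3 ^ 2 ≤ 3 ^ n := Nat.pow_le_pow_right (by norm_num) hn
    omega
  have hAK : T ≤ Subgroup.normalizer (D : Set G) := by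
    intro x _
    rw [Subgroup.mem_normalizer_iff]
    intro h
    constructor
    · intro hh
      exact hDn.conj_mem _ hh x
    · intro hh
      have h1 := hDn.conj_mem _ hh x⁻¹
      have h2 : x⁻¹ * (x * h * x⁻¹) * x⁻¹⁻¹ = h := by group
      rwa [h2] at h1
  have hsup := Cfsg.Agent.Lib.Coprime.Generation.iSup_centralizer_eq hcy hAK hcop
  have hbot : D = ⊥ := by
    rw [← hsup]
    refine iSup₂_eq_bot.mpr ?_
    rintro a ⟨ha, ha1⟩
    rw [eq_bot_iff]
    rintro x ⟨hxD, hxC⟩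
    have hxN : x ∈ N := hC a ha ha1 hxC
    rw [hN, Subgroup.mem_normalizer_iff] at hxN
    have hcomm' : ∀ t ∈ T, x * t = t * x := by
      intro t ht
      have h1 : x * t * x⁻¹ * t⁻¹ ∈ T := T.mul_mem ((hxN t).mp ht) (T.inv_mem ht)
      have h2 : x * t * x⁻¹ * t⁻¹ ∈ D := by
        have h5 : x * t * x⁻¹ * t⁻¹ = x * (t * x⁻¹ * t⁻¹) := by group
        rw [h5]
        exact D.mul_mem hxD (hDn.conj_mem _ (D.inv_mem hxD) t)
      have h4 := hDT _ h1 h2
      have h6 : x * t * x⁻¹ = t := by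
        rwa [mul_inv_eq_one] at h4
      rwa [mul_inv_eq_iff_eq_mul] at h6
    have hxT : x ∈ T := by
      apply hCT
      rw [Subgroup.mem_centralizer_iff]
      intro t ht
      exact (hcomm' t ht).symm
    exact hDT x hxT hxD
  have hdis : Disjoint K₁ K₂ := by
    rw [disjoint_iff]
    exact hbot
  have hcomm2 : ∀ x ∈ K₁, ∀ y ∈ K₂, x * y = y * x := fun x hx y hy =>
    Subgroup.commute_of_normal_of_disjoint K₁ K₂ hK₁ hK₂ hdis x y hx hy
  rw [eq_top_iff]
  intro g _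
  have h5 : g * t₁ * g⁻¹ ∈ K₂ := hK₂.conj_mem _ h₁ g
  have h6 : g * t₁ * g⁻¹ ∈ N := by
    apply hC t₂ ht₂ ht₂1
    rw [Subgroup.mem_centralizer_singleton_iff]
    exact (hcomm2 _ h₂ _ h5).symm
  have h7 : g * t₁ * g⁻¹ ∈ T := by
    apply hN3 _ h6
    rw [conj_pow, h3 t₁ ht₁]
    group
  exact mem_normalizer_of_conj hN hab h3 hC hN3 ht₁ ht₁1 h7

end Kernels

section Main

variable {G : Type u} [Group G] [Fintype G] {ι : Gam →* G}

/-- The image of the normal subgroup. -/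
def TT (ι : Gam →* G) : Subgroup G := TG.map ι

theorem TT_pow3 {t : G} (ht : t ∈ TT ι) : t ^ 3 = 1 := by
  obtain ⟨x, hx, rfl⟩ := ht
  rw [← map_pow, TG_pow3 x hx, map_one]

theorem TT_comm : ∀ a ∈ TT ι, ∀ b ∈ TT ι, a * b = b * a := by
  rintro _ ⟨x, hx, rfl⟩ _ ⟨y, hy, rfl⟩
  rw [← map_mul, TG_comm x y hx hy, map_mul]

theorem T_card : Nat.card TG = 27 := by
  rw [Nat.subtype_card (Finset.univ.filter (fun x : Gam => x.π = 1)) (by simp [mem_TG])]
  exact card_TG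

theorem TT_card (hinj : Function.Injective ι) : Nat.card (TT ι) = 3 ^ 3 := by
  rw [TT, Subgroup.card_map_of_injective hinj, T_card]
  norm_num

theorem cent_le (hM : TIModel ι TG) {t : G} (ht : t ∈ TT ι) (ht1 : t ≠ 1) :
    Subgroup.centralizer ({t} : Set G) ≤ Subgroup.normalizer ((TT ι : Subgroup G) : Set G) := by
  obtain ⟨x, hx, rfl⟩ := ht
  intro g hg
  rw [Subgroup.mem_centralizer_singleton_iff] at hg
  have hx1 : x ≠ 1 := by
    rintro rfl
    exact ht1 (map_one ι)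
  obtain ⟨c, rfl⟩ := hM.ti x x hx hx1 hx g (by rw [hg]; group)
  rw [Subgroup.mem_normalizer_iff]
  intro h
  constructor
  · rintro ⟨a, ha, rfl⟩
    exact ⟨c * a * c⁻¹, TG_conj a c ha, by simp⟩
  · rintro ⟨a, ha, hh⟩
    refine ⟨c⁻¹ * a * c, ?_, ?_⟩
    · have := TG_conj a c⁻¹ ha
      rw [inv_inv] at this
      exact this
    · have hh' : ι a = ι c * h * (ι c)⁻¹ := hh
      simp [hh']
      group

theorem cent_T (hM : TIModel ι TG) :
    Subgroup.centralizer ((TT ι : Subgroup G) : Set G) ≤ TT ι := by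
  intro g hg
  rw [Subgroup.mem_centralizer_iff] at hg
  have ht0 : t 0 ≠ 1 := t_ne 0
  obtain ⟨c, rfl⟩ := hM.ti (t 0) (t 0) (t_mem 0) ht0 (t_mem 0) g (by rw [← hg _ ⟨t 0, t_mem 0, rfl⟩]; group)
  refine ⟨c, TG_cent c ?_, rfl⟩
  intro i
  apply hM.inj
  simpa using (hg _ ⟨t i, t_mem i, rfl⟩).symm

theorem mem_of_pow3 (hM : TIModel ι TG) {x : G}
    (hx : x ∈ Subgroup.normalizer ((TT ι : Subgroup G) : Set G)) (h3 : x ^ 3 = 1) : x ∈ TT ι := by
  rw [Subgroup.mem_normalizer_iff] at hx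
  have h1 : x * ι (t 0) * x⁻¹ ∈ TT ι := (hx _).mp ⟨t 0, t_mem 0, rfl⟩
  obtain ⟨t', ht', he⟩ := h1
  obtain ⟨c, rfl⟩ := hM.ti (t 0) t' (t_mem 0) (t_ne 0) ht' x he.symm
  refine ⟨c, TG_of_pow3 c (hM.inj ?_), rfl⟩
  rw [map_pow, h3, map_one]

/-- A `3`-subgroup containing `t j` lies in `T`. -/
theorem sub_T (hM : TIModel ι TG) (hsyl : ∃ P : Sylow 3 G, (P : Subgroup G) = TT ι) {j : Fin 3} {Q : Subgroup G}
    (hQ : IsPGroup 3 Q) {a : G} (ha : a ∈ Q) (hy : ι (t j) ∈ Q) : a ∈ TT ι := by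
  obtain ⟨P, hP⟩ := hsyl
  obtain ⟨R, hR⟩ := hQ.exists_le_sylow
  obtain ⟨c, hc⟩ := MulAction.exists_smul_eq G R P
  have key : ∀ b ∈ Q, c * b * c⁻¹ ∈ TT ι := by
    intro b hb
    rw [← hP, ← hc, Sylow.smul_def, Sylow.pointwise_smul_def]
    exact ⟨b, hR hb, rfl⟩
  obtain ⟨x, hx, hxe⟩ := key _ hy
  obtain ⟨d, rfl⟩ := hM.ti (t j) x (t_mem j) (t_ne j) hx c hxe.symm
  obtain ⟨x', hx', hxe'⟩ := key a ha
  refine ⟨d⁻¹ * x' * d, ?_, ?_⟩
  · have := TG_conj x' d⁻¹ hx'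
    rw [inv_inv] at this
    exact this
  · simp only [map_mul, map_inv, hxe']
    group

/-- Non-fusion of the classes of involutions. -/
theorem not_conj_v (hM : TIModel ι TG) (hsyl : ∃ P : Sylow 3 G, (P : Subgroup G) = TT ι) {i j : Fin 3} (hij : i ≠ j) :
    ¬ IsConj (ι (v i)) (ι (v j)) := by
  classical
  intro h
  obtain ⟨g, hg⟩ := isConj_iff.mp h
  set H := Subgroup.centralizer ({ι (v j)} : Set G) with hH
  have hu : g * ι (t i) * g⁻¹ ∈ H := by
    rw [hH, Subgroup.mem_centralizer_singleton_iff, ← hg]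
    have : ι (t i) * ι (v i) = ι (v i) * ι (t i) := by
      rw [← map_mul, ← map_mul, t_comm_v]
    calc g * ι (t i) * g⁻¹ * (g * ι (v i) * g⁻¹) = g * (ι (t i) * ι (v i)) * g⁻¹ := by group
      _ = g * (ι (v i) * ι (t i)) * g⁻¹ := by rw [this]
      _ = _ := by group
  have hyH : ι (t j) ∈ H := by
    rw [hH, Subgroup.mem_centralizer_singleton_iff, ← map_mul, ← map_mul, t_comm_v]
  let uH : H := ⟨_, hu⟩
  let yH : H := ⟨_, hyH⟩
  have hu3 : uH ^ 3 = 1 := by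
    apply Subtype.ext
    change (g * ι (t i) * g⁻¹) ^ 3 = 1
    rw [conj_pow, ← map_pow, t_pow3]
    simp
  have hy3 : yH ^ 3 = 1 := by
    apply Subtype.ext
    change (ι (t j)) ^ 3 = 1
    rw [← map_pow, t_pow3]
    simp
  have hu1 : uH ≠ 1 := by
    intro h1
    have h2 : g * ι (t i) * g⁻¹ = 1 := congrArg Subtype.val h1
    have h3 : ι (t i) = 1 := by
      have : ι (t i) = g⁻¹ * (g * ι (t i) * g⁻¹) * g := by group
      rw [this, h2]
      group
    exact t_ne i (hM.inj (by rw [h3, map_one]))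
  have hyH1 : yH ≠ 1 := by
    intro h1
    have h2 : ι (t j) = 1 := congrArg Subtype.val h1
    exact t_ne j (hM.inj (by rw [h2, map_one]))
  haveI : Fact (Nat.Prime 3) := ⟨Nat.prime_three⟩
  have pG : ∀ a : H, a ^ 3 = 1 → a ≠ 1 → IsPGroup 3 (Subgroup.zpowers a) := by
    intro a h3 h1
    refine IsPGroup.of_card (n := 1) ?_
    rw [Nat.card_zpowers, pow_one]
    exact orderOf_eq_prime h3 h1
  obtain ⟨Q₁, hQ₁⟩ := (pG yH hy3 hyH1).exists_le_sylow
  obtain ⟨Q₂, hQ₂⟩ := (pG uH hu3 hu1).exists_le_sylow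
  obtain ⟨h₀, hh₀⟩ := MulAction.exists_smul_eq H Q₂ Q₁
  have hv : h₀ * uH * h₀⁻¹ ∈ (Q₁ : Subgroup H) := by
    rw [← hh₀, Sylow.smul_def, Sylow.pointwise_smul_def]
    exact ⟨uH, hQ₂ (Subgroup.mem_zpowers uH), rfl⟩
  have hQp : IsPGroup 3 ((Q₁ : Subgroup H).map H.subtype) := Q₁.2.map H.subtype
  have hT := sub_T hM hsyl hQp (a := ((h₀ * uH * h₀⁻¹ : H) : G)) ⟨_, hv, rfl⟩
    ⟨yH, hQ₁ (Subgroup.mem_zpowers yH), rfl⟩
  obtain ⟨x, hx, hxe⟩ := hT
  have hxσ : x * v j = v j * x := by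
    apply hM.inj
    rw [map_mul, map_mul, hxe]
    have := (h₀ * uH * h₀⁻¹ : H).2
    exact Subgroup.mem_centralizer_singleton_iff.mp this
  have hx1 : x ≠ 1 := by
    rintro rfl
    rw [map_one] at hxe
    have h2 : h₀ * uH * h₀⁻¹ = 1 := Subtype.ext hxe.symm
    apply hu1
    have : uH = h₀⁻¹ * (h₀ * uH * h₀⁻¹) * h₀ := by group
    rw [this, h2]
    group
  have hconj : IsConj (ι (t i)) (ι x) := by
    rw [hxe]
    refine isConj_iff.mpr ⟨(h₀ : G) * g, ?_⟩
    simp [uH]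
    group
  obtain ⟨c, hc⟩ := isConj_iff.mp (hM.isConj_of_isConj (w := t i) (w' := x) (pow4_mem _ (t_mem i)) (t_pow4 i)
    (pow4_mem x hx) hconj)
  rcases cent_v j x hx hxσ hx1 with h5 | h5
  · exact (t_nconj i j c hij).1 (by rw [hc, h5])
  · exact (t_nconj i j c hij).2 (by rw [hc, h5])

/-- The class of an involution of `Γ`. -/
theorem cls_v (hM : TIModel ι TG) (hsyl : ∃ P : Sylow 3 G, (P : Subgroup G) = TT ι) {i : Fin 3} {y : Gam}
    (h : IsConj (ι (v i)) (ι y)) : y.π = vπ i ∧ co i y.v = 0 := by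
  obtain ⟨g, hg⟩ := isConj_iff.mp h
  have h1 : y * y = 1 := by
    apply hM.inj
    rw [map_mul, map_one, ← pow_two, ← hg, conj_pow, ← map_pow, v_sq]
    simp
  have h2 : y ≠ 1 := by
    rintro rfl
    rw [map_one] at hg
    have h3 : ι (v i) = 1 := by
      have : ι (v i) = g⁻¹ * (g * ι (v i) * g⁻¹) * g := by group
      rw [this, hg]
      group
    exact v_ne i (hM.inj (by rw [h3, map_one]))
  obtain ⟨j, c, hc⟩ := inv_cls y h1 h2
  by_cases hij : i = j
  · subst hij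
    exact cls_of i y c hc
  · exfalso
    apply not_conj_v hM hsyl hij
    refine h.trans (isConj_map ι (isConj_iff.mpr ⟨c, hc⟩))

/-- The data of the induction. -/
theorem data (hM : TIModel ι TG) (i : Fin 3) : Data ι (σ i) 36 where
  inj := hM.inj
  ti := fun x hx x' hx' g hg =>
    hM.mem_range_of_conj (σ_sing i x (mem_σ.mp hx)).1 (σ_sing i x (mem_σ.mp hx)).2
      (σ_sing i x' (mem_σ.mp hx')).1 hg
  cl := fun x hx c => mem_σ.mpr (σ_conj i x c (mem_σ.mp hx))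
  card := card_σ i
  hm := by rw [Nat.card_eq_fintype_card, card_gam]
  m0 := by norm_num

/-- No pairs of conjugates of `v i` have their product in `σ i`. -/
theorem count_zero (hM : TIModel ι TG) (hsyl : ∃ P : Sylow 3 G, (P : Subgroup G) = TT ι) (i : Fin 3) :
    ∀ x ∈ σ i, Nat.card {p : G × G // IsConj (ι (v i)) p.1 ∧ IsConj (ι (v i)) p.2 ∧ p.1 * p.2 = ι x} = 0 := by
  intro x hx
  have hx' := mem_σ.mp hx
  have hs : (ι (v i)) ^ 2 = 1 := by rw [← map_pow, v_sq, map_one]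
  rw [hM.card_pairs (σ_sing i x hx').1 (σ_sing i x hx').2 hs hs]
  haveI : IsEmpty {y : Gam // IsConj (ι (v i)) (ι y) ∧ IsConj (ι (v i)) (ι (y⁻¹ * x))} := by
    refine ⟨?_⟩
    rintro ⟨y, h1, h2⟩
    obtain ⟨a1, a2⟩ := cls_v hM hsyl h1
    obtain ⟨b1, b2⟩ := cls_v hM hsyl h2
    have := pair_not i y (y⁻¹ * x) a1 a2 b1 b2
    rw [mul_inv_cancel_left] at this
    exact this hx'
  exact Nat.card_of_isEmpty

theorem not_conj_σ (hM : TIModel ι TG) (i : Fin 3) : ∀ x ∈ σ i, ¬ IsConj (ι (v i)) (ι x) := by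
  intro x hx h
  obtain ⟨g, hg⟩ := isConj_iff.mp h
  apply σ_sq i x (mem_σ.mp hx)
  apply hM.inj
  rw [map_pow, map_one, ← hg, conj_pow, ← map_pow, v_sq]
  simp

section Integrality

variable [Fintype (IrrCharacter G)]

theorem isClass (χ : IrrCharacter G) (a c : Gam) :
    (χ : G → ℂ) (ι (c * a * c⁻¹)) = (χ : G → ℂ) (ι a) := by
  rw [map_mul, map_mul, map_inv]
  exact Cfsg.Agent.Lib.Char.Basic.isClassFunction_of_isIrrCharacter χ.2 _ _

theorem avg (χ : IrrCharacter G) (P : Gam → Prop) [DecidablePred P] :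
    (108 : ℂ) * ∑ x ∈ Finset.univ.filter P, (χ : G → ℂ) (ι x) =
      ∑ x, (χ : G → ℂ) (ι x) * ((Finset.univ.filter (fun c : Gam => P (c * x * c⁻¹))).card : ℂ) := by
  have h1 : ∀ c : Gam, ∑ x ∈ Finset.univ.filter P, (χ : G → ℂ) (ι x) =
      ∑ x, (if P (c * x * c⁻¹) then (χ : G → ℂ) (ι x) else 0) := by
    intro c
    rw [Finset.sum_filter]
    rw [← Equiv.sum_comp (MulAut.conj c).toEquiv]
    refine Finset.sum_congr rfl fun x _ => ?_
    have e : (MulAut.conj c).toEquiv x = c * x * c⁻¹ := rfl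
    rw [e, isClass]
  have h2 : (108 : ℂ) = ∑ c : Gam, (1 : ℂ) := by
    simp [Finset.card_univ, card_gam]
  rw [h2, Finset.sum_mul, Finset.sum_congr rfl fun c _ => by rw [one_mul, h1 c], Finset.sum_comm]
  refine Finset.sum_congr rfl fun x _ => ?_
  rw [Finset.card_filter]
  push_cast
  rw [Finset.mul_sum]
  refine Finset.sum_congr rfl fun c _ => ?_
  split_ifs <;> simp

theorem sum_sub (χ : IrrCharacter G) (H : Subgroup Gam) (P : Gam → Prop) [DecidablePred P] (hP : ∀ x, x ∈ H ↔ P x) :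
    ∃ n : ℕ, ∑ x ∈ Finset.univ.filter P, (χ : G → ℂ) (ι x) = ((Finset.univ.filter P).card : ℂ) * n := by
  classical
  letI : Fintype H := Fintype.ofFinite _
  have hch := Cfsg.Agent.Lib.Char.Basic.isCharacter_comp ι
    (Cfsg.Agent.Lib.Char.Basic.isCharacter_of_isIrrCharacter χ.2)
  obtain ⟨n, hn⟩ := exists_nat_sum_subgroup H hch
  refine ⟨n, ?_⟩
  have hcard : Nat.card H = (Finset.univ.filter P).card :=
    Nat.subtype_card _ (by simp [hP])
  rw [hcard] at hn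
  rw [← hn]
  refine Finset.sum_subtype _ (by simp [hP]) (fun x => (χ : G → ℂ) (ι x))

/-- **Integrality.** -/
theorem hint (χ : IrrCharacter G) (i : Fin 3) : ∃ n : ℤ, sm ι (σ i) χ = ((36 : ℕ) : ℂ) * (n : ℂ) := by
  classical
  obtain ⟨n₁, h₁⟩ := sum_sub (ι := ι) χ ⊤ (fun _ => True) (by simp)
  obtain ⟨n₂, h₂⟩ := sum_sub (ι := ι) χ (A i) (fun x => x.π = 1 ∨ x.π = vπ i) (fun x => mem_A)
  obtain ⟨n₃, h₃⟩ := sum_sub (ι := ι) χ (E i) (fun x => co i x.v = 0) (fun x => mem_E)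
  rw [card_A i] at h₂
  rw [card_E i] at h₃
  have hc₁ : (Finset.univ.filter (fun _ : Gam => True)).card = 108 := by
    simp [Finset.card_univ, card_gam]
  rw [hc₁] at h₁
  refine ⟨n₁ + n₂ - n₃, ?_⟩
  have e₁ := avg (ι := ι) χ (fun _ : Gam => True)
  have e₂ := avg (ι := ι) χ (fun x : Gam => x.π = 1 ∨ x.π = vπ i)
  have e₃ := avg (ι := ι) χ (fun x : Gam => co i x.v = 0)
  have e₄ := avg (ι := ι) χ (inσ i)
  have key : 3 * ∑ x, (χ : G → ℂ) (ι x) * ((Finset.univ.filter (fun c : Gam => inσ i (c * x * c⁻¹))).card : ℂ) +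
      3 * ∑ x, (χ : G → ℂ) (ι x) * ((Finset.univ.filter (fun c : Gam => co i (c * x * c⁻¹).v = 0)).card : ℂ) =
      ∑ x, (χ : G → ℂ) (ι x) * ((Finset.univ.filter (fun c : Gam => True)).card : ℂ) +
      2 * ∑ x, (χ : G → ℂ) (ι x) * ((Finset.univ.filter (fun c : Gam => (c * x * c⁻¹).π = 1 ∨ (c * x * c⁻¹).π = vπ i)).card : ℂ) := by
    simp only [Finset.mul_sum, ← Finset.sum_add_distrib]
    refine Finset.sum_congr rfl fun x _ => ?_
    have h := class_sum i x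
    have h' : (3 : ℂ) * ((Finset.univ.filter (fun c : Gam => inσ i (c * x * c⁻¹))).card : ℂ) +
        3 * ((Finset.univ.filter (fun c : Gam => co i (c * x * c⁻¹).v = 0)).card : ℂ) =
        108 + 2 * ((Finset.univ.filter (fun c : Gam => (c * x * c⁻¹).π = 1 ∨ (c * x * c⁻¹).π = vπ i)).card : ℂ) := by
      exact_mod_cast h
    have h'' : ((Finset.univ.filter (fun c : Gam => True)).card : ℂ) = 108 := by
      exact_mod_cast hc₁
    rw [h'']
    linear_combination ((χ : G → ℂ) (ι x)) * h'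
  rw [← e₁, ← e₂, ← e₃, ← e₄, h₁, h₂, h₃] at key
  have hs : sm ι (σ i) χ = ∑ x ∈ Finset.univ.filter (inσ i), (χ : G → ℂ) (ι x) := rfl
  rw [hs]
  push_cast at key ⊢
  linear_combination (1 / 324 : ℂ) * key

/-- **The kernels.** -/
theorem exists_K (hM : TIModel ι TG) (hsyl : ∃ P : Sylow 3 G, (P : Subgroup G) = TT ι) (i : Fin 3) :
    ∃ K : Subgroup G, K.Normal ∧ ι (v i) ∈ K ∧ ∀ x, inσ i x → ι x ∉ K := by
  obtain ⟨K, h1, h2, h3⟩ := exists_kernel (data hM i) (fun χ => hint χ i)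
    (fun x hx => σ_ne i x (mem_σ.mp hx)) (not_conj_σ hM i) (count_zero hM hsyl i)
  exact ⟨K, h1, h2, fun x hx => h3 x (mem_σ.mpr hx)⟩

/-- **Normality.** -/
theorem normal_T (hM : TIModel ι TG) (hsyl : ∃ P : Sylow 3 G, (P : Subgroup G) = TT ι) :
    Subgroup.normalizer ((TT ι : Subgroup G) : Set G) = ⊤ := by
  obtain ⟨K₀, n₀, h₀, k₀⟩ := exists_K hM hsyl 0
  obtain ⟨K₁, n₁, h₁, k₁⟩ := exists_K hM hsyl 1
  obtain ⟨K₂, n₂, h₂, k₂⟩ := exists_K hM hsyl 2
  have ht : ∀ (K : Subgroup G) (i j : Fin 3), K.Normal → ι (v i) ∈ K → j ≠ i → ι (t j) ∈ K := by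
    intro K i j hn hv hj
    rw [t_word i j hj, map_mul, map_mul, map_mul, map_inv]
    exact K.mul_mem hv (hn.conj_mem _ hv _)
  refine normal_of_two_kernels (T := TT ι) (K₁ := K₂) (K₂ := K₀ ⊓ K₁) (n := 3) (by norm_num) rfl hsyl TT_comm
    (fun t ht => TT_pow3 ht) (TT_card hM.inj) (cent_T hM) (fun t ht ht1 => cent_le hM ht ht1)
    (fun x hx h3 => mem_of_pow3 hM hx h3) n₂ (Subgroup.normal_inf_normal _ _) ?_
    (t₁ := ι (t 2)) (t₂ := ι (t 0)) ⟨t 2, t_mem 2, rfl⟩ ⟨t 0, t_mem 0, rfl⟩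
    (fun h => t_ne 2 (hM.inj (by rw [h, map_one]))) (fun h => t_ne 0 (hM.inj (by rw [h, map_one])))
    ⟨ht K₀ 0 2 n₀ h₀ (by decide), ht K₁ 1 2 n₁ h₁ (by decide)⟩ (ht K₂ 2 0 n₂ h₂ (by decide))
  rintro _ ⟨x, hx, rfl⟩ h2 h01
  by_contra hne
  have hx1 : x ≠ 1 := by
    rintro rfl
    exact hne (map_one ι)
  obtain ⟨i, hi⟩ := T_cover x hx hx1
  have hi' : i = 0 ∨ i = 1 ∨ i = 2 := by
    have key : ∀ i : Fin 3, i = 0 ∨ i = 1 ∨ i = 2 := by decide
    exact key i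
  rcases hi' with rfl | rfl | rfl
  · exact k₀ x hi h01.1
  · exact k₁ x hi h01.2
  · exact k₂ x hi h2

end Integrality

end Main

/-- **The main theorem.** -/
theorem H_eq_top {G : Type u} [Group G] [Finite G] (H : Subgroup G) (hH : Nonempty (↥H ≃* ↥H₀))
    (T : Subgroup G) (hTH : T ≤ H) (hT : Nat.card T = 27) (hN : Subgroup.normalizer (T : Set G) = H)
    (hC : ∀ t ∈ T, t ≠ 1 → Subgroup.centralizer ({t} : Set G) ≤ H) : H = ⊤ := by
  classical
  letI : Fintype G := Fintype.ofFinite G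
  haveI := Cfsg.Agent.Lib.Char.Ortho.finite_irrCharacter (G := G)
  letI : Fintype (IrrCharacter G) := Fintype.ofFinite _
  obtain ⟨e⟩ := hH
  let φ₀ : Gam →* H₀ := φ.codRestrict H₀ (fun x => by rw [← range_φ]; exact ⟨x, rfl⟩)
  let ι : Gam →* G := H.subtype.comp (e.symm.toMonoidHom.comp φ₀)
  have hinj : Function.Injective ι := by
    intro a b hab
    apply φ_inj
    have h1 : e.symm (φ₀ a) = e.symm (φ₀ b) := Subtype.ext hab
    have h2 := e.symm.injective h1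
    exact congrArg Subtype.val h2
  have hrange : ι.range = H := by
    apply le_antisymm
    · rintro _ ⟨x, rfl⟩
      exact (e.symm (φ₀ x)).2
    · intro h hh
      have h1 : ((e ⟨h, hh⟩ : H₀) : Equiv.Perm (Fin 9)) ∈ φ.range := by
        rw [range_φ]
        exact (e ⟨h, hh⟩).2
      obtain ⟨x, hx⟩ := h1
      refine ⟨x, ?_⟩
      have h2 : φ₀ x = e ⟨h, hh⟩ := Subtype.ext hx
      change ((e.symm (φ₀ x) : H) : G) = h
      rw [h2, MulEquiv.symm_apply_apply]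
  have hTT : TT ι = T := by
    symm
    refine Subgroup.eq_of_le_of_card_ge ?_ (by rw [TT_card hinj, hT]; norm_num)
    intro t ht
    have h1 : t ∈ ι.range := by
      rw [hrange]
      exact hTH ht
    obtain ⟨x, rfl⟩ := h1
    refine ⟨x, TG_of_pow27 x (hinj ?_), rfl⟩
    rw [map_pow, map_one]
    have h2 : (⟨ι x, ht⟩ : T) ^ 27 = 1 := by
      rw [← hT]
      exact pow_card_eq_one'
    simpa using congrArg Subtype.val h2
  subst hTT
  have hN3 : ∀ x ∈ H, x ^ 3 = 1 → x ∈ TT ι := by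
    intro x hx h3
    rw [← hrange] at hx
    obtain ⟨c, rfl⟩ := hx
    refine ⟨c, TG_of_pow3 c (hinj ?_), rfl⟩
    rw [map_pow, h3, map_one]
  have hM : TIModel ι TG := by
    refine ⟨hinj, ?_⟩
    intro t t' ht ht1 ht' g hg
    rw [hrange]
    refine mem_normalizer_of_conj hN.symm TT_comm (fun t ht => TT_pow3 ht) hC hN3 ⟨t, ht, rfl⟩
      (fun h => ht1 (hinj (by rw [h, map_one]))) ?_
    rw [hg]
    exact ⟨t', ht', rfl⟩
  have hsyl : ∃ P : Sylow 3 G, (P : Subgroup G) = TT ι := by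
    have hp : IsPGroup 3 (TT ι) := by
      intro t
      refine ⟨1, ?_⟩
      apply Subtype.ext
      simpa using TT_pow3 t.2
    haveI : Fact (Nat.Prime 3) := ⟨Nat.prime_three⟩
    obtain ⟨P, hP⟩ := hp.exists_le_sylow
    refine ⟨P, le_antisymm ?_ hP⟩
    by_contra hne
    -- a `3`-element of `N` is in `T`
    have hP3 : ∀ x ∈ (P : Subgroup G), x ∈ H → x ∈ TT ι := by
      intro x hx hxH
      rw [← hrange] at hxH
      obtain ⟨c, rfl⟩ := hxH
      refine ⟨c, ?_, rfl⟩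
      have h1 : IsPGroup 3 (P : Subgroup G) := P.2
      obtain ⟨k, hk⟩ := (IsPGroup.iff_orderOf.mp h1) ⟨_, hx⟩
      have h2 : orderOf (ι c) = 3 ^ k := by
        rw [← hk]
        exact (Subgroup.orderOf_mk _ _).symm
      rw [orderOf_injective ι hinj] at h2
      have h3 : orderOf c ∣ 108 := by
        rw [← card_gam, ← Nat.card_eq_fintype_card]
        exact orderOf_dvd_natCard c
      have h4 : orderOf c ∣ 27 := by
        rw [h2] at h3 ⊢
        have h5 : Nat.Coprime (3 ^ k) 4 := Nat.Coprime.pow_left k (by norm_num)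
        exact h5.dvd_of_dvd_mul_right (by simpa using h3)
      exact TG_of_pow27 c (orderOf_dvd_iff_pow_eq_one.mp h4)
    have hlt : (TT ι).subgroupOf (P : Subgroup G) < ⊤ := by
      refine lt_top_iff_ne_top.mpr ?_
      intro h
      apply hne
      intro x hx
      have : (⟨x, hx⟩ : (P : Subgroup G)) ∈ (TT ι).subgroupOf (P : Subgroup G) := by
        rw [h]
        trivial
      exact Subgroup.mem_subgroupOf.mp this
    haveI hnil : Group.IsNilpotent (P : Subgroup G) := P.2.isNilpotent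
    have hcond := Group.normalizerCondition_of_isNilpotent (G := (P : Subgroup G)) _ hlt
    obtain ⟨x, hx1, hx2⟩ := SetLike.exists_of_lt hcond
    apply hx2
    apply Subgroup.mem_subgroupOf.mpr
    apply hP3 _ x.2
    rw [← hN]
    refine Subgroup.mem_normalizer_fintype (S := ((TT ι : Subgroup G) : Set G)) (fun a ha => ?_)
    have h1 : (⟨a, hP ha⟩ : (P : Subgroup G)) ∈ (TT ι).subgroupOf (P : Subgroup G) :=
      Subgroup.mem_subgroupOf.mpr ha
    have h2 := (Subgroup.mem_normalizer_iff.mp hx1 _).mp h1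
    exact Subgroup.mem_subgroupOf.mp h2
  rw [← hN]
  exact normal_T hM hsyl

end Cfsg.Agent.Lib.Nine.T27Main
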