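import Mathlib
import Cfsg.Agent.Lib.Nine.A9Sum
import Cfsg.Agent.Lib.Nine.Ind3
import Cfsg.Agent.Lib.Nine.T27Main

/-!
# The generalized character `1 + X + Y` and the normal subgroup of index six
-/

set_option autoImplicit false
set_option linter.unusedSectionVars false
set_option linter.unusedVariables false
set_option linter.style.haveILetI false
set_option maxRecDepth 100000

namespace Cfsg.Agent.Lib.Nine.A9Main

open Cfsg
open Cfsg.Agent.Lib.Nine.ModelA9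
open Cfsg.Agent.Lib.Nine.A9Local
open Cfsg.Agent.Lib.Nine.A9Sum
open Cfsg.Agent.Lib.Nine.FrobT
open Cfsg.Agent.Lib.Nine.ConjSum
open Cfsg.Agent.Lib.Nine.Ind3
open DihedralGroup

universe u

variable {G : Type u} [Group G] [Fintype G] {ι : Gam →* G} {T : Subgroup G}

section Sets

open scoped Classical

/-- Closure under conjugation. -/
noncomputable def clo (A : Finset G) : Finset G := Finset.univ.filter (fun x => ∃ g, ∃ a ∈ A, x = g * a * g⁻¹)

theorem mem_clo {A : Finset G} {x : G} : x ∈ clo A ↔ ∃ g, ∃ a ∈ A, x = g * a * g⁻¹ := by simp [clo]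

/-- The coset `t T`. -/
noncomputable def A1 (ι : Gam →* G) (T : Subgroup G) : Finset G := Finset.univ.filter (fun a => ∃ u ∈ T, a = tt ι * u)

theorem mem_A1 {a : G} : a ∈ A1 ι T ↔ ∃ u ∈ T, a = tt ι * u := by simp [A1]

/-- The elements of order nine of the model. -/
noncomputable def A2 (ι : Gam →* G) : Finset G := S2set.image ι

theorem mem_A2 {a : G} : a ∈ A2 ι ↔ ∃ w, inS2 w ∧ ι w = a := by simp [A2, mem_S2]

theorem A1_sum [Fintype T] (f : G → ℂ) : ∑ a ∈ A1 ι T, f a = ∑ u : T, f (tt ι * u) := by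
  have h1 : A1 ι T = Finset.image (fun u : T => tt ι * (u : G)) Finset.univ := by
    ext a
    rw [mem_A1]
    simp only [Finset.mem_image, Finset.mem_univ, true_and, Subtype.exists, exists_prop]
    constructor
    · rintro ⟨u, hu, rfl⟩
      exact ⟨u, hu, rfl⟩
    · rintro ⟨u, hu, rfl⟩
      exact ⟨u, hu, rfl⟩
  rw [h1, Finset.sum_image]
  intro a _ b _ e
  exact Subtype.ext (mul_left_cancel e)

theorem A1_card : (A1 ι T).card = Nat.card T := by
  letI : Fintype T := Fintype.ofFinite _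
  have h := A1_sum (ι := ι) (T := T) (fun _ => (1 : ℂ))
  simp only [Finset.sum_const, nsmul_eq_mul, mul_one, Finset.card_univ] at h
  rw [Nat.card_eq_fintype_card]
  exact_mod_cast h

theorem A2_sum (h : Hyp ι) (f : G → ℂ) : ∑ a ∈ A2 ι, f a = ∑ w ∈ S2set, f (ι w) := by
  rw [A2, Finset.sum_image]
  intro a _ b _ e
  exact h.inj e

theorem A2_card (h : Hyp ι) : (A2 ι).card = 144 := by
  rw [A2, Finset.card_image_of_injective _ h.inj, card_S2]

theorem S3_conj : ∀ p q : S3, (q = r 1 ∨ q = r 2) → (p * q * p⁻¹ = r 1 ∨ p * q * p⁻¹ = r 2) := by decide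

theorem inS2_conj {w : Gam} (hw : inS2 w) (d : Gam) : inS2 (d * w * d⁻¹) := by
  constructor
  · exact S3_conj d.π.p w.π.p hw.1
  · rw [conj_pow]
    intro h
    apply hw.2
    have : w ^ 3 = d⁻¹ * (d * w ^ 3 * d⁻¹) * d := by group
    rw [this, h]
    group

/-- The order of the centralizer of `t`. -/
theorem card_CC (h : Hyp ι) (D : TData ι T) : Nat.card (CC ι) = Nat.card T * 9 := by
  have hN : ∀ d, ∀ u ∈ T, (ι.comp Qs.subtype) d * u * ((ι.comp Qs.subtype) d)⁻¹ ∈ T := fun d u hu =>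
    D.norm _ (QQ_le_CC ⟨d.1, d.2, rfl⟩) u hu
  have hinj : Function.Injective (ι.comp Qs.subtype) := h.inj.comp Qs.subtype_injective
  have hT : ∀ d : Qs, (ι.comp Qs.subtype) d ∈ T → d = 1 := by
    intro d hd
    have h1 := D.disj _ hd ⟨d.1, d.2, rfl⟩
    apply Subtype.ext
    apply h.inj
    change ι d.1 = ι 1
    rw [map_one]
    exact h1
  have hc := card_prodSub (Λ := T) (ρ := ι.comp Qs.subtype) (h := hN) hinj hT
  have hQ : Nat.card Qs = 9 := by
    have := Nat.subtype_card (p := (· ∈ Qs)) (Finset.univ.filter isQ) (fun x => by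
      simp only [Finset.mem_filter, Finset.mem_univ, true_and]
      exact Iff.rfl)
    refine this.trans ?_
    decide +kernel
  rw [hQ] at hc
  have e : CC ι = prodSub T (ι.comp Qs.subtype) hN := by
    apply Subgroup.ext
    intro x
    constructor
    · intro hx
      obtain ⟨u, hu, _, ⟨q, hq, rfl⟩, rfl⟩ := D.dec x hx
      exact ⟨u, hu, ⟨q, hq⟩, rfl⟩
    · rintro ⟨u, hu, q, rfl⟩
      exact (CC ι).mul_mem (D.le hu) (QQ_le_CC ⟨q.1, q.2, rfl⟩)
  rw [e, hc]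

theorem card_range (h : Hyp ι) : Nat.card ι.range = 648 := by
  rw [← Nat.card_congr (MonoidHom.ofInjective h.inj).toEquiv, Nat.card_eq_fintype_card, card_gam]

theorem clo1_sum (D : TData ι T) (f : G → ℂ) (hf : ∀ a g, f (g * a * g⁻¹) = f a) :
    (Nat.card (CC ι) : ℂ) * ∑ x ∈ clo (A1 ι T), f x = (Nat.card G : ℂ) * ∑ a ∈ A1 ι T, f a := by
  refine sum_conj_closure _ _ _ ?_ ?_ (fun x => mem_clo) f hf
  · intro a ha c hc
    obtain ⟨u, hu, rfl⟩ := mem_A1.mp ha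
    refine mem_A1.mpr ⟨c * u * c⁻¹, D.norm c hc u hu, ?_⟩
    have e : c * tt ι = tt ι * c := mem_CC.mp hc
    calc c * (tt ι * u) * c⁻¹ = (c * tt ι) * u * c⁻¹ := by group
      _ = (tt ι * c) * u * c⁻¹ := by rw [e]
      _ = _ := by group
  · intro a ha a' ha' g hg
    obtain ⟨u, hu, rfl⟩ := mem_A1.mp ha
    obtain ⟨u', hu', rfl⟩ := mem_A1.mp ha'
    exact D.mem_CC_of_conj hu hu' hg

theorem clo2_sum (h : Hyp ι) (f : G → ℂ) (hf : ∀ a g, f (g * a * g⁻¹) = f a) :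
    (Nat.card ι.range : ℂ) * ∑ x ∈ clo (A2 ι), f x = (Nat.card G : ℂ) * ∑ a ∈ A2 ι, f a := by
  refine sum_conj_closure _ _ _ ?_ ?_ (fun x => mem_clo) f hf
  · intro a ha c hc
    obtain ⟨w, hw, rfl⟩ := mem_A2.mp ha
    obtain ⟨d, rfl⟩ := hc
    refine mem_A2.mpr ⟨d * w * d⁻¹, inS2_conj hw d, ?_⟩
    rw [map_mul, map_mul, map_inv]
  · intro a ha a' ha' g hg
    obtain ⟨w, hw, rfl⟩ := mem_A2.mp ha
    obtain ⟨w', hw', rfl⟩ := mem_A2.mp ha'
    exact ti_pow h hw (inS2_pow w' hw').1 hg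

/-- The class-closed set. -/
noncomputable def Sig (ι : Gam →* G) (T : Subgroup G) : Finset G := clo (A1 ι T) ∪ clo (A2 ι)

theorem mem_Sig {x : G} : x ∈ Sig ι T ↔ (∃ g, ∃ u ∈ T, x = g * (tt ι * u) * g⁻¹) ∨ ∃ g, ∃ w, inS2 w ∧ x = g * ι w * g⁻¹ := by
  rw [Sig, Finset.mem_union, mem_clo, mem_clo]
  constructor
  · rintro (⟨g, a, ha, rfl⟩ | ⟨g, a, ha, rfl⟩)
    · obtain ⟨u, hu, rfl⟩ := mem_A1.mp ha
      exact Or.inl ⟨g, u, hu, rfl⟩
    · obtain ⟨w, hw, rfl⟩ := mem_A2.mp ha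
      exact Or.inr ⟨g, w, hw, rfl⟩
  · rintro (⟨g, u, hu, rfl⟩ | ⟨g, w, hw, rfl⟩)
    · exact Or.inl ⟨g, _, mem_A1.mpr ⟨u, hu, rfl⟩, rfl⟩
    · exact Or.inr ⟨g, _, mem_A2.mpr ⟨w, hw, rfl⟩, rfl⟩

/-- The two parts are disjoint. -/
theorem disj_clo (h : Hyp ι) (D : TData ι T) : Disjoint (clo (A1 ι T)) (clo (A2 ι)) := by
  rw [Finset.disjoint_left]
  intro x h1 h2
  obtain ⟨g, a, ha, rfl⟩ := mem_clo.mp h1
  obtain ⟨u, hu, rfl⟩ := mem_A1.mp ha
  obtain ⟨g', a', ha', he⟩ := mem_clo.mp h2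
  obtain ⟨w, hw, rfl⟩ := mem_A2.mp ha'
  set n := Nat.card T with hn
  have h3 : (tt ι * u) ^ (3 * n) = 1 := by
    have hc : Commute (tt ι) u := (D.comm hu).symm
    rw [hc.mul_pow, pow_mul (tt ι), pow_mul' u]
    have e1 : tt ι ^ 3 = 1 := by
      rw [tt, ← map_pow, t₀_pow3, map_one]
    have e2 : u ^ n = 1 := orderOf_dvd_iff_pow_eq_one.mp (Subgroup.orderOf_dvd_natCard T hu)
    rw [e1, e2]
    simp
  have h4 : (ι w) ^ (3 * n) = 1 := by
    have e : ι w = (g'⁻¹ * g) * (tt ι * u) * (g'⁻¹ * g)⁻¹ := by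
      have : ι w = g'⁻¹ * (g' * ι w * g'⁻¹) * g' := by group
      rw [this, ← he]
      group
    rw [e, conj_pow, h3]
    group
  have h5 : (w ^ 3) ^ n = 1 := by
    apply h.inj
    rw [← pow_mul, map_pow, h4, map_one]
  obtain ⟨h6, h7⟩ := inS2_pow w hw
  have h8 : orderOf (w ^ 3) = 3 := orderOf_eq_prime (T_pow3 _ h6) h7
  have h9 := orderOf_dvd_of_pow_eq_one h5
  rw [h8] at h9
  exact D.card h9

theorem Sig_sum (h : Hyp ι) (D : TData ι T) (f : G → ℂ) :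
    ∑ x ∈ Sig ι T, f x = ∑ x ∈ clo (A1 ι T), f x + ∑ x ∈ clo (A2 ι), f x :=
  Finset.sum_union (disj_clo h D)

theorem clo1_card (h : Hyp ι) (D : TData ι T) : 9 * (clo (A1 ι T)).card = Nat.card G := by
  have h1 := clo1_sum D (fun _ => (1 : ℂ)) (fun _ _ => rfl)
  simp only [Finset.sum_const, nsmul_eq_mul, mul_one] at h1
  rw [card_CC h D, A1_card] at h1
  have h2 : ((Nat.card T * 9 * (clo (A1 ι T)).card : ℕ) : ℂ) = ((Nat.card G * Nat.card T : ℕ) : ℂ) := by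
    push_cast at h1 ⊢
    exact h1
  have h3 := Nat.cast_injective h2
  have h4 : 0 < Nat.card T := Nat.card_pos
  apply Nat.eq_of_mul_eq_mul_left h4
  rw [← h3.trans (Nat.mul_comm _ _)]
  ring

theorem clo2_card (h : Hyp ι) : 9 * (clo (A2 ι)).card = 2 * Nat.card G := by
  have h1 := clo2_sum h (fun _ => (1 : ℂ)) (fun _ _ => rfl)
  simp only [Finset.sum_const, nsmul_eq_mul, mul_one] at h1
  rw [card_range h, A2_card h] at h1
  have h2 : ((648 * (clo (A2 ι)).card : ℕ) : ℂ) = ((Nat.card G * 144 : ℕ) : ℂ) := by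
    push_cast at h1 ⊢
    exact h1
  have h3 := Nat.cast_injective h2
  omega

theorem Sig_card (h : Hyp ι) (D : TData ι T) : Nat.card G = 3 * (Sig ι T).card := by
  rw [Sig, Finset.card_union_of_disjoint (disj_clo h D)]
  have h1 := clo1_card h D
  have h2 := clo2_card (ι := ι) h
  omega

/-- **The integrality.** -/
theorem Sig_int (h : Hyp ι) (D : TData ι T) {χ : G → ℂ} (hχ : IsCharacter G χ) :
    ∃ n : ℤ, ∑ x ∈ Sig ι T, χ x = ((Sig ι T).card : ℂ) * (n : ℂ) := by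
  classical
  letI : Fintype T := Fintype.ofFinite _
  have hcl : ∀ a g, χ (g * a * g⁻¹) = χ a := fun a g =>
    Cfsg.Agent.Lib.Char.Basic.isClassFunction_of_isCharacter hχ a g
  obtain ⟨B, hB⟩ := T_part h D hχ
  obtain ⟨A, hA⟩ := Lam_part h hχ
  have ht6 : tt ι ^ 6 = 1 := by
    rw [tt, ← map_pow]
    have : t₀ ^ 6 = (t₀ ^ 3) ^ 2 := by group
    rw [this, t₀_pow3]
    simp
  have htinv : χ (tt ι)⁻¹ = χ (tt ι) := by
    rw [← yy_t (ι := ι), hcl]
  obtain ⟨nt, hnt⟩ := Cfsg.Agent.Lib.Nine.Basic.exists_int_of_pow_six hχ ht6 htinv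
  refine ⟨A + B - nt, ?_⟩
  have e1 := clo1_sum D χ hcl
  have e2 := clo2_sum h χ hcl
  rw [card_CC h D, A1_sum] at e1
  rw [card_range h, A2_sum h, hA] at e2
  have e3 : ∑ u : T, χ (tt ι * u) = tw T χ (tt ι) := by
    rw [tw]
    refine Finset.sum_congr rfl fun u _ => ?_
    rw [D.comm u.2]
  rw [e3, hB] at e1
  have hT0 : (Nat.card T : ℂ) ≠ 0 := Nat.cast_ne_zero.mpr Nat.card_pos.ne'
  have e1' : 9 * ∑ x ∈ clo (A1 ι T), χ x = (Nat.card G : ℂ) * (3 * B - 2 * χ (tt ι)) := by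
    apply mul_left_cancel₀ hT0
    push_cast at e1
    linear_combination e1
  have e2' : 9 * ∑ x ∈ clo (A2 ι), χ x = (Nat.card G : ℂ) * (3 * A - χ (tt ι)) := by
    push_cast at e2
    linear_combination (1 / 72 : ℂ) * e2
  have hG : (Nat.card G : ℂ) = 3 * ((Sig ι T).card : ℂ) := by
    exact_mod_cast Sig_card h D
  rw [Sig_sum h D, ]
  rw [hnt] at e1' e2'
  rw [hG] at e1' e2'
  push_cast
  linear_combination (1 / 9 : ℂ) * e1' + (1 / 9 : ℂ) * e2'

theorem inS2_sq : ∀ w : Gam, inS2 w → w * w ≠ 1 := by decide +kernel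

theorem sq_ne_of_conj {a g : G} (h : a * a ≠ 1) : (g * a * g⁻¹) * (g * a * g⁻¹) ≠ 1 := by
  intro e
  apply h
  have e1 : (g * a * g⁻¹) * (g * a * g⁻¹) = g * (a * a) * g⁻¹ := by group
  rw [e1] at e
  have : a * a = g⁻¹ * (g * (a * a) * g⁻¹) * g := by group
  rw [this, e]
  group

theorem Sig_sq (h : Hyp ι) (D : TData ι T) {x : G} (hx : x ∈ Sig ι T) : x * x ≠ 1 := by
  rcases mem_Sig.mp hx with ⟨g, u, hu, rfl⟩ | ⟨g, w, hw, rfl⟩
  · apply sq_ne_of_conj
    intro e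
    have h1 := D.pow_eq hu
    have h2 : tt ι * tt ι = 1 := by
      rw [← h1, ← pow_two, ← pow_mul, mul_comm, pow_mul, pow_two, e, one_pow]
    have h3 : tt ι ^ 3 = 1 := by
      rw [tt, ← map_pow, t₀_pow3, map_one]
    have h4 : tt ι = 1 := by
      calc tt ι = tt ι ^ 3 * (tt ι * tt ι)⁻¹ := by group
        _ = 1 := by rw [h3, h2]; group
    exact t₀_ne (h.inj (by rw [map_one]; exact h4))
  · apply sq_ne_of_conj
    intro e
    apply inS2_sq w hw
    apply h.inj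
    rw [map_mul, map_one]
    exact e

theorem Sig_conj {x : G} (hx : x ∈ Sig ι T) (c : G) : c * x * c⁻¹ ∈ Sig ι T := by
  rcases mem_Sig.mp hx with ⟨g, u, hu, rfl⟩ | ⟨g, w, hw, rfl⟩
  · exact mem_Sig.mpr (Or.inl ⟨c * g, u, hu, by group⟩)
  · exact mem_Sig.mpr (Or.inr ⟨c * g, w, hw, by group⟩)

/-- No pairs of conjugates of `y₂` with product in the set. -/
theorem no_pair (h : Hyp ι) (D : TData ι T) {x : G} (hx : x ∈ Sig ι T) {p q : G} (hp : IsConj (ι y₂) p)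
    (hq : IsConj (ι y₂) q) (he : p * q = x) : False := by
  have key : ∀ g a : G, x = g * a * g⁻¹ → IsConj (ι y₂) (g⁻¹ * p * g) ∧ IsConj (ι y₂) (g⁻¹ * q * g) ∧
      (g⁻¹ * p * g) * (g⁻¹ * q * g) = a := by
    intro g a hxa
    refine ⟨hp.trans (isConj_iff.mpr ⟨g⁻¹, by group⟩), hq.trans (isConj_iff.mpr ⟨g⁻¹, by group⟩), ?_⟩
    calc (g⁻¹ * p * g) * (g⁻¹ * q * g) = g⁻¹ * (p * q) * g := by group
      _ = g⁻¹ * (g * a * g⁻¹) * g := by rw [he, hxa]
      _ = a := by group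
  rcases mem_Sig.mp hx with ⟨g, u, hu, hxa⟩ | ⟨g, w, hw, hxa⟩
  · obtain ⟨h1, h2, h3⟩ := key g _ hxa
    exact no_pair_T h D hu h1 h2 h3
  · obtain ⟨h1, h2, h3⟩ := key g _ hxa
    exact no_pair_S2 h hw h1 h2 h3

variable [Fintype (IrrCharacter G)]

/-- **The kernel.** -/
theorem exists_K (h : Hyp ι) (D : TData ι T) : ∃ K : Subgroup G, K.Normal ∧ ι y₂ ∈ K ∧ ∀ x ∈ Sig ι T, x ∉ K := by
  have hcard := Sig_card h D
  have hm : (Sig ι T).card ≠ 0 := by
    intro h0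
    rw [h0] at hcard
    exact Nat.card_pos.ne' hcard
  have data : Data (MonoidHom.id G) (Sig ι T) (Sig ι T).card :=
    { inj := fun a b e => e
      ti := fun x _ x' _ g _ => ⟨g, rfl⟩
      cl := fun x hx c => Sig_conj hx c
      card := rfl
      hm := hcard
      m0 := hm }
  have hone : ∀ x ∈ Sig ι T, x ≠ 1 := by
    rintro x hx rfl
    exact Sig_sq h D hx (one_mul 1)
  obtain ⟨K, h1, h2, h3⟩ := exists_kernel (g := ι y₂) data
    (fun χ => Sig_int h D (Cfsg.Agent.Lib.Char.Basic.isCharacter_of_isIrrCharacter χ.2)) hone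
    (fun x hx hc => Sig_sq h D hx (conj_sq y₂_mul hc))
    (fun x hx => by
      haveI : IsEmpty {p : G × G // IsConj (ι y₂) p.1 ∧ IsConj (ι y₂) p.2 ∧ p.1 * p.2 = (MonoidHom.id G) x} :=
        ⟨fun p => no_pair h D hx p.2.1 p.2.2.1 p.2.2.2⟩
      exact Nat.card_of_isEmpty)
  exact ⟨K, h1, h2, h3⟩

end Sets

section Final

/-- The four-group and the vector space lie in a normal subgroup containing `y₂`. -/
theorem emb_v_conj : ∀ i : Fin 3, ∃ c : Gam, c * y₂ * c⁻¹ = emb (ModelT27.v i) := by decide +kernel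

theorem gen_cases : ∀ k : Fin 5, (∃ j, ModelT27.gen k = ModelT27.t j) ∨ ∃ j, ModelT27.gen k = ModelT27.v j := by
  decide +kernel

theorem psi_one_mem {K : Subgroup G} (hK : K.Normal) (hy : ι y₂ ∈ K) {x : Gam} (hx : x.π.p = 1) : ι x ∈ K := by
  have hv : ∀ i, ι (emb (ModelT27.v i)) ∈ K := by
    intro i
    obtain ⟨c, hc⟩ := emb_v_conj i
    rw [← hc, map_mul, map_mul, map_inv]
    exact hK.conj_mem _ hy _
  have ht : ∀ j, ι (emb (ModelT27.t j)) ∈ K := by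
    intro j
    have hj : j ≠ j + 1 := by
      revert j
      decide
    have e := ModelT27.t_word (j + 1) j hj
    rw [e]
    simp only [map_mul, map_inv]
    exact K.mul_mem (hv _) (hK.conj_mem _ (hv _) _)
  have hg : ∀ k, ι (emb (ModelT27.gen k)) ∈ K := by
    intro k
    rcases gen_cases k with ⟨j, e⟩ | ⟨j, e⟩
    · rw [e]; exact ht j
    · rw [e]; exact hv j
  obtain ⟨y, rfl⟩ := mem_range_emb hx
  obtain ⟨a, b, c, d, e, rfl⟩ := ModelT27.gen_word y
  simp only [map_mul, map_pow]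
  exact K.mul_mem (K.mul_mem (K.mul_mem (K.mul_mem (K.pow_mem (hg 0) _) (K.pow_mem (hg 1) _))
    (K.pow_mem (hg 2) _)) (K.pow_mem (hg 3) _)) (K.pow_mem (hg 4) _)

open scoped Classical in
theorem psi_one_of_mem {K : Subgroup G} (hK : K.Normal) (hS : ∀ x ∈ Sig ι T, x ∉ K) {x : Gam} (hx : ι x ∈ K) :
    x.π.p = 1 := by
  by_contra hne
  obtain ⟨p', hp'⟩ := comm_S3 x.π.p hne
  set c := cS p' with hc
  set z := x * c * x⁻¹ * c⁻¹ with hz
  have hzK : ι z ∈ K := by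
    have e : ι z = ι x * (ι c * (ι x)⁻¹ * (ι c)⁻¹) := by
      rw [hz]
      simp only [map_mul, map_inv]
      group
    rw [e]
    exact K.mul_mem hx (hK.conj_mem _ (K.inv_mem hx) _)
  have hzp : z.π.p = r 1 ∨ z.π.p = r 2 := by
    have e : z.π.p = x.π.p * p' * (x.π.p)⁻¹ * p'⁻¹ := rfl
    rw [e]
    exact hp'
  by_cases h3 : z ^ 3 = 1
  · obtain ⟨d, hd⟩ := p_pow3 z hzp h3
    refine hS (ι z) (mem_Sig.mpr (Or.inl ⟨(ι d)⁻¹, 1, Subgroup.one_mem _, ?_⟩)) hzK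
    rw [mul_one, tt, ← hd]
    simp only [map_mul, map_inv]
    group
  · refine hS (ι z) (mem_Sig.mpr (Or.inr ⟨1, z, ⟨hzp, h3⟩, by group⟩)) hzK

/-- **The main theorem.** -/
theorem range_eq_top (h : Hyp ι) : ι.range = ⊤ := by
  classical
  haveI := Cfsg.Agent.Lib.Char.Ortho.finite_irrCharacter (G := G)
  letI : Fintype (IrrCharacter G) := Fintype.ofFinite _
  obtain ⟨T, D⟩ := exists_T h
  obtain ⟨K, hK, hy, hS⟩ := exists_K h D
  have hmem : ∀ x : ModelT27.Gam, (ι.comp emb) x ∈ K := fun x => psi_one_mem hK hy rfl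
  let ι' : ModelT27.Gam →* K := (ι.comp emb).codRestrict K hmem
  have hι' : ∀ x, ((ι' x : K) : G) = ι (emb x) := fun x => rfl
  have hinj' : Function.Injective ι' := by
    intro a b e
    apply emb_inj
    apply h.inj
    exact congrArg Subtype.val e
  have hM : Fuse.TIModel ι' ModelT27.TG := by
    refine ⟨hinj', ?_⟩
    intro t t' ht ht1 ht' g hg
    have hg' : (g : G) * ι (emb t) * (g : G)⁻¹ = ι (emb t') := congrArg Subtype.val hg
    have ht1' : emb t ≠ 1 := fun e => ht1 (emb_inj (by rw [e, map_one]))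
    obtain ⟨c, hc⟩ := ti h ((emb_T t).mpr ht) ht1' ((emb_T t').mpr ht') hg'
    have hcK : ι c ∈ K := by
      rw [hc]
      exact g.2
    obtain ⟨y, rfl⟩ := mem_range_emb (psi_one_of_mem hK hS hcK)
    exact ⟨y, Subtype.ext hc⟩
  have hp : IsPGroup 3 (T27Main.TT ι') := by
    intro t
    refine ⟨1, ?_⟩
    apply Subtype.ext
    simpa using T27Main.TT_pow3 t.2
  obtain ⟨P, hP⟩ := exists_sylow_of_pelements (T27Main.TT ι') hp (by
    rintro n ⟨k, hk⟩ hn
    obtain ⟨t', ht', he⟩ := hn (ι' (ModelT27.t 0)) ⟨_, ModelT27.t_mem 0, rfl⟩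
    obtain ⟨c, rfl⟩ := hM.ti _ t' (ModelT27.t_mem 0) (ModelT27.t_ne 0) ht' n he.symm
    refine ⟨c, ?_, rfl⟩
    have h1 : c ^ 3 ^ k = 1 := by
      apply hinj'
      rw [map_pow, hk, map_one]
    have h3 : orderOf c ∣ 108 := by
      rw [← ModelT27.card_gam, ← Nat.card_eq_fintype_card]
      exact orderOf_dvd_natCard c
    have h2 := orderOf_dvd_of_pow_eq_one h1
    obtain ⟨j, -, hj⟩ := (Nat.dvd_prime_pow Nat.prime_three).mp h2
    have h4 : orderOf c ∣ 27 := by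
      rw [hj] at h3 ⊢
      have h5 : Nat.Coprime (3 ^ j) 4 := Nat.Coprime.pow_left j (by norm_num)
      exact h5.dvd_of_dvd_mul_right (by simpa using h3)
    exact ModelT27.TG_of_pow27 c (orderOf_dvd_iff_pow_eq_one.mp h4))
  letI : Fintype K := Fintype.ofFinite _
  haveI := Cfsg.Agent.Lib.Char.Ortho.finite_irrCharacter (G := K)
  letI : Fintype (IrrCharacter K) := Fintype.ofFinite _
  have hnorm := T27Main.normal_T hM ⟨P, hP⟩
  rw [eq_top_iff]
  intro g _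
  have hj : ι e₀ ∈ K := psi_one_mem hK hy rfl
  have hj1 : ι e₀ ≠ 1 := fun e => e₀_ne (h.inj (by rw [e, map_one]))
  let k' : K := ⟨g * ι e₀ * g⁻¹, hK.conj_mem _ hj g⟩
  have hk3 : k' ^ 3 = 1 := by
    apply Subtype.ext
    change (g * ι e₀ * g⁻¹) ^ 3 = 1
    rw [conj_pow, ← map_pow, e₀_pow3]
    simp
  have hk1 : k' ≠ 1 := by
    intro e
    exact ne_one_of_conj (congrArg Subtype.val e) hj1 rfl
  haveI : Fact (Nat.Prime 3) := ⟨Nat.prime_three⟩
  have hpz : IsPGroup 3 (Subgroup.zpowers k') := by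
    refine IsPGroup.of_card (n := 1) ?_
    rw [Nat.card_zpowers, pow_one]
    exact orderOf_eq_prime hk3 hk1
  obtain ⟨R, hR⟩ := hpz.exists_le_sylow
  obtain ⟨c, hc⟩ := MulAction.exists_smul_eq K R P
  have hmemP : c * k' * c⁻¹ ∈ (P : Subgroup K) := by
    rw [← hc, Sylow.smul_def, Sylow.pointwise_smul_def]
    exact ⟨k', hR (Subgroup.mem_zpowers k'), rfl⟩
  rw [hP] at hmemP
  have hkT : k' ∈ T27Main.TT ι' := by
    have h1 : c⁻¹ ∈ Subgroup.normalizer ((T27Main.TT ι' : Subgroup K) : Set K) := by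
      rw [hnorm]
      trivial
    have h2 := (Subgroup.mem_normalizer_iff.mp h1 _).mp hmemP
    have h3 : c⁻¹ * (c * k' * c⁻¹) * c⁻¹⁻¹ = k' := by group
    rwa [h3] at h2
  obtain ⟨x, hx, he⟩ := hkT
  have he' : g * ι e₀ * g⁻¹ = ι (emb x) := (congrArg Subtype.val he).symm
  exact ti h e₀_π e₀_ne ((emb_T x).mpr hx) he'

end Final

end Cfsg.Agent.Lib.Nine.A9Main
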