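import Mathlib

/-!
# A concrete model of `3² : 2²`
-/

set_option autoImplicit false
set_option linter.style.haveILetI false
set_option maxRecDepth 100000

namespace Cfsg.Agent.Lib.Nine.ModelV4

open DihedralGroup

abbrev V3 := ZMod 3 × ZMod 3
abbrev V4 := DihedralGroup 2

def act : V4 → V3 → V3
  | r 0, x => x
  | r 1, x => (-x.1, -x.2)
  | sr 0, x => (x.1, -x.2)
  | sr 1, x => (-x.1, x.2)

theorem act_one : ∀ x : V3, act 1 x = x := by decide
theorem act_mul : ∀ (a b : V4) (x : V3), act (a * b) x = act a (act b x) := by decide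
theorem act_add : ∀ (a : V4) (x y : V3), act a (x + y) = act a x + act a y := by decide
theorem act_zero : ∀ a : V4, act a 0 = 0 := by decide

structure Gam where
  v : V3
  π : V4
  deriving DecidableEq

namespace Gam

@[ext] theorem ext' {x y : Gam} (h1 : x.v = y.v) (h2 : x.π = y.π) : x = y := by
  cases x; cases y; simp_all

def equiv : Gam ≃ V3 × V4 := ⟨fun g => (g.v, g.π), fun p => ⟨p.1, p.2⟩, fun _ => rfl, fun _ => rfl⟩

instance : Fintype Gam := Fintype.ofEquiv _ equiv.symm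

instance : Mul Gam := ⟨fun g h => ⟨g.v + act g.π h.v, g.π * h.π⟩⟩
instance : One Gam := ⟨⟨0, 1⟩⟩
instance : Inv Gam := ⟨fun g => ⟨act g.π⁻¹ (-g.v), g.π⁻¹⟩⟩

@[simp] theorem mul_v (g h : Gam) : (g * h).v = g.v + act g.π h.v := rfl
@[simp] theorem mul_π (g h : Gam) : (g * h).π = g.π * h.π := rfl
@[simp] theorem one_v : (1 : Gam).v = 0 := rfl
@[simp] theorem one_π : (1 : Gam).π = 1 := rfl
@[simp] theorem inv_v (g : Gam) : (g⁻¹).v = act g.π⁻¹ (-g.v) := rfl
@[simp] theorem inv_π (g : Gam) : (g⁻¹).π = g.π⁻¹ := rfl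

instance : Group Gam :=
  Group.ofLeftAxioms
    (fun a b c => by
      apply ext'
      · simp only [mul_v, mul_π, act_add, act_mul, add_assoc]
      · simp only [mul_π, mul_assoc])
    (fun a => by
      apply ext'
      · simp [act_one]
      · simp)
    (fun a => by
      apply ext'
      · have h : act a.π⁻¹ (-a.v) + act a.π⁻¹ a.v = 0 := by
          rw [← act_add]
          simp [act_zero]
        simpa using h
      · simp)

end Gam

def t1 : Gam := ⟨(1, 0), 1⟩
def t2 : Gam := ⟨(0, 1), 1⟩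
def y : Gam := ⟨(1, 1), 1⟩
def e1 : Gam := ⟨0, sr 1⟩
def e2 : Gam := ⟨0, sr 0⟩
def z : Gam := ⟨0, r 1⟩
def wP : Gam := t1
def wQ : Gam := t2
def wY : Gam := y
def wP' : Gam := ⟨(1, 0), sr 0⟩
def wQ' : Gam := ⟨(0, 1), sr 1⟩

theorem card_gam : Fintype.card Gam = 36 := by decide
theorem cP : (Finset.univ.filter (fun c : Gam => c * wP = wP * c)).card = 18 := by decide
theorem cQ : (Finset.univ.filter (fun c : Gam => c * wQ = wQ * c)).card = 18 := by decide
theorem cY : (Finset.univ.filter (fun c : Gam => c * wY = wY * c)).card = 9 := by decide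
theorem cP' : (Finset.univ.filter (fun c : Gam => c * wP' = wP' * c)).card = 6 := by decide
theorem cQ' : (Finset.univ.filter (fun c : Gam => c * wQ' = wQ' * c)).card = 6 := by decide
theorem wP'_eq : wP' = t1 * e2 := by decide
theorem wQ'_eq : wQ' = t2 * e1 := by decide
theorem nPQ : ∀ c : Gam, c * wP * c⁻¹ ≠ wQ := by decide
theorem nPY : ∀ c : Gam, c * wP * c⁻¹ ≠ wY := by decide
theorem nPP' : ∀ c : Gam, c * wP * c⁻¹ ≠ wP' := by decide
theorem nPQ' : ∀ c : Gam, c * wP * c⁻¹ ≠ wQ' := by decide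
theorem nQY : ∀ c : Gam, c * wQ * c⁻¹ ≠ wY := by decide
theorem nQP' : ∀ c : Gam, c * wQ * c⁻¹ ≠ wP' := by decide
theorem nQQ' : ∀ c : Gam, c * wQ * c⁻¹ ≠ wQ' := by decide
theorem nYP' : ∀ c : Gam, c * wY * c⁻¹ ≠ wP' := by decide
theorem nYQ' : ∀ c : Gam, c * wY * c⁻¹ ≠ wQ' := by decide
theorem nP'Q' : ∀ c : Gam, c * wP' * c⁻¹ ≠ wQ' := by decide
theorem rP : ∃ c : Gam, c * wP * c⁻¹ = wP⁻¹ := by decide
theorem rQ : ∃ c : Gam, c * wQ * c⁻¹ = wQ⁻¹ := by decide
theorem rY : ∃ c : Gam, c * wY * c⁻¹ = wY⁻¹ := by decide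
theorem rP' : ∃ c : Gam, c * wP' * c⁻¹ = wP'⁻¹ := by decide
theorem rQ' : ∃ c : Gam, c * wQ' * c⁻¹ = wQ'⁻¹ := by decide

/-- The normal subgroup of order `9` of the model. -/
def TG : Subgroup Gam where
  carrier := {x | x.π = 1}
  mul_mem' := by
    intro a b ha hb
    change (a * b).π = 1
    rw [Gam.mul_π, show a.π = 1 from ha, show b.π = 1 from hb, one_mul]
  one_mem' := rfl
  inv_mem' := by
    intro a ha
    change (a⁻¹).π = 1
    rw [Gam.inv_π, show a.π = 1 from ha, inv_one]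

theorem mem_TG {x : Gam} : x ∈ TG ↔ x.π = 1 := Iff.rfl

theorem TG_pow3 : ∀ x : Gam, x.π = 1 → x ^ 3 = 1 := by decide
theorem TG_conj : ∀ x c : Gam, x.π = 1 → (c * x * c⁻¹).π = 1 := by decide
theorem TG_comm : ∀ a b : Gam, a.π = 1 → b.π = 1 → a * b = b * a := by decide
theorem TG_cent : ∀ c : Gam, c * t1 = t1 * c → c * t2 = t2 * c → c.π = 1 := by decide
theorem TG_of_pow3 : ∀ x : Gam, x ^ 3 = 1 → x.π = 1 := by decide

theorem w4P : (wP ^ 4).π = 1 ∧ wP ^ 4 ≠ 1 := by decide
theorem w4Q : (wQ ^ 4).π = 1 ∧ wQ ^ 4 ≠ 1 := by decide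
theorem w4Y : (wY ^ 4).π = 1 ∧ wY ^ 4 ≠ 1 := by decide
theorem w4P' : (wP' ^ 4).π = 1 ∧ wP' ^ 4 ≠ 1 := by decide
theorem w4Q' : (wQ' ^ 4).π = 1 ∧ wQ' ^ 4 ≠ 1 := by decide
theorem w6P : wP ^ 6 = 1 := by decide
theorem w6Q : wQ ^ 6 = 1 := by decide
theorem w6Y : wY ^ 6 = 1 := by decide
theorem w6P' : wP' ^ 6 = 1 := by decide
theorem w6Q' : wQ' ^ 6 = 1 := by decide

/-- The three classes of involutions of the model. -/
def rep : Fin 3 → Gam := ![e1, e2, z]

/-- The class of an involution of the model. -/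
def ty (x : Gam) : Option (Fin 3) :=
  if x * x = 1 ∧ x ≠ 1 then
    if x.π = sr 1 then some 0
    else if x.π = sr 0 then some 1
    else if x.π = r 1 then some 2
    else none
  else none

theorem ty_conj : ∀ (x : Gam) (i : Fin 3), ty x = some i → ∃ c : Gam, c * x * c⁻¹ = rep i := by decide
theorem ty_none : ∀ x : Gam, ty x = none → x * x ≠ 1 ∨ x = 1 := by decide
theorem ty_rep : ∀ i : Fin 3, ty (rep i) = some i := by decide

/-- The count of solutions of `x * x' = w` by classes. -/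
def tyB (b : Fin 3 → Bool) (x : Gam) : Bool :=
  match ty x with
  | some i => b i
  | none => false

theorem tyB_some {b : Fin 3 → Bool} {x : Gam} {i : Fin 3} (h : ty x = some i) : tyB b x = b i := by
  simp [tyB, h]

theorem tyB_none {b : Fin 3 → Bool} {x : Gam} (h : ty x = none) : tyB b x = false := by
  simp [tyB, h]

def cnt (w : Gam) (b b' : Fin 3 → Bool) : ℕ :=
  (Finset.univ.filter (fun x : Gam => tyB b x = true ∧ tyB b' (x⁻¹ * w) = true)).card

def bv (a b c : Bool) : Fin 3 → Bool := ![a, b, c]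

theorem bv_eta (f : Fin 3 → Bool) : f = bv (f 0) (f 1) (f 2) := by
  funext i
  fin_cases i <;> rfl

def ind (a : Bool) : ℕ := if a then 1 else 0

theorem cnt_wP : ∀ a b c a' b' c' : Bool, cnt wP (bv a b c) (bv a' b' c') =
    3 * ind (a && a') + 9 * ind (c && c') := by decide
theorem cnt_wQ : ∀ a b c a' b' c' : Bool, cnt wQ (bv a b c) (bv a' b' c') =
    3 * ind (b && b') + 9 * ind (c && c') := by decide
theorem cnt_wY : ∀ a b c a' b' c' : Bool, cnt wY (bv a b c) (bv a' b' c') =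
    9 * ind (c && c') := by decide
theorem cnt_wP' : ∀ a b c a' b' c' : Bool, cnt wP' (bv a b c) (bv a' b' c') =
    3 * ind (a && c') + 3 * ind (c && a') := by decide
theorem cnt_wQ' : ∀ a b c a' b' c' : Bool, cnt wQ' (bv a b c) (bv a' b' c') =
    3 * ind (b && c') + 3 * ind (c && b') := by decide

/-- The classes of the elements of the normal subgroup. -/
theorem T_cls : ∀ x : Gam, x.π = 1 → x ≠ 1 →
    (∃ c : Gam, c * x * c⁻¹ = t1) ∨ (∃ c : Gam, c * x * c⁻¹ = t2) ∨ (∃ c : Gam, c * x * c⁻¹ = y) := by decide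

/-- The swap of the two coordinates. -/
def swapV : V4 → V4
  | r i => r i
  | sr i => sr (i + 1)

def swapF (x : Gam) : Gam := ⟨(x.v.2, x.v.1), swapV x.π⟩

theorem swapF_mul : ∀ a b : Gam, swapF (a * b) = swapF a * swapF b := by decide
theorem swapF_swapF : ∀ a : Gam, swapF (swapF a) = a := by decide

/-- The swap as a homomorphism. -/
def swapH : Gam →* Gam :=
  MonoidHom.mk' swapF swapF_mul

theorem swapH_apply (a : Gam) : swapH a = swapF a := rfl
theorem swap_t1 : swapF t1 = t2 := by decide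
theorem swap_t2 : swapF t2 = t1 := by decide
theorem swap_e1 : swapF e1 = e2 := by decide
theorem swap_e2 : swapF e2 = e1 := by decide
theorem swap_z : swapF z = z := by decide
theorem swap_π : ∀ x : Gam, x.π = 1 → (swapF x).π = 1 := by decide

end Cfsg.Agent.Lib.Nine.ModelV4
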