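import Mathlib
import Cfsg.Agent.Lib.Nine.D8Main
import Cfsg.Agent.Lib.OddChar.GaloisConj
import Cfsg.Agent.Lib.CharZeros.Gallagher

/-!
# The coherent characters of a group with a TI Sylow subgroup with normalizer `3² : D₈`,
when the fourth of them is linear

Rationality of the nine characters, multiplication by the linear character, and the class
constants in a normal form.
-/

set_option autoImplicit false
set_option linter.unusedSectionVars false
set_option linter.unusedVariables false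
set_option linter.unusedSimpArgs false
set_option linter.style.haveILetI false
set_option maxRecDepth 100000

namespace Cfsg.Agent.Lib.Nine.S6Coh

open Cfsg
open Cfsg.Agent.Lib.Nine.ModelD8 Cfsg.Agent.Lib.Nine.Fuse Cfsg.Agent.Lib.Nine.Basic
open Cfsg.Agent.Lib.Nine.D8Coh Cfsg.Agent.Lib.Nine.D8Char Cfsg.Agent.Lib.Nine.D8Alg
open Cfsg.Agent.Lib.Nine.D8Form
open Cfsg.Agent.Lib.Blocks.Third
open scoped ComplexConjugate

universe u

theorem phi_uniq_aux : ∀ (l l' : Fin 9) (a b : Bool),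
    (if a then (1 : ℤ) else -1) * φA l = (if b then (1 : ℤ) else -1) * φA l' →
    (if a then (1 : ℤ) else -1) * φC l = (if b then (1 : ℤ) else -1) * φC l' →
    (if a then (1 : ℤ) else -1) * φA' l = (if b then (1 : ℤ) else -1) * φA' l' →
    (if a then (1 : ℤ) else -1) * φC' l = (if b then (1 : ℤ) else -1) * φC' l' → l = l' ∧ a = b := by
  decide

theorem phi_uniq (l l' : Fin 9) {ε ε' : ℤ} (hε : ε = 1 ∨ ε = -1) (hε' : ε' = 1 ∨ ε' = -1)
    (h1 : ε * φA l = ε' * φA l') (h2 : ε * φC l = ε' * φC l') (h3 : ε * φA' l = ε' * φA' l')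
    (h4 : ε * φC' l = ε' * φC' l') : l = l' ∧ ε = ε' := by
  have key := phi_uniq_aux l l'
  rcases hε with rfl | rfl <;> rcases hε' with rfl | rfl
  · exact ⟨(key true true (by simpa using h1) (by simpa using h2) (by simpa using h3) (by simpa using h4)).1, rfl⟩
  · have := key true false (by simpa using h1) (by simpa using h2) (by simpa using h3) (by simpa using h4)
    simp at this
  · have := key false true (by simpa using h1) (by simpa using h2) (by simpa using h3) (by simpa using h4)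
    simp at this
  · exact ⟨(key false false (by simpa using h1) (by simpa using h2) (by simpa using h3) (by simpa using h4)).1, rfl⟩

theorem phiA_ne : ∀ l : Fin 9, φA l ≠ 0 := by decide

variable {G : Type u} [Group G] [Fintype G] {ι : Gam →* G}
variable [Fintype (IrrCharacter G)] {χ : Fin 9 → IrrCharacter G} {s : Fin 9 → ℤ}

/-- An irreducible character with the values of a coherent character is that character. -/
theorem eq_of_vals (C : Coh ι χ s) (θ : IrrCharacter G) (l : Fin 9) {ε : ℤ} (hε : ε = 1 ∨ ε = -1)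
    (h1 : (θ : G → ℂ) (ι wA) = ((ε * φA l : ℤ) : ℂ)) (h2 : (θ : G → ℂ) (ι wC) = ((ε * φC l : ℤ) : ℂ))
    (h3 : (θ : G → ℂ) (ι wA') = ((ε * φA' l : ℤ) : ℂ)) (h4 : (θ : G → ℂ) (ι wC') = ((ε * φC' l : ℤ) : ℂ)) :
    θ = χ l ∧ s l = ε := by
  by_cases hr : θ ∈ Set.range χ
  · obtain ⟨l', rfl⟩ := hr
    rw [C.vA l'] at h1
    rw [C.vC l'] at h2
    rw [C.vA' l'] at h3
    rw [C.vC' l'] at h4
    have e1 : s l' * φA l' = ε * φA l := by exact_mod_cast h1
    have e2 : s l' * φC l' = ε * φC l := by exact_mod_cast h2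
    have e3 : s l' * φA' l' = ε * φA' l := by exact_mod_cast h3
    have e4 : s l' * φC' l' = ε * φC' l := by exact_mod_cast h4
    obtain ⟨h5, h6⟩ := phi_uniq l' l (C.sgn l') hε e1 e2 e3 e4
    subst h5
    exact ⟨rfl, h6⟩
  · exfalso
    have h5 := (C.zero θ hr).1
    rw [h5] at h1
    have h6 : ε * φA l = 0 := by exact_mod_cast h1.symm
    rcases mul_eq_zero.mp h6 with h7 | h7
    · rcases hε with h8 | h8 <;> omega
    · exact phiA_ne l h7

theorem card_gam : Fintype.card Gam = 72 := by decide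

theorem dvd_card (hinj : Function.Injective ι) : 72 ∣ Nat.card G := by
  have h1 : Nat.card ι.range = 72 := by
    rw [← card_gam, ← Nat.card_eq_fintype_card]
    exact Nat.card_congr (MonoidHom.ofInjective hinj).toEquiv.symm
  rw [← h1]
  exact Subgroup.card_subgroup_dvd_card _

theorem pow_real (χ' : IrrCharacter G) {w : Gam} (h6 : w ^ 6 = 1) (h : ∃ c : Gam, c * w * c⁻¹ = w⁻¹)
    {k : ℕ} (hk : k.Coprime 6) : (χ' : G → ℂ) (ι w ^ k) = (χ' : G → ℂ) (ι w) := by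
  have h2 : k % 6 = 1 ∨ k % 6 = 5 := by
    have h3 : ¬ 2 ∣ k := fun h => by
      have h4 : 2 ∣ Nat.gcd k 6 := Nat.dvd_gcd h (by norm_num)
      rw [show Nat.gcd k 6 = 1 from hk] at h4
      omega
    have h4 : ¬ 3 ∣ k := fun h => by
      have h4 : 3 ∣ Nat.gcd k 6 := Nat.dvd_gcd h (by norm_num)
      rw [show Nat.gcd k 6 = 1 from hk] at h4
      omega
    omega
  have h7 : (ι w) ^ 6 = 1 := by rw [← map_pow, h6, map_one]
  rw [pow_eq_pow_mod k h7]
  rcases h2 with h2 | h2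
  · rw [h2, pow_one]
  · rw [h2]
    have h8 : (ι w) ^ 5 = (ι w)⁻¹ := by
      rw [eq_inv_iff_mul_eq_one, ← pow_succ, h7]
    rw [h8]
    exact real_val χ' h

/-- **Rationality**: the coherent characters are fixed by the power maps. -/
theorem pow_eq (C : Coh ι χ s) (hinj : Function.Injective ι) {k : ℕ} (hk : k.Coprime (Nat.card G)) (l : Fin 9)
    (g : G) : (χ l : G → ℂ) (g ^ k) = (χ l : G → ℂ) g := by
  have hk6 : k.Coprime 6 := Nat.Coprime.coprime_dvd_right ((by norm_num : 6 ∣ 72).trans (dvd_card hinj)) hk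
  let θ : IrrCharacter G := ⟨fun g => (χ l : G → ℂ) (g ^ k),
    Cfsg.Agent.Lib.OddChar.GaloisConj.isIrrCharacter_pow hk (χ l).2⟩
  have hθ : ∀ g, (θ : G → ℂ) g = (χ l : G → ℂ) (g ^ k) := fun _ => rfl
  obtain ⟨h1, -⟩ := eq_of_vals C θ l (C.sgn l)
    (by rw [hθ, pow_real (χ l) w6A rA hk6, C.vA l])
    (by rw [hθ, pow_real (χ l) w6C rC hk6, C.vC l])
    (by rw [hθ, pow_real (χ l) w6A' rA' hk6, C.vA' l])
    (by rw [hθ, pow_real (χ l) w6C' rC' hk6, C.vC' l])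
  rw [← hθ, h1]

/-- The coherent characters are real. -/
theorem inv_eq (C : Coh ι χ s) (hinj : Function.Injective ι) (l : Fin 9) (g : G) :
    (χ l : G → ℂ) g⁻¹ = (χ l : G → ℂ) g := by
  have hn : 2 ≤ Nat.card G := by
    have h1 := Nat.le_of_dvd Nat.card_pos (dvd_card hinj)
    omega
  have hk : (Nat.card G - 1).Coprime (Nat.card G) := by
    have h2 : Nat.card G - 1 + 1 = Nat.card G := Nat.sub_add_cancel (by omega)
    have h3 : (Nat.card G - 1).Coprime (Nat.card G - 1 + 1) := by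
      simp
    rwa [h2] at h3
  have h1 := pow_eq C hinj hk l g
  have h2 : g ^ (Nat.card G - 1) = g⁻¹ := by
    rw [eq_inv_iff_mul_eq_one, ← pow_succ, Nat.sub_add_cancel (by omega), pow_card_eq_one']
  rwa [h2] at h1

section Lin

variable (C : Coh ι χ s) (hinj : Function.Injective ι) (h3 : (χ 3 : G → ℂ) 1 = 1) (hs3 : s 3 = 1)

include h3 in
theorem lin_mul (a b : G) : (χ 3 : G → ℂ) (a * b) = (χ 3 : G → ℂ) a * (χ 3 : G → ℂ) b :=
  Cfsg.Agent.Lib.Char.Linear.deg_one_mul (Cfsg.Agent.Lib.Char.Basic.isCharacter_of_isIrrCharacter (χ 3).2) h3 a b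

include C hinj h3 in
theorem lin_sq (g : G) : (χ 3 : G → ℂ) g * (χ 3 : G → ℂ) g = 1 := by
  have h1 := lin_mul h3 g g⁻¹
  rw [mul_inv_cancel, h3, inv_eq C hinj] at h1
  exact h1.symm

include C hinj h3 in
theorem lin_cases (g : G) : (χ 3 : G → ℂ) g = 1 ∨ (χ 3 : G → ℂ) g = -1 := by
  have h1 := lin_sq C hinj h3 g
  have h2 : ((χ 3 : G → ℂ) g - 1) * ((χ 3 : G → ℂ) g + 1) = 0 := by linear_combination h1
  rcases mul_eq_zero.mp h2 with h4 | h4
  · left; linear_combination h4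
  · right; linear_combination h4

/-- The permutation of the coherent characters by the linear one. -/
def τ3 : Fin 9 → Fin 9 := ![3, 2, 1, 0, 4, 6, 5, 8, 7]

theorem tab_A : ∀ l : Fin 9, φA 3 * φA l = φA (τ3 l) := by decide
theorem tab_C : ∀ l : Fin 9, φC 3 * φC l = φC (τ3 l) := by decide
theorem tab_A' : ∀ l : Fin 9, φA' 3 * φA' l = φA' (τ3 l) := by decide
theorem tab_C' : ∀ l : Fin 9, φC' 3 * φC' l = φC' (τ3 l) := by decide

include C h3 hs3 in
theorem mul3 (l : Fin 9) (g : G) : (χ 3 : G → ℂ) g * (χ l : G → ℂ) g = (χ (τ3 l) : G → ℂ) g ∧ s (τ3 l) = s l := by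
  let θ : IrrCharacter G := ⟨fun g => (χ 3 : G → ℂ) g * (χ l : G → ℂ) g,
    Cfsg.Agent.Lib.CharZeros.Gallagher.isIrrCharacter_mul_linear
      (Cfsg.Agent.Lib.Char.Basic.isCharacter_of_isIrrCharacter (χ 3).2) h3 (χ l).2⟩
  have hθ : ∀ g, (θ : G → ℂ) g = (χ 3 : G → ℂ) g * (χ l : G → ℂ) g := fun _ => rfl
  obtain ⟨h1, h2⟩ := eq_of_vals C θ (τ3 l) (C.sgn l)
    (by
      rw [hθ, C.vA 3, C.vA l, hs3, ← tab_A l]
      push_cast
      ring)
    (by
      rw [hθ, C.vC 3, C.vC l, hs3, ← tab_C l]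
      push_cast
      ring)
    (by
      rw [hθ, C.vA' 3, C.vA' l, hs3, ← tab_A' l]
      push_cast
      ring)
    (by
      rw [hθ, C.vC' 3, C.vC' l, hs3, ← tab_C' l]
      push_cast
      ring)
  refine ⟨?_, h2⟩
  rw [← hθ, h1]

end Lin

section Forms

/-- The signed value. -/
noncomputable def sv (χ : Fin 9 → IrrCharacter G) (s : Fin 9 → ℤ) (l : Fin 9) (g : G) : ℂ :=
  (s l : ℂ) * (χ l : G → ℂ) g

/-- The order of the centralizer, as a complex number. -/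
noncomputable def cm (g : G) : ℂ := (Nat.card (Subgroup.centralizer ({g} : Set G)) : ℂ)

theorem cm_ne (g : G) : cm g ≠ 0 := Nat.cast_ne_zero.mpr Nat.card_pos.ne'

theorem dl_eq_sv (l : Fin 9) : dl χ s l = sv χ s l 1 := rfl

theorem sv_ne_of_conj {l : Fin 9} {a b : G} (h : IsConj a b) : sv χ s l a = sv χ s l b := by
  rw [sv, sv, isClass (χ l) h]

variable (C : Coh ι χ s) (h3 : (χ 3 : G → ℂ) 1 = 1) (hs3 : s 3 = 1)

include C h3 hs3 in
theorem sv_vals {g : G} (hA : ¬ IsConj g (ι wA)) (hC : ¬ IsConj g (ι wC)) (hA' : ¬ IsConj g (ι wA'))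
    (hC' : ¬ IsConj g (ι wC')) :
    sv χ s 0 g = 1 ∧ sv χ s 2 g = (χ 3 : G → ℂ) g * sv χ s 1 g ∧ sv χ s 3 g = (χ 3 : G → ℂ) g ∧
      (χ 3 : G → ℂ) g * sv χ s 4 g = sv χ s 4 g ∧
      sv χ s 5 g = 1 + sv χ s 1 g + sv χ s 4 g ∧
      sv χ s 6 g = (χ 3 : G → ℂ) g * (1 + sv χ s 1 g + sv χ s 4 g) ∧
      sv χ s 7 g = 1 + (χ 3 : G → ℂ) g * sv χ s 1 g + sv χ s 4 g ∧
      sv χ s 8 g = (χ 3 : G → ℂ) g * (1 + (χ 3 : G → ℂ) g * sv χ s 1 g + sv χ s 4 g) := by
  obtain ⟨h01, h02⟩ := C.one_mem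
  have e0 : sv χ s 0 g = 1 := by
    rw [sv, h01, h02, oneI_apply]
    simp
  obtain ⟨r1, r2⟩ := mul3 C h3 hs3 1 g
  obtain ⟨r3, r4⟩ := mul3 C h3 hs3 4 g
  obtain ⟨r5, r6⟩ := mul3 C h3 hs3 5 g
  obtain ⟨r7, r8⟩ := mul3 C h3 hs3 7 g
  rw [show τ3 1 = 2 from rfl] at r1 r2
  rw [show τ3 4 = 4 from rfl] at r3
  rw [show τ3 5 = 6 from rfl] at r5 r6
  rw [show τ3 7 = 8 from rfl] at r7 r8
  have e2 : sv χ s 2 g = (χ 3 : G → ℂ) g * sv χ s 1 g := by
    rw [sv, sv, r2, ← r1]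
    ring
  have e3 : sv χ s 3 g = (χ 3 : G → ℂ) g := by
    rw [sv, hs3]
    simp
  have e4 : (χ 3 : G → ℂ) g * sv χ s 4 g = sv χ s 4 g := by
    rw [sv, ← mul_assoc, mul_comm ((χ 3 : G → ℂ) g), mul_assoc, r3]
  obtain ⟨a1, -, a3, -⟩ := rel C hA hC hA' hC'
  have e5 : sv χ s 5 g = 1 + sv χ s 1 g + sv χ s 4 g := by
    rw [← e0]
    exact a1
  have e7 : sv χ s 7 g = 1 + (χ 3 : G → ℂ) g * sv χ s 1 g + sv χ s 4 g := by
    rw [← e0, ← e2]
    exact a3
  refine ⟨e0, e2, e3, e4, e5, ?_, e7, ?_⟩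
  · rw [← e5, sv, sv, r6, ← r5]
    ring
  · rw [← e7, sv, sv, r8, ← r7]
    ring

include C h3 hs3 in
theorem dl_vals (hinj : Function.Injective ι) :
    dl χ s 0 = 1 ∧ dl χ s 2 = dl χ s 1 ∧ dl χ s 3 = 1 ∧
      dl χ s 5 = 1 + dl χ s 1 + dl χ s 4 ∧ dl χ s 6 = 1 + dl χ s 1 + dl χ s 4 ∧
      dl χ s 7 = 1 + dl χ s 1 + dl χ s 4 ∧ dl χ s 8 = 1 + dl χ s 1 + dl χ s 4 := by
  obtain ⟨e0, e2, e3, -, e5, e6, e7, e8⟩ := sv_vals C h3 hs3 (g := 1)
    (not_conj_of_sq hinj (by simp) w2A) (not_conj_of_sq hinj (by simp) w2C)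
    (not_conj_of_sq hinj (by simp) w2A') (not_conj_of_sq hinj (by simp) w2C')
  rw [h3] at e2 e3 e6 e7 e8
  simp only [dl_eq_sv]
  refine ⟨e0, ?_, ?_, e5, ?_, ?_, ?_⟩
  · rw [e2, one_mul]
  · exact e3
  · rw [e6, one_mul]
  · rw [e7, one_mul]
  · rw [e8, one_mul, one_mul]

include C in
theorem term_eq (g g' : G) (l : Fin 9) :
    dl χ s l * (xv χ s g l * xv χ s g' l) = sv χ s l g * sv χ s l g' / (cm g * cm g' * dl χ s l) := by
  have h0 := dl_ne C l
  have hc := cm_ne g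
  have hc' := cm_ne g'
  change dl χ s l * (sv χ s l g / (cm g * dl χ s l) * (sv χ s l g' / (cm g' * dl χ s l))) = _
  field_simp

/-- The forms for a pair of involutions. -/
theorem pair_forms (S : Setup ι) (C : Coh ι χ s) (h3 : (χ 3 : G → ℂ) 1 = 1) (hs3 : s 3 = 1)
    {g g' : G} (hg : g ^ 2 = 1) (hg1 : g ≠ 1) (hg' : g' ^ 2 = 1) (hg1' : g' ≠ 1)
    {A Ψ D ε ε' a a' p p' : ℂ} (hA : dl χ s 1 = A) (hΨ : dl χ s 4 = Ψ) (hD : 1 + A + Ψ = D)
    (hε : (χ 3 : G → ℂ) g = ε) (hε' : (χ 3 : G → ℂ) g' = ε') (ha : sv χ s 1 g = a) (ha' : sv χ s 1 g' = a')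
    (hp : sv χ s 4 g = p) (hp' : sv χ s 4 g' = p') :
    (cnt wA (clsB ι g) (clsB ι g') : ℂ) * (cm g * cm g' / (Nat.card G : ℂ)) =
      (1 + ε * ε') * (1 + a * a' / A + (1 + a + p) * (1 + a' + p') / D -
        2 * ((1 + ε * a + p) * (1 + ε' * a' + p') / D)) + 2 * (p * p' / Ψ) ∧
    (cnt wC (clsB ι g) (clsB ι g') : ℂ) * (cm g * cm g' / (Nat.card G : ℂ)) =
      (1 + ε * ε') * (1 + a * a' / A - 2 * ((1 + a + p) * (1 + a' + p') / D) +
        (1 + ε * a + p) * (1 + ε' * a' + p') / D) + 2 * (p * p' / Ψ) ∧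
    (cnt wA' (clsB ι g) (clsB ι g') : ℂ) * (cm g * cm g' / (Nat.card G : ℂ)) =
      (1 - ε * ε') * (1 + a * a' / A - (1 + a + p) * (1 + a' + p') / D) ∧
    (cnt wC' (clsB ι g) (clsB ι g') : ℂ) * (cm g * cm g' / (Nat.card G : ℂ)) =
      (1 - ε * ε') * (1 - a * a' / A - (1 + ε * a + p) * (1 + ε' * a' + p') / D) := by
  subst hA hΨ hD hε hε' ha ha' hp hp'
  have hinj := S.model.inj
  obtain ⟨d0, d2, d3, d5, d6, d7, d8⟩ := dl_vals C h3 hs3 hinj
  obtain ⟨e0, e2, e3, -, e5, e6, e7, e8⟩ := sv_vals C h3 hs3 (g := g)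
    (not_conj_of_sq hinj hg w2A) (not_conj_of_sq hinj hg w2C)
    (not_conj_of_sq hinj hg w2A') (not_conj_of_sq hinj hg w2C')
  obtain ⟨e0', e2', e3', -, e5', e6', e7', e8'⟩ := sv_vals C h3 hs3 (g := g')
    (not_conj_of_sq hinj hg' w2A) (not_conj_of_sq hinj hg' w2C)
    (not_conj_of_sq hinj hg' w2A') (not_conj_of_sq hinj hg' w2C')
  have f1 := frob C g g' C.vA (fun ψ h => (C.zero ψ h).1)
  have f2 := frob C g g' C.vC (fun ψ h => (C.zero ψ h).2.1)
  have f3 := frob C g g' C.vA' (fun ψ h => (C.zero ψ h).2.2.1)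
  have f4 := frob C g g' C.vC' (fun ψ h => (C.zero ψ h).2.2.2)
  rw [count_eq S.model w4A hg hg1 hg' hg1', sum9] at f1
  rw [count_eq S.model w4C hg hg1 hg' hg1', sum9] at f2
  rw [count_eq S.model w4A' hg hg1 hg' hg1', sum9] at f3
  rw [count_eq S.model w4C' hg hg1 hg' hg1', sum9] at f4
  simp only [term_eq C g g'] at f1 f2 f3 f4
  simp only [e0, e2, e3, e5, e6, e7, e8, e0', e2', e3', e5', e6', e7', e8', d0, d2, d3, d5, d6,
    d7, d8] at f1 f2 f3 f4
  simp [φA, φC, φA', φC', -Nat.card_eq_fintype_card] at f1 f2 f3 f4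
  have hc := cm_ne g
  have hc' := cm_ne g'
  have key : ∀ x y : ℂ, x / (Nat.card G : ℂ) = y → x * (cm g * cm g' / (Nat.card G : ℂ)) = cm g * cm g' * y := by
    intro x y h
    rw [← h]
    ring
  rw [key _ _ f1, key _ _ f2, key _ _ f3, key _ _ f4]
  refine ⟨?_, ?_, ?_, ?_⟩ <;> · field_simp; ring

end Forms

end Cfsg.Agent.Lib.Nine.S6Coh
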