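import Mathlib
import Cfsg.Agent.Lib.Nine.S6Coh

/-!
# The numerical data of a group with a TI Sylow subgroup with normalizer `3² : D₈`

No fusion of involutions; the parameter `α`; the class constants of involutions in the kernel of
the linear character.
-/

set_option autoImplicit false
set_option linter.unusedSectionVars false
set_option linter.unusedVariables false
set_option linter.unusedSimpArgs false
set_option linter.style.haveILetI false
set_option maxRecDepth 100000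

namespace Cfsg.Agent.Lib.Nine.S6Data

open Cfsg
open Cfsg.Agent.Lib.Nine.ModelD8 Cfsg.Agent.Lib.Nine.Fuse Cfsg.Agent.Lib.Nine.Basic
open Cfsg.Agent.Lib.Nine.D8Coh Cfsg.Agent.Lib.Nine.D8Char Cfsg.Agent.Lib.Nine.D8Alg
open Cfsg.Agent.Lib.Nine.D8Form Cfsg.Agent.Lib.Nine.D8Main Cfsg.Agent.Lib.Nine.S6Coh
open Cfsg.Agent.Lib.Blocks.Third

universe u

/-- The pure algebra of the pairs `(e, e)` and `(e, σ)`. -/
theorem solve_alpha {A Ψ D α β μ : ℂ} (hA : A ≠ 0) (hD : D ≠ 0) (hDdef : 1 + A + Ψ = D) (hμ : μ ≠ 0)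
    (h1 : 3 * μ = 2 * (1 + α * α / A + (1 + α) * (1 + α) / D - 2 * ((1 - α) * (1 - α) / D)))
    (h2 : 0 = 2 * (1 + α * α / A - 2 * ((1 + α) * (1 + α) / D) + (1 - α) * (1 - α) / D))
    (h3 : 0 = 2 * (1 + α * β / A + (1 + α) * (1 + β) / D - 2 * ((1 - α) * (1 - β) / D)))
    (h4 : 0 = 2 * (1 + α * β / A - 2 * ((1 + α) * (1 + β) / D) + (1 - α) * (1 - β) / D)) :
    β = -α ∧ D = 1 + 3 * α ∧ α ≠ 0 ∧ A * (3 + α) = α * (1 + 3 * α) ∧ Ψ * (3 + α) = 8 * α ∧
      μ * D = 8 * α ∧ 3 + α ≠ 0 := by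
  simp only [div_eq_mul_inv] at h1 h2 h3 h4
  obtain ⟨x, hx⟩ : ∃ x, x = D⁻¹ := ⟨_, rfl⟩
  obtain ⟨y, hy⟩ : ∃ y, y = A⁻¹ := ⟨_, rfl⟩
  rw [← hx, ← hy] at h1 h2 h3 h4
  have hDx : D * x = 1 := by rw [hx]; exact mul_inv_cancel₀ hD
  have hAy : A * y = 1 := by rw [hy]; exact mul_inv_cancel₀ hA
  have hx0 : x ≠ 0 := by
    rintro rfl
    simp at hDx
  have e1 : x * (α + β) = 0 := by linear_combination (1 / 12 : ℂ) * h4 - (1 / 12 : ℂ) * h3
  have hβ : β = -α := by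
    have := (mul_eq_zero.mp e1).resolve_left hx0
    linear_combination this
  subst hβ
  have e2 : x * (1 + 3 * α) = 1 := by linear_combination (1 / 4 : ℂ) * h2 + (1 / 4 : ℂ) * h3
  have hD' : D = 1 + 3 * α := by linear_combination D * (- e2) + (1 + 3 * α) * hDx
  have e3 : α * α * y = x * (α * (3 + α)) := by linear_combination (-1 / 4 : ℂ) * h2 + (1 / 4 : ℂ) * h3
  have e4 : μ = 8 * α * x := by
    linear_combination (1 / 3 : ℂ) * h1 + (2 / 3 : ℂ) * e3 + (-2 / 3 : ℂ) * e2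
  have hμD : μ * D = 8 * α := by
    rw [e4]
    linear_combination 8 * α * hDx
  have hα : α ≠ 0 := by
    rintro rfl
    apply hμ
    rw [e4]
    ring
  have e5 : α * y = x * (3 + α) := by
    apply mul_left_cancel₀ hα
    linear_combination e3
  have hA' : A * (3 + α) = α * (1 + 3 * α) := by
    have : A * (3 + α) = α * D := by
      linear_combination (-A * D) * e5 + (α * D) * hAy - (A * (3 + α)) * hDx
    rw [this, hD']
  have hΨ : Ψ * (3 + α) = 8 * α := by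
    have : Ψ = 3 * α - A := by linear_combination hDdef.trans hD' 
    rw [this]
    linear_combination -hA'
  refine ⟨rfl, hD', hα, hA', hΨ, hμD, ?_⟩
  intro h3α
  apply hα
  rw [h3α] at hΨ
  have : 8 * α = 0 := by rw [← hΨ]; ring
  simpa using this

/-- The pure algebra of the pair `(u, e)` for `u` in the kernel of the linear character. -/
theorem solve_u {A D α a E c μ' : ℂ} (hA : A ≠ 0) (hD : D ≠ 0) (hAα : A * (3 + α) = α * D)
    (h1 : c * μ' = 2 * (1 + a * α / A - E * (1 + α) / D))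
    (h2 : 0 = 2 * (1 - a * α / A - E * (1 - α) / D)) :
    c * μ' * D = 4 * (D - E) ∧ a * (3 + α) = D - E * (1 - α) := by
  simp only [div_eq_mul_inv] at h1 h2
  obtain ⟨x, hx⟩ : ∃ x, x = D⁻¹ := ⟨_, rfl⟩
  obtain ⟨y, hy⟩ : ∃ y, y = A⁻¹ := ⟨_, rfl⟩
  rw [← hx, ← hy] at h1 h2
  have hDx : D * x = 1 := by rw [hx]; exact mul_inv_cancel₀ hD
  have hAy : A * y = 1 := by rw [hy]; exact mul_inv_cancel₀ hA
  constructor
  · have : c * μ' = 4 * (1 - E * x) := by linear_combination h1 + h2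
    rw [this]
    linear_combination (-4 * E) * hDx
  · have e1 : α * y * D = 3 + α := by
      linear_combination (-y) * hAα + (3 + α) * hAy
    have e2 : 1 - a * (α * y) - E * (1 - α) * x = 0 := by linear_combination (-1 / 2 : ℂ) * h2
    linear_combination (-D) * e2 - a * e1 - (E * (1 - α)) * hDx

/-- The cases of the parameter. -/
theorem branches {α A Ψ : ℤ} (hA : A * (3 + α) = α * (1 + 3 * α)) (hΨ : Ψ * (3 + α) = 8 * α) (hα : α ≠ 0)
    (h9 : (9 : ℤ) ∣ Ψ + 16) :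
    (α = 1 ∧ Ψ = 2 ∧ A = 1) ∨ (α = -2 ∧ Ψ = -16 ∧ A = 10) ∨ (α = -5 ∧ Ψ = 20 ∧ A = -35) ∨
      (α = -11 ∧ Ψ = 11 ∧ A = -44) := by
  obtain ⟨d, hd⟩ : ∃ d, d = 3 + α := ⟨_, rfl⟩
  have hα' : α = d - 3 := by omega
  subst hα'
  rw [show 3 + (d - 3) = d by ring] at hA hΨ
  have h24 : (8 - Ψ) * d = 24 := by linear_combination -hΨ
  have hdvd : d ∣ 24 := ⟨8 - Ψ, by linear_combination -h24⟩
  have hle : d ≤ 24 := Int.le_of_dvd (by norm_num) hdvd
  have hge : -24 ≤ d := by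
    have : -d ∣ 24 := (neg_dvd).mpr hdvd
    have := Int.le_of_dvd (by norm_num) this
    omega
  clear hd hdvd
  obtain ⟨k, hk⟩ := h9
  interval_cases d <;> omega

section Main

variable {G : Type u} [Group G] [Fintype G] {ι : Gam →* G}
variable [Fintype (IrrCharacter G)] {χ : Fin 9 → IrrCharacter G} {s : Fin 9 → ℤ}

/-- There is no fusion of involutions, and the character `3` is linear. -/
theorem no_fusion (S : Setup ι) (hsyl : ∃ P : Sylow 3 G, (P : Subgroup G) = TT ι) (C : Coh ι χ s) :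
    (χ 3 : G → ℂ) 1 = 1 ∧ s 3 = 1 ∧ ¬ IsConj (ι e1) (ι z) ∧ ¬ IsConj (ι σ) (ι z) := by
  classical
  have hinj := S.model.inj
  obtain ⟨h0, h5, h6, h7, h8⟩ := deg_rel C hinj
  have hnes := Setup.not_conj_e_σ S hsyl
  have hN : (Nat.card G : ℂ) ≠ 0 := Nat.cast_ne_zero.mpr Nat.card_pos.ne'
  obtain ⟨μ, hμdef⟩ : ∃ μ : ℂ, μ = 1 / (Nat.card G : ℂ) := ⟨_, rfl⟩
  have hμ : μ ≠ 0 := by
    rw [hμdef]
    exact one_div_ne_zero hN
  have num : ∀ n m : ℕ, n = m → (n : ℂ) / (Nat.card G : ℂ) = (m : ℂ) * μ := by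
    intro n m h
    rw [h, hμdef]
    ring
  have hΨ := dl_ne C 4
  have hA := dl_ne C 1
  have hB := dl_ne C 2
  have hC := dl_ne C 3
  have hD1 : 1 + dl χ s 1 + dl χ s 4 ≠ 0 := by rw [← h5]; exact dl_ne C 5
  have hD2 : dl χ s 2 + dl χ s 3 + dl χ s 4 ≠ 0 := by rw [← h6]; exact dl_ne C 6
  have hD3 : 1 + dl χ s 2 + dl χ s 4 ≠ 0 := by rw [← h7]; exact dl_ne C 7
  have hD4 : dl χ s 1 + dl χ s 3 + dl χ s 4 ≠ 0 := by rw [← h8]; exact dl_ne C 8
  have he2 : (ι e1) ^ 2 = 1 := by rw [← map_pow, show e1 ^ 2 = 1 by decide, map_one]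
  have hs2 : (ι σ) ^ 2 = 1 := by rw [← map_pow, show σ ^ 2 = 1 by decide, map_one]
  have he1 : ι e1 ≠ 1 := fun h => absurd (hinj (by rw [h, map_one]) : e1 = 1) (by decide)
  have hs1 : ι σ ≠ 1 := fun h => absurd (hinj (by rw [h, map_one]) : σ = 1) (by decide)
  have T : ∀ (P : Prop), P → (P ↔ true = true) := fun P h => iff_of_true h rfl
  have F : ∀ (P : Prop), ¬ P → (P ↔ false = true) := fun P h => iff_of_false h (by simp)
  -- the mod 9 arithmetic
  obtain ⟨c3, hc3, hc3'⟩ := dl_int C 3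
  obtain ⟨c4, hc4, hc4'⟩ := dl_int C 4
  have hc3'' : (9 : ℤ) ∣ c3 + 8 := by
    have h1 : c3 + 4 * φA 3 + 4 * φC 3 = c3 + 8 := by
      simp [φA, φC]
      ring
    rw [h1] at hc3'
    exact hc3'
  have hc4'' : (9 : ℤ) ∣ c4 + 16 := by
    have h1 : c4 + 4 * φA 4 + 4 * φC 4 = c4 + 16 := by
      simp [φA, φC]
      ring
    rw [h1] at hc4'
    exact hc4'
  have harith : ∀ x y : ℂ, x = dl χ s 3 → y = dl χ s 4 → x ≠ 1 →
      ((x = 1 ∨ 17 * x * (1 + y) = 81 * (x + y) ∨ 17 * x * (1 + y) = 1617 * (x + y)) → False) := by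
    intro x y hx hy hx1 h
    rw [hx, hy, hc3, hc4] at h
    rcases h with h | h | h
    · apply hx1
      rw [hx, hc3]
      exact h
    · exact arith1 hc3'' hc4'' (by exact_mod_cast h)
    · exact arith2 hc3'' hc4'' (by exact_mod_cast h)
  by_cases hze : IsConj (ι e1) (ι z)
  · -- fusion of `z` with `e`
    exfalso
    have hE : clsB ι (ι e1) = bv true true false :=
      clsB_eq (T _ (IsConj.refl _)) (T _ hze) (F _ hnes)
    have hS : clsB ι (ι σ) = bv false false true :=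
      clsB_eq (F _ (fun h => hnes h.symm)) (F _ (fun h => hnes (hze.trans h.symm))) (T _ (IsConj.refl _))
    obtain ⟨a1, a2, a3, a4⟩ := pairForms S C he2 he1 he2 he1
      (num _ 12 (by rw [hE, cnt_wA]; decide)) (num _ 9 (by rw [hE, cnt_wC]; decide))
      (num _ 6 (by rw [hE, cnt_wA']; decide)) (num _ 0 (by rw [hE, cnt_wC']; decide))
    obtain ⟨b1, b2, b3, b4⟩ := pairForms S C he2 he1 hs2 hs1
      (num _ 0 (by rw [hE, hS, cnt_wA]; decide)) (num _ 0 (by rw [hE, hS, cnt_wC]; decide))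
      (num _ 0 (by rw [hE, hS, cnt_wA']; decide)) (num _ 3 (by rw [hE, hS, cnt_wC']; decide))
    obtain ⟨c1, c2, c3', c4'⟩ := pairForms S C hs2 hs1 hs2 hs1
      (num _ 0 (by rw [hS, cnt_wA]; decide)) (num _ 3 (by rw [hS, cnt_wC]; decide))
      (num _ 0 (by rw [hS, cnt_wA']; decide)) (num _ 0 (by rw [hS, cnt_wC']; decide))
    have key := case2 (A := dl χ s 1) (B := dl χ s 2) (C := dl χ s 3) (Ψ := dl χ s 4) (μ := μ)
      hΨ hμ hA hB hC hD1 hD2 hD3 hD4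
      (by rw [a1]; push_cast; ring) (by rw [b1]; push_cast; ring) (by rw [c1]; push_cast; ring)
      (by rw [a2]; push_cast; ring) (by rw [b2]; push_cast; ring) (by rw [c2]; push_cast; ring)
      (by rw [a3]; push_cast; ring) (by rw [b3]; push_cast; ring) (by rw [c3']; push_cast; ring)
      (by rw [a4]; push_cast; ring) (by rw [b4]; push_cast; ring) (by rw [c4']; push_cast; ring)
    by_cases h1 : dl χ s 3 = 1
    · obtain ⟨h2, h3⟩ := linear_of_dl C h1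
      obtain ⟨h4, h5', h6'⟩ := linear_vals C h2 h3
      have h7' := isClass (χ 3) hze
      rw [h4, h5'] at h7'
      norm_num at h7'
    · exact harith _ _ rfl rfl h1 key
  · by_cases hzs : IsConj (ι σ) (ι z)
    · -- fusion of `z` with `σ`
      exfalso
      have hE : clsB ι (ι e1) = bv true false false :=
        clsB_eq (T _ (IsConj.refl _)) (F _ hze) (F _ hnes)
      have hS : clsB ι (ι σ) = bv false true true :=
        clsB_eq (F _ (fun h => hnes h.symm)) (T _ hzs) (T _ (IsConj.refl _))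
      obtain ⟨a1, a2, a3, a4⟩ := pairForms S C hs2 hs1 hs2 hs1
        (num _ 9 (by rw [hS, cnt_wA]; decide)) (num _ 12 (by rw [hS, cnt_wC]; decide))
        (num _ 0 (by rw [hS, cnt_wA']; decide)) (num _ 6 (by rw [hS, cnt_wC']; decide))
      obtain ⟨b1, b2, b3, b4⟩ := pairForms S C hs2 hs1 he2 he1
        (num _ 0 (by rw [hE, hS, cnt_wA]; decide)) (num _ 0 (by rw [hE, hS, cnt_wC]; decide))
        (num _ 3 (by rw [hE, hS, cnt_wA']; decide)) (num _ 0 (by rw [hE, hS, cnt_wC']; decide))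
      obtain ⟨c1, c2, c3', c4'⟩ := pairForms S C he2 he1 he2 he1
        (num _ 3 (by rw [hE, cnt_wA]; decide)) (num _ 0 (by rw [hE, cnt_wC]; decide))
        (num _ 0 (by rw [hE, cnt_wA']; decide)) (num _ 0 (by rw [hE, cnt_wC']; decide))
      have key := case2 (A := dl χ s 2) (B := dl χ s 1) (C := dl χ s 3) (Ψ := dl χ s 4) (μ := μ)
        hΨ hμ hB hA hC hD3 hD4 hD1 hD2
        (by rw [a3]; push_cast; ring) (by rw [b3]; push_cast; ring) (by rw [c3']; push_cast; ring)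
        (by rw [a4]; push_cast; ring) (by rw [b4]; push_cast; ring) (by rw [c4']; push_cast; ring)
        (by rw [a1]; push_cast; ring) (by rw [b1]; push_cast; ring) (by rw [c1]; push_cast; ring)
        (by rw [a2]; push_cast; ring) (by rw [b2]; push_cast; ring) (by rw [c2]; push_cast; ring)
      by_cases h1 : dl χ s 3 = 1
      · obtain ⟨h2, h3⟩ := linear_of_dl C h1
        obtain ⟨h4, h5', h6'⟩ := linear_vals C h2 h3
        have h7' := isClass (χ 3) hzs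
        rw [h4, h6'] at h7'
        norm_num at h7'
      · exact harith _ _ rfl rfl h1 key
    · -- no fusion
      have hE : clsB ι (ι e1) = bv true false false :=
        clsB_eq (T _ (IsConj.refl _)) (F _ hze) (F _ hnes)
      have hS : clsB ι (ι σ) = bv false false true :=
        clsB_eq (F _ (fun h => hnes h.symm)) (F _ hzs) (T _ (IsConj.refl _))
      obtain ⟨a1, a2, a3, a4⟩ := pairForms S C he2 he1 he2 he1
        (num _ 3 (by rw [hE, cnt_wA]; decide)) (num _ 0 (by rw [hE, cnt_wC]; decide))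
        (num _ 0 (by rw [hE, cnt_wA']; decide)) (num _ 0 (by rw [hE, cnt_wC']; decide))
      obtain ⟨b1, b2, b3, b4⟩ := pairForms S C he2 he1 hs2 hs1
        (num _ 0 (by rw [hE, hS, cnt_wA]; decide)) (num _ 0 (by rw [hE, hS, cnt_wC]; decide))
        (num _ 0 (by rw [hE, hS, cnt_wA']; decide)) (num _ 0 (by rw [hE, hS, cnt_wC']; decide))
      obtain ⟨c1, c2, c3', c4'⟩ := pairForms S C hs2 hs1 hs2 hs1
        (num _ 0 (by rw [hS, cnt_wA]; decide)) (num _ 3 (by rw [hS, cnt_wC]; decide))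
        (num _ 0 (by rw [hS, cnt_wA']; decide)) (num _ 0 (by rw [hS, cnt_wC']; decide))
      have key := case1 (A := dl χ s 1) (B := dl χ s 2) (C := dl χ s 3) (Ψ := dl χ s 4) (μ := μ)
        hΨ hμ hA hB hC hD1 hD2 hD3 hD4
        (by rw [a1]; push_cast; ring) (by rw [b1]; push_cast; ring) (by rw [c1]; push_cast; ring)
        (by rw [a2]; push_cast; ring) (by rw [b2]; push_cast; ring) (by rw [c2]; push_cast; ring)
        (by rw [a3]; push_cast; ring) (by rw [b3]; push_cast; ring) (by rw [c3']; push_cast; ring)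
        (by rw [a4]; push_cast; ring) (by rw [b4]; push_cast; ring) (by rw [c4']; push_cast; ring)
      obtain ⟨h2, h3⟩ := linear_of_dl C key
      exact ⟨h2, h3, hze, hzs⟩

/-- The numerical data. -/
structure Dat (ι : Gam →* G) (χ : Fin 9 → IrrCharacter G) (s : Fin 9 → ℤ) (α A Ψ : ℤ) : Prop where
  S : Setup ι
  syl : ∃ P : Sylow 3 G, (P : Subgroup G) = TT ι
  C : Coh ι χ s
  h3 : (χ 3 : G → ℂ) 1 = 1
  hs3 : s 3 = 1
  hA : dl χ s 1 = (A : ℂ)
  hΨ : dl χ s 4 = (Ψ : ℂ)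
  hα : sv χ s 1 (ι e1) = (α : ℂ)
  hp : sv χ s 4 (ι e1) = 0
  hD : 1 + A + Ψ = 1 + 3 * α
  eA : A * (3 + α) = α * (1 + 3 * α)
  eΨ : Ψ * (3 + α) = 8 * α
  eN : (Nat.card G : ℤ) * (8 * α) =
    (1 + 3 * α) * (Nat.card (Subgroup.centralizer ({ι e1} : Set G)) : ℤ) ^ 2
  ne : α ≠ 0
  ε_z : (χ 3 : G → ℂ) (ι z) = 1
  ε_e : (χ 3 : G → ℂ) (ι e1) = -1
  ε_σ : (χ 3 : G → ℂ) (ι σ) = -1

theorem exists_dat (S : Setup ι) (hsyl : ∃ P : Sylow 3 G, (P : Subgroup G) = TT ι) (C : Coh ι χ s) :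
    ∃ α A Ψ : ℤ, Dat ι χ s α A Ψ := by
  classical
  obtain ⟨h3, hs3, hze, hzs⟩ := no_fusion S hsyl C
  have hinj := S.model.inj
  obtain ⟨ε_z, ε_e, ε_σ⟩ := linear_vals C h3 hs3
  have hnes := Setup.not_conj_e_σ S hsyl
  have he2 : (ι e1) ^ 2 = 1 := by rw [← map_pow, show e1 ^ 2 = 1 by decide, map_one]
  have hs2 : (ι σ) ^ 2 = 1 := by rw [← map_pow, show σ ^ 2 = 1 by decide, map_one]
  have he1 : ι e1 ≠ 1 := fun h => absurd (hinj (by rw [h, map_one]) : e1 = 1) (by decide)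
  have hs1 : ι σ ≠ 1 := fun h => absurd (hinj (by rw [h, map_one]) : σ = 1) (by decide)
  have T : ∀ (P : Prop), P → (P ↔ true = true) := fun P h => iff_of_true h rfl
  have F : ∀ (P : Prop), ¬ P → (P ↔ false = true) := fun P h => iff_of_false h (by simp)
  have hE : clsB ι (ι e1) = bv true false false :=
    clsB_eq (T _ (IsConj.refl _)) (F _ hze) (F _ hnes)
  have hS : clsB ι (ι σ) = bv false false true :=
    clsB_eq (F _ (fun h => hnes h.symm)) (F _ hzs) (T _ (IsConj.refl _))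
  -- integer values
  obtain ⟨d1, hd1, -⟩ := dl_int C 1
  obtain ⟨d4, hd4, h94⟩ := dl_int C 4
  have hp0 : ∀ {g : G}, g ^ 2 = 1 → (χ 3 : G → ℂ) g = -1 → sv χ s 4 g = 0 := by
    intro g hg hε
    obtain ⟨-, -, -, e4, -⟩ := sv_vals C h3 hs3 (g := g)
      (not_conj_of_sq hinj hg w2A) (not_conj_of_sq hinj hg w2C)
      (not_conj_of_sq hinj hg w2A') (not_conj_of_sq hinj hg w2C')
    rw [hε] at e4
    linear_combination (-1 / 2 : ℂ) * e4
  have hpe := hp0 he2 ε_e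
  have hps := hp0 hs2 ε_σ
  have hD0 : 1 + (d1 : ℂ) + (d4 : ℂ) ≠ 0 := by
    obtain ⟨-, -, -, h5, -⟩ := dl_vals C h3 hs3 hinj
    rw [← hd1, ← hd4, ← h5]
    exact dl_ne C 5
  obtain ⟨n₁, hn₁⟩ := exists_int_of_pow_six (Cfsg.Agent.Lib.Char.Basic.isCharacter_of_isIrrCharacter (χ 1).2)
    (w := ι e1) (by rw [← map_pow, show e1 ^ 6 = 1 by decide, map_one])
    (inv_eq C hinj 1 _)
  have hs1' := C.sgn 1
  have hα : sv χ s 1 (ι e1) = ((s 1 * n₁ : ℤ) : ℂ) := by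
    rw [sv, hn₁]
    push_cast
    ring
  obtain ⟨α, hαdef⟩ : ∃ α : ℤ, α = s 1 * n₁ := ⟨_, rfl⟩
  rw [← hαdef] at hα
  have hμ : (cm (ι e1) * cm (ι e1) / (Nat.card G : ℂ)) ≠ 0 := by
    have hN : (Nat.card G : ℂ) ≠ 0 := Nat.cast_ne_zero.mpr Nat.card_pos.ne'
    exact div_ne_zero (mul_ne_zero (cm_ne _) (cm_ne _)) hN
  have hA0 : (d1 : ℂ) ≠ 0 := by
    rw [← hd1]
    exact dl_ne C 1
  have hβ : ∃ β : ℂ, sv χ s 1 (ι σ) = β := ⟨_, rfl⟩
  obtain ⟨β, hβ⟩ := hβ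
  obtain ⟨a1, a2, a3, a4⟩ := pair_forms S C h3 hs3 he2 he1 he2 he1 hd1 hd4 rfl ε_e ε_e hα hα hpe hpe
  obtain ⟨b1, b2, b3, b4⟩ := pair_forms S C h3 hs3 he2 he1 hs2 hs1 hd1 hd4 rfl ε_e ε_σ hα hβ hpe hps
  rw [hE, cnt_wA] at a1
  rw [hE, cnt_wC] at a2
  rw [hE, hS, cnt_wA] at b1
  rw [hE, hS, cnt_wC] at b2
  simp [ind, -Nat.card_eq_fintype_card] at a1 a2 b1 b2
  obtain ⟨r1, r2, r3, r4, r5, r6, r7⟩ := solve_alpha (A := (d1 : ℂ)) (Ψ := (d4 : ℂ)) (α := (α : ℂ)) (β := β)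
    (μ := cm (ι e1) * cm (ι e1) / (Nat.card G : ℂ)) hA0 hD0 rfl hμ
    (by linear_combination a1) (by linear_combination (-2 : ℂ) * a2) (by linear_combination (-2 : ℂ) * b1)
    (by linear_combination (-2 : ℂ) * b2)
  have i3 : d1 * (3 + α) = α * (1 + 3 * α) := by exact_mod_cast r4
  have i4 : d4 * (3 + α) = 8 * α := by exact_mod_cast r5
  have i5 : 1 + d1 + d4 = 1 + 3 * α := by exact_mod_cast r2
  have hα0 : α ≠ 0 := by exact_mod_cast r3
  refine ⟨α, d1, d4, S, hsyl, C, h3, hs3, hd1, hd4, hα, hpe, i5, i3, i4, ?_, hα0, ε_z, ε_e, ε_σ⟩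
  have hN : (Nat.card G : ℂ) ≠ 0 := Nat.cast_ne_zero.mpr Nat.card_pos.ne'
  have h : (Nat.card G : ℂ) * (8 * α) = (1 + 3 * α) * (cm (ι e1)) ^ 2 := by
    rw [← r6, ← r2]
    field_simp
  have h' : (((Nat.card G : ℤ) * (8 * α) : ℤ) : ℂ) =
      (((1 + 3 * α) * (Nat.card (Subgroup.centralizer ({ι e1} : Set G)) : ℤ) ^ 2 : ℤ) : ℂ) := by
    push_cast
    exact h
  exact_mod_cast h'

/-- The classes of an involution of the kernel of the linear character. -/
theorem Dat.inv_forms {α A Ψ : ℤ} (D : Dat ι χ s α A Ψ) {u : G} (hu : u ^ 2 = 1) (hu1 : u ≠ 1)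
    (hε : (χ 3 : G → ℂ) u = 1) {c : ℂ} (hc : (IsConj u (ι z) ∧ c = 1) ∨ (¬ IsConj u (ι z) ∧ c = 0)) :
    6 * c * α * cm u = cm (ι e1) * (3 * α - sv χ s 1 u - sv χ s 4 u) ∧
      sv χ s 1 u * (3 + α) = (1 + 3 * α) - (1 + sv χ s 1 u + sv χ s 4 u) * (1 - α) := by
  classical
  have hinj := D.S.model.inj
  have hA0 : (A : ℂ) ≠ 0 := by
    rw [← D.hA]
    exact dl_ne D.C 1
  have he2 : (ι e1) ^ 2 = 1 := by rw [← map_pow, show e1 ^ 2 = 1 by decide, map_one]
  have he1 : ι e1 ≠ 1 := fun h => absurd (hinj (by rw [h, map_one]) : e1 = 1) (by decide)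
  have hD' : (1 + (A : ℂ) + (Ψ : ℂ)) = 1 + 3 * α := by exact_mod_cast D.hD
  have hD0 : (1 + 3 * (α : ℂ)) ≠ 0 := by
    obtain ⟨-, -, -, h5, -⟩ := dl_vals D.C D.h3 D.hs3 hinj
    rw [← hD', ← D.hA, ← D.hΨ, ← h5]
    exact dl_ne D.C 5
  obtain ⟨a1, a2, a3, a4⟩ := pair_forms D.S D.C D.h3 D.hs3 hu hu1 he2 he1 D.hA D.hΨ hD' hε D.ε_e rfl D.hα rfl D.hp
  have hue : ¬ IsConj u (ι e1) := by
    intro h
    have := isClass (χ 3) h
    rw [hε, D.ε_e] at this
    norm_num at this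
  have hus : ¬ IsConj u (ι σ) := by
    intro h
    have := isClass (χ 3) h
    rw [hε, D.ε_σ] at this
    norm_num at this
  have T : ∀ (P : Prop), P → (P ↔ true = true) := fun P h => iff_of_true h rfl
  have F : ∀ (P : Prop), ¬ P → (P ↔ false = true) := fun P h => iff_of_false h (by simp)
  obtain ⟨-, -, hze, -⟩ := no_fusion D.S D.syl D.C
  have hnes := Setup.not_conj_e_σ D.S D.syl
  have hE : clsB ι (ι e1) = bv true false false :=
    clsB_eq (T _ (IsConj.refl _)) (F _ hze) (F _ hnes)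
  have hm : (Nat.card G : ℂ) * (8 * α) = (1 + 3 * α) * cm (ι e1) ^ 2 := by
    have h := D.eN
    have h' : (((Nat.card G : ℤ) * (8 * α) : ℤ) : ℂ) =
        (((1 + 3 * α) * (Nat.card (Subgroup.centralizer ({ι e1} : Set G)) : ℤ) ^ 2 : ℤ) : ℂ) := by
      rw [h]
    push_cast at h'
    exact h'
  have hN : (Nat.card G : ℂ) ≠ 0 := Nat.cast_ne_zero.mpr Nat.card_pos.ne'
  have hme := cm_ne (ι e1)
  have hα0 : (α : ℂ) ≠ 0 := by exact_mod_cast D.ne
  have hAα : (A : ℂ) * (3 + α) = α * (1 + 3 * α) := by exact_mod_cast D.eA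
  have hc3 : (cnt wA' (clsB ι u) (clsB ι (ι e1)) : ℂ) = 3 * c ∧ (cnt wC' (clsB ι u) (clsB ι (ι e1)) : ℂ) = 0 := by
    rcases hc with ⟨h1, rfl⟩ | ⟨h1, rfl⟩
    · have hU : clsB ι u = bv false true false := clsB_eq (F _ hue) (T _ h1) (F _ hus)
      rw [hU, hE, cnt_wA', cnt_wC']
      simp [ind]
    · have hU : clsB ι u = bv false false false := clsB_eq (F _ hue) (F _ h1) (F _ hus)
      rw [hU, hE, cnt_wA', cnt_wC']
      simp [ind]
  rw [hc3.1] at a3
  rw [hc3.2] at a4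
  obtain ⟨r1, r2⟩ := solve_u (A := (A : ℂ)) (D := 1 + 3 * (α : ℂ)) (α := (α : ℂ)) (a := sv χ s 1 u)
    (E := 1 + sv χ s 1 u + sv χ s 4 u) (c := 3 * c) (μ' := cm u * cm (ι e1) / (Nat.card G : ℂ)) hA0 hD0 hAα
    (by linear_combination a3) (by linear_combination a4)
  refine ⟨?_, r2⟩
  have e1' : cm u * cm (ι e1) / (Nat.card G : ℂ) * (1 + 3 * α) * cm (ι e1) = cm u * (8 * α) := by
    field_simp
    linear_combination (-cm u) * hm
  have e2 : 3 * c * (cm u * (8 * α)) =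
      4 * (1 + 3 * α - (1 + sv χ s 1 u + sv χ s 4 u)) * cm (ι e1) := by
    rw [← e1', ← r1]
    ring
  linear_combination (1 / 4 : ℂ) * e2

end Main

end Cfsg.Agent.Lib.Nine.S6Data
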