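import Mathlib
import Cfsg.Agent.Lib.S6Cent.A6Aut
import Cfsg.Agent.S0497

/-!
# A group with a simple subgroup of index two and order `360`, with trivial centralizer, which has an
element outside commuting with an element of order three, is `S₆`
-/

set_option autoImplicit false
set_option linter.style.haveILetI false
set_option linter.unusedVariables false
set_option linter.unusedSectionVars false
set_option maxRecDepth 100000

namespace Cfsg.Agent.Lib.Nine.S6Iso

open Subgroup Cfsg.Agent.Lib.S6Cent.A6Aut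

variable {G : Type*} [Group G] [Finite G]

theorem iso_of_simple (H : Subgroup G) [hHn : H.Normal] (hidx : H.index = 2) (hs : IsSimpleGroup H)
    (h360 : Nat.card H = 360) {t c : G} (ht : t ∉ H) (hc : c ∈ H) (hord : orderOf c = 3) (htc : t * c = c * t)
    (hinj : ∀ g : G, (∀ h ∈ H, g * h = h * g) → g = 1) : Nonempty (G ≃* Equiv.Perm (Fin 6)) := by
  classical
  have hGc : Nat.card G = 720 := by
    have := Subgroup.card_mul_index H
    rw [hidx, h360] at this
    omega
  obtain ⟨φ⟩ := Cfsg.Agent.S0497.result (G := H) h360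
  let ρ : G →* MulAut A6 := (MulAut.congr φ).toMonoidHom.comp (MulAut.conjNormal (H := H))
  let ψ : S6 →* MulAut A6 := MulAut.conjNormal (H := alternatingGroup (Fin 6))
  have hρ : ∀ (g : G) (x : A6), ρ g x = φ (MulAut.conjNormal g (φ.symm x)) := fun g x => rfl
  have hψ : ∀ (σ : S6) (x : A6), ((ψ σ x : A6) : S6) = σ * x * σ⁻¹ := fun σ x =>
    MulAut.conjNormal_apply σ x
  -- the image of `H`
  have hinner : ∀ h : H, ρ (h : G) = ψ ((φ h : A6) : S6) := by
    intro h
    ext x
    rw [hρ, hψ]
    have h1 : MulAut.conjNormal (h : G) (φ.symm x) = h * φ.symm x * h⁻¹ := by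
      apply Subtype.ext
      rw [MulAut.conjNormal_apply]
      rfl
    rw [h1, map_mul, map_mul, map_inv, MulEquiv.apply_symm_apply]
    rfl
  -- `t`
  have htr : ρ t ∈ ψ.range := by
    let c₀ : H := ⟨c, hc⟩
    have hc' : orderOf (φ c₀) = 3 := by
      rw [MulEquiv.orderOf_eq, Subgroup.orderOf_mk, hord]
    have hfix : ρ t (φ c₀) = φ c₀ := by
      rw [hρ, MulEquiv.symm_apply_apply]
      congr 1
      apply Subtype.ext
      rw [MulAut.conjNormal_apply]
      show t * c * t⁻¹ = c
      rw [htc]
      group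
    obtain ⟨σ, hσ⟩ := exists_perm_of_fix (ρ t) (φ c₀) hc' hfix
    refine ⟨σ, ?_⟩
    ext x
    rw [hψ, hσ]
  have hall : ρ.range ≤ ψ.range := by
    rintro _ ⟨g, rfl⟩
    by_cases hg : g ∈ H
    · exact ⟨_, (hinner ⟨g, hg⟩).symm⟩
    · have h1 : t * g ∈ H := by
        rw [mul_mem_iff_of_index_two hidx]
        exact iff_of_false ht hg
      have h2 : g = t⁻¹ * (t * g) := by group
      rw [h2, map_mul, map_inv]
      exact mul_mem (inv_mem htr) ⟨_, (hinner ⟨_, h1⟩).symm⟩
  -- injectivity
  have hρinj : Function.Injective ρ := by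
    rw [← MonoidHom.ker_eq_bot_iff, eq_bot_iff]
    intro g hg
    rw [MonoidHom.mem_ker] at hg
    rw [mem_bot]
    apply hinj
    intro h hh
    have h1 : ρ g (φ ⟨h, hh⟩) = φ ⟨h, hh⟩ := by rw [hg]; rfl
    rw [hρ, MulEquiv.symm_apply_apply] at h1
    have h2 := φ.injective h1
    have h3 : g * h * g⁻¹ = h := by
      have h4 := congrArg Subtype.val h2
      rwa [MulAut.conjNormal_apply] at h4
    calc g * h = (g * h * g⁻¹) * g := by group
      _ = h * g := by rw [h3]
  have hψinj : Function.Injective ψ := by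
    have hdec : ∀ σ : S6, σ * xP = xP * σ → σ * yP = yP * σ → σ = 1 := by decide +kernel
    rw [← MonoidHom.ker_eq_bot_iff, eq_bot_iff]
    intro σ hσ
    rw [MonoidHom.mem_ker] at hσ
    rw [mem_bot]
    have hcom : ∀ x : A6, σ * (x : S6) = x * σ := by
      intro x
      have h1 : ψ σ x = x := by rw [hσ]; rfl
      have h2 : σ * x * σ⁻¹ = x := by rw [← hψ, h1]
      calc σ * (x : S6) = (σ * x * σ⁻¹) * σ := by group
        _ = x * σ := by rw [h2]
    exact hdec σ (hcom ⟨xP, mem_A sign_x⟩) (hcom ⟨yP, mem_A sign_y⟩)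
  have hcard1 : Nat.card ρ.range = 720 := by
    rw [← hGc]
    exact Nat.card_congr (MonoidHom.ofInjective hρinj).symm.toEquiv
  have hcard2 : Nat.card ψ.range = 720 := by
    have h1 : Nat.card ψ.range = Nat.card S6 :=
      Nat.card_congr (MonoidHom.ofInjective hψinj).symm.toEquiv
    rw [h1, Nat.card_eq_fintype_card, Fintype.card_perm, Fintype.card_fin]
    rfl
  have heq : ρ.range = ψ.range := Subgroup.eq_of_le_of_card_ge hall (by omega)
  exact ⟨(MonoidHom.ofInjective hρinj).trans
    ((MulEquiv.subgroupCongr heq).trans (MonoidHom.ofInjective hψinj).symm)⟩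

end Cfsg.Agent.Lib.Nine.S6Iso
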