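import Mathlib
import Cfsg.Agent.Lib.Nine.S6Data
import Cfsg.Agent.Lib.Coprime.Generation
import Cfsg.Agent.Lib.Involutions2.NormalFour

/-!
# Local consequences of the numerical data
-/

set_option autoImplicit false
set_option linter.unusedSectionVars false
set_option linter.unusedVariables false
set_option linter.unusedSimpArgs false
set_option linter.style.haveILetI false
set_option maxRecDepth 100000

namespace Cfsg.Agent.Lib.Nine.S6Local

open Cfsg
open Cfsg.Agent.Lib.Nine.ModelD8 Cfsg.Agent.Lib.Nine.Fuse Cfsg.Agent.Lib.Nine.Basic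
open Cfsg.Agent.Lib.Nine.D8Coh Cfsg.Agent.Lib.Nine.D8Char Cfsg.Agent.Lib.Nine.D8Alg
open Cfsg.Agent.Lib.Nine.D8Form Cfsg.Agent.Lib.Nine.D8Main Cfsg.Agent.Lib.Nine.S6Coh
open Cfsg.Agent.Lib.Nine.S6Data
open Cfsg.Agent.Lib.Blocks.Third
open DihedralGroup

universe u

variable {G : Type u} [Group G] [Fintype G] {ι : Gam →* G}

theorem card_TG : Nat.card TG = 9 := by
  rw [Nat.subtype_card (Finset.univ.filter (fun x : Gam => x.π = 1)) (by simp [mem_TG])]
  decide

theorem card_TT (hinj : Function.Injective ι) : Nat.card (TT ι) = 9 := by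
  rw [TT, ← card_TG]
  exact Nat.card_congr (Subgroup.equivMapOfInjective TG ι hinj).toEquiv.symm

/-- A subgroup of order prime to `3` normalized by `T` and meeting it trivially is trivial. -/
theorem coprime_trivial (S : Setup ι) {K : Subgroup G} (h3 : ¬ 3 ∣ Nat.card K)
    (hTK : ∀ t ∈ TT ι, ∀ k ∈ K, t * k * t⁻¹ ∈ K) (hKT : ∀ k ∈ K, ∀ t ∈ TT ι, k * t * k⁻¹ * t⁻¹ ∈ K)
    (hT : ∀ t ∈ TT ι, t ∈ K → t = 1) : K = ⊥ := by
  classical
  have hinj := S.model.inj
  have hcard := card_TT hinj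
  have hcop : (Nat.card (TT ι)).Coprime (Nat.card K) := by
    rw [hcard, show 9 = 3 ^ 2 by norm_num]
    have h12 := (Nat.Prime.coprime_iff_not_dvd Nat.prime_three).mpr h3
    exact Nat.Coprime.pow_left 2 h12
  haveI hcomm : IsMulCommutative (TT ι) := ⟨⟨fun a b => Subtype.ext (TT_comm (ι := ι) a a.2 b b.2)⟩⟩
  have hcy : ¬ IsCyclic (TT ι) := by
    intro hc
    obtain ⟨g, hg⟩ := IsCyclic.exists_generator (α := TT ι)
    have h1 := orderOf_eq_card_of_forall_mem_zpowers hg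
    rw [hcard] at h1
    have h2 : g ^ 3 = 1 := Subtype.ext (by simpa using TT_pow3 g.2)
    have h4 := orderOf_dvd_of_pow_eq_one h2
    rw [h1] at h4
    omega
  have hAK : TT ι ≤ Subgroup.normalizer (K : Set G) := by
    intro x hx
    rw [Subgroup.mem_normalizer_iff]
    intro h
    constructor
    · intro hh
      exact hTK x hx h hh
    · intro hh
      have h1 := hTK _ ((TT ι).inv_mem hx) _ hh
      have h2 : x⁻¹ * (x * h * x⁻¹) * x⁻¹⁻¹ = h := by group
      rwa [h2] at h1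
  have hsup := Cfsg.Agent.Lib.Coprime.Generation.iSup_centralizer_eq hcy hAK hcop
  rw [← hsup]
  refine iSup₂_eq_bot.mpr ?_
  rintro a ⟨ha, ha1⟩
  rw [eq_bot_iff]
  rintro x ⟨hxD, hxC⟩
  have hxN := S.cent_le ha ha1 hxC
  rw [Subgroup.mem_normalizer_iff] at hxN
  have hcomm' : ∀ t ∈ TT ι, x * t = t * x := by
    intro t ht
    have h1 : x * t * x⁻¹ * t⁻¹ ∈ TT ι := (TT ι).mul_mem ((hxN t).mp ht) ((TT ι).inv_mem ht)
    have h4 := hT _ h1 (hKT x hxD t ht)
    have h6 : x * t * x⁻¹ = t := by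
      rwa [mul_inv_eq_one] at h4
    rwa [mul_inv_eq_iff_eq_mul] at h6
  have hxT : x ∈ TT ι := by
    apply S.cent_T
    rw [Subgroup.mem_centralizer_iff]
    intro t ht
    exact (hcomm' t ht).symm
  exact hT x hxT hxD

/-- A subgroup with an element of order `3`, invariant under conjugation by `G`, contains a nontrivial element of `T`. -/
theorem not_three_dvd (hsyl : ∃ P : Sylow 3 G, (P : Subgroup G) = TT ι) {K : Subgroup G}
    (hK : K.Normal) (hT : ∀ t ∈ TT ι, t ∈ K → t = 1) : ¬ 3 ∣ Nat.card K := by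
  intro h
  haveI : Fact (Nat.Prime 3) := ⟨Nat.prime_three⟩
  obtain ⟨x, hx⟩ := exists_prime_orderOf_dvd_card' 3 h
  have hx' : orderOf (x : G) = 3 := by
    rw [← hx]
    exact Subgroup.orderOf_coe x
  have hPG : IsPGroup 3 (Subgroup.zpowers (x : G)) := by
    refine IsPGroup.of_card (n := 1) ?_
    rw [Nat.card_zpowers, pow_one, hx']
  obtain ⟨R, hR⟩ := hPG.exists_le_sylow
  obtain ⟨P, hP⟩ := hsyl
  obtain ⟨c, hc⟩ := MulAction.exists_smul_eq G R P
  have hmem : c * (x : G) * c⁻¹ ∈ TT ι := by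
    rw [← hP, ← hc, Sylow.smul_def, Sylow.pointwise_smul_def]
    exact ⟨x, hR (Subgroup.mem_zpowers _), rfl⟩
  have h1 := hT _ hmem (hK.conj_mem _ x.2 c)
  have h2 : (x : G) = 1 := by
    have : (x : G) = c⁻¹ * (c * (x : G) * c⁻¹) * c := by group
    rw [this, h1]
    group
  rw [h2, orderOf_one] at hx'
  omega

/-- A normal subgroup meeting `T` trivially is trivial. -/
theorem ker_trivial (S : Setup ι) (hsyl : ∃ P : Sylow 3 G, (P : Subgroup G) = TT ι) {K : Subgroup G}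
    (hK : K.Normal) (hT : ∀ t ∈ TT ι, t ∈ K → t = 1) : K = ⊥ := by
  refine coprime_trivial S (not_three_dvd hsyl hK hT) (fun t _ k hk => hK.conj_mem k hk t) ?_ hT
  intro k hk t _
  have : k * t * k⁻¹ * t⁻¹ = k * (t * k⁻¹ * t⁻¹) := by group
  rw [this]
  exact K.mul_mem hk (hK.conj_mem _ (K.inv_mem hk) t)

theorem range_of_conj (S : Setup ι) {t t' : G} (ht : t ∈ TT ι) (ht1 : t ≠ 1) (ht' : t' ∈ TT ι) {g : G}
    (hg : g * t * g⁻¹ = t') : g ∈ ι.range := by
  obtain ⟨x, hx, rfl⟩ := ht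
  obtain ⟨x', hx', rfl⟩ := ht'
  have hx1 : x ≠ 1 := by
    rintro rfl
    exact ht1 (map_one ι)
  obtain ⟨c, rfl⟩ := S.model.ti x x' hx hx1 hx' g hg
  exact ⟨c, rfl⟩

theorem mem_range_of_cent (S : Setup ι) {t g : G} (ht : t ∈ TT ι) (ht1 : t ≠ 1) (hg : g * t = t * g) :
    g ∈ ι.range :=
  range_of_conj S ht ht1 ht (by rw [hg]; group)

theorem T_class : ∀ x : Gam, x.π = 1 → x ≠ 1 → (∃ c : Gam, c * x * c⁻¹ = wA) ∨ (∃ c : Gam, c * x * c⁻¹ = wC) := by
  decide +kernel

variable [Fintype (IrrCharacter G)] {χ : Fin 9 → IrrCharacter G} {s : Fin 9 → ℤ} {α A Ψ : ℤ}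

theorem Dat.dl5 (D : Dat ι χ s α A Ψ) : dl χ s 5 = 1 + 3 * (α : ℂ) := by
  obtain ⟨-, -, -, h5, -⟩ := dl_vals D.C D.h3 D.hs3 D.S.model.inj
  rw [h5, D.hA, D.hΨ]
  exact_mod_cast D.hD

/-- The kernel of the fifth character is trivial. -/
theorem Dat.eq_one_of_sv5 (D : Dat ι χ s α A Ψ) (hα : α ≠ -1) {g : G} (h : sv χ s 5 g = dl χ s 5) : g = 1 := by
  classical
  have hch := Cfsg.Agent.Lib.Char.Basic.isCharacter_of_isIrrCharacter (χ 5).2
  have hn := Cfsg.Agent.Lib.Char.Degree.charKer_normal hch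
  have hs : (s 5 : ℂ) * (s 5 : ℂ) = 1 := sgn_sq D.C 5
  have hs0 : (s 5 : ℂ) ≠ 0 := by
    intro h
    rw [h] at hs
    simp at hs
  have hK := ker_trivial D.S D.syl hn (by
    intro t ht htK
    by_contra ht1
    obtain ⟨x, hx, rfl⟩ := ht
    have hx1 : x ≠ 1 := by
      rintro rfl
      exact ht1 (map_one ι)
    rw [Cfsg.Agent.Lib.Char.Degree.mem_charKer] at htK
    have e1 : sv χ s 5 (ι x) = dl χ s 5 := by
      rw [sv, htK]
      rfl
    have hdl := Dat.dl5 D
    have hαc : (α : ℂ) ≠ 0 := by exact_mod_cast D.ne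
    have hαc' : (α : ℂ) ≠ -1 := by exact_mod_cast hα
    rcases T_class x hx hx1 with ⟨c, hc⟩ | ⟨c, hc⟩
    · have e2 : sv χ s 5 (ι x) = sv χ s 5 (ι wA) := by
        apply sv_ne_of_conj
        rw [← hc]
        exact isConj_map ι (isConj_iff.mpr ⟨c, rfl⟩)
      rw [e2, hdl, sv, D.C.vA 5] at e1
      simp [φA] at e1
      rw [hs] at e1
      apply hαc
      linear_combination (-1 / 3 : ℂ) * e1
    · have e2 : sv χ s 5 (ι x) = sv χ s 5 (ι wC) := by
        apply sv_ne_of_conj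
        rw [← hc]
        exact isConj_map ι (isConj_iff.mpr ⟨c, rfl⟩)
      rw [e2, hdl, sv, D.C.vC 5] at e1
      simp [φC] at e1
      have e3 : (s 5 : ℂ) * ((s 5 : ℂ) * 2) = 2 := by
        linear_combination 2 * hs
      rw [e3] at e1
      apply hαc'
      linear_combination (-1 / 3 : ℂ) * e1)
  have hmem : g ∈ Cfsg.Agent.Lib.Char.Degree.charKer hch := by
    rw [Cfsg.Agent.Lib.Char.Degree.mem_charKer]
    exact mul_left_cancel₀ hs0 h
  rw [hK] at hmem
  exact hmem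

theorem Dat.conj_z (D : Dat ι χ s α A Ψ) (hα : α ≠ -1) {u : G} (hu : u ^ 2 = 1) (hu1 : u ≠ 1)
    (hε : (χ 3 : G → ℂ) u = 1) : IsConj u (ι z) := by
  by_contra hn
  obtain ⟨h1, -⟩ := D.inv_forms hu hu1 hε (c := 0) (Or.inr ⟨hn, rfl⟩)
  have hme := cm_ne (ι e1)
  have h2 : 3 * (α : ℂ) - sv χ s 1 u - sv χ s 4 u = 0 := by
    apply mul_left_cancel₀ hme
    rw [← h1]
    ring
  apply hu1
  apply Dat.eq_one_of_sv5 D hα
  obtain ⟨-, -, -, -, e5, -⟩ := sv_vals D.C D.h3 D.hs3 (g := u)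
    (not_conj_of_sq D.S.model.inj hu w2A) (not_conj_of_sq D.S.model.inj hu w2C)
    (not_conj_of_sq D.S.model.inj hu w2A') (not_conj_of_sq D.S.model.inj hu w2C')
  rw [e5, Dat.dl5 D]
  linear_combination -h2

theorem card_cent_conj {a b : G} (h : IsConj a b) :
    Nat.card (Subgroup.centralizer ({a} : Set G)) = Nat.card (Subgroup.centralizer ({b} : Set G)) := by
  have e1 := Cfsg.Agent.Lib.Char.ClassSum.card_class_mul_card_centralizer a
  have e2 := Cfsg.Agent.Lib.Char.ClassSum.card_class_mul_card_centralizer b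
  have e3 : Nat.card {x : G // IsConj a x} = Nat.card {x : G // IsConj b x} := by
    refine Nat.card_congr (Equiv.subtypeEquivRight fun x => ?_)
    exact ⟨fun h1 => h.symm.trans h1, fun h1 => h.trans h1⟩
  rw [e3] at e1
  have hpos : 0 < Nat.card {x : G // IsConj b x} := Nat.card_pos_iff.mpr ⟨⟨⟨b, IsConj.refl b⟩⟩, inferInstance⟩
  exact Nat.eq_of_mul_eq_mul_left hpos (e1.trans e2.symm)

/-- The involution `z` is `2`-central. -/
theorem Dat.two_central (D : Dat ι χ s α A Ψ) (hα : α ≠ -1) {n : ℕ} (hn : 2 ^ n ∣ Nat.card G) :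
    2 ^ n ∣ Nat.card (Subgroup.centralizer ({ι z} : Set G)) := by
  classical
  have hinj := D.S.model.inj
  haveI : Fact (Nat.Prime 2) := ⟨Nat.prime_two⟩
  have hch := Cfsg.Agent.Lib.Char.Basic.isCharacter_of_isIrrCharacter (χ 3).2
  have hz2 : (ι z) ^ 2 = 1 := by rw [← map_pow, show z ^ 2 = 1 by decide, map_one]
  have hz1 : ι z ≠ 1 := fun h => absurd (hinj (by rw [h, map_one]) : z = 1) (by decide)
  have hPG : IsPGroup 2 (Subgroup.zpowers (ι z)) := by
    refine IsPGroup.of_card (n := 1) ?_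
    rw [Nat.card_zpowers, pow_one, orderOf_eq_prime hz2 hz1]
  obtain ⟨P, hP⟩ := hPG.exists_le_sylow
  set K := Cfsg.Agent.Lib.Char.Degree.charKer hch with hK
  haveI hKn : K.Normal := Cfsg.Agent.Lib.Char.Degree.charKer_normal hch
  have hzK : ι z ∈ K := by
    rw [hK, Cfsg.Agent.Lib.Char.Degree.mem_charKer, D.ε_z, D.h3]
  have hzP : ι z ∈ (P : Subgroup G) := hP (Subgroup.mem_zpowers _)
  set M : Subgroup (P : Subgroup G) := K.subgroupOf (P : Subgroup G) with hM
  haveI hMn : M.Normal := by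
    rw [hM]
    infer_instance
  have hM1 : M ≠ ⊥ := by
    intro h
    have h1 : (⟨ι z, hzP⟩ : (P : Subgroup G)) ∈ M := Subgroup.mem_subgroupOf.mpr hzK
    rw [h, Subgroup.mem_bot] at h1
    exact hz1 (congrArg Subtype.val h1)
  have hne := Cfsg.Agent.Lib.Involutions2.NormalFour.inf_center_ne_bot P.isPGroup' M hM1
  obtain ⟨⟨v, hv⟩, hv1⟩ := (Subgroup.ne_bot_iff_exists_ne_one.mp hne)
  have hv1' : v ≠ 1 := fun h => hv1 (Subtype.ext h)
  obtain ⟨k, hk⟩ := (IsPGroup.iff_orderOf.mp P.isPGroup') v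
  have hk0 : k ≠ 0 := by
    rintro rfl
    rw [pow_zero, orderOf_eq_one_iff] at hk
    exact hv1' hk
  obtain ⟨j, rfl⟩ : ∃ j, k = j + 1 := ⟨k - 1, by omega⟩
  set w := v ^ (2 ^ j) with hw
  have hw2 : w ^ 2 = 1 := by
    rw [hw, ← pow_mul, ← pow_succ, ← hk, pow_orderOf_eq_one]
  have hw1 : w ≠ 1 := by
    rw [hw]
    refine pow_ne_one_of_lt_orderOf (by positivity) ?_
    rw [hk, pow_succ]
    have : 0 < 2 ^ j := by positivity
    omega
  have hwM : w ∈ M := M.pow_mem hv.1 _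
  have hwc : w ∈ Subgroup.center (P : Subgroup G) := Subgroup.pow_mem _ hv.2 _
  have hwK : (w : G) ∈ K := Subgroup.mem_subgroupOf.mp hwM
  have hwε : (χ 3 : G → ℂ) w = 1 := by
    rw [hK, Cfsg.Agent.Lib.Char.Degree.mem_charKer, D.h3] at hwK
    exact hwK
  have hw2' : (w : G) ^ 2 = 1 := by
    have := congrArg Subtype.val hw2
    simpa using this
  have hw1' : (w : G) ≠ 1 := fun h => hw1 (Subtype.ext h)
  have hconj := Dat.conj_z D hα hw2' hw1' hwε
  have hle : (P : Subgroup G) ≤ Subgroup.centralizer ({(w : G)} : Set G) := by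
    intro p hp
    rw [Subgroup.mem_centralizer_singleton_iff]
    have := Subgroup.mem_center_iff.mp hwc ⟨p, hp⟩
    exact congrArg Subtype.val this
  rw [← card_cent_conj hconj]
  exact (Sylow.pow_dvd_card_of_pow_dvd_card (P := P) hn).trans (Subgroup.card_dvd_of_le hle)

/-- The number of Sylow `3`-subgroups modulo `9`. -/
theorem card_mod9 (S : Setup ι) : ∃ k : ℕ, Nat.card G = 72 * (9 * k + 1) := by
  classical
  have hinj := S.model.inj
  set R := ι.range with hR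
  letI : Fintype (G ⧸ R) := Fintype.ofFinite _
  letI : Fintype (TT ι) := Fintype.ofFinite _
  letI : ∀ t : TT ι, Fintype (MulAction.fixedBy (G ⧸ R) t) := fun _ => Fintype.ofFinite _
  letI : Fintype (Quotient (MulAction.orbitRel (TT ι) (G ⧸ R))) := Fintype.ofFinite _
  have hB := MulAction.sum_card_fixedBy_eq_card_orbits_mul_card_group (TT ι) (G ⧸ R)
  have hT9 : Fintype.card (TT ι) = 9 := by
    rw [← Nat.card_eq_fintype_card]
    exact card_TT hinj
  have hTR : ∀ t ∈ TT ι, t ∈ R := by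
    rintro _ ⟨x, -, rfl⟩
    exact ⟨x, rfl⟩
  have hfix : ∀ t : TT ι, t ≠ 1 → Fintype.card (MulAction.fixedBy (G ⧸ R) t) = 1 := by
    intro t ht
    rw [Fintype.card_eq_one_iff]
    have h1 : (QuotientGroup.mk 1 : G ⧸ R) ∈ MulAction.fixedBy (G ⧸ R) t := by
      rw [MulAction.mem_fixedBy]
      change (QuotientGroup.mk ((t : G) * 1) : G ⧸ R) = QuotientGroup.mk 1
      rw [QuotientGroup.eq]
      have := hTR _ t.2
      simpa using R.inv_mem this
    refine ⟨⟨_, h1⟩, ?_⟩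
    rintro ⟨q, hq⟩
    obtain ⟨g, rfl⟩ := QuotientGroup.mk_surjective q
    apply Subtype.ext
    rw [MulAction.mem_fixedBy] at hq
    have hq' : (QuotientGroup.mk ((t : G) * g) : G ⧸ R) = QuotientGroup.mk g := hq
    rw [QuotientGroup.eq] at hq'
    obtain ⟨c, hc⟩ := hq'
    have hconj : g⁻¹ * (t : G)⁻¹ * (g⁻¹)⁻¹ = ι c := by
      rw [hc]
      group
    have hc3 : c ^ 3 = 1 := by
      apply hinj
      rw [map_pow, ← hconj, conj_pow, inv_pow, TT_pow3 t.2, map_one]
      group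
    have hcT : ι c ∈ TT ι := ⟨c, TG_of_pow3 c hc3, rfl⟩
    have ht1 : (t : G)⁻¹ ≠ 1 := by
      intro h
      apply ht
      apply Subtype.ext
      simpa using h
    have hg := range_of_conj S ((TT ι).inv_mem t.2) ht1 hcT hconj
    change (QuotientGroup.mk g : G ⧸ R) = QuotientGroup.mk 1
    rw [QuotientGroup.eq, mul_one]
    exact hg
  have h1 : Fintype.card (MulAction.fixedBy (G ⧸ R) (1 : TT ι)) = Fintype.card (G ⧸ R) := by
    have hall : ∀ q : G ⧸ R, q ∈ MulAction.fixedBy (G ⧸ R) (1 : TT ι) := fun q => by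
      rw [MulAction.mem_fixedBy]
      exact one_smul _ q
    exact Fintype.card_congr (Equiv.subtypeUnivEquiv hall)
  rw [← Finset.add_sum_erase _ _ (Finset.mem_univ (1 : TT ι)), h1,
    Finset.sum_congr rfl (fun t ht => hfix t (Finset.ne_of_mem_erase ht)), Finset.sum_const,
    Finset.card_erase_of_mem (Finset.mem_univ _), Finset.card_univ, hT9] at hB
  have hN := Subgroup.card_eq_card_quotient_mul_card_subgroup R
  have hR72 : Nat.card R = 72 := by
    rw [hR, ← card_gam, ← Nat.card_eq_fintype_card]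
    exact Nat.card_congr (MonoidHom.ofInjective hinj).toEquiv.symm
  rw [hR72, Nat.card_eq_fintype_card (α := G ⧸ R)] at hN
  simp only [smul_eq_mul, mul_one] at hB
  obtain ⟨ω, hω⟩ : ∃ ω, ω = Fintype.card (Quotient (MulAction.orbitRel (TT ι) (G ⧸ R))) := ⟨_, rfl⟩
  rw [← hω] at hB
  refine ⟨ω - 1, ?_⟩
  rw [hN]
  have hcard : 0 < Fintype.card (G ⧸ R) := Fintype.card_pos
  have : 9 * (ω - 1) + 1 = Fintype.card (G ⧸ R) := by omega
  rw [this]
  ring

end Cfsg.Agent.Lib.Nine.S6Local
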