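import Mathlib
import Cfsg.Agent.Lib.Nine.S6Local
import Cfsg.Agent.Lib.OddChar.FamilyUnique

/-!
# Sums of characters over abelian subgroups times an involution
-/

set_option autoImplicit false
set_option linter.unusedSectionVars false
set_option linter.unusedVariables false
set_option linter.unusedSimpArgs false
set_option linter.style.haveILetI false
set_option maxRecDepth 100000

namespace Cfsg.Agent.Lib.Nine.S6Sum

open Cfsg
open Cfsg.Agent.Lib.Nine.ModelD8 Cfsg.Agent.Lib.Nine.Fuse Cfsg.Agent.Lib.Nine.Basic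
open Cfsg.Agent.Lib.Nine.D8Coh Cfsg.Agent.Lib.Nine.D8Char Cfsg.Agent.Lib.Nine.D8Alg
open Cfsg.Agent.Lib.Nine.D8Form Cfsg.Agent.Lib.Nine.D8Main Cfsg.Agent.Lib.Nine.S6Coh
open Cfsg.Agent.Lib.Nine.S6Data Cfsg.Agent.Lib.Nine.S6Local
open Cfsg.Agent.Lib.Blocks.Third

universe u

variable {G : Type u} [Group G]

/-- The homomorphism from a cyclic group. -/
def zh {q : ℕ} [NeZero q] (y : G) (hy : y ^ q = 1) : Multiplicative (ZMod q) →* G :=
  MonoidHom.mk' (fun a => y ^ (Multiplicative.toAdd a).val) (by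
    intro a b
    rw [toAdd_mul, ZMod.val_add, ← pow_eq_pow_mod _ hy, pow_add])

theorem zh_apply {q : ℕ} [NeZero q] (y : G) (hy : y ^ q = 1) (a : ZMod q) :
    zh y hy (Multiplicative.ofAdd a) = y ^ a.val := rfl

theorem exists_coprime_mod {N q v : ℕ} (hN : 0 < N) (hq : q.Prime) (hv : ¬ q ∣ v) :
    ∃ k : ℕ, k.Coprime N ∧ k % q = v % q := by
  haveI : Fact q.Prime := ⟨hq⟩
  haveI : NeZero (q * N) := ⟨(Nat.mul_pos hq.pos hN).ne'⟩
  have hx : v.Coprime q := ((Nat.Prime.coprime_iff_not_dvd hq).mpr hv).symm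
  obtain ⟨w, hw⟩ := ZMod.unitsMap_surjective (Nat.dvd_mul_right q N) (ZMod.unitOfCoprime v hx)
  have h1 := congrArg Units.val hw
  rw [ZMod.coe_unitOfCoprime, ZMod.unitsMap_def, Units.coe_map] at h1
  simp only [MonoidHom.coe_coe, ZMod.castHom_apply] at h1
  refine ⟨(w : ZMod (q * N)).val, ?_, ?_⟩
  · exact (ZMod.val_coe_unit_coprime w).coprime_dvd_right (Nat.dvd_mul_left N q)
  · rw [← ZMod.natCast_eq_natCast_iff', ← h1, ZMod.natCast_val]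

variable [Fintype G]

/-- The sum of a character over `f(V) × ⟨e⟩` is a multiple of the order. -/
theorem sum_pm {V : Type} [AddCommGroup V] [Fintype V] (f : Multiplicative V →* G) {e : G} (he : e ^ 2 = 1)
    (hcomm : ∀ v, f v * e = e * f v) {χ' : G → ℂ} (hχ : IsCharacter G χ') :
    ∃ n : ℕ, ∑ v : V, (χ' (f (Multiplicative.ofAdd v)) + χ' (f (Multiplicative.ofAdd v) * e)) =
      (Fintype.card V : ℂ) * 2 * n := by
  classical
  have hc : ∀ (a : Multiplicative V) (b : Multiplicative (ZMod 2)), Commute (f a) (zh e he b) := by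
    intro a b
    change Commute (f a) (e ^ (Multiplicative.toAdd b).val)
    exact Commute.pow_right (hcomm a) _
  let F := f.noncommCoprod (zh e he) hc
  have hχF := Cfsg.Agent.Lib.Char.Basic.isCharacter_comp F hχ
  let A := Multiplicative V × Multiplicative (ZMod 2)
  letI : Fintype (⊤ : Subgroup A) := Fintype.ofFinite _
  obtain ⟨n, hn⟩ := exists_nat_sum_subgroup (⊤ : Subgroup A) hχF
  refine ⟨n, ?_⟩
  have e1 : ∑ h : (⊤ : Subgroup A), (χ' ∘ F) h = ∑ a : A, (χ' ∘ F) a :=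
    Equiv.sum_comp (Subgroup.topEquiv.toEquiv : (⊤ : Subgroup A) ≃ A) (χ' ∘ F)
  have e2 : Nat.card (⊤ : Subgroup A) = Fintype.card V * 2 := by
    rw [Subgroup.card_top, Nat.card_eq_fintype_card, Fintype.card_prod]
    simp [ZMod.card]
  rw [e1, e2, Fintype.sum_prod_type] at hn
  push_cast at hn
  rw [← hn]
  rw [← Equiv.sum_comp (Multiplicative.ofAdd : V ≃ Multiplicative V)]
  refine Finset.sum_congr rfl fun v _ => ?_
  have e3 : (Finset.univ : Finset (Multiplicative (ZMod 2))) =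
      {Multiplicative.ofAdd 0, Multiplicative.ofAdd 1} := by decide
  rw [e3, Finset.sum_pair (by decide)]
  change _ = χ' (f _ * (zh e he (Multiplicative.ofAdd 0))) + χ' (f _ * (zh e he (Multiplicative.ofAdd 1)))
  rw [zh_apply, zh_apply, show (1 : ZMod 2).val = 1 from rfl, show (0 : ZMod 2).val = 0 from rfl, pow_one, pow_zero,
    mul_one]

variable {ι : Gam →* G} [Fintype (IrrCharacter G)] {χ : Fin 9 → IrrCharacter G} {s : Fin 9 → ℤ} {α A Ψ : ℤ}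

/-- The coherent characters are integer valued. -/
theorem int_val (C : Coh ι χ s) (hinj : Function.Injective ι) (l : Fin 9) (g : G) :
    ∃ n : ℤ, (χ l : G → ℂ) g = n := by
  refine Cfsg.Agent.Lib.OddChar.FamilyUnique.int_of_pow_fixed
    (Cfsg.Agent.Lib.Char.Basic.isCharacter_of_isIrrCharacter (χ l).2) g ?_
  intro k hk
  obtain ⟨k', hk', hmod⟩ := Cfsg.Agent.Lib.OddChar.FamilyUnique.exists_coprime_lift (N := Nat.card G)
    Nat.card_pos.ne' (orderOf_dvd_natCard g) hk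
  have h1 : g ^ k' = g ^ k := by
    rw [pow_eq_pow_mod k' (pow_orderOf_eq_one g), pow_eq_pow_mod k (pow_orderOf_eq_one g)]
    rw [hmod]
  rw [← h1]
  exact pow_eq C hinj hk' l g

theorem pow_val (C : Coh ι χ s) (hinj : Function.Injective ι) (l : Fin 9) {g : G} {q v : ℕ} (hq : q.Prime)
    (hg : g ^ q = 1) (hv : ¬ q ∣ v) : (χ l : G → ℂ) (g ^ v) = (χ l : G → ℂ) g := by
  obtain ⟨k, hk, hmod⟩ := exists_coprime_mod (N := Nat.card G) Nat.card_pos hq hv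
  have h1 : g ^ k = g ^ v := by
    rw [pow_eq_pow_mod k hg, pow_eq_pow_mod v hg, hmod]
  rw [← h1]
  exact pow_eq C hinj hk l g

theorem pow_val_e (C : Coh ι χ s) (hinj : Function.Injective ι) (l : Fin 9) {y e : G} {q v : ℕ} (hq : q.Prime)
    (hy : y ^ q = 1) (he : e ^ 2 = 1) (hye : y * e = e * y) (hv : ¬ q ∣ v) :
    (χ l : G → ℂ) (y ^ v * e) = (χ l : G → ℂ) (y * e) := by
  obtain ⟨k, hk, hmod⟩ := exists_coprime_mod (N := Nat.card G) Nat.card_pos hq hv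
  have h1 : y ^ k = y ^ v := by
    rw [pow_eq_pow_mod k hy, pow_eq_pow_mod v hy, hmod]
  have hodd : k % 2 = 1 := by
    have h2 : (2 : ℕ) ∣ Nat.card G := (by norm_num : 2 ∣ 72).trans (dvd_card hinj)
    have h3 : k.Coprime 2 := hk.coprime_dvd_right h2
    have h4 : ¬ 2 ∣ k := fun h => by
      have h5 : 2 ∣ Nat.gcd k 2 := Nat.dvd_gcd h (dvd_refl 2)
      rw [show Nat.gcd k 2 = 1 from h3] at h5
      omega
    omega
  have h2 : e ^ k = e := by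
    rw [pow_eq_pow_mod k he, hodd, pow_one]
  have h3 : (y * e) ^ k = y ^ v * e := by
    rw [(show Commute y e from hye).mul_pow, h1, h2]
  rw [← h3]
  exact pow_eq C hinj hk l _

/-- A linear character is trivial on elements of odd prime order. -/
theorem lin_odd (C : Coh ι χ s) (hinj : Function.Injective ι) (h3 : (χ 3 : G → ℂ) 1 = 1) {g : G} {k : ℕ}
    (hg : g ^ (2 * k + 1) = 1) : (χ 3 : G → ℂ) g = 1 := by
  have h1 : ∀ n : ℕ, (χ 3 : G → ℂ) (g ^ n) = (χ 3 : G → ℂ) g ^ n := by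
    intro n
    induction n with
    | zero => simpa using h3
    | succ n ih => rw [pow_succ, lin_mul h3, ih, pow_succ]
  have h2 := h1 (2 * k + 1)
  rw [hg, h3] at h2
  have h4 := lin_sq C hinj h3 g
  rw [pow_succ, pow_mul, pow_two, h4, one_pow, one_mul] at h2
  exact h2.symm

/-- The two sums. -/
theorem sum_two (C : Coh ι χ s) (h3 : (χ 3 : G → ℂ) 1 = 1) (hs3 : s 3 = 1) {V : Type} [AddCommGroup V] [Fintype V]
    (f : Multiplicative V →* G) {e : G} (he : e ^ 2 = 1) (hcomm : ∀ v, f v * e = e * f v)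
    (hl : ∀ v, (χ 3 : G → ℂ) (f v) = 1) (hle : (χ 3 : G → ℂ) e = -1) :
    (∃ n : ℕ, ∑ v : V, ((χ 5 : G → ℂ) (f (Multiplicative.ofAdd v)) + (χ 5 : G → ℂ) (f (Multiplicative.ofAdd v) * e)) =
      (Fintype.card V : ℂ) * 2 * n) ∧
    (∃ n : ℕ, ∑ v : V, ((χ 5 : G → ℂ) (f (Multiplicative.ofAdd v)) - (χ 5 : G → ℂ) (f (Multiplicative.ofAdd v) * e)) =
      (Fintype.card V : ℂ) * 2 * n) := by
  refine ⟨sum_pm f he hcomm (Cfsg.Agent.Lib.Char.Basic.isCharacter_of_isIrrCharacter (χ 5).2), ?_⟩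
  obtain ⟨n, hn⟩ := sum_pm f he hcomm (Cfsg.Agent.Lib.Char.Basic.isCharacter_of_isIrrCharacter (χ 6).2)
  refine ⟨n, ?_⟩
  rw [← hn]
  refine Finset.sum_congr rfl fun v _ => ?_
  have e6 : ∀ g, (χ 6 : G → ℂ) g = (χ 3 : G → ℂ) g * (χ 5 : G → ℂ) g := by
    intro g
    have := (mul3 C h3 hs3 5 g).1
    rw [show τ3 5 = 6 from rfl] at this
    exact this.symm
  rw [e6, e6, lin_mul h3, hl, hle]
  ring

/-- The integral values of a character are bounded by the degree. -/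
theorem int_abs_le (l : Fin 9) (g : G) {n : ℤ} (hn : (χ l : G → ℂ) g = n) {d : ℤ} (hd : (χ l : G → ℂ) 1 = d) :
    n ≤ d ∧ -d ≤ n := by
  have h1 := Cfsg.Agent.Lib.Char.Degree.norm_le_charDegree
    (Cfsg.Agent.Lib.Char.Basic.isCharacter_of_isIrrCharacter (χ l).2) g
  have h2 : (Cfsg.charDegree (χ l : G → ℂ) : ℂ) = (d : ℂ) := by
    rw [← hd, Cfsg.Agent.Lib.Blocks.Heights.irr_one_eq (χ l)]
  have h2' : (Cfsg.charDegree (χ l : G → ℂ) : ℤ) = d := by exact_mod_cast h2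
  rw [hn] at h1
  have h3 : ‖(n : ℂ)‖ = |(n : ℝ)| := by
    rw [Complex.norm_intCast]
  rw [h3] at h1
  have h4 : |(n : ℝ)| ≤ (d : ℝ) := by
    have : ((Cfsg.charDegree (χ l : G → ℂ) : ℕ) : ℝ) = (d : ℝ) := by exact_mod_cast h2'
    rwa [this] at h1
  have h5 : |n| ≤ d := by exact_mod_cast h4
  exact abs_le.mp h5 |>.symm |> fun h => ⟨h.1, h.2⟩

/-- Signs and degree of the fifth character when its signed degree is negative. -/
theorem Dat.s5_neg (D : Dat ι χ s α A Ψ) (hneg : 1 + 3 * α < 0) :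
    s 5 = -1 ∧ (χ 5 : G → ℂ) 1 = ((-(1 + 3 * α) : ℤ) : ℂ) := by
  have hpos := Cfsg.Agent.Lib.Char.Degree.charDegree_pos (χ 5).2
  have hd := Cfsg.Agent.Lib.Blocks.Heights.irr_one_eq (χ 5)
  have h1 := Dat.dl5 D
  rw [dl, hd] at h1
  have h' : s 5 * (Cfsg.charDegree (χ 5 : G → ℂ) : ℤ) = 1 + 3 * α := by exact_mod_cast h1
  rcases D.C.sgn 5 with hs | hs
  · rw [hs, one_mul] at h'
    omega
  · refine ⟨hs, ?_⟩
    rw [hs] at h'
    rw [hd]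
    have : (Cfsg.charDegree (χ 5 : G → ℂ) : ℤ) = -(1 + 3 * α) := by omega
    exact_mod_cast this

/-- The value of the fifth character on `e`. -/
theorem Dat.v5_e (D : Dat ι χ s α A Ψ) (hs : s 5 = -1) : (χ 5 : G → ℂ) (ι e1) = ((-(1 + α) : ℤ) : ℂ) := by
  have hinj := D.S.model.inj
  have he2 : (ι e1) ^ 2 = 1 := by rw [← map_pow, show e1 ^ 2 = 1 by decide, map_one]
  obtain ⟨-, -, -, -, e5, -⟩ := sv_vals D.C D.h3 D.hs3 (g := ι e1)
    (not_conj_of_sq hinj he2 w2A) (not_conj_of_sq hinj he2 w2C)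
    (not_conj_of_sq hinj he2 w2A') (not_conj_of_sq hinj he2 w2C')
  rw [D.hα, D.hp, sv, hs] at e5
  push_cast at e5 ⊢
  linear_combination -e5

/-- The cyclic sums. -/
theorem cyc_sum (C : Coh ι χ s) (hinj : Function.Injective ι) (h3 : (χ 3 : G → ℂ) 1 = 1) (hs3 : s 3 = 1)
    {q : ℕ} (hq : q.Prime) (hq2 : q ≠ 2) {y e : G} (hy : y ^ q = 1) (he : e ^ 2 = 1) (hye : y * e = e * y)
    (hle : (χ 3 : G → ℂ) e = -1) :
    (∃ n : ℕ, (χ 5 : G → ℂ) 1 + (χ 5 : G → ℂ) e + ((q : ℂ) - 1) * ((χ 5 : G → ℂ) y + (χ 5 : G → ℂ) (y * e)) =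
      (q : ℂ) * 2 * n) ∧
    (∃ n : ℕ, (χ 5 : G → ℂ) 1 - (χ 5 : G → ℂ) e + ((q : ℂ) - 1) * ((χ 5 : G → ℂ) y - (χ 5 : G → ℂ) (y * e)) =
      (q : ℂ) * 2 * n) := by
  classical
  haveI : NeZero q := ⟨hq.ne_zero⟩
  haveI : Fact q.Prime := ⟨hq⟩
  obtain ⟨k, hk⟩ : ∃ k, q = 2 * k + 1 := by
    rcases hq.eq_two_or_odd with h | h
    · exact absurd h hq2
    · exact ⟨q / 2, by omega⟩
  have hl : ∀ v, (χ 3 : G → ℂ) ((zh y hy) v) = 1 := by
    intro v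
    apply lin_odd C hinj h3 (k := k)
    rw [← hk, ← map_pow, ← ofAdd_toAdd v, ← ofAdd_nsmul]
    change y ^ (q • Multiplicative.toAdd v).val = 1
    simp
  have hc : ∀ v, (zh y hy) v * e = e * (zh y hy) v := by
    intro v
    change y ^ (Multiplicative.toAdd v).val * e = e * y ^ (Multiplicative.toAdd v).val
    exact (Commute.pow_left (show Commute y e from hye) _).eq
  obtain ⟨⟨n₁, h₁⟩, ⟨n₂, h₂⟩⟩ := sum_two C h3 hs3 (zh y hy) he hc hl hle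
  have hcard : Fintype.card (ZMod q) = q := ZMod.card q
  rw [hcard] at h₁ h₂
  have hne : ∀ v : ZMod q, v ≠ 0 → ¬ q ∣ v.val := by
    intro v hv h
    apply hv
    have h1 := ZMod.val_lt v
    have h2 := Nat.eq_zero_of_dvd_of_lt h h1
    exact (ZMod.val_eq_zero v).mp h2
  have hcard' : ((Finset.univ : Finset (ZMod q)).erase 0).card = q - 1 := by
    rw [Finset.card_erase_of_mem (Finset.mem_univ _), Finset.card_univ, hcard]
  have hcast : ((q - 1 : ℕ) : ℂ) = (q : ℂ) - 1 := by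
    rw [Nat.cast_sub hq.one_lt.le]
    simp
  have hzero : ∀ x : G, (zh y hy (Multiplicative.ofAdd (0 : ZMod q))) = 1 := by
    intro _
    exact map_one _
  constructor
  · refine ⟨n₁, ?_⟩
    rw [← h₁, ← Finset.add_sum_erase _ _ (Finset.mem_univ (0 : ZMod q))]
    rw [hzero 1, one_mul]
    rw [Finset.sum_congr rfl (fun v hv => by
      rw [zh_apply, pow_val C hinj 5 hq hy (hne v (Finset.ne_of_mem_erase hv)),
        pow_val_e C hinj 5 hq hy he hye (hne v (Finset.ne_of_mem_erase hv))])]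
    rw [Finset.sum_const, hcard', nsmul_eq_mul, hcast]
  · refine ⟨n₂, ?_⟩
    rw [← h₂, ← Finset.add_sum_erase _ _ (Finset.mem_univ (0 : ZMod q))]
    rw [hzero 1, one_mul]
    rw [Finset.sum_congr rfl (fun v hv => by
      rw [zh_apply, pow_val C hinj 5 hq hy (hne v (Finset.ne_of_mem_erase hv)),
        pow_val_e C hinj 5 hq hy he hye (hne v (Finset.ne_of_mem_erase hv))])]
    rw [Finset.sum_const, hcard', nsmul_eq_mul, hcast]

theorem arith_F {q a b n₁ n₂ : ℤ} (hq : 5 ≤ q) (h1 : 6 + (q - 1) * (a + b) = q * 2 * n₁)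
    (h2 : 4 + (q - 1) * (a - b) = q * 2 * n₂) (hn₁ : 0 ≤ n₁) (hn₂ : 0 ≤ n₂) (hpar : (2 : ℤ) ∣ b - a)
    (ha : a ≤ 5) (ha' : -5 ≤ a) (hb : b ≤ 5) (hb' : -5 ≤ b) : a = 5 := by
  obtain ⟨k, hk⟩ := hpar
  obtain ⟨u, hu⟩ : ∃ u, u = a + k := ⟨_, rfl⟩
  obtain ⟨w, hw⟩ : ∃ w, w = -k := ⟨_, rfl⟩
  have ea : a = u + w := by omega
  have eb : b = u - w := by omega
  subst ea eb
  have hu1 : u ≤ 5 := by omega
  have hu2 : -5 ≤ u := by omega
  have hw1 : w ≤ 5 := by omega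
  have hw2 : -5 ≤ w := by omega
  have h1' : 3 + (q - 1) * u = q * n₁ := by linarith
  have h2' : 2 + (q - 1) * w = q * n₂ := by linarith
  have hq0 : 0 ≤ q * n₁ := by positivity
  have hq0' : 0 ≤ q * n₂ := by positivity
  have hu0 : 0 ≤ u := by
    by_contra hcon
    have : u ≤ -1 := by omega
    nlinarith
  have hw0 : 0 ≤ w := by
    by_contra hcon
    have : w ≤ -1 := by omega
    nlinarith
  have d1 : q ∣ 3 - u := ⟨n₁ - u, by linarith⟩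
  have d2 : q ∣ 2 - w := ⟨n₂ - w, by linarith⟩
  have e1 : 3 - u = 0 := Int.eq_zero_of_abs_lt_dvd d1 (by rw [abs_lt]; constructor <;> omega)
  have e2 : 2 - w = 0 := Int.eq_zero_of_abs_lt_dvd d2 (by rw [abs_lt]; constructor <;> omega)
  omega

/-- Integrality of the values in the sums: the values at `y` and `y e`. -/
theorem val_pair (C : Coh ι χ s) (hinj : Function.Injective ι) {q : ℕ} (hq : q.Prime) (hq2 : q ≠ 2) {y e : G}
    (hy : y ^ q = 1) (he : e ^ 2 = 1) (hye : y * e = e * y) :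
    ∃ a b : ℤ, (χ 5 : G → ℂ) y = a ∧ (χ 5 : G → ℂ) (y * e) = b ∧ (2 : ℤ) ∣ b - a := by
  obtain ⟨a, ha⟩ := int_val C hinj 5 y
  obtain ⟨b, hb⟩ := int_val C hinj 5 (y * e)
  refine ⟨a, b, ha, hb, ?_⟩
  have h2 : (y * e) ^ 2 = y ^ 2 := by
    rw [(show Commute y e from hye).mul_pow, he, mul_one]
  have hq2' : ¬ q ∣ 2 := by
    intro h
    have := (Nat.prime_dvd_prime_iff_eq hq Nat.prime_two).mp h
    exact hq2 this
  have h3 : (χ 5 : G → ℂ) ((y * e) ^ 2) = a := by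
    rw [h2, pow_val C hinj 5 hq hy hq2', ha]
  exact int_two_congr (Cfsg.Agent.Lib.Char.Basic.isCharacter_of_isIrrCharacter (χ 5).2) (y * e) hb h3

/-- Branch `α = -2`: no element of prime order at least `5` commutes with `e`. -/
theorem Dat.no_prime (D : Dat ι χ s (-2) A Ψ) {q : ℕ} (hq : q.Prime) (hq5 : 5 ≤ q) {y : G} (hy : y ^ q = 1)
    (hy1 : y ≠ 1) (hye : y * ι e1 = ι e1 * y) : False := by
  have hinj := D.S.model.inj
  have he : (ι e1) ^ 2 = 1 := by rw [← map_pow, show e1 ^ 2 = 1 by decide, map_one]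
  have hq2 : q ≠ 2 := by omega
  obtain ⟨⟨n₁, h₁⟩, ⟨n₂, h₂⟩⟩ := cyc_sum D.C hinj D.h3 D.hs3 hq hq2 hy he hye D.ε_e
  obtain ⟨a, b, ha, hb, hpar⟩ := val_pair D.C hinj hq hq2 hy he hye
  obtain ⟨hs, hd⟩ := Dat.s5_neg D (by norm_num)
  have hv := Dat.v5_e D hs
  rw [hd, hv, ha, hb] at h₁ h₂
  have i1 : 6 + ((q : ℤ) - 1) * (a + b) = q * 2 * n₁ := by
    have : ((6 + ((q : ℤ) - 1) * (a + b) : ℤ) : ℂ) = ((q * 2 * n₁ : ℤ) : ℂ) := by
      push_cast at h₁ ⊢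
      rw [← h₁]
      ring
    exact_mod_cast this
  have i2 : 4 + ((q : ℤ) - 1) * (a - b) = q * 2 * n₂ := by
    have : ((4 + ((q : ℤ) - 1) * (a - b) : ℤ) : ℂ) = ((q * 2 * n₂ : ℤ) : ℂ) := by
      push_cast at h₂ ⊢
      rw [← h₂]
      ring
    exact_mod_cast this
  obtain ⟨a1, a2⟩ := int_abs_le 5 y ha hd
  obtain ⟨b1, b2⟩ := int_abs_le 5 (y * ι e1) hb hd
  have e5 := arith_F (q := (q : ℤ)) (by exact_mod_cast hq5) i1 i2 (by positivity) (by positivity) hpar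
    (by omega) (by omega) (by omega) (by omega)
  apply hy1
  apply Dat.eq_one_of_sv5 D (by norm_num)
  rw [Dat.dl5 D, sv, hs, ha, e5]
  norm_num

section Rank2

theorem pow_add_val5 {t : G} (h : t ^ 5 = 1) (a b : ZMod 5) : t ^ (a + b).val = t ^ a.val * t ^ b.val := by
  rw [ZMod.val_add, ← pow_eq_pow_mod _ h, pow_add]

theorem pow_neg_val5 {t : G} (h : t ^ 5 = 1) (a : ZMod 5) : t ^ (-a).val = (t ^ a.val)⁻¹ := by
  rw [eq_inv_iff_mul_eq_one, ← pow_add_val5 h, neg_add_cancel]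
  simp

/-- The map from the plane. -/
def f2 (u w : G) (hu : u ^ 5 = 1) (hw : w ^ 5 = 1) (hc : Commute u w) : Multiplicative (ZMod 5 × ZMod 5) →* G :=
  MonoidHom.mk' (fun v => u ^ (Multiplicative.toAdd v).1.val * w ^ (Multiplicative.toAdd v).2.val) (by
    intro a b
    simp only [toAdd_mul, Prod.fst_add, Prod.snd_add, pow_add_val5 hu, pow_add_val5 hw]
    have h1 : Commute (w ^ (Multiplicative.toAdd a).2.val) (u ^ (Multiplicative.toAdd b).1.val) :=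
      (hc.symm.pow_pow _ _)
    calc u ^ (Multiplicative.toAdd a).1.val * u ^ (Multiplicative.toAdd b).1.val *
          (w ^ (Multiplicative.toAdd a).2.val * w ^ (Multiplicative.toAdd b).2.val)
        = u ^ (Multiplicative.toAdd a).1.val * (u ^ (Multiplicative.toAdd b).1.val *
          w ^ (Multiplicative.toAdd a).2.val) * w ^ (Multiplicative.toAdd b).2.val := by group
      _ = u ^ (Multiplicative.toAdd a).1.val * (w ^ (Multiplicative.toAdd a).2.val *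
          u ^ (Multiplicative.toAdd b).1.val) * w ^ (Multiplicative.toAdd b).2.val := by rw [h1.eq]
      _ = _ := by group)

theorem f2_apply {u w : G} {hu : u ^ 5 = 1} {hw : w ^ 5 = 1} {hc : Commute u w} (v : ZMod 5 × ZMod 5) :
    f2 u w hu hw hc (Multiplicative.ofAdd v) = u ^ v.1.val * w ^ v.2.val := rfl

/-- The action of the element of order `3` on the plane. -/
def A5 (v : ZMod 5 × ZMod 5) : ZMod 5 × ZMod 5 := (-v.2, v.1 - v.2)

theorem f2_conj {u w x : G} {hu : u ^ 5 = 1} {hw : w ^ 5 = 1} {hc : Commute u w} (h1 : x * u * x⁻¹ = w)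
    (h2 : x * w * x⁻¹ = (u * w)⁻¹) (v : ZMod 5 × ZMod 5) :
    x * f2 u w hu hw hc (Multiplicative.ofAdd v) * x⁻¹ = f2 u w hu hw hc (Multiplicative.ofAdd (A5 v)) := by
  rw [f2_apply, f2_apply]
  have e1 : x * (u ^ v.1.val * w ^ v.2.val) * x⁻¹ = (x * u * x⁻¹) ^ v.1.val * (x * w * x⁻¹) ^ v.2.val := by
    rw [conj_pow, conj_pow]
    group
  rw [e1, h1, h2, A5]
  simp only [sub_eq_add_neg, pow_add_val5 hw, pow_neg_val5 hu, pow_neg_val5 hw]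
  rw [inv_pow, hc.mul_pow, mul_inv_rev]
  have h3 : Commute (u ^ v.2.val)⁻¹ (w ^ v.1.val) := ((hc.pow_pow _ _).inv_left)
  rw [← mul_assoc]
  have h4 : Commute (w ^ v.1.val * (w ^ v.2.val)⁻¹) (u ^ v.2.val)⁻¹ :=
    Commute.mul_left (hc.symm.pow_pow _ _).inv_right (hc.symm.pow_pow _ _).inv_inv
  exact h4.eq

/-- The classes on the plane. -/
def cl5 (v : ZMod 5 × ZMod 5) : Fin 3 :=
  if v = 0 then 0 else if v.2 = 0 ∨ v.1 = 0 ∨ v.1 = v.2 then 1 else 2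

theorem cl5_one : ∀ v : ZMod 5 × ZMod 5, cl5 v = 1 → ∃ k : Fin 4,
    v = ((k : ℕ) + 1) • ((1, 0) : ZMod 5 × ZMod 5) ∨ v = ((k : ℕ) + 1) • A5 (1, 0) ∨
      v = ((k : ℕ) + 1) • A5 (A5 (1, 0)) := by
  decide +kernel

theorem cl5_two : ∀ v : ZMod 5 × ZMod 5, cl5 v = 2 → ∃ k : Fin 4,
    v = ((k : ℕ) + 1) • ((1, 2) : ZMod 5 × ZMod 5) ∨ v = ((k : ℕ) + 1) • A5 (1, 2) ∨
      v = ((k : ℕ) + 1) • A5 (A5 (1, 2)) := by
  decide +kernel

theorem cl5_zero : ∀ v : ZMod 5 × ZMod 5, cl5 v = 0 → v = 0 := by decide +kernel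

theorem cl5_cases : ∀ v : ZMod 5 × ZMod 5, cl5 v = 0 ∨ cl5 v = 1 ∨ cl5 v = 2 := by decide +kernel

def ind5 (i : Fin 3) (v : ZMod 5 × ZMod 5) : ℕ := if cl5 v = i then 1 else 0

theorem sum_ind0 : ∑ v : ZMod 5 × ZMod 5, ind5 0 v = 1 := by decide +kernel
theorem sum_ind1 : ∑ v : ZMod 5 × ZMod 5, ind5 1 v = 12 := by decide +kernel
theorem sum_ind2 : ∑ v : ZMod 5 × ZMod 5, ind5 2 v = 12 := by decide +kernel

/-- A sum over the plane of a function constant on the classes. -/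
theorem sum_cl5 (g : ZMod 5 × ZMod 5 → ℂ) {g₀ g₁ g₂ : ℂ} (h0 : g 0 = g₀)
    (h1 : ∀ v, cl5 v = 1 → g v = g₁) (h2 : ∀ v, cl5 v = 2 → g v = g₂) :
    ∑ v, g v = g₀ + 12 * g₁ + 12 * g₂ := by
  have h : ∀ v, g v = (ind5 0 v : ℂ) * g₀ + (ind5 1 v : ℂ) * g₁ + (ind5 2 v : ℂ) * g₂ := by
    intro v
    rcases cl5_cases v with hv | hv | hv
    · have hv0 := cl5_zero v hv
      have h00 : cl5 0 = 0 := by decide +kernel
      rw [hv0]
      simp [ind5, h00, h0]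
    · simp [ind5, hv, h1 v hv]
    · simp [ind5, hv, h2 v hv]
  have e0 : (∑ v : ZMod 5 × ZMod 5, (ind5 0 v : ℂ)) = 1 := by
    rw [← Nat.cast_sum, sum_ind0]
    simp
  have e1 : (∑ v : ZMod 5 × ZMod 5, (ind5 1 v : ℂ)) = 12 := by
    rw [← Nat.cast_sum, sum_ind1]
    simp
  have e2 : (∑ v : ZMod 5 × ZMod 5, (ind5 2 v : ℂ)) = 12 := by
    rw [← Nat.cast_sum, sum_ind2]
    simp
  rw [Finset.sum_congr rfl fun v _ => h v]
  rw [Finset.sum_add_distrib, Finset.sum_add_distrib, ← Finset.sum_mul, ← Finset.sum_mul, ← Finset.sum_mul, e0, e1, e2]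
  ring

theorem arith_aux1 {u n : ℤ} (h : 9 + 4 * u = 5 * n) (hn : 0 ≤ n) (hu : u ≤ 14) :
    ∃ t, u = 5 * t - 1 ∧ 0 ≤ t ∧ t ≤ 3 :=
  ⟨(u + 1) / 5, by omega, by omega, by omega⟩

theorem arith_aux2 {u n : ℤ} (h : 5 + 4 * u = 5 * n) (hn : 0 ≤ n) (hu : u ≤ 14) :
    ∃ t, u = 5 * t ∧ 0 ≤ t ∧ t ≤ 2 :=
  ⟨u / 5, by omega, by omega, by omega⟩

theorem arith_aux3 {t₁ t₂ N : ℤ} (h : 9 + 12 * ((5 * t₁ - 1) + (5 * t₂ - 1)) = 25 * N) (h1 : 0 ≤ t₁) (h2 : t₁ ≤ 3)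
    (h3 : 0 ≤ t₂) (h4 : t₂ ≤ 3) : t₁ + t₂ = 4 := by
  omega

theorem arith_aux4 {t₁ t₂ N : ℤ} (h : 5 + 12 * (5 * t₁ + 5 * t₂) = 25 * N) (h1 : 0 ≤ t₁) (h2 : t₁ ≤ 2)
    (h3 : 0 ≤ t₂) (h4 : t₂ ≤ 2) : t₁ + t₂ = 2 := by
  omega

theorem arith_E {a₁ b₁ a₂ b₂ n₁ n₂ n₃ n₄ N₁ N₂ : ℤ}
    (h1 : 18 + 4 * (a₁ + b₁) = 10 * n₁) (h2 : 10 + 4 * (a₁ - b₁) = 10 * n₂)
    (h3 : 18 + 4 * (a₂ + b₂) = 10 * n₃) (h4 : 10 + 4 * (a₂ - b₂) = 10 * n₄)
    (h5 : 18 + 12 * (a₁ + b₁) + 12 * (a₂ + b₂) = 50 * N₁) (h6 : 10 + 12 * (a₁ - b₁) + 12 * (a₂ - b₂) = 50 * N₂)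
    (hn₁ : 0 ≤ n₁) (hn₂ : 0 ≤ n₂) (hn₃ : 0 ≤ n₃) (hn₄ : 0 ≤ n₄)
    (p1 : (2 : ℤ) ∣ b₁ - a₁) (p2 : (2 : ℤ) ∣ b₂ - a₂)
    (ba₁ : a₁ ≤ 14) (ba₂ : a₂ ≤ 14) (bb₁ : b₁ ≤ 14) (bb₂ : b₂ ≤ 14)
    (ca₁ : -14 ≤ a₁) (ca₂ : -14 ≤ a₂) (cb₁ : -14 ≤ b₁) (cb₂ : -14 ≤ b₂) : a₁ = 14 := by
  obtain ⟨k₁, hk₁⟩ := p1
  obtain ⟨k₂, hk₂⟩ := p2
  obtain ⟨u₁, hu₁⟩ : ∃ u, u = a₁ + k₁ := ⟨_, rfl⟩
  obtain ⟨u₂, hu₂⟩ : ∃ u, u = a₂ + k₂ := ⟨_, rfl⟩
  obtain ⟨w₁, hw₁⟩ : ∃ w, w = -k₁ := ⟨_, rfl⟩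
  obtain ⟨w₂, hw₂⟩ : ∃ w, w = -k₂ := ⟨_, rfl⟩
  have ea₁ : a₁ = u₁ + w₁ := by linarith
  have ea₂ : a₂ = u₂ + w₂ := by linarith
  have eb₁ : b₁ = u₁ - w₁ := by linarith
  have eb₂ : b₂ = u₂ - w₂ := by linarith
  subst ea₁ ea₂ eb₁ eb₂
  clear hk₁ hk₂ hu₁ hu₂ hw₁ hw₂
  have A1 : 9 + 4 * u₁ = 5 * n₁ := by linarith
  have A2 : 5 + 4 * w₁ = 5 * n₂ := by linarith
  have A3 : 9 + 4 * u₂ = 5 * n₃ := by linarith
  have A4 : 5 + 4 * w₂ = 5 * n₄ := by linarith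
  have A5' : 9 + 12 * (u₁ + u₂) = 25 * N₁ := by linarith
  have A6 : 5 + 12 * (w₁ + w₂) = 25 * N₂ := by linarith
  obtain ⟨t₁, rfl, h01, h02⟩ := arith_aux1 A1 hn₁ (by linarith)
  obtain ⟨t₂, rfl, h03, h04⟩ := arith_aux1 A3 hn₃ (by linarith)
  obtain ⟨r₁, rfl, h05, h06⟩ := arith_aux2 A2 hn₂ (by linarith)
  obtain ⟨r₂, rfl, h07, h08⟩ := arith_aux2 A4 hn₄ (by linarith)
  have T := arith_aux3 A5' h01 h02 h03 h04
  have R := arith_aux4 A6 h05 h06 h07 h08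
  linarith

/-- Branch `α = -5`: the elements of order `5` commuting with `e` and normalized suitably. -/
theorem Dat.no_five (D : Dat ι χ s (-5) A Ψ) {y x : G} (hy : y ^ 5 = 1) (hy1 : y ≠ 1)
    (hye : y * ι e1 = ι e1 * y) (hxe : x * ι e1 = ι e1 * x) (hc : Commute y (x * y * x⁻¹))
    (hprod : y * (x * y * x⁻¹) * (x * (x * y * x⁻¹) * x⁻¹) = 1) : False := by
  classical
  have hinj := D.S.model.inj
  have he : (ι e1) ^ 2 = 1 := by rw [← map_pow, show e1 ^ 2 = 1 by decide, map_one]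
  have hle := D.ε_e
  obtain ⟨hs, hd⟩ := Dat.s5_neg D (by norm_num)
  have hv := Dat.v5_e D hs
  obtain ⟨e, hedef⟩ : ∃ e, e = ι e1 := ⟨_, rfl⟩
  rw [← hedef] at he hye hxe hle hv
  obtain ⟨w, hwdef⟩ : ∃ w, w = x * y * x⁻¹ := ⟨_, rfl⟩
  rw [← hwdef] at hc hprod
  have hw : w ^ 5 = 1 := by
    rw [hwdef, conj_pow, hy]
    group
  have hwe : w * e = e * w := by
    have h1 : x⁻¹ * e = e * x⁻¹ := by
      have : Commute x e := hxe
      exact this.inv_left.eq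
    calc w * e = x * y * (x⁻¹ * e) := by rw [hwdef]; group
      _ = x * y * (e * x⁻¹) := by rw [h1]
      _ = x * (y * e) * x⁻¹ := by group
      _ = x * (e * y) * x⁻¹ := by rw [hye]
      _ = (x * e) * y * x⁻¹ := by group
      _ = (e * x) * y * x⁻¹ := by rw [hxe]
      _ = e * w := by rw [hwdef]; group
  have h1 : x * y * x⁻¹ = w := hwdef.symm
  have h2 : x * w * x⁻¹ = (y * w)⁻¹ := eq_inv_of_mul_eq_one_right hprod
  obtain ⟨f, hf⟩ : ∃ f, f = f2 y w hy hw hc := ⟨_, rfl⟩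
  have hpow5 : ∀ v, (f v) ^ 5 = 1 := by
    intro v
    rw [← map_pow]
    have key : ∀ v : ZMod 5 × ZMod 5, (5 : ℕ) • v = 0 := by decide +kernel
    have : v ^ 5 = 1 := by
      apply Multiplicative.toAdd.injective
      rw [toAdd_pow, key]
      rfl
    rw [this, map_one]
  have hl : ∀ v, (χ 3 : G → ℂ) (f v) = 1 := fun v => lin_odd D.C hinj D.h3 (k := 2) (hpow5 v)
  have hcomm : ∀ v, f v * e = e * f v := by
    intro v
    rw [hf]
    change y ^ _ * w ^ _ * e = e * (y ^ _ * w ^ _)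
    exact (Commute.mul_left (Commute.pow_left (show Commute y e from hye) _)
      (Commute.pow_left (show Commute w e from hwe) _)).eq
  have Ppow : ∀ (t : ZMod 5 × ZMod 5) (k : ℕ), ¬ 5 ∣ k →
      (χ 5 : G → ℂ) (f (Multiplicative.ofAdd (k • t))) = (χ 5 : G → ℂ) (f (Multiplicative.ofAdd t)) ∧
      (χ 5 : G → ℂ) (f (Multiplicative.ofAdd (k • t)) * e) = (χ 5 : G → ℂ) (f (Multiplicative.ofAdd t) * e) := by
    intro t k hk
    have e1 : f (Multiplicative.ofAdd (k • t)) = (f (Multiplicative.ofAdd t)) ^ k := by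
      rw [ofAdd_nsmul, map_pow]
    rw [e1]
    exact ⟨pow_val D.C hinj 5 Nat.prime_five (hpow5 _) hk,
      pow_val_e D.C hinj 5 Nat.prime_five (hpow5 _) he (hcomm _) hk⟩
  have PA : ∀ t : ZMod 5 × ZMod 5,
      (χ 5 : G → ℂ) (f (Multiplicative.ofAdd (A5 t))) = (χ 5 : G → ℂ) (f (Multiplicative.ofAdd t)) ∧
      (χ 5 : G → ℂ) (f (Multiplicative.ofAdd (A5 t)) * e) = (χ 5 : G → ℂ) (f (Multiplicative.ofAdd t) * e) := by
    intro t
    rw [hf, ← f2_conj h1 h2 t]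
    constructor
    · exact isClass (χ 5) (isConj_iff.mpr ⟨x⁻¹, by group⟩)
    · have e3 : x⁻¹ * e = e * x⁻¹ := by
        have : Commute x e := hxe
        exact this.inv_left.eq
      refine isClass (χ 5) (isConj_iff.mpr ⟨x⁻¹, ?_⟩)
      calc x⁻¹ * (x * f2 y w hy hw hc (Multiplicative.ofAdd t) * x⁻¹ * e) * x⁻¹⁻¹ =
          f2 y w hy hw hc (Multiplicative.ofAdd t) * (x⁻¹ * e) * x := by group
        _ = f2 y w hy hw hc (Multiplicative.ofAdd t) * (e * x⁻¹) * x := by rw [e3]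
        _ = _ := by group
  have Pcl : ∀ (t v : ZMod 5 × ZMod 5), (∃ k : Fin 4, v = ((k : ℕ) + 1) • t ∨ v = ((k : ℕ) + 1) • A5 t ∨
      v = ((k : ℕ) + 1) • A5 (A5 t)) →
      (χ 5 : G → ℂ) (f (Multiplicative.ofAdd v)) = (χ 5 : G → ℂ) (f (Multiplicative.ofAdd t)) ∧
      (χ 5 : G → ℂ) (f (Multiplicative.ofAdd v) * e) = (χ 5 : G → ℂ) (f (Multiplicative.ofAdd t) * e) := by
    rintro t v ⟨k, hv' | hv' | hv'⟩
    all_goals
      have hk : ¬ 5 ∣ (k : ℕ) + 1 := by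
        have := k.isLt
        omega
    · rw [hv']
      exact Ppow t _ hk
    · rw [hv']
      obtain ⟨a, b⟩ := Ppow (A5 t) _ hk
      obtain ⟨c, d⟩ := PA t
      exact ⟨a.trans c, b.trans d⟩
    · rw [hv']
      obtain ⟨a, b⟩ := Ppow (A5 (A5 t)) _ hk
      obtain ⟨c, d⟩ := PA (A5 t)
      obtain ⟨c', d'⟩ := PA t
      exact ⟨a.trans (c.trans c'), b.trans (d.trans d')⟩
  have v1 : f (Multiplicative.ofAdd ((1, 0) : ZMod 5 × ZMod 5)) = y := by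
    rw [hf, f2_apply, show ((1, 0) : ZMod 5 × ZMod 5).1.val = 1 from rfl,
      show ((1, 0) : ZMod 5 × ZMod 5).2.val = 0 from rfl, pow_one, pow_zero, mul_one]
  have v2 : f (Multiplicative.ofAdd ((1, 2) : ZMod 5 × ZMod 5)) = y * w ^ 2 := by
    rw [hf, f2_apply, show ((1, 2) : ZMod 5 × ZMod 5).1.val = 1 from rfl,
      show ((1, 2) : ZMod 5 × ZMod 5).2.val = 2 from rfl, pow_one]
  have v0 : f (Multiplicative.ofAdd (0 : ZMod 5 × ZMod 5)) = 1 := map_one f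
  have cl1 : ∀ v, cl5 v = 1 → _ := fun v hv' => Pcl (1, 0) v (cl5_one v hv')
  have cl2 : ∀ v, cl5 v = 2 → _ := fun v hv' => Pcl (1, 2) v (cl5_two v hv')
  rw [v1] at cl1
  rw [v2] at cl2
  obtain ⟨⟨N₁, hN₁⟩, ⟨N₂, hN₂⟩⟩ := sum_two D.C D.h3 D.hs3 f he hcomm hl hle
  rw [sum_cl5 _ (g₀ := (χ 5 : G → ℂ) 1 + (χ 5 : G → ℂ) e)
    (g₁ := (χ 5 : G → ℂ) y + (χ 5 : G → ℂ) (y * e))
    (g₂ := (χ 5 : G → ℂ) (y * w ^ 2) + (χ 5 : G → ℂ) (y * w ^ 2 * e))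
    (by simp only [v0, one_mul])
    (fun v hv' => by rw [(cl1 v hv').1, (cl1 v hv').2])
    (fun v hv' => by rw [(cl2 v hv').1, (cl2 v hv').2])] at hN₁
  rw [sum_cl5 _ (g₀ := (χ 5 : G → ℂ) 1 - (χ 5 : G → ℂ) e)
    (g₁ := (χ 5 : G → ℂ) y - (χ 5 : G → ℂ) (y * e))
    (g₂ := (χ 5 : G → ℂ) (y * w ^ 2) - (χ 5 : G → ℂ) (y * w ^ 2 * e))
    (by simp only [v0, one_mul])
    (fun v hv' => by rw [(cl1 v hv').1, (cl1 v hv').2])
    (fun v hv' => by rw [(cl2 v hv').1, (cl2 v hv').2])] at hN₂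
  have hy₂ : (y * w ^ 2) ^ 5 = 1 := by
    rw [(hc.pow_right 2).mul_pow, hy, ← pow_mul, mul_comm, pow_mul, hw]
    simp
  have hye₂ : y * w ^ 2 * e = e * (y * w ^ 2) :=
    (Commute.mul_left (show Commute y e from hye) (Commute.pow_left (show Commute w e from hwe) 2)).eq
  have hq2 : (5 : ℕ) ≠ 2 := by norm_num
  obtain ⟨⟨n₁, h₁⟩, ⟨n₂, h₂⟩⟩ := cyc_sum D.C hinj D.h3 D.hs3 Nat.prime_five hq2 hy he hye hle
  obtain ⟨⟨n₃, h₃⟩, ⟨n₄, h₄⟩⟩ := cyc_sum D.C hinj D.h3 D.hs3 Nat.prime_five hq2 hy₂ he hye₂ hle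
  obtain ⟨a₁, b₁, ha₁, hb₁, p₁⟩ := val_pair D.C hinj Nat.prime_five hq2 hy he hye
  obtain ⟨a₂, b₂, ha₂, hb₂, p₂⟩ := val_pair D.C hinj Nat.prime_five hq2 hy₂ he hye₂
  rw [hd, hv, ha₁, hb₁] at h₁ h₂
  rw [hd, hv, ha₂, hb₂] at h₃ h₄
  rw [hd, hv, ha₁, hb₁, ha₂, hb₂] at hN₁ hN₂
  have hc25 : Fintype.card (ZMod 5 × ZMod 5) = 25 := by
    rw [Fintype.card_prod, ZMod.card]
  rw [hc25] at hN₁ hN₂
  have i1 : 18 + 4 * (a₁ + b₁) = 10 * (n₁ : ℤ) := by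
    have : ((18 + 4 * (a₁ + b₁) : ℤ) : ℂ) = ((10 * (n₁ : ℤ) : ℤ) : ℂ) := by
      push_cast at h₁ ⊢
      linear_combination h₁
    exact_mod_cast this
  have i2 : 10 + 4 * (a₁ - b₁) = 10 * (n₂ : ℤ) := by
    have : ((10 + 4 * (a₁ - b₁) : ℤ) : ℂ) = ((10 * (n₂ : ℤ) : ℤ) : ℂ) := by
      push_cast at h₂ ⊢
      linear_combination h₂
    exact_mod_cast this
  have i3 : 18 + 4 * (a₂ + b₂) = 10 * (n₃ : ℤ) := by
    have : ((18 + 4 * (a₂ + b₂) : ℤ) : ℂ) = ((10 * (n₃ : ℤ) : ℤ) : ℂ) := by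
      push_cast at h₃ ⊢
      linear_combination h₃
    exact_mod_cast this
  have i4 : 10 + 4 * (a₂ - b₂) = 10 * (n₄ : ℤ) := by
    have : ((10 + 4 * (a₂ - b₂) : ℤ) : ℂ) = ((10 * (n₄ : ℤ) : ℤ) : ℂ) := by
      push_cast at h₄ ⊢
      linear_combination h₄
    exact_mod_cast this
  have i5 : 18 + 12 * (a₁ + b₁) + 12 * (a₂ + b₂) = 50 * (N₁ : ℤ) := by
    have : ((18 + 12 * (a₁ + b₁) + 12 * (a₂ + b₂) : ℤ) : ℂ) = ((50 * (N₁ : ℤ) : ℤ) : ℂ) := by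
      push_cast at hN₁ ⊢
      linear_combination hN₁
    exact_mod_cast this
  have i6 : 10 + 12 * (a₁ - b₁) + 12 * (a₂ - b₂) = 50 * (N₂ : ℤ) := by
    have : ((10 + 12 * (a₁ - b₁) + 12 * (a₂ - b₂) : ℤ) : ℂ) = ((50 * (N₂ : ℤ) : ℤ) : ℂ) := by
      push_cast at hN₂ ⊢
      linear_combination hN₂
    exact_mod_cast this
  obtain ⟨c1, c2⟩ := int_abs_le 5 y ha₁ hd
  obtain ⟨c3, c4⟩ := int_abs_le 5 (y * e) hb₁ hd
  obtain ⟨c5, c6⟩ := int_abs_le 5 (y * w ^ 2) ha₂ hd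
  obtain ⟨c7, c8⟩ := int_abs_le 5 (y * w ^ 2 * e) hb₂ hd
  norm_num at c1 c2 c3 c4 c5 c6 c7 c8
  have e5 := arith_E i1 i2 i3 i4 i5 i6 (by positivity) (by positivity) (by positivity) (by positivity) p₁ p₂
    c1 c5 c3 c7 c2 c6 c4 c8
  apply hy1
  apply Dat.eq_one_of_sv5 D (by norm_num)
  rw [Dat.dl5 D, sv, hs, ha₁, e5]
  norm_num

end Rank2

end Cfsg.Agent.Lib.Nine.S6Sum
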