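import Mathlib
import Cfsg.Agent.Lib.Nine.Basic
import Cfsg.Agent.Lib.Nine.Fuse
import Cfsg.Agent.Lib.Nine.ModelV4
import Cfsg.Agent.Lib.Nine.V4Coh
import Cfsg.Agent.Lib.Blocks.Heights

/-!
# Coherence of the characters of a group with a TI Sylow subgroup with normalizer `3² : 2²`
-/

set_option autoImplicit false
set_option linter.unusedSectionVars false
set_option linter.style.haveILetI false
set_option maxRecDepth 100000

namespace Cfsg.Agent.Lib.Nine.V4Char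

open Cfsg
open Cfsg.Agent.Lib.Nine.ModelV4 Cfsg.Agent.Lib.Nine.Fuse Cfsg.Agent.Lib.Nine.Basic
open Cfsg.Agent.Lib.Nine.V4Coh
open Cfsg.Agent.Lib.Blocks.Third
open scoped ComplexConjugate

universe u

variable {G : Type u} [Group G] [Fintype G] {ι : Gam →* G}

theorem card_cent {w : Gam} {n : ℕ} (h : (Finset.univ.filter (fun c : Gam => c * w = w * c)).card = n) :
    Nat.card (Subgroup.centralizer ({w} : Set Gam)) = n := by
  rw [← h]
  exact Nat.subtype_card _ (by simp [Subgroup.mem_centralizer_singleton_iff])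

/-- The data of the model. -/
structure Setup (ι : Gam →* G) : Prop where
  model : TIModel ι TG
  h27 : ¬ 27 ∣ Nat.card G

/-- The image of the normal subgroup. -/
def TT (ι : Gam →* G) : Subgroup G := TG.map ι

theorem mem_TT {t : G} : t ∈ TT ι ↔ ∃ x : Gam, x.π = 1 ∧ ι x = t := Iff.rfl

theorem TT_pow3 {t : G} (ht : t ∈ TT ι) : t ^ 3 = 1 := by
  obtain ⟨x, hx, rfl⟩ := ht
  rw [← map_pow, TG_pow3 x hx, map_one]

theorem TT_isP : IsPGroup 3 (TT ι) := by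
  intro t
  refine ⟨1, ?_⟩
  apply Subtype.ext
  simpa using TT_pow3 t.2

theorem TT_comm : ∀ a ∈ TT ι, ∀ b ∈ TT ι, a * b = b * a := by
  rintro _ ⟨x, hx, rfl⟩ _ ⟨y, hy, rfl⟩
  rw [← map_mul, TG_comm x y hx hy, map_mul]

theorem Setup.cent_le (S : Setup ι) {t : G} (ht : t ∈ TT ι) (ht1 : t ≠ 1) :
    Subgroup.centralizer ({t} : Set G) ≤ Subgroup.normalizer ((TT ι : Subgroup G) : Set G) := by
  obtain ⟨x, hx, rfl⟩ := ht
  intro g hg
  rw [Subgroup.mem_centralizer_singleton_iff] at hg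
  have hx1 : x ≠ 1 := by
    rintro rfl
    exact ht1 (map_one ι)
  obtain ⟨c, rfl⟩ := S.model.ti x x hx hx1 hx g (by rw [hg]; group)
  rw [Subgroup.mem_normalizer_iff]
  intro h
  constructor
  · rintro ⟨a, ha, rfl⟩
    exact ⟨c * a * c⁻¹, TG_conj a c ha, by simp⟩
  · rintro ⟨a, ha, hh⟩
    refine ⟨c⁻¹ * a * c, ?_, ?_⟩
    · have := TG_conj a c⁻¹ ha
      rw [inv_inv] at this
      exact this
    · have hh' : ι a = ι c * h * (ι c)⁻¹ := hh
      simp [hh']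
      group

theorem Setup.cent_T (S : Setup ι) :
    Subgroup.centralizer ((TT ι : Subgroup G) : Set G) ≤ TT ι := by
  intro g hg
  rw [Subgroup.mem_centralizer_iff] at hg
  have h1 := hg (ι t1) ⟨t1, rfl, rfl⟩
  have h2 := hg (ι t2) ⟨t2, rfl, rfl⟩
  have ht1 : t1 ≠ 1 := by decide
  obtain ⟨c, rfl⟩ := S.model.ti t1 t1 rfl ht1 rfl g (by rw [← h1]; group)
  refine ⟨c, TG_cent c ?_ ?_, rfl⟩
  · apply S.model.inj
    simpa using h1.symm
  · apply S.model.inj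
    simpa using h2.symm

variable {M : Ideal AlgInt}

theorem pow_two_order {H : Type*} [Group H] {c : H} (h : c ^ 2 = 1) : ¬ 3 ∣ orderOf c := by
  intro h3
  have := (orderOf_dvd_of_pow_eq_one h)
  have := h3.trans this
  omega

theorem Setup.vanish (S : Setup ι) (hM : IsPModular 3 M) [Fact (Nat.Prime 3)] {χ : IrrCharacter G}
    (hχ : χ ∉ principalBlock M G) :
    (χ : G → ℂ) (ι wP) = 0 ∧ (χ : G → ℂ) (ι wQ) = 0 ∧ (χ : G → ℂ) (ι wY) = 0 ∧ (χ : G → ℂ) (ι wP') = 0 ∧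
      (χ : G → ℂ) (ι wQ') = 0 := by
  have hV : ∀ {t : Gam} (c : G), t.π = 1 → t ≠ 1 → c * ι t = ι t * c → c ^ 2 = 1 →
      (χ : G → ℂ) (ι t * c) = 0 := by
    intro t c ht ht1 hc hc2
    have hc' : c ∈ Subgroup.centralizer ({ι t} : Set G) := by
      rw [Subgroup.mem_centralizer_singleton_iff]
      exact hc
    refine vanish_of_not_principal hM (TT ι) TT_isP (fun t ht ht1 => S.cent_le ht ht1) S.cent_T TT_comm hχ
      ⟨t, ht, rfl⟩ (fun h => ht1 (S.model.inj (by rw [h, map_one]))) ⟨c, hc'⟩ ?_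
    apply pow_two_order
    apply Subtype.ext
    simpa using hc2
  have ha : t1 ≠ 1 := by decide
  have hb : t2 ≠ 1 := by decide
  have hc : y ≠ 1 := by decide
  refine ⟨?_, ?_, ?_, ?_, ?_⟩
  · have := hV (t := t1) 1 rfl ha (by simp) (by simp)
    simpa [wP] using this
  · have := hV (t := t2) 1 rfl hb (by simp) (by simp)
    simpa [wQ] using this
  · have := hV (t := y) 1 rfl hc (by simp) (by simp)
    simpa [wY] using this
  · have := hV (t := t1) (ι e2) rfl ha (by rw [← map_mul, ← map_mul]; congr 1) (by rw [← map_pow]; rw [show e2 ^ 2 = 1 by decide, map_one])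
    rw [wP'_eq, map_mul]
    exact this
  · have := hV (t := t2) (ι e1) rfl hb (by rw [← map_mul, ← map_mul]; congr 1) (by rw [← map_pow]; rw [show e1 ^ 2 = 1 by decide, map_one])
    rw [wQ'_eq, map_mul]
    exact this

/-- Index of a centralizer prime to `3`. -/
theorem Setup.index_of_card (S : Setup ι) {w : Gam} (hw : (w ^ 4).π = 1 ∧ w ^ 4 ≠ 1) {n : ℕ}
    (h18 : (Finset.univ.filter (fun c : Gam => c * w = w * c)).card = n) (hn : 9 ∣ n) :
    ¬ 3 ∣ (Subgroup.centralizer ({ι w} : Set G)).index := by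
  intro h
  have h1 := S.model.card_centralizer (w := w) hw.1 hw.2
  rw [card_cent h18] at h1
  have h2 := Subgroup.card_mul_index (Subgroup.centralizer ({ι w} : Set G))
  rw [h1] at h2
  apply S.h27
  rw [← h2]
  obtain ⟨k, hk⟩ := h
  obtain ⟨l, hl⟩ := hn
  exact ⟨l * k, by rw [hk, hl]; ring⟩

theorem Setup.ne_zero (S : Setup ι) (hM : IsPModular 3 M) [Fact (Nat.Prime 3)] {χ : IrrCharacter G}
    (hχ : χ ∈ principalBlock M G) :
    (χ : G → ℂ) (ι wP) ≠ 0 ∧ (χ : G → ℂ) (ι wQ) ≠ 0 ∧ (χ : G → ℂ) (ι wY) ≠ 0 :=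
  ⟨ne_zero_of_principal hM hχ (S.index_of_card w4P cP (by norm_num)),
    ne_zero_of_principal hM hχ (S.index_of_card w4Q cQ (by norm_num)),
    ne_zero_of_principal hM hχ (S.index_of_card w4Y cY (by norm_num))⟩

theorem isClass (χ : IrrCharacter G) {a b : G} (h : IsConj a b) : (χ : G → ℂ) a = (χ : G → ℂ) b := by
  obtain ⟨c, rfl⟩ := isConj_iff.mp h
  exact (Cfsg.Agent.Lib.Char.Basic.isClassFunction_of_isIrrCharacter χ.2 a c).symm

theorem real_val (χ : IrrCharacter G) {w : Gam} (h : ∃ c : Gam, c * w * c⁻¹ = w⁻¹) :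
    (χ : G → ℂ) (ι w)⁻¹ = (χ : G → ℂ) (ι w) := by
  obtain ⟨c, hc⟩ := h
  refine (isClass χ (isConj_iff.mpr ⟨ι c, ?_⟩)).symm
  rw [← map_inv, ← map_inv, ← map_mul, ← map_mul, hc]

theorem exists_int_val (χ : IrrCharacter G) {w : Gam} (h6 : w ^ 6 = 1) (h : ∃ c : Gam, c * w * c⁻¹ = w⁻¹) :
    ∃ n : ℤ, (χ : G → ℂ) (ι w) = n :=
  exists_int_of_pow_six (Cfsg.Agent.Lib.Char.Basic.isCharacter_of_isIrrCharacter χ.2)
    (by rw [← map_pow, h6, map_one]) (real_val χ h)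

/-- The values of the characters at the five singular elements. -/
structure Coh (ι : Gam →* G) (χ : Fin 9 → IrrCharacter G) (s : Fin 9 → ℤ) : Prop where
  inj : Function.Injective χ
  sgn : ∀ l, s l = 1 ∨ s l = -1
  vP : ∀ l, (χ l : G → ℂ) (ι wP) = ((s l * φP l : ℤ) : ℂ)
  vQ : ∀ l, (χ l : G → ℂ) (ι wQ) = ((s l * φQ l : ℤ) : ℂ)
  vY : ∀ l, (χ l : G → ℂ) (ι wY) = ((s l * φY l : ℤ) : ℂ)
  vP' : ∀ l, (χ l : G → ℂ) (ι wP') = ((s l * φP' l : ℤ) : ℂ)
  vQ' : ∀ l, (χ l : G → ℂ) (ι wQ') = ((s l * φQ' l : ℤ) : ℂ)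
  zero : ∀ ψ : IrrCharacter G, ψ ∉ Set.range χ → (ψ : G → ℂ) (ι wP) = 0 ∧ (ψ : G → ℂ) (ι wQ) = 0 ∧
    (ψ : G → ℂ) (ι wY) = 0 ∧ (ψ : G → ℂ) (ι wP') = 0 ∧ (ψ : G → ℂ) (ι wQ') = 0

variable [Fintype (IrrCharacter G)]

open scoped Classical in
theorem sum_int_orth {g h : G} {a b : IrrCharacter G → ℤ} (ha : ∀ χ : IrrCharacter G, (χ : G → ℂ) g = a χ)
    (hb : ∀ χ : IrrCharacter G, (χ : G → ℂ) h = b χ) :
    ((∑ χ, a χ * b χ : ℤ) : ℂ) = if IsConj g h then (Nat.card (Subgroup.centralizer ({h} : Set G)) : ℂ) else 0 := by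
  have h0 := Cfsg.Agent.Lib.Char.Complete.sum_irr_mul_conj g h
  have h1 : ((∑ χ, a χ * b χ : ℤ) : ℂ) = ∑ χ : IrrCharacter G, (χ : G → ℂ) g * conj ((χ : G → ℂ) h) := by
    push_cast
    refine Finset.sum_congr rfl fun χ _ => ?_
    rw [ha χ, hb χ]
    simp
  rw [h1]
  convert h0

theorem Setup.sum_self (S : Setup ι) {w : Gam} (hw : (w ^ 4).π = 1 ∧ w ^ 4 ≠ 1) {n : ℕ}
    (hn : (Finset.univ.filter (fun c : Gam => c * w = w * c)).card = n) {a : IrrCharacter G → ℤ}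
    (ha : ∀ χ : IrrCharacter G, (χ : G → ℂ) (ι w) = a χ) : ∑ χ, a χ * a χ = n := by
  have h1 := sum_int_orth ha ha
  rw [if_pos (IsConj.refl _), S.model.card_centralizer (w := w) hw.1 hw.2, card_cent hn] at h1
  exact_mod_cast h1

theorem Setup.sum_cross (S : Setup ι) {w w' : Gam} (hw : (w ^ 4).π = 1 ∧ w ^ 4 ≠ 1)
    (hw' : (w' ^ 4).π = 1 ∧ w' ^ 4 ≠ 1) (hn : ∀ c : Gam, c * w * c⁻¹ ≠ w') {a b : IrrCharacter G → ℤ}
    (ha : ∀ χ : IrrCharacter G, (χ : G → ℂ) (ι w) = a χ)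
    (hb : ∀ χ : IrrCharacter G, (χ : G → ℂ) (ι w') = b χ) : ∑ χ, a χ * b χ = 0 := by
  have h1 := sum_int_orth ha hb
  rw [if_neg] at h1
  · exact_mod_cast h1
  · intro h
    obtain ⟨c, hc⟩ := isConj_iff.mp (S.model.isConj_of_isConj hw.1 hw.2 hw'.1 h)
    exact hn c hc

/-- **Coherence.** -/
theorem Setup.coherence (S : Setup ι) : ∃ (χ : Fin 9 → IrrCharacter G) (s : Fin 9 → ℤ), Coh ι χ s := by
  classical
  choose p hp using fun χ : IrrCharacter G => exists_int_val (ι := ι) χ w6P rP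
  choose q hq using fun χ : IrrCharacter G => exists_int_val (ι := ι) χ w6Q rQ
  choose y' hy using fun χ : IrrCharacter G => exists_int_val (ι := ι) χ w6Y rY
  choose p' hp' using fun χ : IrrCharacter G => exists_int_val (ι := ι) χ w6P' rP'
  choose q' hq' using fun χ : IrrCharacter G => exists_int_val (ι := ι) χ w6Q' rQ'
  have spp := S.sum_self w4P cP hp
  have sqq := S.sum_self w4Q cQ hq
  have syy := S.sum_self w4Y cY hy
  have sp'p' := S.sum_self w4P' cP' hp'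
  have sq'q' := S.sum_self w4Q' cQ' hq'
  have spq := S.sum_cross w4P w4Q nPQ hp hq
  have spy := S.sum_cross w4P w4Y nPY hp hy
  have spp' := S.sum_cross w4P w4P' nPP' hp hp'
  have spq' := S.sum_cross w4P w4Q' nPQ' hp hq'
  have sqy := S.sum_cross w4Q w4Y nQY hq hy
  have sqp' := S.sum_cross w4Q w4P' nQP' hq hp'
  have sqq' := S.sum_cross w4Q w4Q' nQQ' hq hq'
  have syp' := S.sum_cross w4Y w4P' nYP' hy hp'
  have syq' := S.sum_cross w4Y w4Q' nYQ' hy hq'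
  have sp'q' := S.sum_cross w4P' w4Q' nP'Q' hp' hq'
  have hch : ∀ χ : IrrCharacter G, IsCharacter G (χ : G → ℂ) := fun χ =>
    Cfsg.Agent.Lib.Char.Basic.isCharacter_of_isIrrCharacter χ.2
  have c2p : ∀ χ, (2 : ℤ) ∣ p χ - p' χ := by
    intro χ
    have h1 := int_two_congr (hch χ) (ι wP') (hp' χ) (b := p χ) (by
      rw [← map_pow, show wP' ^ 2 = wP⁻¹ by decide, map_inv, real_val χ rP, hp χ])
    exact (dvd_sub_comm).mp h1
  have c2q : ∀ χ, (2 : ℤ) ∣ q χ - q' χ := by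
    intro χ
    have h1 := int_two_congr (hch χ) (ι wQ') (hq' χ) (b := q χ) (by
      rw [← map_pow, show wQ' ^ 2 = wQ⁻¹ by decide, map_inv, real_val χ rQ, hq χ])
    exact (dvd_sub_comm).mp h1
  have hdeg : ∀ χ : IrrCharacter G, ∃ d : ℤ, 0 < d ∧ (χ : G → ℂ) 1 = d := by
    intro χ
    refine ⟨(Cfsg.charDegree (χ : G → ℂ) : ℕ), ?_, ?_⟩
    · exact_mod_cast Cfsg.Agent.Lib.Char.Degree.charDegree_pos χ.2
    · simpa using Cfsg.Agent.Lib.Blocks.Heights.irr_one_eq χ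
  have c3all : ∀ χ, ∃ d : ℤ, (3 : ℤ) ∣ p χ - d ∧ (3 : ℤ) ∣ q χ - d ∧ (3 : ℤ) ∣ y' χ - d := by
    intro χ
    obtain ⟨d, -, hd⟩ := hdeg χ
    refine ⟨d, ?_, ?_, ?_⟩
    · exact int_three_congr (hch χ) (ι wP) (hp χ) (b := d) (by
        rw [← map_pow, show wP ^ 3 = 1 by decide, map_one, hd])
    · exact int_three_congr (hch χ) (ι wQ) (hq χ) (b := d) (by
        rw [← map_pow, show wQ ^ 3 = 1 by decide, map_one, hd])
    · exact int_three_congr (hch χ) (ι wY) (hy χ) (b := d) (by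
        rw [← map_pow, show wY ^ 3 = 1 by decide, map_one, hd])
  have c3p : ∀ χ, (3 : ℤ) ∣ p χ - y' χ := by
    intro χ
    obtain ⟨d, h1, h2, h3⟩ := c3all χ
    omega
  have c3q : ∀ χ, (3 : ℤ) ∣ q χ - y' χ := by
    intro χ
    obtain ⟨d, h1, h2, h3⟩ := c3all χ
    omega
  haveI : Fact (Nat.Prime 3) := ⟨Nat.prime_three⟩
  obtain ⟨M, hM⟩ := Cfsg.Agent.Lib.BlockH.Basic.exists_isPModular Nat.prime_three
  have hf : ∀ χ, (p χ = 0 ∧ q χ = 0 ∧ y' χ = 0 ∧ p' χ = 0 ∧ q' χ = 0) ∨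
      (p χ ≠ 0 ∧ q χ ≠ 0 ∧ y' χ ≠ 0) := by
    intro χ
    by_cases hχ : χ ∈ principalBlock M G
    · right
      obtain ⟨h1, h2, h3⟩ := S.ne_zero hM hχ
      refine ⟨?_, ?_, ?_⟩
      · intro h
        apply h1
        rw [hp, h]
        simp
      · intro h
        apply h2
        rw [hq, h]
        simp
      · intro h
        apply h3
        rw [hy, h]
        simp
    · left
      obtain ⟨h1, h2, h3, h4, h5⟩ := S.vanish hM hχ
      refine ⟨?_, ?_, ?_, ?_, ?_⟩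
      · rw [hp] at h1; exact_mod_cast h1
      · rw [hq] at h2; exact_mod_cast h2
      · rw [hy] at h3; exact_mod_cast h3
      · rw [hp'] at h4; exact_mod_cast h4
      · rw [hq'] at h5; exact_mod_cast h5
  obtain ⟨x, s, hinj, hs, hv, hz⟩ := coh p q y' p' q' c2p c2q c3p c3q (by simpa using spp) (by simpa using sqq)
    (by simpa using syy) (by simpa using sp'p') (by simpa using sq'q') spq spy spp' spq' sqy sqp' sqq' syp' syq'
    sp'q' hf
  refine ⟨x, s, hinj, hs, ?_, ?_, ?_, ?_, ?_, ?_⟩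
  · intro l
    rw [hp, (hv l).1]
  · intro l
    rw [hq, (hv l).2.1]
  · intro l
    rw [hy, (hv l).2.2.1]
  · intro l
    rw [hp', (hv l).2.2.2.1]
  · intro l
    rw [hq', (hv l).2.2.2.2]
  · intro ψ hψ
    obtain ⟨h1, h2, h3, h4, h5⟩ := hz ψ hψ
    refine ⟨?_, ?_, ?_, ?_, ?_⟩
    · rw [hp, h1]; simp
    · rw [hq, h2]; simp
    · rw [hy, h3]; simp
    · rw [hp', h4]; simp
    · rw [hq', h5]; simp

/-- The principal character is the first one. -/
theorem Coh.one_mem {χ : Fin 9 → IrrCharacter G} {s : Fin 9 → ℤ} (C : Coh ι χ s) :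
    χ 0 = oneI G ∧ s 0 = 1 := by
  have hr : oneI G ∈ Set.range χ := by
    by_contra h
    have h1 := (C.zero _ h).1
    simp at h1
  obtain ⟨l, hl⟩ := hr
  have h1 := C.vP l
  have h2 := C.vQ l
  have h3 := C.vY l
  have h4 := C.vP' l
  have h5 := C.vQ' l
  rw [hl, oneI_apply] at h1 h2 h3 h4 h5
  have h1' : s l * φP l = 1 := by exact_mod_cast h1.symm
  have h2' : s l * φQ l = 1 := by exact_mod_cast h2.symm
  have h3' : s l * φY l = 1 := by exact_mod_cast h3.symm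
  have h4' : s l * φP' l = 1 := by exact_mod_cast h4.symm
  have h5' : s l * φQ' l = 1 := by exact_mod_cast h5.symm
  have hs := C.sgn l
  have hl0 : l = 0 := by
    revert h1' h2' h3' h4' h5' hs
    fin_cases l <;> simp [φP, φQ, φY, φP', φQ'] <;> omega
  subst hl0
  refine ⟨hl, ?_⟩
  simpa [φP] using h1'

end Cfsg.Agent.Lib.Nine.V4Char
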