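import Mathlib
import Cfsg.Agent.Lib.Nine.V4Char

/-!
# Class constants for a group with a TI Sylow subgroup with normalizer `3² : 2²`
-/

set_option autoImplicit false
set_option linter.unusedSectionVars false
set_option linter.unusedVariables false
set_option linter.unusedSimpArgs false
set_option linter.style.haveILetI false
set_option maxRecDepth 100000

namespace Cfsg.Agent.Lib.Nine.V4Form

open Cfsg
open Cfsg.Agent.Lib.Nine.ModelV4 Cfsg.Agent.Lib.Nine.Fuse Cfsg.Agent.Lib.Nine.Basic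
open Cfsg.Agent.Lib.Nine.V4Coh Cfsg.Agent.Lib.Nine.V4Char
open Cfsg.Agent.Lib.Blocks.Third
open scoped ComplexConjugate

universe u

variable {G : Type u} [Group G] [Fintype G] {ι : Gam →* G}

/-- The classes of involutions of the model that are conjugate to `g`. -/
noncomputable def clsB (ι : Gam →* G) (g : G) : Fin 3 → Bool := by
  classical
  exact fun i => decide (IsConj g (ι (rep i)))

theorem clsB_iff {g : G} {i : Fin 3} : clsB ι g i = true ↔ IsConj g (ι (rep i)) := by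
  classical
  simp [clsB]

theorem mem_cls (hinj : Function.Injective ι) {g : G} (hg : g ^ 2 = 1) (hg1 : g ≠ 1) (x : Gam) :
    tyB (clsB ι g) x = true ↔ IsConj g (ι x) := by
  constructor
  · intro h
    rcases hty : ty x with _ | i
    · rw [tyB_none hty] at h
      exact absurd h (by simp)
    · rw [tyB_some hty] at h
      have h1 := clsB_iff.mp h
      obtain ⟨c, hc⟩ := ty_conj x i hty
      exact h1.trans (isConj_comm.mp (isConj_map ι (isConj_iff.mpr ⟨c, hc⟩)))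
  · intro h
    have h2 : (ι x) ^ 2 = 1 := by
      obtain ⟨c, hc⟩ := isConj_iff.mp h
      rw [← hc, conj_pow, hg]
      group
    have h3 : ι x ≠ 1 := by
      intro h4
      rw [h4] at h
      exact hg1 (isConj_one_right.mp (isConj_comm.mp h))
    have h4 : x * x = 1 := by
      apply hinj
      rw [map_mul, map_one, ← pow_two, h2]
    have h5 : x ≠ 1 := by
      rintro rfl
      exact h3 (map_one ι)
    rcases hty : ty x with _ | i
    · rcases ty_none x hty with h6 | h6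
      · exact absurd h4 h6
      · exact absurd h6 h5
    · obtain ⟨c, hc⟩ := ty_conj x i hty
      rw [tyB_some hty]
      exact clsB_iff.mpr (h.trans (isConj_map ι (isConj_iff.mpr ⟨c, hc⟩)))

/-- The count of pairs of involutions in terms of the model. -/
theorem count_eq (h : TIModel ι TG) {w : Gam} (hw : (w ^ 4).π = 1 ∧ w ^ 4 ≠ 1) {g g' : G}
    (hg : g ^ 2 = 1) (hg1 : g ≠ 1) (hg' : g' ^ 2 = 1) (hg1' : g' ≠ 1) :
    Nat.card {p : G × G // IsConj g p.1 ∧ IsConj g' p.2 ∧ p.1 * p.2 = ι w} =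
      cnt w (clsB ι g) (clsB ι g') := by
  rw [h.card_pairs hw.1 hw.2 hg hg']
  refine Nat.subtype_card _ ?_
  intro x
  rw [Finset.mem_filter]
  simp only [Finset.mem_univ, true_and]
  rw [mem_cls h.inj hg hg1 x, mem_cls h.inj hg' hg1' (x⁻¹ * w)]

variable [Fintype (IrrCharacter G)] {χ : Fin 9 → IrrCharacter G} {s : Fin 9 → ℤ}

theorem aux_card {K K' c c' N : ℂ} (e1 : K * c = N) (e2 : K' * c' = N) (hN : N ≠ 0) :
    K * K' / N / N = (c * c')⁻¹ := by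
  have hK : K ≠ 0 := by
    rintro rfl
    rw [zero_mul] at e1
    exact hN e1.symm
  have hK' : K' ≠ 0 := by
    rintro rfl
    rw [zero_mul] at e2
    exact hN e2.symm
  have hc : c ≠ 0 := by
    rintro rfl
    rw [mul_zero] at e1
    exact hN e1.symm
  have hc' : c' ≠ 0 := by
    rintro rfl
    rw [mul_zero] at e2
    exact hN e2.symm
  calc K * K' / N / N = K * K' / (K * c) / (K' * c') := by rw [e1, e2]
    _ = (c * c')⁻¹ := by field_simp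

theorem aux_term {a b c c' d s f : ℂ} (hc : c ≠ 0) (hc' : c' ≠ 0) (hd : d ≠ 0) (hs : s ≠ 0) :
    (c * c')⁻¹ * (a * b / d * (s * f)) =
      s * d * (s * a / (c * (s * d)) * (s * b / (c' * (s * d)))) * f := by
  field_simp

/-- The signed degree. -/
noncomputable def dl (χ : Fin 9 → IrrCharacter G) (s : Fin 9 → ℤ) (l : Fin 9) : ℂ :=
  (s l : ℂ) * (χ l : G → ℂ) 1

/-- The signed values divided by the degree and the order of the centralizer. -/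
noncomputable def xv (χ : Fin 9 → IrrCharacter G) (s : Fin 9 → ℤ) (g : G) (l : Fin 9) : ℂ :=
  (s l : ℂ) * (χ l : G → ℂ) g / ((Nat.card (Subgroup.centralizer ({g} : Set G)) : ℂ) * dl χ s l)

theorem sgn_sq (C : Coh ι χ s) (l : Fin 9) : (s l : ℂ) * (s l : ℂ) = 1 := by
  rcases C.sgn l with h | h <;> rw [h] <;> simp

theorem dl_ne (C : Coh ι χ s) (l : Fin 9) : dl χ s l ≠ 0 := by
  refine mul_ne_zero ?_ (Cfsg.Agent.Lib.Char.Complete.irr_one_ne_zero (χ l).2)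
  rcases C.sgn l with h | h <;> rw [h] <;> simp

/-- Reduction of a sum over all irreducible characters. -/
theorem sum_reduce (C : Coh ι χ s) (A : IrrCharacter G → ℂ) {w : G} {φ : Fin 9 → ℤ}
    (hv : ∀ l, (χ l : G → ℂ) w = ((s l * φ l : ℤ) : ℂ))
    (hz : ∀ ψ : IrrCharacter G, ψ ∉ Set.range χ → (ψ : G → ℂ) w = 0) :
    ∑ ψ : IrrCharacter G, A ψ * conj ((ψ : G → ℂ) w) = ∑ l, A (χ l) * ((s l : ℂ) * (φ l : ℂ)) := by
  symm
  refine Fintype.sum_of_injective χ C.inj _ _ (fun ψ hψ => by rw [hz ψ hψ]; simp) (fun l => ?_)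
  rw [hv l]
  simp

/-- Frobenius' formula on the coherent characters. -/
theorem frob (C : Coh ι χ s) (g g' : G) {w : G} {φ : Fin 9 → ℤ}
    (hv : ∀ l, (χ l : G → ℂ) w = ((s l * φ l : ℤ) : ℂ))
    (hz : ∀ ψ : IrrCharacter G, ψ ∉ Set.range χ → (ψ : G → ℂ) w = 0) :
    (Nat.card {p : G × G // IsConj g p.1 ∧ IsConj g' p.2 ∧ p.1 * p.2 = w} : ℂ) / (Nat.card G : ℂ) =
      ∑ l, dl χ s l * (xv χ s g l * xv χ s g' l) * (φ l : ℂ) := by
  classical
  rw [Cfsg.Agent.Lib.Char.ClassProd.card_product_eq g g' w]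
  have h1 : ∑ ψ : IrrCharacter G, (ψ : G → ℂ) g * (ψ : G → ℂ) g' * conj ((ψ : G → ℂ) w) / (ψ : G → ℂ) 1 =
      ∑ ψ : IrrCharacter G, ((ψ : G → ℂ) g * (ψ : G → ℂ) g' / (ψ : G → ℂ) 1) * conj ((ψ : G → ℂ) w) :=
    Finset.sum_congr rfl fun ψ _ => by ring
  rw [h1, sum_reduce C _ hv hz]
  have hN : (Nat.card G : ℂ) ≠ 0 := Nat.cast_ne_zero.mpr Nat.card_pos.ne'
  have hc : (Nat.card (Subgroup.centralizer ({g} : Set G)) : ℂ) ≠ 0 := Nat.cast_ne_zero.mpr Nat.card_pos.ne'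
  have hc' : (Nat.card (Subgroup.centralizer ({g'} : Set G)) : ℂ) ≠ 0 := Nat.cast_ne_zero.mpr Nat.card_pos.ne'
  have e1 := Cfsg.Agent.Lib.Char.ClassSum.card_class_mul_card_centralizer g
  have e2 := Cfsg.Agent.Lib.Char.ClassSum.card_class_mul_card_centralizer g'
  have e1' : (Nat.card {x : G // IsConj g x} : ℂ) * (Nat.card (Subgroup.centralizer ({g} : Set G)) : ℂ) =
      (Nat.card G : ℂ) := by exact_mod_cast e1
  have e2' : (Nat.card {x : G // IsConj g' x} : ℂ) * (Nat.card (Subgroup.centralizer ({g'} : Set G)) : ℂ) =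
      (Nat.card G : ℂ) := by exact_mod_cast e2
  have h2 : ∀ Sum : ℂ, ((Nat.card {x : G // IsConj g x} : ℂ) * (Nat.card {x : G // IsConj g' x} : ℂ) /
      (Nat.card G : ℂ) * Sum) / (Nat.card G : ℂ) =
      ((Nat.card {x : G // IsConj g x} : ℂ) * (Nat.card {x : G // IsConj g' x} : ℂ) / (Nat.card G : ℂ) /
      (Nat.card G : ℂ)) * Sum := by
    intro Sum
    ring
  rw [h2, aux_card e1' e2' hN, Finset.mul_sum]
  refine Finset.sum_congr rfl fun l _ => ?_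
  have hs := sgn_sq C l
  have hd := Cfsg.Agent.Lib.Char.Complete.irr_one_ne_zero (χ l).2
  have hs0 : (s l : ℂ) ≠ 0 := by
    intro h
    rw [h] at hs
    simp at hs
  exact aux_term hc hc' hd hs0

theorem sum9 (f : Fin 9 → ℂ) :
    ∑ l, f l = f 0 + f 1 + f 2 + f 3 + f 4 + f 5 + f 6 + f 7 + f 8 := by
  simp [Fin.sum_univ_succ]
  ring

/-- Column orthogonality on the coherent characters. -/
theorem orth (C : Coh ι χ s) {g w : G} {φ : Fin 9 → ℤ}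
    (hv : ∀ l, (χ l : G → ℂ) w = ((s l * φ l : ℤ) : ℂ))
    (hz : ∀ ψ : IrrCharacter G, ψ ∉ Set.range χ → (ψ : G → ℂ) w = 0) (hn : ¬ IsConj g w) :
    ∑ l, (s l : ℂ) * (χ l : G → ℂ) g * (φ l : ℂ) = 0 := by
  classical
  have h1 := Cfsg.Agent.Lib.Char.Complete.sum_irr_mul_conj g w
  rw [if_neg hn, sum_reduce C (fun ψ => (ψ : G → ℂ) g) hv hz] at h1
  rw [← h1]
  refine Finset.sum_congr rfl fun l _ => ?_
  ring

theorem not_conj_of_sq {g : G} {w : Gam} (hinj : Function.Injective ι) (hg : g ^ 2 = 1) (hw : w ^ 2 ≠ 1) :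
    ¬ IsConj g (ι w) := by
  intro h
  obtain ⟨c, hc⟩ := isConj_iff.mp h
  apply hw
  apply hinj
  rw [map_pow, ← hc, conj_pow, hg]
  simp

/-- The five relations. -/
theorem rel (C : Coh ι χ s) {g : G} (hP : ¬ IsConj g (ι wP)) (hQ : ¬ IsConj g (ι wQ)) (hY : ¬ IsConj g (ι wY))
    (hP' : ¬ IsConj g (ι wP')) (hQ' : ¬ IsConj g (ι wQ')) :
    (s 2 : ℂ) * (χ 2 : G → ℂ) g = (s 0 : ℂ) * (χ 0 : G → ℂ) g + (s 1 : ℂ) * (χ 1 : G → ℂ) g ∧
    (s 5 : ℂ) * (χ 5 : G → ℂ) g = (s 3 : ℂ) * (χ 3 : G → ℂ) g + (s 4 : ℂ) * (χ 4 : G → ℂ) g ∧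
    (s 6 : ℂ) * (χ 6 : G → ℂ) g = (s 0 : ℂ) * (χ 0 : G → ℂ) g + (s 3 : ℂ) * (χ 3 : G → ℂ) g ∧
    (s 7 : ℂ) * (χ 7 : G → ℂ) g = (s 1 : ℂ) * (χ 1 : G → ℂ) g + (s 4 : ℂ) * (χ 4 : G → ℂ) g ∧
    (s 8 : ℂ) * (χ 8 : G → ℂ) g = (s 0 : ℂ) * (χ 0 : G → ℂ) g + (s 1 : ℂ) * (χ 1 : G → ℂ) g +
      (s 3 : ℂ) * (χ 3 : G → ℂ) g + (s 4 : ℂ) * (χ 4 : G → ℂ) g := by
  have e1 := orth C C.vP (fun ψ h => (C.zero ψ h).1) hP
  have e2 := orth C C.vQ (fun ψ h => (C.zero ψ h).2.1) hQ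
  have e3 := orth C C.vY (fun ψ h => (C.zero ψ h).2.2.1) hY
  have e4 := orth C C.vP' (fun ψ h => (C.zero ψ h).2.2.2.1) hP'
  have e5 := orth C C.vQ' (fun ψ h => (C.zero ψ h).2.2.2.2) hQ'
  rw [sum9] at e1 e2 e3 e4 e5
  simp [φP, φQ, φY, φP', φQ'] at e1 e2 e3 e4 e5
  refine ⟨?_, ?_, ?_, ?_, ?_⟩
  · linear_combination (-1 / 3 : ℂ) * e3 - (1 / 6 : ℂ) * e2 - (1 / 2 : ℂ) * e5
  · linear_combination (-1 / 3 : ℂ) * e3 - (1 / 6 : ℂ) * e2 + (1 / 2 : ℂ) * e5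
  · linear_combination (-1 / 3 : ℂ) * e3 - (1 / 6 : ℂ) * e1 - (1 / 2 : ℂ) * e4
  · linear_combination (-1 / 3 : ℂ) * e3 - (1 / 6 : ℂ) * e1 + (1 / 2 : ℂ) * e4
  · linear_combination (-1 / 3 : ℂ) * e1 - (1 / 3 : ℂ) * e2 - (1 / 3 : ℂ) * e3

theorem w2P : wP ^ 2 ≠ 1 := by decide
theorem w2Q : wQ ^ 2 ≠ 1 := by decide
theorem w2Y : wY ^ 2 ≠ 1 := by decide
theorem w2P' : wP' ^ 2 ≠ 1 := by decide
theorem w2Q' : wQ' ^ 2 ≠ 1 := by decide

/-- The relations between the degrees. -/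
theorem deg_rel (C : Coh ι χ s) (hinj : Function.Injective ι) :
    dl χ s 0 = 1 ∧ dl χ s 2 = 1 + dl χ s 1 ∧ dl χ s 5 = dl χ s 3 + dl χ s 4 ∧
      dl χ s 6 = 1 + dl χ s 3 ∧ dl χ s 7 = dl χ s 1 + dl χ s 4 ∧
      dl χ s 8 = 1 + dl χ s 1 + dl χ s 3 + dl χ s 4 := by
  obtain ⟨h1, h2⟩ := C.one_mem
  have h0 : dl χ s 0 = 1 := by
    rw [dl, h1, h2, oneI_apply]
    simp
  obtain ⟨e1, e2, e3, e4, e5⟩ := rel C (g := 1) (not_conj_of_sq hinj (by simp) w2P)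
    (not_conj_of_sq hinj (by simp) w2Q) (not_conj_of_sq hinj (by simp) w2Y)
    (not_conj_of_sq hinj (by simp) w2P') (not_conj_of_sq hinj (by simp) w2Q')
  refine ⟨h0, ?_, ?_, ?_, ?_, ?_⟩
  · rw [← h0]; exact e1
  · exact e2
  · rw [← h0]; exact e3
  · exact e4
  · rw [← h0]; exact e5

theorem dl_mul_xv (C : Coh ι χ s) (g : G) (l : Fin 9) :
    dl χ s l * xv χ s g l =
      (s l : ℂ) * (χ l : G → ℂ) g / (Nat.card (Subgroup.centralizer ({g} : Set G)) : ℂ) := by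
  have h0 := dl_ne C l
  have hc : (Nat.card (Subgroup.centralizer ({g} : Set G)) : ℂ) ≠ 0 := Nat.cast_ne_zero.mpr Nat.card_pos.ne'
  rw [xv]
  field_simp

/-- The relations for the normalised values at an involution. -/
theorem xrel (C : Coh ι χ s) (hinj : Function.Injective ι) {g : G} (hg : g ^ 2 = 1) :
    (1 + dl χ s 1) * xv χ s g 2 = xv χ s g 0 + dl χ s 1 * xv χ s g 1 ∧
    (dl χ s 3 + dl χ s 4) * xv χ s g 5 = dl χ s 3 * xv χ s g 3 + dl χ s 4 * xv χ s g 4 ∧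
    (1 + dl χ s 3) * xv χ s g 6 = xv χ s g 0 + dl χ s 3 * xv χ s g 3 ∧
    (dl χ s 1 + dl χ s 4) * xv χ s g 7 = dl χ s 1 * xv χ s g 1 + dl χ s 4 * xv χ s g 4 ∧
    (1 + dl χ s 1 + dl χ s 3 + dl χ s 4) * xv χ s g 8 =
      xv χ s g 0 + dl χ s 1 * xv χ s g 1 + dl χ s 3 * xv χ s g 3 + dl χ s 4 * xv χ s g 4 := by
  obtain ⟨h0, h2, h5, h6, h7, h8⟩ := deg_rel C hinj
  obtain ⟨e1, e2, e3, e4, e5⟩ := rel C (g := g) (not_conj_of_sq hinj hg w2P)
    (not_conj_of_sq hinj hg w2Q) (not_conj_of_sq hinj hg w2Y) (not_conj_of_sq hinj hg w2P')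
    (not_conj_of_sq hinj hg w2Q')
  have hc : (Nat.card (Subgroup.centralizer ({g} : Set G)) : ℂ) ≠ 0 := Nat.cast_ne_zero.mpr Nat.card_pos.ne'
  have k := dl_mul_xv C g
  have k0 : xv χ s g 0 = (s 0 : ℂ) * (χ 0 : G → ℂ) g / (Nat.card (Subgroup.centralizer ({g} : Set G)) : ℂ) := by
    have := k 0
    rwa [h0, one_mul] at this
  refine ⟨?_, ?_, ?_, ?_, ?_⟩
  · rw [← h2, k 2, k 1, k0, e1]; ring
  · rw [← h5, k 5, k 3, k 4, e2]; ring
  · rw [← h6, k 6, k 3, k0, e3]; ring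
  · rw [← h7, k 7, k 1, k 4, e4]; ring
  · rw [← h8, k 8, k 1, k 3, k 4, k0, e5]; ring

/-- The form attached to two columns. -/
noncomputable def Pf2 (u v x y x' y' : ℂ) : ℂ := u * v / (u + v) * ((x - y) * (x' - y'))

theorem pf2_id {u v n m x y x' y' : ℂ} (h : u + v ≠ 0) (hn : (u + v) * n = u * x + v * y)
    (hm : (u + v) * m = u * x' + v * y') :
    u * (x * x') + v * (y * y') - (u + v) * (n * m) = Pf2 u v x y x' y' := by
  have e1 : n = (u * x + v * y) / (u + v) := by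
    field_simp
    linear_combination hn
  have e2 : m = (u * x' + v * y') / (u + v) := by
    field_simp
    linear_combination hm
  rw [e1, e2, Pf2]
  field_simp
  ring

/-- The forms on a pair of involutions. -/
theorem pairForms (S : Setup ι) (C : Coh ι χ s) {g g' : G} (hg : g ^ 2 = 1) (hg1 : g ≠ 1) (hg' : g' ^ 2 = 1)
    (hg1' : g' ≠ 1) {q1 q2 q3 q4 q5 : ℂ}
    (hq1 : (cnt wP (clsB ι g) (clsB ι g') : ℂ) / (Nat.card G : ℂ) = q1)
    (hq2 : (cnt wQ (clsB ι g) (clsB ι g') : ℂ) / (Nat.card G : ℂ) = q2)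
    (hq3 : (cnt wY (clsB ι g) (clsB ι g') : ℂ) / (Nat.card G : ℂ) = q3)
    (hq4 : (cnt wP' (clsB ι g) (clsB ι g') : ℂ) / (Nat.card G : ℂ) = q4)
    (hq5 : (cnt wQ' (clsB ι g) (clsB ι g') : ℂ) / (Nat.card G : ℂ) = q5) :
    Pf2 1 (dl χ s 3) (xv χ s g 0) (xv χ s g 3) (xv χ s g' 0) (xv χ s g' 3) = ((q1 + 2 * q3) / 3 + q4) / 2 ∧
    Pf2 (dl χ s 1) (dl χ s 4) (xv χ s g 1) (xv χ s g 4) (xv χ s g' 1) (xv χ s g' 4) =
      ((q1 + 2 * q3) / 3 - q4) / 2 ∧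
    Pf2 (1 + dl χ s 1) (dl χ s 3 + dl χ s 4) (xv χ s g 2) (xv χ s g 5) (xv χ s g' 2) (xv χ s g' 5) =
      (q1 - q3) / 3 ∧
    Pf2 1 (dl χ s 1) (xv χ s g 0) (xv χ s g 1) (xv χ s g' 0) (xv χ s g' 1) = ((q2 + 2 * q3) / 3 + q5) / 2 ∧
    Pf2 (dl χ s 3) (dl χ s 4) (xv χ s g 3) (xv χ s g 4) (xv χ s g' 3) (xv χ s g' 4) =
      ((q2 + 2 * q3) / 3 - q5) / 2 ∧
    Pf2 (1 + dl χ s 3) (dl χ s 1 + dl χ s 4) (xv χ s g 6) (xv χ s g 7) (xv χ s g' 6) (xv χ s g' 7) =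
      (q2 - q3) / 3 := by
  have hinj := S.model.inj
  obtain ⟨h0, h2, h5, h6, h7, h8⟩ := deg_rel C hinj
  obtain ⟨x2, x5, x6, x7, x8⟩ := xrel C hinj hg
  obtain ⟨y2, y5, y6, y7, y8⟩ := xrel C hinj hg'
  have f1 := frob C g g' C.vP (fun ψ h => (C.zero ψ h).1)
  have f2 := frob C g g' C.vQ (fun ψ h => (C.zero ψ h).2.1)
  have f3 := frob C g g' C.vY (fun ψ h => (C.zero ψ h).2.2.1)
  have f4 := frob C g g' C.vP' (fun ψ h => (C.zero ψ h).2.2.2.1)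
  have f5 := frob C g g' C.vQ' (fun ψ h => (C.zero ψ h).2.2.2.2)
  rw [count_eq S.model w4P hg hg1 hg' hg1', hq1, sum9, h0, h2, h5, h6, h7, h8] at f1
  rw [count_eq S.model w4Q hg hg1 hg' hg1', hq2, sum9, h0, h2, h5, h6, h7, h8] at f2
  rw [count_eq S.model w4Y hg hg1 hg' hg1', hq3, sum9, h0, h2, h5, h6, h7, h8] at f3
  rw [count_eq S.model w4P' hg hg1 hg' hg1', hq4, sum9, h0, h2, h5, h6, h7, h8] at f4
  rw [count_eq S.model w4Q' hg hg1 hg' hg1', hq5, sum9, h0, h2, h5, h6, h7, h8] at f5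
  simp [φP, φQ, φY, φP', φQ'] at f1 f2 f3 f4 f5
  have n2 : 1 + dl χ s 1 ≠ 0 := by rw [← h2]; exact dl_ne C 2
  have n5 : dl χ s 3 + dl χ s 4 ≠ 0 := by rw [← h5]; exact dl_ne C 5
  have n6 : 1 + dl χ s 3 ≠ 0 := by rw [← h6]; exact dl_ne C 6
  have n7 : dl χ s 1 + dl χ s 4 ≠ 0 := by rw [← h7]; exact dl_ne C 7
  have n8 : (1 + dl χ s 1) + (dl χ s 3 + dl χ s 4) ≠ 0 := by
    have := dl_ne C 8
    rw [h8] at this
    intro h
    apply this
    linear_combination h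
  have n8' : (1 + dl χ s 3) + (dl χ s 1 + dl χ s 4) ≠ 0 := by
    have := dl_ne C 8
    rw [h8] at this
    intro h
    apply this
    linear_combination h
  have I1 := pf2_id n6 (n := xv χ s g 6) (m := xv χ s g' 6) (x := xv χ s g 0) (y := xv χ s g 3)
    (x' := xv χ s g' 0) (y' := xv χ s g' 3) (by linear_combination x6) (by linear_combination y6)
  have I2 := pf2_id n7 (n := xv χ s g 7) (m := xv χ s g' 7) (x := xv χ s g 1) (y := xv χ s g 4)
    (x' := xv χ s g' 1) (y' := xv χ s g' 4) (by linear_combination x7) (by linear_combination y7)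
  have I3 := pf2_id n8 (n := xv χ s g 8) (m := xv χ s g' 8) (x := xv χ s g 2) (y := xv χ s g 5)
    (x' := xv χ s g' 2) (y' := xv χ s g' 5) (by linear_combination x8 - x2 - x5)
    (by linear_combination y8 - y2 - y5)
  have I4 := pf2_id n2 (n := xv χ s g 2) (m := xv χ s g' 2) (x := xv χ s g 0) (y := xv χ s g 1)
    (x' := xv χ s g' 0) (y' := xv χ s g' 1) (by linear_combination x2) (by linear_combination y2)
  have I5 := pf2_id n5 (n := xv χ s g 5) (m := xv χ s g' 5) (x := xv χ s g 3) (y := xv χ s g 4)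
    (x' := xv χ s g' 3) (y' := xv χ s g' 4) (by linear_combination x5) (by linear_combination y5)
  have I6 := pf2_id n8' (n := xv χ s g 8) (m := xv χ s g' 8) (x := xv χ s g 6) (y := xv χ s g 7)
    (x' := xv χ s g' 6) (y' := xv χ s g' 7) (by linear_combination x8 - x6 - x7)
    (by linear_combination y8 - y6 - y7)
  refine ⟨?_, ?_, ?_, ?_, ?_, ?_⟩
  · rw [← I1]
    linear_combination (-1 / 6 : ℂ) * f1 - (1 / 3 : ℂ) * f3 - (1 / 2 : ℂ) * f4
  · rw [← I2]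
    linear_combination (-1 / 6 : ℂ) * f1 - (1 / 3 : ℂ) * f3 + (1 / 2 : ℂ) * f4
  · rw [← I3]
    linear_combination (-1 / 3 : ℂ) * f1 + (1 / 3 : ℂ) * f3
  · rw [← I4]
    linear_combination (-1 / 6 : ℂ) * f2 - (1 / 3 : ℂ) * f3 - (1 / 2 : ℂ) * f5
  · rw [← I5]
    linear_combination (-1 / 6 : ℂ) * f2 - (1 / 3 : ℂ) * f3 + (1 / 2 : ℂ) * f5
  · rw [← I6]
    linear_combination (-1 / 3 : ℂ) * f2 + (1 / 3 : ℂ) * f3

theorem clsB_eq {g : G} {a b c : Bool} (ha : IsConj g (ι e1) ↔ a = true) (hb : IsConj g (ι e2) ↔ b = true)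
    (hc : IsConj g (ι z) ↔ c = true) : clsB ι g = bv a b c := by
  funext i
  rw [Bool.eq_iff_iff, clsB_iff]
  fin_cases i
  · exact ha
  · exact hb
  · exact hc

theorem t2_cls : ∀ x : Gam, x.π = 1 → x * e2 = e2 * x → x ≠ 1 → x = t1 ∨ x = t1⁻¹ := by decide
theorem t2_nconj : ∀ c : Gam, c * t2 * c⁻¹ ≠ t1 ∧ c * t2 * c⁻¹ ≠ t1⁻¹ := by decide

/-- A `3`-subgroup containing `t1` lies in `T`. -/
theorem Setup.sub_T (S : Setup ι) (hsyl : ∃ P : Sylow 3 G, (P : Subgroup G) = TT ι) {Q : Subgroup G}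
    (hQ : IsPGroup 3 Q) {a : G} (ha : a ∈ Q) (hy : ι t1 ∈ Q) : a ∈ TT ι := by
  obtain ⟨P, hP⟩ := hsyl
  obtain ⟨R, hR⟩ := hQ.exists_le_sylow
  obtain ⟨c, hc⟩ := MulAction.exists_smul_eq G R P
  have key : ∀ b ∈ Q, c * b * c⁻¹ ∈ TT ι := by
    intro b hb
    rw [← hP, ← hc, Sylow.smul_def, Sylow.pointwise_smul_def]
    exact ⟨b, hR hb, rfl⟩
  obtain ⟨x, hx, hxe⟩ := key _ hy
  have hy1 : t1 ≠ 1 := by decide
  obtain ⟨d, rfl⟩ := S.model.ti t1 x rfl hy1 hx c hxe.symm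
  obtain ⟨x', hx', hxe'⟩ := key a ha
  refine ⟨d⁻¹ * x' * d, ?_, ?_⟩
  · have := TG_conj x' d⁻¹ hx'
    rw [inv_inv] at this
    exact this
  · simp only [map_mul, map_inv, hxe']
    group

/-- Non-fusion of two classes of involutions. -/
theorem Setup.not_conj_e1_e2 (S : Setup ι) (hsyl : ∃ P : Sylow 3 G, (P : Subgroup G) = TT ι) :
    ¬ IsConj (ι e1) (ι e2) := by
  classical
  intro h
  obtain ⟨g, hg⟩ := isConj_iff.mp h
  set H := Subgroup.centralizer ({ι e2} : Set G) with hH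
  have hu : g * ι t2 * g⁻¹ ∈ H := by
    rw [hH, Subgroup.mem_centralizer_singleton_iff, ← hg]
    have : ι t2 * ι e1 = ι e1 * ι t2 := by
      rw [← map_mul, ← map_mul]
      congr 1
    calc g * ι t2 * g⁻¹ * (g * ι e1 * g⁻¹) = g * (ι t2 * ι e1) * g⁻¹ := by group
      _ = g * (ι e1 * ι t2) * g⁻¹ := by rw [this]
      _ = _ := by group
  have hyH : ι t1 ∈ H := by
    rw [hH, Subgroup.mem_centralizer_singleton_iff, ← map_mul, ← map_mul]
    congr 1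
  let uH : H := ⟨_, hu⟩
  let yH : H := ⟨_, hyH⟩
  have hu3 : uH ^ 3 = 1 := by
    apply Subtype.ext
    change (g * ι t2 * g⁻¹) ^ 3 = 1
    rw [conj_pow, ← map_pow, show t2 ^ 3 = 1 by decide]
    simp
  have hy3 : yH ^ 3 = 1 := by
    apply Subtype.ext
    change (ι t1) ^ 3 = 1
    rw [← map_pow, show t1 ^ 3 = 1 by decide]
    simp
  have ht21 : t2 ≠ 1 := by decide
  have hy1 : t1 ≠ 1 := by decide
  have hu1 : uH ≠ 1 := by
    intro h1
    have h2 : g * ι t2 * g⁻¹ = 1 := congrArg Subtype.val h1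
    have h3 : ι t2 = 1 := by
      have : ι t2 = g⁻¹ * (g * ι t2 * g⁻¹) * g := by group
      rw [this, h2]
      group
    exact ht21 (S.model.inj (by rw [h3, map_one]))
  have hyH1 : yH ≠ 1 := by
    intro h1
    have h2 : ι t1 = 1 := congrArg Subtype.val h1
    exact hy1 (S.model.inj (by rw [h2, map_one]))
  haveI : Fact (Nat.Prime 3) := ⟨Nat.prime_three⟩
  have pG : ∀ a : H, a ^ 3 = 1 → a ≠ 1 → IsPGroup 3 (Subgroup.zpowers a) := by
    intro a h3 h1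
    refine IsPGroup.of_card (n := 1) ?_
    rw [Nat.card_zpowers, pow_one]
    exact orderOf_eq_prime h3 h1
  obtain ⟨Q₁, hQ₁⟩ := (pG yH hy3 hyH1).exists_le_sylow
  obtain ⟨Q₂, hQ₂⟩ := (pG uH hu3 hu1).exists_le_sylow
  obtain ⟨h₀, hh₀⟩ := MulAction.exists_smul_eq H Q₂ Q₁
  have hv : h₀ * uH * h₀⁻¹ ∈ (Q₁ : Subgroup H) := by
    rw [← hh₀, Sylow.smul_def, Sylow.pointwise_smul_def]
    exact ⟨uH, hQ₂ (Subgroup.mem_zpowers uH), rfl⟩
  have hQp : IsPGroup 3 ((Q₁ : Subgroup H).map H.subtype) := Q₁.2.map H.subtype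
  have hT := Setup.sub_T S hsyl hQp (a := ((h₀ * uH * h₀⁻¹ : H) : G)) ⟨_, hv, rfl⟩
    ⟨yH, hQ₁ (Subgroup.mem_zpowers yH), rfl⟩
  obtain ⟨x, hx, hxe⟩ := hT
  have hxσ : x * e2 = e2 * x := by
    apply S.model.inj
    rw [map_mul, map_mul, hxe]
    have := (h₀ * uH * h₀⁻¹ : H).2
    exact Subgroup.mem_centralizer_singleton_iff.mp this
  have hx1 : x ≠ 1 := by
    rintro rfl
    rw [map_one] at hxe
    have h2 : h₀ * uH * h₀⁻¹ = 1 := Subtype.ext hxe.symm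
    apply hu1
    have : uH = h₀⁻¹ * (h₀ * uH * h₀⁻¹) * h₀ := by group
    rw [this, h2]
    group
  have hconj : IsConj (ι t2) (ι x) := by
    rw [hxe]
    refine isConj_iff.mpr ⟨(h₀ : G) * g, ?_⟩
    simp [uH]
    group
  have h4 : ∀ w : Gam, w.π = 1 → (w ^ 4).π = 1 := by decide
  obtain ⟨c, hc⟩ := isConj_iff.mp (S.model.isConj_of_isConj (w := t2) (w' := x) (h4 t2 rfl) (by decide)
    (h4 x hx) hconj)
  rcases t2_cls x hx hxσ hx1 with h5 | h5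
  · exact (t2_nconj c).1 (by rw [hc, h5])
  · exact (t2_nconj c).2 (by rw [hc, h5])

end Cfsg.Agent.Lib.Nine.V4Form
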