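import Mathlib
import Cfsg.Agent.Lib.Nine.V4Form
import Cfsg.Agent.Lib.Coprime.Generation

/-!
# Normality of a TI Sylow subgroup with normalizer `3² : 2²`
-/

set_option autoImplicit false
set_option linter.unusedSectionVars false
set_option linter.unusedVariables false
set_option linter.unusedSimpArgs false
set_option linter.style.haveILetI false
set_option maxRecDepth 100000

namespace Cfsg.Agent.Lib.Nine.V4Main

open Cfsg
open Cfsg.Agent.Lib.Nine.ModelV4 Cfsg.Agent.Lib.Nine.Fuse Cfsg.Agent.Lib.Nine.Basic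
open Cfsg.Agent.Lib.Nine.V4Coh Cfsg.Agent.Lib.Nine.V4Char
open Cfsg.Agent.Lib.Nine.V4Form
open Cfsg.Agent.Lib.Blocks.Third

universe u

section Kernels

variable {G : Type u} [Group G] [Finite G]

/-- A group with a self-centralizing TI elementary Sylow `3`-subgroup of order `9` and two normal subgroups
with trivial intersection inside `T`, meeting `T` nontrivially, normalizes `T`. -/
theorem normal_of_two_kernels {T N K₁ K₂ : Subgroup G}
    (hN : N = Subgroup.normalizer (T : Set G))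
    (hsyl : ∃ P : Sylow 3 G, (P : Subgroup G) = T)
    (hab : ∀ a ∈ T, ∀ b ∈ T, a * b = b * a)
    (h3 : ∀ t ∈ T, t ^ 3 = 1)
    (hcard : Nat.card T = 9)
    (hCT : Subgroup.centralizer (T : Set G) ≤ T)
    (hC : ∀ t ∈ T, t ≠ 1 → Subgroup.centralizer ({t} : Set G) ≤ N)
    (hN3 : ∀ x ∈ N, x ^ 3 = 1 → x ∈ T)
    (hK₁ : K₁.Normal) (hK₂ : K₂.Normal)
    (hD : ∀ t ∈ T, t ∈ K₁ → t ∈ K₂ → t = 1)
    {t₁ t₂ : G} (ht₁ : t₁ ∈ T) (ht₂ : t₂ ∈ T) (ht₁1 : t₁ ≠ 1) (ht₂1 : t₂ ≠ 1) (h₁ : t₁ ∈ K₂) (h₂ : t₂ ∈ K₁) :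
    N = ⊤ := by
  classical
  set D : Subgroup G := K₁ ⊓ K₂ with hDdef
  haveI hDn : D.Normal := Subgroup.normal_inf_normal K₁ K₂
  haveI : Fact (Nat.Prime 3) := ⟨Nat.prime_three⟩
  have hDT : ∀ t ∈ T, t ∈ D → t = 1 := fun t ht htD => hD t ht htD.1 htD.2
  -- `D` has order prime to `3`
  have h3D : ¬ 3 ∣ Nat.card D := by
    intro h
    obtain ⟨x, hx⟩ := exists_prime_orderOf_dvd_card' 3 h
    have hx' : orderOf (x : G) = 3 := by
      rw [← hx]
      exact Subgroup.orderOf_coe x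
    have hPG : IsPGroup 3 (Subgroup.zpowers (x : G)) := by
      refine IsPGroup.of_card (n := 1) ?_
      rw [Nat.card_zpowers, pow_one, hx']
    obtain ⟨R, hR⟩ := hPG.exists_le_sylow
    obtain ⟨P, hP⟩ := hsyl
    obtain ⟨c, hc⟩ := MulAction.exists_smul_eq G R P
    have hmem : c * (x : G) * c⁻¹ ∈ T := by
      rw [← hP, ← hc, Sylow.smul_def, Sylow.pointwise_smul_def]
      exact ⟨x, hR (Subgroup.mem_zpowers _), rfl⟩
    have h1 := hDT _ hmem (hDn.conj_mem _ x.2 c)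
    have h2 : (x : G) = 1 := by
      have : (x : G) = c⁻¹ * (c * (x : G) * c⁻¹) * c := by group
      rw [this, h1]
      group
    rw [h2, orderOf_one] at hx'
    omega
  have hcop : (Nat.card T).Coprime (Nat.card D) := by
    rw [hcard]
    have h12 := (Nat.Prime.coprime_iff_not_dvd Nat.prime_three).mpr h3D
    exact Nat.Coprime.pow_left 2 h12
  haveI hcomm : IsMulCommutative T := ⟨⟨fun a b => Subtype.ext (hab a a.2 b b.2)⟩⟩
  have hcy : ¬ IsCyclic T := by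
    intro hc
    obtain ⟨g, hg⟩ := IsCyclic.exists_generator (α := T)
    have h1 := orderOf_eq_card_of_forall_mem_zpowers hg
    rw [hcard] at h1
    have h2 : g ^ 3 = 1 := Subtype.ext (by simpa using h3 g g.2)
    have h4 := orderOf_dvd_of_pow_eq_one h2
    rw [h1] at h4
    omega
  have hAK : T ≤ Subgroup.normalizer (D : Set G) := by
    intro x _
    rw [Subgroup.mem_normalizer_iff]
    intro h
    constructor
    · intro hh
      exact hDn.conj_mem _ hh x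
    · intro hh
      have h1 := hDn.conj_mem _ hh x⁻¹
      have h2 : x⁻¹ * (x * h * x⁻¹) * x⁻¹⁻¹ = h := by group
      rwa [h2] at h1
  have hsup := Cfsg.Agent.Lib.Coprime.Generation.iSup_centralizer_eq hcy hAK hcop
  have hbot : D = ⊥ := by
    rw [← hsup]
    refine iSup₂_eq_bot.mpr ?_
    rintro a ⟨ha, ha1⟩
    rw [eq_bot_iff]
    rintro x ⟨hxD, hxC⟩
    have hxN : x ∈ N := hC a ha ha1 hxC
    rw [hN, Subgroup.mem_normalizer_iff] at hxN
    have hcomm' : ∀ t ∈ T, x * t = t * x := by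
      intro t ht
      have h1 : x * t * x⁻¹ * t⁻¹ ∈ T := T.mul_mem ((hxN t).mp ht) (T.inv_mem ht)
      have h2 : x * t * x⁻¹ * t⁻¹ ∈ D := by
        have h5 : x * t * x⁻¹ * t⁻¹ = x * (t * x⁻¹ * t⁻¹) := by group
        rw [h5]
        exact D.mul_mem hxD (hDn.conj_mem _ (D.inv_mem hxD) t)
      have h4 := hDT _ h1 h2
      have h6 : x * t * x⁻¹ = t := by
        rwa [mul_inv_eq_one] at h4
      rwa [mul_inv_eq_iff_eq_mul] at h6
    have hxT : x ∈ T := by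
      apply hCT
      rw [Subgroup.mem_centralizer_iff]
      intro t ht
      exact (hcomm' t ht).symm
    exact hDT x hxT hxD
  have hdis : Disjoint K₁ K₂ := by
    rw [disjoint_iff]
    exact hbot
  have hcomm2 : ∀ x ∈ K₁, ∀ y ∈ K₂, x * y = y * x := fun x hx y hy =>
    Subgroup.commute_of_normal_of_disjoint K₁ K₂ hK₁ hK₂ hdis x y hx hy
  rw [eq_top_iff]
  intro g _
  have h5 : g * t₁ * g⁻¹ ∈ K₂ := hK₂.conj_mem _ h₁ g
  have h6 : g * t₁ * g⁻¹ ∈ N := by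
    apply hC t₂ ht₂ ht₂1
    rw [Subgroup.mem_centralizer_singleton_iff]
    exact (hcomm2 _ h₂ _ h5).symm
  have h7 : g * t₁ * g⁻¹ ∈ T := by
    apply hN3 _ h6
    rw [conj_pow, h3 t₁ ht₁]
    group
  exact mem_normalizer_of_conj hN hab h3 hC hN3 ht₁ ht₁1 h7

end Kernels

variable {G : Type u} [Group G] [Fintype G] {ι : Gam →* G}
variable [Fintype (IrrCharacter G)] {χ : Fin 9 → IrrCharacter G} {s : Fin 9 → ℤ}

/-- If the normalised value agrees with the trivial one, the element is in the kernel. -/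
theorem val_of_xv (C : Coh ι χ s) (hinj : Function.Injective ι) {g : G} {l : Fin 9}
    (h : xv χ s g l = xv χ s g 0) : (χ l : G → ℂ) g = (χ l : G → ℂ) 1 := by
  obtain ⟨h1, h2⟩ := C.one_mem
  obtain ⟨h0, -⟩ := deg_rel C hinj
  have hc : (Nat.card (Subgroup.centralizer ({g} : Set G)) : ℂ) ≠ 0 := Nat.cast_ne_zero.mpr Nat.card_pos.ne'
  have hd := Cfsg.Agent.Lib.Char.Complete.irr_one_ne_zero (χ l).2
  have hs : (s l : ℂ) ≠ 0 := by
    rcases C.sgn l with h | h <;> rw [h] <;> simp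
  rw [xv, xv, h0, h1, h2, oneI_apply, dl] at h
  field_simp at h
  simpa using h

theorem dl_of_ker (C : Coh ι χ s) {w : G} {φ : Fin 9 → ℤ}
    (hv : ∀ l, (χ l : G → ℂ) w = ((s l * φ l : ℤ) : ℂ)) {l : Fin 9} (h : (χ l : G → ℂ) w = (χ l : G → ℂ) 1) :
    dl χ s l = φ l := by
  rw [dl, ← h, hv]
  have := sgn_sq C l
  push_cast
  linear_combination (φ l : ℂ) * this

theorem t1_word : t1 = e1 * (t1 * e1 * t1⁻¹) := by decide
theorem t2_word : t2 = e2 * (t2 * e2 * t2⁻¹) := by decide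
theorem e1_sq : e1 ^ 2 = 1 := by decide
theorem e2_sq : e2 ^ 2 = 1 := by decide
theorem e1_ne : e1 ≠ 1 := by decide
theorem e2_ne : e2 ≠ 1 := by decide

theorem sq_e1 : (ι e1) ^ 2 = 1 := by rw [← map_pow, e1_sq, map_one]
theorem sq_e2 : (ι e2) ^ 2 = 1 := by rw [← map_pow, e2_sq, map_one]
theorem ne_e1 (S : Setup ι) : ι e1 ≠ 1 := fun h => e1_ne (S.model.inj (by rw [h, map_one]))
theorem ne_e2 (S : Setup ι) : ι e2 ≠ 1 := fun h => e2_ne (S.model.inj (by rw [h, map_one]))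

theorem pf2_self_zero {u v x y : ℂ} (hu : u ≠ 0) (hv : v ≠ 0) (huv : u + v ≠ 0)
    (h : Pf2 u v x y x y = 0) : x = y := by
  rw [Pf2] at h
  have h1 : u * v / (u + v) ≠ 0 := div_ne_zero (mul_ne_zero hu hv) huv
  have h2 := (mul_eq_zero.mp h).resolve_left h1
  have h3 := mul_self_eq_zero.mp h2
  exact sub_eq_zero.mp h3

/-- The two kernels. -/
theorem kernel_e2 (S : Setup ι) (C : Coh ι χ s) (hb : dl χ s 3 ≠ 0) (h1 : 1 + dl χ s 3 ≠ 0)
    (h : xv χ s (ι e2) 0 = xv χ s (ι e2) 3) :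
    (χ 6 : G → ℂ) (ι e2) = (χ 6 : G → ℂ) 1 := by
  have hinj := S.model.inj
  obtain ⟨-, -, x6, -, -⟩ := xrel C hinj sq_e2
  apply val_of_xv C hinj
  apply mul_left_cancel₀ h1
  rw [x6, ← h]
  ring

theorem kernel_e1 (S : Setup ι) (C : Coh ι χ s) (hb : dl χ s 1 ≠ 0) (h1 : 1 + dl χ s 1 ≠ 0)
    (h : xv χ s (ι e1) 0 = xv χ s (ι e1) 1) :
    (χ 2 : G → ℂ) (ι e1) = (χ 2 : G → ℂ) 1 := by
  have hinj := S.model.inj
  obtain ⟨x2, -, -, -, -⟩ := xrel C hinj sq_e1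
  apply val_of_xv C hinj
  apply mul_left_cancel₀ h1
  rw [x2, ← h]
  ring

theorem mem_ker_t2 (C : Coh ι χ s) (h : (χ 6 : G → ℂ) (ι e2) = (χ 6 : G → ℂ) 1) :
    (χ 6 : G → ℂ) (ι t2) = (χ 6 : G → ℂ) 1 := by
  have hch := Cfsg.Agent.Lib.Char.Basic.isCharacter_of_isIrrCharacter (χ 6).2
  have hn := Cfsg.Agent.Lib.Char.Degree.charKer_normal hch
  have h1 : ι e2 ∈ Cfsg.Agent.Lib.Char.Degree.charKer hch := by
    rwa [Cfsg.Agent.Lib.Char.Degree.mem_charKer]
  have h2 : ι t2 ∈ Cfsg.Agent.Lib.Char.Degree.charKer hch := by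
    rw [t2_word, map_mul]
    refine Subgroup.mul_mem _ h1 ?_
    rw [map_mul, map_mul, map_inv]
    exact hn.conj_mem _ h1 _
  rwa [Cfsg.Agent.Lib.Char.Degree.mem_charKer] at h2

theorem mem_ker_t1 (C : Coh ι χ s) (h : (χ 2 : G → ℂ) (ι e1) = (χ 2 : G → ℂ) 1) :
    (χ 2 : G → ℂ) (ι t1) = (χ 2 : G → ℂ) 1 := by
  have hch := Cfsg.Agent.Lib.Char.Basic.isCharacter_of_isIrrCharacter (χ 2).2
  have hn := Cfsg.Agent.Lib.Char.Degree.charKer_normal hch
  have h1 : ι e1 ∈ Cfsg.Agent.Lib.Char.Degree.charKer hch := by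
    rwa [Cfsg.Agent.Lib.Char.Degree.mem_charKer]
  have h2 : ι t1 ∈ Cfsg.Agent.Lib.Char.Degree.charKer hch := by
    rw [t1_word, map_mul]
    refine Subgroup.mul_mem _ h1 ?_
    rw [map_mul, map_mul, map_inv]
    exact hn.conj_mem _ h1 _
  rwa [Cfsg.Agent.Lib.Char.Degree.mem_charKer] at h2

/-- The arithmetic at the end of the fusion case. -/
theorem arith_end {α : ℤ} (h : (2 : ℂ) * (4 * (α : ℂ) - 1) ^ 2 = 9 * (1 + 4 * (α : ℂ) ^ 2)) : False := by
  have h1 : (2 : ℤ) * (4 * α - 1) ^ 2 = 9 * (1 + 4 * α ^ 2) := by exact_mod_cast h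
  have h2 : (2 : ℤ) * ((4 * α - 1) ^ 2 - 18 * α ^ 2 - 4) = 1 := by linear_combination h1
  omega

/-- The algebra of the fusion case. -/
theorem alg_fusion {a c μ v n1 n4 m0 m1 m3 m4 α : ℂ} {X3 : ℂ} (ha : a ≠ 0) (hc : c ≠ 0) (hμ : μ ≠ 0) (hv : v ≠ 0)
    (h2 : 1 + a ≠ 0) (h4 : 1 + c ≠ 0) (h7 : a + c ≠ 0)
    (hm03 : m0 = m3) (hm14 : m1 = m4)
    (F4 : Pf2 1 a m0 m1 m0 m1 = μ / 2)
    (F5 : Pf2 1 c m3 m4 m3 m4 = μ / 2)
    (X4 : Pf2 1 a m0 m1 v n1 = 3 * μ / 2)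
    (X5 : Pf2 1 c m3 m4 (X3 * v) n4 = - (3 * μ / 2))
    (G1 : Pf2 1 1 v (X3 * v) v (X3 * v) = 8 * μ)
    (G2 : Pf2 a c n1 n4 n1 n4 = 2 * μ)
    (G4 : Pf2 1 a v n1 v n1 = 9 * μ / 2)
    (hX3 : X3 = 1 ∨ X3 = -1)
    (hα : a * n1 = α * v) :
    (2 : ℂ) * (4 * α - 1) ^ 2 = 9 * (1 + 4 * α ^ 2) := by
  subst hm03 hm14
  set D := m0 - m1 with hD
  have e4 : a / (1 + a) * (D * D) = μ / 2 := by
    rw [Pf2] at F4
    rw [← F4]
    simp only [hD]
    ring
  have e5 : c / (1 + c) * (D * D) = μ / 2 := by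
    rw [Pf2] at F5
    rw [← F5]
    simp only [hD]
    ring
  have hD0 : D ≠ 0 := by
    intro h
    rw [h] at e4
    apply hμ
    linear_combination (-2 : ℂ) * e4
  have hac : a = c := by
    have e6 : a / (1 + a) = c / (1 + c) := by
      apply mul_right_cancel₀ (mul_ne_zero hD0 hD0)
      rw [e4, e5]
    field_simp at e6
    linear_combination e6
  subst hac
  have hA : a / (1 + a) ≠ 0 := div_ne_zero ha h2
  have e7 : v - n1 = 3 * D := by
    have e8 : a / (1 + a) * (D * (v - n1)) = 3 * μ / 2 := by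
      rw [Pf2] at X4
      rw [← X4]
      simp only [hD]
      ring
    apply mul_left_cancel₀ (mul_ne_zero hA hD0)
    linear_combination e8 - 3 * e4
  have e9 : X3 * v - n4 = - (3 * D) := by
    have e8 : a / (1 + a) * (D * (X3 * v - n4)) = - (3 * μ / 2) := by
      rw [Pf2] at X5
      rw [← X5]
      simp only [hD]
      ring
    apply mul_left_cancel₀ (mul_ne_zero hA hD0)
    linear_combination e8 + 3 * e4
  have hμ' : 4 * μ = v * v ∧ X3 = -1 := by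
    rw [Pf2] at G1
    rcases hX3 with h | h
    · rw [h] at G1
      exfalso
      apply hμ
      have : (8 : ℂ) * μ = 0 := by
        rw [← G1]
        ring
      simpa using this
    · rw [h] at G1
      refine ⟨?_, h⟩
      have e : (1 * 1 / (1 + 1 : ℂ)) * ((v - -1 * v) * (v - -1 * v)) = 2 * (v * v) := by ring
      rw [e] at G1
      linear_combination (-1 / 1 : ℂ) * (1 / 4 : ℂ) * 2 * G1
  obtain ⟨h5, h6⟩ := hμ'
  subst h6
  have e10 : n4 = - n1 := by linear_combination -e9 - e7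
  subst e10
  have e11 : a * (n1 * n1) = μ := by
    rw [Pf2] at G2
    have h8 : a * a / (a + a) = a / 2 := by
      field_simp
      ring
    rw [h8] at G2
    linear_combination (1 / 2 : ℂ) * G2
  have e12 : a = 4 * α ^ 2 := by
    apply mul_left_cancel₀ (mul_ne_zero hv hv)
    have e13 : v * v * a = 4 * (a * (n1 * n1)) * a := by rw [e11]; rw [← h5]
    rw [e13]
    have e14 : 4 * (a * (n1 * n1)) * a = 4 * (a * n1) * (a * n1) := by ring
    rw [e14, hα]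
    ring
  have hα0 : α ≠ 0 := by
    intro h
    rw [h] at e12
    apply ha
    rw [e12]
    ring
  have e15 : 8 * (a - α) ^ 2 = 9 * a * (1 + a) := by
    rw [Pf2] at G4
    have e16 : n1 = α * v / a := by
      field_simp
      linear_combination hα
    rw [e16] at G4
    have e17 : μ = v * v / 4 := by linear_combination (1 / 4 : ℂ) * h5
    rw [e17] at G4
    field_simp at G4
    linear_combination G4
  rw [e12] at e15
  apply mul_left_cancel₀ (mul_ne_zero hα0 hα0)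
  linear_combination (1 / 4 : ℂ) * e15

theorem T_card : Nat.card TG = 9 := by
  rw [Nat.subtype_card (Finset.univ.filter (fun x : Gam => x.π = 1)) (by simp [mem_TG])]
  decide

theorem TT_card (hinj : Function.Injective ι) : Nat.card (TT ι) = 9 := by
  rw [TT, Subgroup.card_map_of_injective hinj, T_card]

theorem Setup.mem_of_pow3 (S : Setup ι) {x : G} (hx : x ∈ Subgroup.normalizer ((TT ι : Subgroup G) : Set G))
    (h3 : x ^ 3 = 1) : x ∈ TT ι := by
  rw [Subgroup.mem_normalizer_iff] at hx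
  have h1 : x * ι t1 * x⁻¹ ∈ TT ι := (hx _).mp ⟨t1, rfl, rfl⟩
  obtain ⟨t', ht', he⟩ := h1
  have ht1 : t1 ≠ 1 := by decide
  obtain ⟨c, rfl⟩ := S.model.ti t1 t' rfl ht1 ht' x he.symm
  refine ⟨c, TG_of_pow3 c (S.model.inj ?_), rfl⟩
  rw [map_pow, h3, map_one]

/-- The case without fusion. -/
theorem no_fusion (S : Setup ι) (C : Coh ι χ s) (hsyl : ∃ P : Sylow 3 G, (P : Subgroup G) = TT ι)
    (hz1 : ¬ IsConj (ι e1) (ι z)) (hz2 : ¬ IsConj (ι e2) (ι z)) :
    Subgroup.normalizer ((TT ι : Subgroup G) : Set G) = ⊤ := by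
  classical
  have hinj := S.model.inj
  obtain ⟨h0, h2, h5, h6, h7, h8⟩ := deg_rel C hinj
  have hnes := Setup.not_conj_e1_e2 S hsyl
  have hA := dl_ne C 1
  have hB := dl_ne C 3
  have hC := dl_ne C 4
  have hD2 : 1 + dl χ s 1 ≠ 0 := by rw [← h2]; exact dl_ne C 2
  have hD6 : 1 + dl χ s 3 ≠ 0 := by rw [← h6]; exact dl_ne C 6
  have T' : ∀ (P : Prop), P → (P ↔ true = true) := fun P h => iff_of_true h rfl
  have F : ∀ (P : Prop), ¬ P → (P ↔ false = true) := fun P h => iff_of_false h (by simp)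
  have hE1 : clsB ι (ι e1) = bv true false false :=
    clsB_eq (T' _ (IsConj.refl _)) (F _ hnes) (F _ hz1)
  have hE2 : clsB ι (ι e2) = bv false true false :=
    clsB_eq (F _ (fun h => hnes h.symm)) (T' _ (IsConj.refl _)) (F _ hz2)
  have zr : ∀ n : ℕ, n = 0 → (n : ℂ) / (Nat.card G : ℂ) = 0 := by
    intro n h
    rw [h]
    simp
  have any : ∀ n : ℕ, (n : ℂ) / (Nat.card G : ℂ) = (n : ℂ) / (Nat.card G : ℂ) := fun _ => rfl
  obtain ⟨-, -, -, a4, -, -⟩ := pairForms S C sq_e1 (ne_e1 S) sq_e1 (ne_e1 S)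
    (any _) (zr _ (by rw [hE1, cnt_wQ]; decide)) (zr _ (by rw [hE1, cnt_wY]; decide))
    (zr _ (by rw [hE1, cnt_wP']; decide)) (zr _ (by rw [hE1, cnt_wQ']; decide))
  obtain ⟨b1, -, -, -, -, -⟩ := pairForms S C sq_e2 (ne_e2 S) sq_e2 (ne_e2 S)
    (zr _ (by rw [hE2, cnt_wP]; decide)) (any _) (zr _ (by rw [hE2, cnt_wY]; decide))
    (zr _ (by rw [hE2, cnt_wP']; decide)) (zr _ (by rw [hE2, cnt_wQ']; decide))
  have k1 : xv χ s (ι e1) 0 = xv χ s (ι e1) 1 :=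
    pf2_self_zero one_ne_zero hA hD2 (by rw [a4]; ring)
  have k2 : xv χ s (ι e2) 0 = xv χ s (ι e2) 3 :=
    pf2_self_zero one_ne_zero hB hD6 (by rw [b1]; ring)
  have ke1 := kernel_e1 S C hA hD2 k1
  have ke2 := kernel_e2 S C hB hD6 k2
  have kt1 := mem_ker_t1 C ke1
  have kt2 := mem_ker_t2 C ke2
  have hch2 := Cfsg.Agent.Lib.Char.Basic.isCharacter_of_isIrrCharacter (χ 2).2
  have hch6 := Cfsg.Agent.Lib.Char.Basic.isCharacter_of_isIrrCharacter (χ 6).2
  have d2 : dl χ s 2 = 2 := by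
    have := dl_of_ker C C.vP kt1
    simpa [φP, wP] using this
  have d6 : dl χ s 6 = 2 := by
    have := dl_of_ker C C.vQ kt2
    simpa [φQ, wQ] using this
  have nt2 : (χ 2 : G → ℂ) (ι t2) ≠ (χ 2 : G → ℂ) 1 := by
    intro h
    have := dl_of_ker C C.vQ h
    rw [d2] at this
    simp [φQ] at this
    norm_num at this
  have ny2 : (χ 2 : G → ℂ) (ι y) ≠ (χ 2 : G → ℂ) 1 := by
    intro h
    have := dl_of_ker C C.vY h
    rw [d2] at this
    simp [φY] at this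
    norm_num at this
  have nt1 : (χ 6 : G → ℂ) (ι t1) ≠ (χ 6 : G → ℂ) 1 := by
    intro h
    have := dl_of_ker C C.vP h
    rw [d6] at this
    simp [φP] at this
    norm_num at this
  have ny6 : (χ 6 : G → ℂ) (ι y) ≠ (χ 6 : G → ℂ) 1 := by
    intro h
    have := dl_of_ker C C.vY h
    rw [d6] at this
    simp [φY] at this
    norm_num at this
  have hK₁ := Cfsg.Agent.Lib.Char.Degree.charKer_normal hch6
  have hK₂ := Cfsg.Agent.Lib.Char.Degree.charKer_normal hch2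
  have ht₁ : ι t1 ∈ TT ι := ⟨t1, rfl, rfl⟩
  have ht₂ : ι t2 ∈ TT ι := ⟨t2, rfl, rfl⟩
  refine normal_of_two_kernels (T := TT ι) (K₁ := Cfsg.Agent.Lib.Char.Degree.charKer hch6)
    (K₂ := Cfsg.Agent.Lib.Char.Degree.charKer hch2) rfl hsyl TT_comm (fun t ht => TT_pow3 ht) (TT_card hinj)
    S.cent_T (fun t ht ht1 => S.cent_le ht ht1) (fun x hx h3 => Setup.mem_of_pow3 S hx h3) hK₁ hK₂ ?_ ht₁ ht₂
    (fun h => (by decide : t1 ≠ 1) (hinj (by rw [h, map_one])))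
    (fun h => (by decide : t2 ≠ 1) (hinj (by rw [h, map_one])))
    ((Cfsg.Agent.Lib.Char.Degree.mem_charKer hch2 _).mpr kt1) ((Cfsg.Agent.Lib.Char.Degree.mem_charKer hch6 _).mpr kt2)
  rintro _ ⟨x, hx, rfl⟩ h1 h2'
  by_contra hne
  have hx1 : x ≠ 1 := by
    rintro rfl
    exact hne (map_one ι)
  rcases T_cls x hx hx1 with ⟨c, hc⟩ | ⟨c, hc⟩ | ⟨c, hc⟩
  · apply nt1
    have := hK₁.conj_mem _ h1 (ι c)
    rw [← map_inv, ← map_mul, ← map_mul, hc, Cfsg.Agent.Lib.Char.Degree.mem_charKer] at this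
    exact this
  · apply nt2
    have := hK₂.conj_mem _ h2' (ι c)
    rw [← map_inv, ← map_mul, ← map_mul, hc, Cfsg.Agent.Lib.Char.Degree.mem_charKer] at this
    exact this
  · apply ny6
    have := hK₁.conj_mem _ h1 (ι c)
    rw [← map_inv, ← map_mul, ← map_mul, hc, Cfsg.Agent.Lib.Char.Degree.mem_charKer] at this
    exact this

/-- If `dl 3 = 1` then the third character is linear. -/
theorem linear_of_dl (C : Coh ι χ s) (h : dl χ s 3 = 1) : (χ 3 : G → ℂ) 1 = 1 ∧ s 3 = 1 := by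
  have hpos := Cfsg.Agent.Lib.Char.Degree.charDegree_pos (χ 3).2
  have hd := Cfsg.Agent.Lib.Blocks.Heights.irr_one_eq (χ 3)
  rw [dl, hd] at h
  have h' : s 3 * (Cfsg.charDegree (χ 3 : G → ℂ) : ℤ) = 1 := by exact_mod_cast h
  have hs := C.sgn 3
  rcases hs with hs | hs
  · rw [hs, one_mul] at h'
    refine ⟨?_, hs⟩
    rw [hd]
    exact_mod_cast h'
  · rw [hs] at h'
    exfalso
    omega

/-- The fusion case is impossible. -/
theorem no_fusion_e1 (S : Setup ι) (C : Coh ι χ s) (hsyl : ∃ P : Sylow 3 G, (P : Subgroup G) = TT ι)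
    (hz1 : IsConj (ι e1) (ι z)) : False := by
  classical
  have hinj := S.model.inj
  obtain ⟨h0, h2, h5, h6, h7, h8⟩ := deg_rel C hinj
  have hnes := Setup.not_conj_e1_e2 S hsyl
  have hA := dl_ne C 1
  have hB := dl_ne C 3
  have hC := dl_ne C 4
  have hD2 : 1 + dl χ s 1 ≠ 0 := by rw [← h2]; exact dl_ne C 2
  have hD5 : dl χ s 3 + dl χ s 4 ≠ 0 := by rw [← h5]; exact dl_ne C 5
  have hD6 : 1 + dl χ s 3 ≠ 0 := by rw [← h6]; exact dl_ne C 6
  have hD7 : dl χ s 1 + dl χ s 4 ≠ 0 := by rw [← h7]; exact dl_ne C 7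
  have T' : ∀ (P : Prop), P → (P ↔ true = true) := fun P h => iff_of_true h rfl
  have F : ∀ (P : Prop), ¬ P → (P ↔ false = true) := fun P h => iff_of_false h (by simp)
  have hz2 : ¬ IsConj (ι e2) (ι z) := fun h => hnes (hz1.trans h.symm)
  have hE1 : clsB ι (ι e1) = bv true false true :=
    clsB_eq (T' _ (IsConj.refl _)) (F _ hnes) (T' _ hz1)
  have hE2 : clsB ι (ι e2) = bv false true false :=
    clsB_eq (F _ (fun h => hnes h.symm)) (T' _ (IsConj.refl _)) (F _ hz2)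
  have hN : (Nat.card G : ℂ) ≠ 0 := Nat.cast_ne_zero.mpr Nat.card_pos.ne'
  obtain ⟨μ, hμdef⟩ : ∃ μ : ℂ, μ = 1 / (Nat.card G : ℂ) := ⟨_, rfl⟩
  have hμ : μ ≠ 0 := by
    rw [hμdef]
    exact one_div_ne_zero hN
  have num : ∀ n m : ℕ, n = m → (n : ℂ) / (Nat.card G : ℂ) = (m : ℂ) * μ := by
    intro n m h
    rw [h, hμdef]
    ring
  -- the forms
  obtain ⟨f1, f2, -, f4, f5, -⟩ := pairForms S C sq_e2 (ne_e2 S) sq_e2 (ne_e2 S)
    (num _ 0 (by rw [hE2, cnt_wP]; decide)) (num _ 3 (by rw [hE2, cnt_wQ]; decide))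
    (num _ 0 (by rw [hE2, cnt_wY]; decide)) (num _ 0 (by rw [hE2, cnt_wP']; decide))
    (num _ 0 (by rw [hE2, cnt_wQ']; decide))
  obtain ⟨-, -, -, x4, x5, -⟩ := pairForms S C sq_e2 (ne_e2 S) sq_e1 (ne_e1 S)
    (num _ 0 (by rw [hE1, hE2, cnt_wP]; decide)) (num _ 0 (by rw [hE1, hE2, cnt_wQ]; decide))
    (num _ 0 (by rw [hE1, hE2, cnt_wY]; decide)) (num _ 0 (by rw [hE1, hE2, cnt_wP']; decide))
    (num _ 3 (by rw [hE1, hE2, cnt_wQ']; decide))
  obtain ⟨g1, g2, -, g4, g5, -⟩ := pairForms S C sq_e1 (ne_e1 S) sq_e1 (ne_e1 S)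
    (num _ 12 (by rw [hE1, cnt_wP]; decide)) (num _ 9 (by rw [hE1, cnt_wQ]; decide))
    (num _ 9 (by rw [hE1, cnt_wY]; decide)) (num _ 6 (by rw [hE1, cnt_wP']; decide))
    (num _ 0 (by rw [hE1, cnt_wQ']; decide))
  have k1 : xv χ s (ι e2) 0 = xv χ s (ι e2) 3 :=
    pf2_self_zero one_ne_zero hB hD6 (by rw [f1]; push_cast; ring)
  have k2 : xv χ s (ι e2) 1 = xv χ s (ι e2) 4 :=
    pf2_self_zero hA hC hD7 (by rw [f2]; push_cast; ring)
  have ke2 := kernel_e2 S C hB hD6 k1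
  have kt2 := mem_ker_t2 C ke2
  have d6 : dl χ s 6 = 2 := by
    have := dl_of_ker C C.vQ kt2
    simpa [φQ, wQ] using this
  have hb1 : dl χ s 3 = 1 := by
    rw [h6] at d6
    linear_combination d6
  obtain ⟨h3lin, hs3⟩ := linear_of_dl C hb1
  -- the values at `e1`
  have hch3 := Cfsg.Agent.Lib.Char.Basic.isCharacter_of_isIrrCharacter (χ 3).2
  have hm3 := Cfsg.Agent.Lib.Char.Linear.deg_one_mul hch3 h3lin
  have hβ : (χ 3 : G → ℂ) (ι e1) = 1 ∨ (χ 3 : G → ℂ) (ι e1) = -1 := by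
    have h1 := hm3 (ι e1) (ι e1)
    rw [← pow_two, sq_e1, h3lin] at h1
    have h2 : ((χ 3 : G → ℂ) (ι e1) - 1) * ((χ 3 : G → ℂ) (ι e1) + 1) = 0 := by
      linear_combination -h1
    rcases mul_eq_zero.mp h2 with h | h
    · left; linear_combination h
    · right; linear_combination h
  obtain ⟨v, hvdef⟩ : ∃ v : ℂ, v = xv χ s (ι e1) 0 := ⟨_, rfl⟩
  have hc0 : (Nat.card (Subgroup.centralizer ({ι e1} : Set G)) : ℂ) ≠ 0 :=
    Nat.cast_ne_zero.mpr Nat.card_pos.ne'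
  obtain ⟨h0', h0s⟩ := C.one_mem
  have hv0 : v = 1 / (Nat.card (Subgroup.centralizer ({ι e1} : Set G)) : ℂ) := by
    rw [hvdef, xv, h0, h0', h0s, oneI_apply]
    simp
  have hv : v ≠ 0 := by
    rw [hv0]
    exact one_div_ne_zero hc0
  have hn3 : xv χ s (ι e1) 3 = (χ 3 : G → ℂ) (ι e1) * v := by
    rw [xv, hb1, hv0, hs3]
    simp
    ring
  obtain ⟨α', hα'⟩ : ∃ n : ℤ, (χ 1 : G → ℂ) (ι e1) = n :=
    exists_int_of_pow_six (Cfsg.Agent.Lib.Char.Basic.isCharacter_of_isIrrCharacter (χ 1).2)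
      (by rw [← map_pow, show e1 ^ 6 = 1 by decide, map_one])
      (by rw [← map_inv, show e1⁻¹ = e1 by decide])
  obtain ⟨α, hα⟩ : ∃ α : ℤ, α = s 1 * α' := ⟨_, rfl⟩
  have hn1 : dl χ s 1 * xv χ s (ι e1) 1 = (α : ℂ) * v := by
    rw [dl_mul_xv C, hα', hv0, hα]
    push_cast
    ring
  have hb1' := hb1
  rw [hb1] at f1 hD6 hD5 g1 g5 x5 f5
  have key := alg_fusion (a := dl χ s 1) (c := dl χ s 4) (μ := μ) (v := v) (n1 := xv χ s (ι e1) 1)
    (n4 := xv χ s (ι e1) 4) (m0 := xv χ s (ι e2) 0) (m1 := xv χ s (ι e2) 1) (m3 := xv χ s (ι e2) 3)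
    (m4 := xv χ s (ι e2) 4) (α := α) (X3 := (χ 3 : G → ℂ) (ι e1)) hA hC hμ hv hD2 hD5 hD7 k1 k2
    (by rw [f4]; push_cast; ring) (by rw [f5]; push_cast; ring)
    (by rw [← hvdef] at x4; rw [x4]; push_cast; ring)
    (by rw [← hn3]; rw [x5]; push_cast; ring)
    (by rw [← hn3, hvdef, g1]; push_cast; ring) (by rw [g2]; push_cast; ring)
    (by rw [hvdef, g4]; push_cast; ring) hβ hn1
  exact arith_end key

/-- The swap of a setup. -/
theorem Setup.swap (S : Setup ι) : Setup (ι.comp swapH) := by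
  refine ⟨⟨?_, ?_⟩, S.h27⟩
  · intro a b h
    have h1 : swapF a = swapF b := S.model.inj h
    have h2 := congrArg swapF h1
    rwa [swapF_swapF, swapF_swapF] at h2
  · intro t t' ht ht1 ht' g hg
    have h1 : swapF t ≠ 1 := by
      intro h
      apply ht1
      have h2 := congrArg swapF h
      rw [swapF_swapF] at h2
      rw [h2]
      decide
    obtain ⟨c, hc⟩ := S.model.ti (swapF t) (swapF t') (swap_π t ht) h1 (swap_π t' ht') g hg
    refine ⟨swapF c, ?_⟩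
    change ι (swapF (swapF c)) = g
    rw [swapF_swapF, hc]

theorem TT_swap : TT (ι.comp swapH) = TT ι := by
  ext t
  constructor
  · rintro ⟨x, hx, rfl⟩
    exact ⟨swapF x, swap_π x hx, rfl⟩
  · rintro ⟨x, hx, rfl⟩
    refine ⟨swapF x, swap_π x hx, ?_⟩
    change ι (swapF (swapF x)) = ι x
    rw [swapF_swapF]

/-- **Normality.** -/
theorem normal_T (S : Setup ι) (hsyl : ∃ P : Sylow 3 G, (P : Subgroup G) = TT ι) :
    Subgroup.normalizer ((TT ι : Subgroup G) : Set G) = ⊤ := by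
  classical
  obtain ⟨χ, s, C⟩ := S.coherence
  by_cases h1 : IsConj (ι e1) (ι z)
  · exact (no_fusion_e1 S C hsyl h1).elim
  by_cases h2 : IsConj (ι e2) (ι z)
  · exfalso
    obtain ⟨χ', s', C'⟩ := (Setup.swap S).coherence
    refine no_fusion_e1 (Setup.swap S) C' (by rw [TT_swap]; exact hsyl) ?_
    change IsConj (ι (swapF e1)) (ι (swapF z))
    rw [swap_e1, swap_z]
    exact h2
  exact no_fusion S C hsyl h1 h2

end Cfsg.Agent.Lib.Nine.V4Main
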