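import Mathlib
import Cfsg.Agent.Lib.Nine.Coord
import Cfsg.Agent.Lib.Nine.V4Main

/-!
# The model of the normalizer `3² : 2²`
-/

set_option autoImplicit false
set_option linter.unusedSectionVars false
set_option linter.unusedVariables false
set_option linter.style.haveILetI false
set_option maxRecDepth 100000

namespace Cfsg.Agent.Lib.Nine.V4Local

open Cfsg
open Cfsg.Agent.Lib.Nine.Coord Cfsg.Agent.Lib.Nine.ModelV4 Cfsg.Agent.Lib.Nine.Fuse
open Cfsg.Agent.Lib.Nine.V4Char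
open DihedralGroup

universe u

variable {G : Type u} [Group G] [Finite G]

/-- The data of the local situation. -/
structure Loc (T : Subgroup G) : Prop where
  h3 : ∀ t ∈ T, t ^ 3 = 1
  hcard : Nat.card T = 9
  hab : ∀ a ∈ T, ∀ b ∈ T, a * b = b * a
  hCT : Subgroup.centralizer (T : Set G) ≤ T

variable {T : Subgroup G}

theorem Loc.plus_ne (L : Loc T) {c : G} (hc2 : c * c = 1) (hcN : ∀ t, t ∈ T → c * t * c⁻¹ ∈ T) {x : G} (hx : x ∈ T)
    (hne : c * x * c⁻¹ ≠ x⁻¹) :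
    x * (c * x * c⁻¹) ∈ T ∧ x * (c * x * c⁻¹) ≠ 1 ∧ c * (x * (c * x * c⁻¹)) * c⁻¹ = x * (c * x * c⁻¹) := by
  have hcinv : c⁻¹ = c := by
    rw [inv_eq_iff_mul_eq_one]
    exact hc2
  have hx' := hcN x hx
  refine ⟨T.mul_mem hx hx', ?_, ?_⟩
  · intro h
    apply hne
    exact eq_inv_of_mul_eq_one_right h
  · have h1 : c * (c * x * c⁻¹) * c⁻¹ = x := by
      rw [hcinv]
      calc c * (c * x * c) * c = (c * c) * x * (c * c) := by group
        _ = x := by rw [hc2]; group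
    calc c * (x * (c * x * c⁻¹)) * c⁻¹ = (c * x * c⁻¹) * (c * (c * x * c⁻¹) * c⁻¹) := by group
      _ = (c * x * c⁻¹) * x := by rw [h1]
      _ = _ := L.hab _ hx' _ hx

theorem Loc.minus_ne (L : Loc T) {c : G} (hc2 : c * c = 1) (hcN : ∀ t, t ∈ T → c * t * c⁻¹ ∈ T) {x : G} (hx : x ∈ T)
    (hne : c * x * c⁻¹ ≠ x) :
    x * (c * x * c⁻¹)⁻¹ ∈ T ∧ x * (c * x * c⁻¹)⁻¹ ≠ 1 ∧
      c * (x * (c * x * c⁻¹)⁻¹) * c⁻¹ = (x * (c * x * c⁻¹)⁻¹)⁻¹ := by
  have hcinv : c⁻¹ = c := by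
    rw [inv_eq_iff_mul_eq_one]
    exact hc2
  have hx' := hcN x hx
  refine ⟨T.mul_mem hx (T.inv_mem hx'), ?_, ?_⟩
  · intro h
    apply hne
    exact (mul_inv_eq_one.mp h).symm
  · have h1 : c * (c * x * c⁻¹) * c⁻¹ = x := by
      rw [hcinv]
      calc c * (c * x * c) * c = (c * c) * x * (c * c) := by group
        _ = x := by rw [hc2]; group
    calc c * (x * (c * x * c⁻¹)⁻¹) * c⁻¹ = (c * x * c⁻¹) * (c * (c * x * c⁻¹) * c⁻¹)⁻¹ := by group
      _ = (c * x * c⁻¹) * x⁻¹ := by rw [h1]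
      _ = _ := by group

/-- A nontrivial involution does not lie in `T`. -/
theorem Loc.eq_one_of_sq (L : Loc T) {c : G} (hc2 : c * c = 1) (hc : c ∈ T) : c = 1 := by
  have h1 := L.h3 c hc
  have : c = c ^ 3 * (c * c)⁻¹ := by group
  rw [this, h1, hc2]
  group

/-- An element commuting with the coordinates commutes with `T`. -/
theorem Loc.mem_of_comm (L : Loc T) {u v c : G} (hu : u ∈ T) (hv : v ∈ T)
    (hinj : Function.Injective (τ u v)) (hcu : c * u * c⁻¹ = u) (hcv : c * v * c⁻¹ = v) : c ∈ T := by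
  apply L.hCT
  rw [Subgroup.mem_centralizer_iff]
  intro y hy
  haveI : Finite T := inferInstance
  obtain ⟨⟨a, b⟩, hp⟩ := τ_surj (L.h3 _ hu) (L.h3 _ hv) (L.hab _ hu _ hv) L.hcard hu hv hinj hy
  have hp' : u ^ a.val * v ^ b.val = y := hp
  have h1 : c * u = u * c := by rwa [mul_inv_eq_iff_eq_mul] at hcu
  have h2 : c * v = v * c := by rwa [mul_inv_eq_iff_eq_mul] at hcv
  have h3 : Commute c u := h1
  have h4 : Commute c v := h2
  rw [← hp']
  exact ((h3.pow_right a.val).mul_right (h4.pow_right b.val)).symm.eq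

theorem Loc.coords_aux (L : Loc T) {e p : G} (he2 : e * e = 1) (hp2 : p * p = 1) (hep : e * p = p * e)
    (he1 : e ≠ 1) (hp1 : p ≠ 1) (hpe : p ≠ e) (heN : ∀ t, t ∈ T → e * t * e⁻¹ ∈ T)
    (hpN : ∀ t, t ∈ T → p * t * p⁻¹ ∈ T) (hx : ∃ x ∈ T, e * x * e⁻¹ ≠ x⁻¹) :
    ∃ t₁ t₂ e₁ e₂ : G, t₁ ∈ T ∧ t₂ ∈ T ∧ t₁ ≠ 1 ∧ t₂ ≠ 1 ∧ e₁ * e₁ = 1 ∧ e₂ * e₂ = 1 ∧ e₁ * e₂ = e₂ * e₁ ∧
      (∀ t, t ∈ T → e₁ * t * e₁⁻¹ ∈ T) ∧ (∀ t, t ∈ T → e₂ * t * e₂⁻¹ ∈ T) ∧
      e₁ * t₁ * e₁⁻¹ = t₁⁻¹ ∧ e₁ * t₂ * e₁⁻¹ = t₂ ∧ e₂ * t₁ * e₂⁻¹ = t₁ ∧ e₂ * t₂ * e₂⁻¹ = t₂⁻¹ := by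
  obtain ⟨x, hxT, hxne⟩ := hx
  obtain ⟨hu, hu1, hue⟩ := L.plus_ne he2 heN hxT hxne
  have hw : ∃ w ∈ T, e * w * e⁻¹ ≠ w := by
    by_contra hcon
    push Not at hcon
    apply he1
    apply L.eq_one_of_sq he2
    apply L.hCT
    rw [Subgroup.mem_centralizer_iff]
    intro w hw
    have := hcon w hw
    rw [mul_inv_eq_iff_eq_mul] at this
    exact this.symm
  obtain ⟨w, hwT, hwne⟩ := hw
  obtain ⟨hv, hv1, hve⟩ := L.minus_ne he2 heN hwT hwne
  set u := x * (e * x * e⁻¹) with hudef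
  set v := w * (e * w * e⁻¹)⁻¹ with hvdef
  have hu3 := L.h3 _ hu
  have hv3 := L.h3 _ hv
  have huv : Commute u v := L.hab _ hu _ hv
  have hinj := τ_inj hu3 hv3 huv hu1 hv1 hue hve
  haveI : Finite T := inferInstance
  have hact : ∀ a b : ZMod 3, e * (u ^ a.val * v ^ b.val) * e⁻¹ = u ^ a.val * (v⁻¹) ^ b.val := by
    intro a b
    have h4 : e * (u ^ a.val * v ^ b.val) * e⁻¹ =
        (e * u * e⁻¹) ^ a.val * (e * v * e⁻¹) ^ b.val := by
      rw [conj_pow, conj_pow]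
      group
    rw [h4, hue, hve]
  have hfix : ∀ y ∈ T, e * y * e⁻¹ = y → y ≠ 1 → y = u ∨ y = u⁻¹ := by
    intro y hy hye hy1
    obtain ⟨⟨a, b⟩, hp⟩ := τ_surj hu3 hv3 huv L.hcard hu hv hinj hy
    have hp' : u ^ a.val * v ^ b.val = y := hp
    have h1 := hact a b
    rw [hp', hye, ← hp'] at h1
    have h2 : v ^ b.val = (v⁻¹) ^ b.val := mul_left_cancel h1
    have h3 : (v ^ b.val) ^ 2 = 1 := by
      rw [pow_two]
      nth_rewrite 2 [h2]
      rw [inv_pow, mul_inv_cancel]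
    have h5 : (v ^ b.val) ^ 3 = 1 := by
      rw [← pow_mul, mul_comm, pow_mul, hv3, one_pow]
    have h6 : v ^ b.val = 1 := sq_eq_one_of_cube h5 h3
    rw [h6, mul_one] at hp'
    have ha : a = 1 ∨ a = 2 := by
      have ha0 : a ≠ 0 := by
        rintro rfl
        apply hy1
        rw [← hp']
        simp
      have key : ∀ a : ZMod 3, a ≠ 0 → a = 1 ∨ a = 2 := by decide
      exact key a ha0
    rcases ha with rfl | rfl
    · left
      rw [← hp']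
      have : (1 : ZMod 3).val = 1 := rfl
      rw [this]
      simp
    · right
      rw [← hp', eq_inv_iff_mul_eq_one]
      have : (2 : ZMod 3).val = 2 := rfl
      rw [this, pow_two, mul_assoc, ← pow_two, ← pow_succ']
      exact hu3
  have hinv : ∀ y ∈ T, e * y * e⁻¹ = y⁻¹ → y ≠ 1 → y = v ∨ y = v⁻¹ := by
    intro y hy hye hy1
    obtain ⟨⟨a, b⟩, hp⟩ := τ_surj hu3 hv3 huv L.hcard hu hv hinj hy
    have hp' : u ^ a.val * v ^ b.val = y := hp
    have h1 := hact a b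
    rw [hp', hye, ← hp', mul_inv_rev, ← inv_pow] at h1
    have hc2 : Commute (v⁻¹ ^ b.val) (u ^ a.val)⁻¹ :=
      ((huv.inv_right).pow_pow a.val b.val).symm.inv_right
    rw [hc2.eq] at h1
    have h2 : (u ^ a.val)⁻¹ = u ^ a.val := mul_right_cancel h1
    have h3 : (u ^ a.val) ^ 2 = 1 := by
      rw [pow_two]
      nth_rewrite 1 [← h2]
      rw [inv_mul_cancel]
    have h5 : (u ^ a.val) ^ 3 = 1 := by
      rw [← pow_mul, mul_comm, pow_mul, hu3, one_pow]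
    have h6 : u ^ a.val = 1 := sq_eq_one_of_cube h5 h3
    rw [h6, one_mul] at hp'
    have hb : b = 1 ∨ b = 2 := by
      have hb0 : b ≠ 0 := by
        rintro rfl
        apply hy1
        rw [← hp']
        simp
      have key : ∀ b : ZMod 3, b ≠ 0 → b = 1 ∨ b = 2 := by decide
      exact key b hb0
    rcases hb with rfl | rfl
    · left
      rw [← hp']
      have : (1 : ZMod 3).val = 1 := rfl
      rw [this]
      simp
    · right
      rw [← hp', eq_inv_iff_mul_eq_one]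
      have : (2 : ZMod 3).val = 2 := rfl
      rw [this, pow_two, mul_assoc, ← pow_two, ← pow_succ']
      exact hv3
  have hcomm : ∀ y : G, e * (p * y * p⁻¹) * e⁻¹ = p * (e * y * e⁻¹) * p⁻¹ := by
    intro y
    calc e * (p * y * p⁻¹) * e⁻¹ = (e * p) * y * (e * p)⁻¹ := by group
      _ = (p * e) * y * (p * e)⁻¹ := by rw [hep]
      _ = _ := by group
  have hne1 : ∀ y : G, y ≠ 1 → p * y * p⁻¹ ≠ 1 := by
    intro y hy h
    apply hy
    have : y = p⁻¹ * (p * y * p⁻¹) * p := by group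
    rw [this, h]
    group
  have hpu : p * u * p⁻¹ = u ∨ p * u * p⁻¹ = u⁻¹ :=
    hfix _ (hpN _ hu) (by rw [hcomm, hue]) (hne1 _ hu1)
  have hpv : p * v * p⁻¹ = v ∨ p * v * p⁻¹ = v⁻¹ :=
    hinv _ (hpN _ hv) (by rw [hcomm, hve]; group) (hne1 _ hv1)
  have hpe2 : (p * e) * (p * e) = 1 := by
    calc (p * e) * (p * e) = p * (e * p) * e := by group
      _ = p * (p * e) * e := by rw [hep]
      _ = (p * p) * (e * e) := by group
      _ = 1 := by rw [hp2, he2]; group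
  rcases hpu with hpu | hpu <;> rcases hpv with hpv | hpv
  · exact absurd (L.eq_one_of_sq hp2 (L.mem_of_comm hu hv hinj hpu hpv)) hp1
  · exfalso
    have h1 : (p * e) * u * (p * e)⁻¹ = u := by
      calc (p * e) * u * (p * e)⁻¹ = p * (e * u * e⁻¹) * p⁻¹ := by group
        _ = u := by rw [hue, hpu]
    have h2 : (p * e) * v * (p * e)⁻¹ = v := by
      calc (p * e) * v * (p * e)⁻¹ = p * (e * v * e⁻¹) * p⁻¹ := by group
        _ = (p * v * p⁻¹)⁻¹ := by rw [hve]; group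
        _ = v := by rw [hpv, inv_inv]
    have h3 := L.eq_one_of_sq hpe2 (L.mem_of_comm hu hv hinj h1 h2)
    apply hpe
    have h4 : e⁻¹ = e := by
      rw [inv_eq_iff_mul_eq_one]
      exact he2
    rw [← h4]
    exact eq_inv_of_mul_eq_one_left h3
  · exact ⟨u, v, p, e, hu, hv, hu1, hv1, hp2, he2, hep.symm, hpN, heN, hpu, hpv, hue, hve⟩
  · refine ⟨u, v, p * e, e, hu, hv, hu1, hv1, hpe2, he2, ?_, ?_, heN, ?_, ?_, hue, hve⟩
    · rw [← mul_assoc e p e, hep]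
    · intro t ht
      have : (p * e) * t * (p * e)⁻¹ = p * (e * t * e⁻¹) * p⁻¹ := by group
      rw [this]
      exact hpN _ (heN _ ht)
    · calc (p * e) * u * (p * e)⁻¹ = p * (e * u * e⁻¹) * p⁻¹ := by group
        _ = u⁻¹ := by rw [hue, hpu]
    · calc (p * e) * v * (p * e)⁻¹ = p * (e * v * e⁻¹) * p⁻¹ := by group
        _ = (p * v * p⁻¹)⁻¹ := by rw [hve]; group
        _ = v := by rw [hpv, inv_inv]

theorem Loc.exists_coords (L : Loc T) {a b : G} (ha2 : a * a = 1) (hb2 : b * b = 1) (hab' : a * b = b * a)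
    (ha1 : a ≠ 1) (hb1 : b ≠ 1) (hne : a ≠ b) (haN : ∀ t, t ∈ T → a * t * a⁻¹ ∈ T)
    (hbN : ∀ t, t ∈ T → b * t * b⁻¹ ∈ T) :
    ∃ t₁ t₂ e₁ e₂ : G, t₁ ∈ T ∧ t₂ ∈ T ∧ t₁ ≠ 1 ∧ t₂ ≠ 1 ∧ e₁ * e₁ = 1 ∧ e₂ * e₂ = 1 ∧ e₁ * e₂ = e₂ * e₁ ∧
      (∀ t, t ∈ T → e₁ * t * e₁⁻¹ ∈ T) ∧ (∀ t, t ∈ T → e₂ * t * e₂⁻¹ ∈ T) ∧
      e₁ * t₁ * e₁⁻¹ = t₁⁻¹ ∧ e₁ * t₂ * e₁⁻¹ = t₂ ∧ e₂ * t₁ * e₂⁻¹ = t₁ ∧ e₂ * t₂ * e₂⁻¹ = t₂⁻¹ := by
  by_cases hx : ∃ x ∈ T, a * x * a⁻¹ ≠ x⁻¹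
  · exact L.coords_aux ha2 hb2 hab' ha1 hb1 hne.symm haN hbN hx
  by_cases hy : ∃ x ∈ T, b * x * b⁻¹ ≠ x⁻¹
  · exact L.coords_aux hb2 ha2 hab'.symm hb1 ha1 hne hbN haN hy
  exfalso
  push Not at hx hy
  have h1 : (a * b) * (a * b) = 1 := by
    calc (a * b) * (a * b) = a * (b * a) * b := by group
      _ = a * (a * b) * b := by rw [hab']
      _ = (a * a) * (b * b) := by group
      _ = 1 := by rw [ha2, hb2]; group
  have h2 : a * b ∈ T := by
    apply L.hCT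
    rw [Subgroup.mem_centralizer_iff]
    intro t ht
    have h3 : (a * b) * t * (a * b)⁻¹ = t := by
      calc (a * b) * t * (a * b)⁻¹ = a * (b * t * b⁻¹) * a⁻¹ := by group
        _ = a * t⁻¹ * a⁻¹ := by rw [hy t ht]
        _ = (a * t * a⁻¹)⁻¹ := by group
        _ = t := by rw [hx t ht, inv_inv]
    rw [mul_inv_eq_iff_eq_mul] at h3
    exact h3.symm
  have h3 := L.eq_one_of_sq h1 h2
  apply hne
  have h4 : b⁻¹ = b := by
    rw [inv_eq_iff_mul_eq_one]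
    exact hb2
  rw [← h4]
  exact eq_inv_of_mul_eq_one_left h3

def fA : V4 → ℕ
  | r 0 => 0
  | r 1 => 1
  | sr 0 => 0
  | sr 1 => 1

def fB : V4 → ℕ
  | r 0 => 0
  | r 1 => 1
  | sr 0 => 1
  | sr 1 => 0

theorem fA_mul : ∀ a b : V4, fA (a * b) = (fA a + fA b) % 2 := by decide
theorem fB_mul : ∀ a b : V4, fB (a * b) = (fB a + fB b) % 2 := by decide
theorem act_s1 : ∀ v : V3, act (sr 1) v = (-v.1, v.2) := by decide
theorem act_s0 : ∀ v : V3, act (sr 0) v = (v.1, -v.2) := by decide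
theorem act_pow : ∀ π : V4, ∀ v : V3, act π v = ((act (sr 1)) ^[fA π]) (((act (sr 0)) ^[fB π]) v) := by decide
theorem V4_ne : ∀ π : V4, π ≠ 1 → act π (1, 1) ≠ (1, 1) := by decide
theorem fA_one : fA 1 = 0 := by decide
theorem fB_one : fB 1 = 0 := by decide

/-- The model exists. -/
theorem Loc.exists_model (L : Loc T) {t₁ t₂ e₁ e₂ : G} (h1 : t₁ ∈ T) (h2 : t₂ ∈ T) (h11 : t₁ ≠ 1) (h21 : t₂ ≠ 1)
    (he₁ : e₁ * e₁ = 1) (he₂ : e₂ * e₂ = 1) (hee : e₁ * e₂ = e₂ * e₁)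
    (hN₁ : ∀ t, t ∈ T → e₁ * t * e₁⁻¹ ∈ T) (hN₂ : ∀ t, t ∈ T → e₂ * t * e₂⁻¹ ∈ T)
    (h₁₁ : e₁ * t₁ * e₁⁻¹ = t₁⁻¹) (h₁₂ : e₁ * t₂ * e₁⁻¹ = t₂) (h₂₁ : e₂ * t₁ * e₂⁻¹ = t₁)
    (h₂₂ : e₂ * t₂ * e₂⁻¹ = t₂⁻¹) :
    ∃ ι : Gam →* G, Function.Injective ι ∧ (∀ x : Gam, ι x ∈ T ↔ x.π = 1) ∧
      (∀ x : Gam, ∀ t ∈ T, ι x * t * (ι x)⁻¹ ∈ T) ∧ (∀ t ∈ T, ∃ x : Gam, x.π = 1 ∧ ι x = t) := by
  have h13 := L.h3 _ h1
  have h23 := L.h3 _ h2
  have hc : Commute t₁ t₂ := L.hab _ h1 _ h2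
  have hτinj := τ_inj h13 h23 hc h11 h21 h₂₁ h₂₂
  have hτT : ∀ v, τ t₁ t₂ v ∈ T := fun v => T.mul_mem (T.pow_mem h1 _) (T.pow_mem h2 _)
  have hconj : ∀ (g : G) (a b : ℕ), g * (t₁ ^ a * t₂ ^ b) * g⁻¹ = (g * t₁ * g⁻¹) ^ a * (g * t₂ * g⁻¹) ^ b := by
    intro g a b
    rw [conj_pow, conj_pow]
    group
  have P₁ : ∀ v : V3, e₁ * τ t₁ t₂ v * e₁⁻¹ = τ t₁ t₂ (act (sr 1) v) := by
    rintro ⟨a, b⟩
    rw [act_s1]
    simp only [Coord.τ]
    rw [hconj, h₁₁, h₁₂, inv_pow_val h13]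
  have P₂ : ∀ v : V3, e₂ * τ t₁ t₂ v * e₂⁻¹ = τ t₁ t₂ (act (sr 0) v) := by
    rintro ⟨a, b⟩
    rw [act_s0]
    simp only [Coord.τ]
    rw [hconj, h₂₁, h₂₂, inv_pow_val h23]
  have hpow1 : ∀ n : ℕ, e₁ ^ n = e₁ ^ (n % 2) := fun n =>
    pow_eq_pow_mod n (by rw [pow_two]; exact he₁)
  have hpow2 : ∀ n : ℕ, e₂ ^ n = e₂ ^ (n % 2) := fun n =>
    pow_eq_pow_mod n (by rw [pow_two]; exact he₂)
  have hcm : Commute e₁ e₂ := hee
  let f : V4 →* G :=
    { toFun := fun π => e₁ ^ fA π * e₂ ^ fB π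
      map_one' := by
        rw [fA_one, fB_one]
        simp
      map_mul' := by
        intro a b
        rw [fA_mul, fB_mul, ← hpow1, ← hpow2, pow_add, pow_add]
        have : Commute (e₂ ^ fB a) (e₁ ^ fA b) := (hcm.symm.pow_pow _ _)
        calc e₁ ^ fA a * e₁ ^ fA b * (e₂ ^ fB a * e₂ ^ fB b)
            = e₁ ^ fA a * (e₁ ^ fA b * e₂ ^ fB a) * e₂ ^ fB b := by group
          _ = e₁ ^ fA a * (e₂ ^ fB a * e₁ ^ fA b) * e₂ ^ fB b := by rw [this.eq]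
          _ = _ := by group }
  have hfdef : ∀ π, f π = e₁ ^ fA π * e₂ ^ fB π := fun _ => rfl
  have Pit1 : ∀ (n : ℕ) (v : V3), e₁ ^ n * τ t₁ t₂ v * (e₁ ^ n)⁻¹ = τ t₁ t₂ ((act (sr 1)) ^[n] v) := by
    intro n
    induction n with
    | zero =>
      intro v
      simp
    | succ n ih =>
      intro v
      rw [Function.iterate_succ_apply, ← ih, ← P₁, pow_succ]
      group
  have Pit2 : ∀ (n : ℕ) (v : V3), e₂ ^ n * τ t₁ t₂ v * (e₂ ^ n)⁻¹ = τ t₁ t₂ ((act (sr 0)) ^[n] v) := by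
    intro n
    induction n with
    | zero =>
      intro v
      simp
    | succ n ih =>
      intro v
      rw [Function.iterate_succ_apply, ← ih, ← P₂, pow_succ]
      group
  have P : ∀ π v, f π * τ t₁ t₂ v * (f π)⁻¹ = τ t₁ t₂ (act π v) := by
    intro π v
    rw [act_pow, ← Pit1, ← Pit2, hfdef]
    group
  have hfN : ∀ π t, t ∈ T → f π * t * (f π)⁻¹ ∈ T := by
    intro π t ht
    obtain ⟨p, hp⟩ := τ_surj h13 h23 hc L.hcard h1 h2 hτinj ht
    rw [← hp, P]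
    exact hτT _
  have hfT : ∀ π, f π ∈ T → π = 1 := by
    intro π hπ
    by_contra hne
    apply V4_ne π hne
    apply hτinj
    rw [← P, L.hab _ hπ _ (hτT _)]
    group
  let ι : Gam →* G :=
    { toFun := fun x => τ t₁ t₂ x.v * f x.π
      map_one' := by
        change τ t₁ t₂ 0 * f 1 = 1
        rw [τ_zero, map_one, one_mul]
      map_mul' := by
        intro x y
        change τ t₁ t₂ (x.v + act x.π y.v) * f (x.π * y.π) = _
        rw [τ_add h13 h23 hc, ← P, map_mul]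
        group }
  have hιdef : ∀ x : Gam, ι x = τ t₁ t₂ x.v * f x.π := fun _ => rfl
  have hmem : ∀ x : Gam, ι x ∈ T ↔ x.π = 1 := by
    intro x
    rw [hιdef]
    constructor
    · intro h
      apply hfT
      have := T.mul_mem (T.inv_mem (hτT x.v)) h
      simpa using this
    · intro h
      rw [h, map_one, mul_one]
      exact hτT _
  have hinj : Function.Injective ι := by
    rw [injective_iff_map_eq_one]
    intro x hx
    have h3 : x.π = 1 := (hmem x).mp (by rw [hx]; exact T.one_mem)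
    rw [hιdef, h3, map_one, mul_one] at hx
    have h4 : x.v = 0 := hτinj (by rw [hx, τ_zero])
    exact Gam.ext' h4 h3
  refine ⟨ι, hinj, hmem, ?_, ?_⟩
  · intro x t ht
    rw [hιdef]
    have h3 := hfN x.π t ht
    have : τ t₁ t₂ x.v * f x.π * t * (τ t₁ t₂ x.v * f x.π)⁻¹ =
        τ t₁ t₂ x.v * (f x.π * t * (f x.π)⁻¹) * (τ t₁ t₂ x.v)⁻¹ := by group
    rw [this]
    exact T.mul_mem (T.mul_mem (hτT _) h3) (T.inv_mem (hτT _))
  · intro t ht
    obtain ⟨p, hp⟩ := τ_surj h13 h23 hc L.hcard h1 h2 hτinj ht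
    refine ⟨⟨p, 1⟩, rfl, ?_⟩
    rw [hιdef]
    simp [hp]

/-- The setup from the local data. -/
theorem Loc.exists_setup (L : Loc T) {N : Subgroup G} (hN : N = Subgroup.normalizer (T : Set G))
    (hC : ∀ t ∈ T, t ≠ 1 → Subgroup.centralizer ({t} : Set G) ≤ N) (h36 : Nat.card N = 36)
    (hP : ∃ P : Sylow 3 G, (P : Subgroup G) = T) {a b : G} (ha2 : a * a = 1) (hb2 : b * b = 1) (hab' : a * b = b * a)
    (ha1 : a ≠ 1) (hb1 : b ≠ 1) (hne : a ≠ b) (haN : ∀ t, t ∈ T → a * t * a⁻¹ ∈ T)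
    (hbN : ∀ t, t ∈ T → b * t * b⁻¹ ∈ T) :
    ∃ ι : Gam →* G, Setup ι ∧ (∃ P : Sylow 3 G, (P : Subgroup G) = TT ι) ∧ TT ι = T := by
  classical
  obtain ⟨t₁, t₂, e₁, e₂, h1, h2, h11, h21, he₁, he₂, hee, hN₁, hN₂, h₁₁, h₁₂, h₂₁, h₂₂⟩ :=
    L.exists_coords ha2 hb2 hab' ha1 hb1 hne haN hbN
  obtain ⟨ι, hinj, hmem, hnorm, hsurj⟩ :=
    L.exists_model h1 h2 h11 h21 he₁ he₂ hee hN₁ hN₂ h₁₁ h₁₂ h₂₁ h₂₂
  have hTT : TT ι = T := by
    ext t
    constructor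
    · rintro ⟨x, hx, rfl⟩
      exact (hmem x).mpr hx
    · intro ht
      obtain ⟨x, hx, hx'⟩ := hsurj t ht
      exact ⟨x, hx, hx'⟩
  have hle : ι.range ≤ N := by
    rintro _ ⟨x, rfl⟩
    rw [hN]
    exact Subgroup.mem_normalizer_fintype (S := (T : Set G)) (fun a ha => hnorm x a ha)
  have hcard : Nat.card ι.range = 36 := by
    rw [← Nat.card_congr (MonoidHom.ofInjective hinj).toEquiv]
    rw [Nat.card_eq_fintype_card]
    decide
  have hrange : ι.range = N := Subgroup.eq_of_le_of_card_ge hle (by rw [hcard, h36])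
  have hN3 : ∀ x ∈ N, x ^ 3 = 1 → x ∈ T := by
    intro x hx h3
    rw [← hrange] at hx
    obtain ⟨c, rfl⟩ := hx
    refine (hmem c).mpr (TG_of_pow3 c (hinj ?_))
    rw [map_pow, h3, map_one]
  have hmodel : TIModel ι TG := by
    refine ⟨hinj, ?_⟩
    intro t t' ht ht1 ht' g hg
    rw [hrange]
    refine mem_normalizer_of_conj hN L.hab L.h3 hC hN3 ((hmem t).mpr ht)
      (fun h => ht1 (hinj (by rw [h, map_one]))) ?_
    rw [hg]
    exact (hmem t').mpr ht'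
  refine ⟨ι, ⟨hmodel, ?_⟩, ?_, hTT⟩
  · obtain ⟨P, hP⟩ := hP
    intro h27
    have h1 := Sylow.card_eq_multiplicity P
    rw [hP, L.hcard] at h1
    have h2 : (Nat.card G).factorization 3 = 2 := by
      have h3 : 3 ^ 2 = 3 ^ (Nat.card G).factorization 3 := by
        rw [← h1]; norm_num
      exact (Nat.pow_right_injective (by norm_num : 2 ≤ 3) h3).symm
    have h3 : 3 ^ 3 ∣ Nat.card G := by simpa using h27
    have h4 := (Nat.Prime.pow_dvd_iff_le_factorization Nat.prime_three Nat.card_pos.ne').mp h3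
    omega
  · obtain ⟨P, hP⟩ := hP
    exact ⟨P, by rw [hP, hTT]⟩

/-- **The main theorem for the Klein four group.** -/
theorem normalizer_eq_top (T : Subgroup G) (hP : ∃ P : Sylow 3 G, (P : Subgroup G) = T)
    (h3 : ∀ t ∈ T, t ^ 3 = 1) (hab : ∀ a ∈ T, ∀ b ∈ T, a * b = b * a) (hcard : Nat.card T = 9)
    (hCT : Subgroup.centralizer (T : Set G) ≤ T)
    (hK : IsKleinFour (↥(Subgroup.normalizer (T : Set G)) ⧸ T.subgroupOf (Subgroup.normalizer (T : Set G))))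
    (hloc : ∀ t ∈ T, t ≠ 1 → Subgroup.centralizer ({t} : Set G) ≤ Subgroup.normalizer (T : Set G)) :
    Subgroup.normalizer (T : Set G) = ⊤ := by
  classical
  letI : Fintype G := Fintype.ofFinite G
  haveI := Cfsg.Agent.Lib.Char.Ortho.finite_irrCharacter (G := G)
  letI : Fintype (IrrCharacter G) := Fintype.ofFinite _
  set N := Subgroup.normalizer (T : Set G) with hNdef
  have L : Loc T := ⟨h3, hcard, hab, hCT⟩
  have hTN : T ≤ N := Subgroup.le_normalizer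
  have hT' : Nat.card (T.subgroupOf N) = 9 := by
    rw [← hcard]
    exact Nat.card_congr (Subgroup.subgroupOfEquivOfLe hTN).toEquiv
  have h36 : Nat.card N = 36 := by
    rw [Subgroup.card_eq_card_quotient_mul_card_subgroup (T.subgroupOf N), hK.card_four, hT']
  haveI : Fact (Nat.Prime 2) := ⟨Nat.prime_two⟩
  obtain ⟨K, hK4⟩ := Sylow.exists_subgroup_card_pow_prime (G := N) 2 (n := 2)
    (by rw [h36]; norm_num)
  have hK4' : Nat.card K = 4 := by simpa using hK4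
  have hsq : ∀ x ∈ K, ((x : N) : G) * ((x : N) : G) = 1 := by
    intro x hx
    have h1 : (QuotientGroup.mk x : N ⧸ T.subgroupOf N) ^ 2 = 1 := by
      rw [← hK.exponent_two]
      exact Monoid.pow_exponent_eq_one _
    have h2 : x ^ 2 ∈ T.subgroupOf N := by
      rw [← QuotientGroup.eq_one_iff, QuotientGroup.mk_pow]
      exact h1
    have h4 : x ^ 4 = 1 := by
      have h5 : (⟨x, hx⟩ : K) ^ Nat.card K = 1 := pow_card_eq_one'
      rw [hK4'] at h5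
      have := congrArg Subtype.val h5
      simpa using this
    have h5 : ((x : N) : G) ^ 4 = 1 := by
      have := congrArg Subtype.val h4
      simpa using this
    have h6 : ((x : N) : G) ^ 2 ∈ T := by
      have := Subgroup.mem_subgroupOf.mp h2
      simpa using this
    have h7 := h3 _ h6
    have h8 : ((x : N) : G) ^ 6 = 1 := by
      rw [← h7]
      group
    have h9 : ((x : N) : G) * ((x : N) : G) = ((x : N) : G) ^ 6 * (((x : N) : G) ^ 4)⁻¹ := by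
      rw [show (6 : ℕ) = 2 + 4 from rfl, pow_add, mul_assoc, mul_inv_cancel, mul_one, pow_two]
    rw [h9, h8, h5]
    group
  haveI : Finite K := inferInstance
  letI : Fintype K := Fintype.ofFinite _
  have hcK : Fintype.card K = 4 := by
    rw [← Nat.card_eq_fintype_card]
    exact hK4'
  obtain ⟨a, ha⟩ : ∃ a : K, a ∉ ({1} : Finset K) := by
    by_contra hcon
    push Not at hcon
    have h1 : (Finset.univ : Finset K) ⊆ {1} := fun x _ => hcon x
    have h2 := Finset.card_le_card h1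
    rw [Finset.card_univ, hcK] at h2
    simp at h2
  obtain ⟨b, hb⟩ : ∃ b : K, b ∉ ({1, a} : Finset K) := by
    by_contra hcon
    push Not at hcon
    have h1 : (Finset.univ : Finset K) ⊆ {1, a} := fun x _ => hcon x
    have h2 := Finset.card_le_card h1
    rw [Finset.card_univ, hcK] at h2
    have h3 : ({1, a} : Finset K).card ≤ 2 := Finset.card_le_two
    omega
  have ha1 : a ≠ 1 := by simpa using ha
  have hb1 : b ≠ 1 := fun h => hb (by simp [h])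
  have hba : b ≠ a := fun h => hb (by simp [h])
  have cv : ∀ x : K, ((x : N) : G) = 1 → x = 1 := by
    intro x h
    apply Subtype.ext
    apply Subtype.ext
    simpa using h
  have hab2 : ((a : N) : G) * ((b : N) : G) = ((b : N) : G) * ((a : N) : G) := by
    have h1 := hsq ((a * b : K) : N) (a * b).2
    have h2 := hsq (a : N) a.2
    have h3' := hsq (b : N) b.2
    have h4 : (((a * b : K) : N) : G) = ((a : N) : G) * ((b : N) : G) := rfl
    rw [h4] at h1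
    have e1 : ((a : N) : G)⁻¹ = ((a : N) : G) := by
      rw [inv_eq_iff_mul_eq_one]
      exact h2
    have e2 : ((b : N) : G)⁻¹ = ((b : N) : G) := by
      rw [inv_eq_iff_mul_eq_one]
      exact h3'
    have h5 := eq_inv_of_mul_eq_one_left h1
    rw [mul_inv_rev, e1, e2] at h5
    exact h5
  have hnorm : ∀ x : K, ∀ t, t ∈ T → ((x : N) : G) * t * ((x : N) : G)⁻¹ ∈ T := by
    intro x t ht
    have := (x : N).2
    rw [Subgroup.mem_normalizer_iff] at this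
    exact (this t).mp ht
  obtain ⟨ι, hS, hsyl, hTT⟩ := L.exists_setup hNdef hloc h36 hP (hsq _ a.2) (hsq _ b.2) hab2
    (fun h => ha1 (cv a h)) (fun h => hb1 (cv b h))
    (fun h => hba (Subtype.ext (Subtype.ext h.symm))) (hnorm a) (hnorm b)
  have := Cfsg.Agent.Lib.Nine.V4Main.normal_T hS hsyl
  rw [hTT] at this
  exact this

end Cfsg.Agent.Lib.Nine.V4Local
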